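import Cfsg.Agent.H53.SimXASpec

/-! Slot SIM-XA-SW of the tower for S3694: swapping two orthogonal idempotents. -/

set_option autoImplicit false

namespace H93.SimSW

open Subgroup Cfsg H98 Matrix H0.Sim H53.XA

theorem ring_key {A : Type} [Ring A] {a c : A} (haa : a * a = 0) (hcc : c * c = 0)
    (ha : a * (c * a) = a) (hc : c * (a * c) = c) :
    (1 + a) * (1 - c) * (1 + a) = 1 - a * c - c * a + a - c ∧
    (1 - a * c - c * a + a - c) * (1 - a * c - c * a - a + c) = 1 ∧
    (1 - a * c - c * a - a + c) * (1 - a * c - c * a + a - c) = 1 ∧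
    (1 - a * c - c * a + a - c) * (a * c) * (1 - a * c - c * a - a + c) = c * a ∧
    (1 - a * c - c * a + a - c) * (c * a) * (1 - a * c - c * a - a + c) = a * c := by
  have h1 : ∀ x, a * (a * x) = 0 := fun x => by rw [← mul_assoc, haa, zero_mul]
  have h2 : ∀ x, c * (c * x) = 0 := fun x => by rw [← mul_assoc, hcc, zero_mul]
  have h3 : ∀ x, a * (c * (a * x)) = a * x := fun x => by
    rw [← mul_assoc c, ← mul_assoc, ha]
  have h4 : ∀ x, c * (a * (c * x)) = c * x := fun x => by
    rw [← mul_assoc a, ← mul_assoc, hc]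
  refine ⟨?_, ?_, ?_, ?_, ?_⟩ <;>
  · simp only [mul_add, add_mul, mul_sub, sub_mul, mul_one, one_mul, mul_assoc, haa, hcc, ha, hc,
      h1, h2, h3, h4, mul_zero, zero_mul]
    abel

theorem jobSW : JSW := by
  intro fr n F _ _ u q e e' hF he he' h1 h2 hr
  obtain ⟨P, P', hP⟩ := fr n F u q _ e hF he hr
  obtain ⟨R, R', hR⟩ := fr n F u q _ e' hF he' rfl
  have l1 : ∀ {k : ℕ} (x : Matrix (Fin e'.rank) (Fin k) F), P' * (P * x) = x := fun x => by
    rw [← Matrix.mul_assoc, hP.l, Matrix.one_mul]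
  have l2 : ∀ {k : ℕ} (x : Matrix (Fin e'.rank) (Fin k) F), R' * (R * x) = x := fun x => by
    rw [← Matrix.mul_assoc, hR.l, Matrix.one_mul]
  have z1 : P' * R = 0 := by
    have : P' * (P * P' * (R * R')) * R = 0 := by
      rw [hP.r, hR.r, h1, Matrix.mul_zero, Matrix.zero_mul]
    simpa only [Matrix.mul_assoc, l1, hR.l, Matrix.mul_one] using this
  have z2 : R' * P = 0 := by
    have : R' * (R * R' * (P * P')) * P = 0 := by
      rw [hP.r, hR.r, h2, Matrix.mul_zero, Matrix.zero_mul]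
    simpa only [Matrix.mul_assoc, l2, hP.l, Matrix.mul_one] using this
  set a : Mt n F := P * R' with ha
  set c : Mt n F := R * P' with hc
  have ac : a * c = e := by rw [ha, hc, Matrix.mul_assoc, l2, hP.r]
  have ca : c * a = e' := by rw [ha, hc, Matrix.mul_assoc, l1, hR.r]
  have aa : a * a = 0 := by
    rw [ha, Matrix.mul_assoc, ← Matrix.mul_assoc R', z2, Matrix.zero_mul, Matrix.mul_zero]
  have cc : c * c = 0 := by
    rw [hc, Matrix.mul_assoc, ← Matrix.mul_assoc P', z1, Matrix.zero_mul, Matrix.mul_zero]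
  have aca : a * (c * a) = a := by simp only [ha, hc, Matrix.mul_assoc, l1, l2]
  have cac : c * (a * c) = c := by simp only [ha, hc, Matrix.mul_assoc, l1, l2]
  obtain ⟨k1, k2, k3, k4, k5⟩ := ring_key aa cc aca cac
  have d1 : (1 + a).det = 1 := by
    rw [ha, Matrix.det_one_add_mul_comm, z2, add_zero, Matrix.det_one]
  have d2 : (1 - c).det = 1 := by
    rw [hc, Matrix.det_one_sub_mul_comm, z1, sub_zero, Matrix.det_one]
  let s : GL (Fin n) F := ⟨_, _, k2, k3⟩
  have s1 : (s : Mt n F) = 1 - a * c - c * a + a - c := rfl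
  have s2 : ((s⁻¹ : GL (Fin n) F) : Mt n F) = 1 - a * c - c * a - a + c := rfl
  refine ⟨s, ⟨?_, ?_⟩, ?_, ?_, fun m m1 m2 m3 m4 => ?_⟩
  · cases u
    · exact mem_top _
    · have hq : Fintype.card F = q ^ 2 := hF
      have e1 : ad q a = c := by rw [ha, ad_mul hq, ← hR.s rfl, ad_ad hq, hP.s rfl]
      have e2 : ad q c = a := by rw [← e1, ad_ad hq]
      refine (mem_gu hq).2 ?_
      rw [s1, ad_sub hq, ad_add hq, ad_sub hq, ad_sub hq, ad_mul hq a c, ad_mul hq c a, ad_one hq,
        e1, e2, ← sub_add_eq_add_sub]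
      exact k3
  · refine MonoidHom.mem_ker.2 (Units.ext ?_)
    rw [Matrix.GeneralLinearGroup.val_det_apply, s1, ← k1, Matrix.det_mul, Matrix.det_mul, d1, d2]
    simp
  · rw [s1, s2, ← ac, ← ca, k4]
  · rw [s1, s2, ← ac, ← ca, k5]
  · have n1 : m * a = 0 := by rw [← aca, ← mul_assoc a, ac, ← mul_assoc, m1, zero_mul]
    have n2 : a * m = 0 := by rw [← aca, ca, mul_assoc, m4, mul_zero]
    have n3 : m * c = 0 := by rw [← cac, ← mul_assoc c, ca, ← mul_assoc, m3, zero_mul]
    have n4 : c * m = 0 := by rw [← cac, ac, mul_assoc, m2, mul_zero]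
    rw [s1, s2, ac, ca]
    simp only [mul_add, add_mul, mul_sub, sub_mul, mul_one, one_mul, m1, m2, m3, m4, n1, n2, n3, n4,
      sub_zero, add_zero]

end H93.SimSW
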