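/- Ore tower, characteristic two: interface (blueprint `blueprints/ORE2.md`). -/
import Cfsg.Agent.H93.FS10
import Cfsg.Agent.H93.O2C

set_option autoImplicit false

namespace H93.Or
open H56 H60 H93.O2 H93.FS QuadraticMap Module Polynomial

universe u

/-- `x` is a commutator -/
def Cm {G : Type*} [Group G] (x : G) : Prop := ∃ a b : G, x = a * b * a⁻¹ * b⁻¹

section defs
variable {F V : Type*} [Field F] [AddCommGroup V] [Module F V] {Q : QuadraticForm F V}

/-- not of alternating type -/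
def NA (s : O Q) : Prop := ∃ v, polar Q v (s v) ≠ 0

/-- invariant and non-degenerate -/
structure IN (g : O Q) (U : Submodule F V) : Prop where
  inv : ∀ x ∈ U, g x ∈ U
  nd : Nondeg Q U

/-- two involutions that move only vectors of `U`, with product `g` on `U` -/
structure Pr (g : O Q) (U : Submodule F V) (s t : O Q) : Prop where
  ss : s * s = 1
  tt : t * t = 1
  sm : s.mov ≤ U
  tm : t.mov ≤ U
  st : ∀ x ∈ U, s (t x) = g x

/-- `g` is trivial on the vectors perpendicular to `S`; then it is a commutator of two symplectic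
elements with the same property -/
def CmS (S : Set V) (g : O Q) : Prop :=
  (∀ y, (∀ b ∈ S, polar Q b y = 0) → g y = y) →
    ∃ x h : Sp Q, inc Q g = x * h * x⁻¹ * h⁻¹ ∧
      ∀ y, (∀ b ∈ S, polar Q b y = 0) → x • y = y ∧ h • y = y

/-- `g` is the transvection with centre `a` on the plane spanned by `a, b` -/
structure Tv (g : O Q) (a b : V) : Prop where
  ga : g a = a
  gb : g b = b + a
  ab : polar Q a b = 1

/-- `g` has order three on the plane spanned by `x, g x` -/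
structure Om (g : O Q) (x : V) : Prop where
  gg : g (g x) = g x + x
  b : polar Q x (g x) = 1

/-- all vectors of the first list are perpendicular to all vectors of the second -/
def Pp (Q : QuadraticForm F V) (A B : List V) : Prop := ∀ a ∈ A, ∀ b ∈ B, polar Q a b = 0

end defs

/-- the final step for `Ω` -/
def JobOMF : Prop := ∀ (F V : Type u) [Field F] [Finite F] [CharP F 2] [AddCommGroup V] [Module F V]
  [FiniteDimensional F V] (Q : QuadraticForm F V), Q.polarBilin.Nondegenerate → 8 ≤ finrank F V →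
  ∀ s t : O Q, s * s = 1 → t * t = 1 → s.rk = t.rk → 2 ≤ s.rk → NA s → NA t →
  ∃ x ∈ commutator (O Q), ∃ h ∈ commutator (O Q), s * t = x * h * x⁻¹ * h⁻¹

/-- one transvection -/
def JobTE : Prop := ∀ (F V : Type u) [Field F] [Finite F] [CharP F 2] [AddCommGroup V] [Module F V]
  [FiniteDimensional F V] (Q : QuadraticForm F V), Q.polarBilin.Nondegenerate →
  ∀ (s t : O Q) (e : V), s * s = 1 → t * t = 1 → s.rk = t.rk + 1 → e ∈ s.mov → Q e = 0 → t e = e →
  (∃ y, t y = y ∧ polar Q y e ≠ 0) → (∃ y, polar Q y (s y) ≠ polar Q y e ^ 2) → Cm (inc Q (s * t))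

/-- two transvections -/
def JobT2 : Prop := ∀ (F V : Type u) [Field F] [Finite F] [CharP F 2] [AddCommGroup V] [Module F V]
  [FiniteDimensional F V] (Q : QuadraticForm F V), Q.polarBilin.Nondegenerate →
  ∀ (s t : O Q) (v w : V), s * s = 1 → t * t = 1 → t.rk = s.rk + 1 → v ∈ t.mov → Q v = 1 →
  polar Q v (s v) = 1 → w ∈ s.mov → Q w = 0 → polar Q w v = 0 → polar Q w (t w) = 1 →
  (Even s.rk ∨
    ((∃ y, polar Q y v = 0 ∧ polar Q y (s v) = 0 ∧ polar Q y (s y) ≠ polar Q y w ^ 2) ∧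
     (∃ y, polar Q y w = 0 ∧ polar Q y (t w) = 0 ∧ polar Q y (t y) ≠ polar Q y v ^ 2))) →
  Cm (inc Q (s * t))

/-- a transvection times an element without fixed vectors -/
def JobEX : Prop := JobT2.{u} → ∀ (F V : Type u) [Field F] [Finite F] [CharP F 2] [AddCommGroup V]
  [Module F V] [FiniteDimensional F V] (Q : QuadraticForm F V), Q.polarBilin.Nondegenerate →
  Nat.card F = 2 → ∀ (s t : O Q) (R : Submodule F V) (a : V), s * s = 1 → t * t = 1 → Nondeg Q R →
  s.mov ≤ R → t.mov ≤ R → (∀ x ∈ R, s x = x → t x = x → x = 0) → 6 ≤ finrank F R → NA s → NA t →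
  (∃ u, polar Q (s u - u) (t (s u - u)) ≠ polar Q u (s u)) → a ∈ perp Q R → Q a = 1 →
  Cm (inc Q (s * (t * refl Q a)))

/-- diagonal pairs on two free cyclic unipotent modules of length `n + 1 ≥ 2` -/
def JobE : Prop := ∀ (F V : Type u) [Field F] [Finite F] [CharP F 2] [AddCommGroup V] [Module F V]
  [FiniteDimensional F V] (Q : QuadraticForm F V), Q.polarBilin.Nondegenerate →
  ∀ (g : O Q) (W : Submodule F V) (n : ℕ), IN g W → 1 ≤ n →
  (∀ v ∈ W, ((g.lin + 1) ^ (n + 1)) v = 0) → (∀ v ∈ W, polar Q (((g.lin + 1) ^ n) v) v = 0) →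
  (∃ x ∈ W, ((g.lin + 1) ^ n) x ≠ 0) →
  ∃ W' ≤ W, IN g W' ∧ ∃ (s t : O Q) (e : V), Pr g W' s t ∧ e ∈ s.mov ∧ Q e = 0 ∧ t e = e ∧
    (∃ y ∈ W', t y = y ∧ polar Q y e ≠ 0) ∧
    (s.rk = t.rk ∨ (s.rk = t.rk + 2 ∧ ∃ y ∈ W', polar Q y (s y) ≠ polar Q y e ^ 2))

/-- witnesses in `Sp₆(2)` -/
def JobW : Prop := ∀ (F V : Type u) [Field F] [Finite F] [CharP F 2] [AddCommGroup V] [Module F V]
  [FiniteDimensional F V] (Q : QuadraticForm F V), Q.polarBilin.Nondegenerate → Nat.card F = 2 →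
  ∀ (g : O Q) (a b : V), Tv g a b →
  (∀ (x : V) (c : F), g (g (g (g x))) = x + c • g x + g (g x) + c • g (g (g x)) →
    g (g x) + g x + x ≠ 0 → Nondeg Q (Submodule.span F {x, g x, g (g x), g (g (g x))}) →
    Pp Q [a, b] [x, g x, g (g x), g (g (g x))] → CmS {a, b, x, g x, g (g x), g (g (g x))} g) ∧
  (∀ x x' : V, Om g x → Om g x' → Pp Q [a, b] [x, g x, x', g x'] → Pp Q [x, g x] [x', g x'] →
    CmS {a, b, x, g x, x', g x'} g) ∧
  (∀ a' b' a'' b'' : V, Tv g a' b' → Tv g a'' b'' → Pp Q [a, b] [a', b', a'', b''] →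
    Pp Q [a', b'] [a'', b''] → CmS {a, b, a', b', a'', b''} g)

theorem na_iff {F V : Type*} [Field F] [CharP F 2] [AddCommGroup V] [Module F V]
    {Q : QuadraticForm F V} (s : O Q) : NA s ↔ ∃ w ∈ s.mov, Q w ≠ 0 :=
  ⟨fun ⟨v, h⟩ => ⟨_, s.sub_mem_mov v, by rwa [Q_sub_eq CharTwo.two_eq_zero]⟩, fun ⟨_, h1, h2⟩ => by
    obtain ⟨v, rfl⟩ := O.mem_mov.1 h1
    exact ⟨v, by rwa [Q_sub_eq CharTwo.two_eq_zero] at h2⟩⟩

end H93.Or
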