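/- Ore tower, characteristic two: pairs of involutions on subspaces. -/
import Cfsg.Agent.H93.OrS

set_option autoImplicit false
set_option linter.unusedSectionVars false

namespace H93.Or
open H56 H60 H93.O2 H93.FS QuadraticMap Module Polynomial

variable {F V : Type*} [Field F] [CharP F 2] [AddCommGroup V] [Module F V] [FiniteDimensional F V]
  {Q : QuadraticForm F V} {g s t s' t' : O Q} {U W : Submodule F V}

theorem two0 : (2 : F) = 0 := CharTwo.two_eq_zero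

theorem mem_of_mov (h : s.mov ≤ U) {x : V} (hx : x ∈ U) : s x ∈ U := by
  simpa using add_mem (h (s.sub_mem_mov x)) hx

theorem le_perp_symm (h : W ≤ perp Q U) : U ≤ perp Q W :=
  fun x hx => mem_perp.2 fun w hw => mem_perp'.1 (h hw) x hx

theorem nondeg_sup (hU : Nondeg Q U) (hW : Nondeg Q W) (h : W ≤ perp Q U) : Nondeg Q (U ⊔ W) := by
  intro x hx h1
  obtain ⟨a, ha, b, hb, rfl⟩ := Submodule.mem_sup.1 hx
  rw [hU a ha fun y hy => by simpa [mem_perp.1 (h hb) y hy] using h1 y (Submodule.mem_sup_left hy),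
    hW b hb fun y hy => by simpa [mem_perp'.1 (h hy) a ha] using h1 y (Submodule.mem_sup_right hy),
    add_zero]

theorem IN.sup (hU : IN g U) (hW : IN g W) (h : W ≤ perp Q U) : IN g (U ⊔ W) :=
  ⟨fun x hx => by
    obtain ⟨a, ha, b, hb, rfl⟩ := Submodule.mem_sup.1 hx
    rw [map_add]
    exact Submodule.add_mem_sup (hU.inv a ha) (hW.inv b hb),
   nondeg_sup hU.nd hW.nd h⟩

theorem IN.bot : IN g ⊥ := ⟨fun x hx => by simpa using hx, fun _ hx _ => hx⟩

theorem finrank_sup_perp (hU : Nondeg Q U) (h : W ≤ perp Q U) :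
    finrank F ↥(U ⊔ W) = finrank F U + finrank F W := by
  rw [← Submodule.finrank_sup_add_finrank_inf_eq, le_bot_iff.1
    ((inf_le_inf_left U h).trans hU.inf_perp.le), finrank_bot, add_zero]

theorem nondeg_pair {a b : V} (h : polar Q a b ≠ 0) : Nondeg Q (Submodule.span F {a, b}) := by
  intro x hx h1
  obtain ⟨c, d, rfl⟩ := Submodule.mem_span_pair.1 hx
  have h2 := h1 a (Submodule.subset_span (by simp))
  have h3 := h1 b (Submodule.subset_span (by simp))
  simp only [polar_add_right, polar_smul_right, pself2, smul_eq_mul, mul_zero, zero_add, add_zero,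
    polar_comm Q b a, mul_eq_zero, h, or_false] at h2 h3
  simp [h2, h3]

theorem finrank_pair {a b : V} (h : polar Q a b ≠ 0) :
    finrank F (Submodule.span F ({a, b} : Set V)) = 2 := by
  have : LinearIndependent F ![a, b] := LinearIndependent.pair_iff.2 fun c d e => by
    have h2 := congrArg (polar Q a) e
    have h3 := congrArg (polar Q b) e
    simp only [polar_add_right, polar_smul_right, pself2, smul_eq_mul, mul_zero, zero_add, add_zero,
      polar_comm Q b a, mul_eq_zero, h, or_false, polar_zero_right] at h2 h3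
    exact ⟨h3, h2⟩
  have e : Set.range ![a, b] = {a, b} := by
    rw [Matrix.range_cons, Matrix.range_cons, Matrix.range_empty, Set.union_empty]; rfl
  rw [← e]
  exact (finrank_span_eq_card this).trans (Fintype.card_fin _)

theorem Pr.swap (h : Pr g U s t) : Pr g U (s * t * s) s := by
  have e : s⁻¹ = s := inv_eq_of_mul_eq_one_right h.ss
  refine ⟨by simp only [mul_assoc]; rw [← mul_assoc s s, h.ss, one_mul, ← mul_assoc t, h.tt, one_mul,
    h.ss], h.ss, ?_, h.sm, fun x hx => ?_⟩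
  · conv_lhs => enter [1, 2]; rw [← e]
    rw [mov_conj, Submodule.map_le_iff_le_comap]
    exact fun x hx => mem_of_mov h.sm (h.tm hx)
  · rw [← O.mul_apply, mul_assoc, h.ss, mul_one, O.mul_apply, h.st x hx]

theorem rk_conj (k t : O Q) : (k * t * k⁻¹).rk = t.rk := by
  rw [O.rk, mov_conj]
  exact (Submodule.equivMapOfInjective _ k.injective _).finrank_eq.symm

theorem NA.conj (h : NA t) (k : O Q) : NA (k * t * k⁻¹) :=
  h.elim fun v hv => ⟨k v, by rwa [O.mul_apply, O.mul_apply, O.inv_apply_apply, O.map_polar]⟩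

variable (hQ : Q.polarBilin.Nondegenerate)
include hQ

theorem fix_of_mov (h : s.mov ≤ U) {y : V} (hy : y ∈ perp Q U) : s y = y :=
  O.mem_fix.1 (O.perp_mov hQ s ▸ perp_anti h hy)

theorem mov_le_of_fix (h : ∀ y ∈ perp Q U, s y = y) : s.mov ≤ U := by
  rw [← O.perp_fix hQ, ← perp_perp hQ U]
  exact perp_anti fun y hy => O.mem_fix.2 (h y hy)

theorem mul_apply_eq (h : s.mov ≤ U) (h' : s'.mov ≤ W) (o : W ≤ perp Q U) (x : V) :
    s (s' x) = s x + (s' x - x) := by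
  rw [← fix_of_mov hQ h (o (h' (s'.sub_mem_mov x))), ← map_add, add_sub_cancel]

theorem comm_of_mov (h : s.mov ≤ U) (h' : s'.mov ≤ W) (o : W ≤ perp Q U) : s * s' = s' * s :=
  O.ext fun x => by
    rw [O.mul_apply, O.mul_apply, mul_apply_eq hQ h h' o, mul_apply_eq hQ h' h (le_perp_symm o)]
    abel

theorem mov_le_mul (hU : Nondeg Q U) (h : s.mov ≤ U) (h' : s'.mov ≤ W) (o : W ≤ perp Q U) :
    s.mov ≤ (s * s').mov := fun m hm => by
  obtain ⟨x, rfl⟩ := O.mem_mov.1 hm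
  obtain ⟨a, ha, b, hb, rfl⟩ := hU.exists_decomp hQ x
  exact O.mem_mov.2 ⟨a, by
    rw [O.mul_apply, fix_of_mov hQ h' (le_perp_symm o ha), map_add, fix_of_mov hQ h hb]; abel⟩

theorem mov_mul (hU : Nondeg Q U) (hW : Nondeg Q W) (h : s.mov ≤ U) (h' : s'.mov ≤ W)
    (o : W ≤ perp Q U) : (s * s').mov = s.mov ⊔ s'.mov :=
  le_antisymm (fun m hm => by
    obtain ⟨x, rfl⟩ := O.mem_mov.1 hm
    rw [O.mul_apply, mul_apply_eq hQ h h' o, add_sub_right_comm]
    exact Submodule.add_mem_sup (s.sub_mem_mov x) (s'.sub_mem_mov x))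
    (sup_le (mov_le_mul hQ hU h h' o)
      (comm_of_mov hQ h h' o ▸ mov_le_mul hQ hW h' h (le_perp_symm o)))

theorem rk_mul (hU : Nondeg Q U) (hW : Nondeg Q W) (h : s.mov ≤ U) (h' : s'.mov ≤ W)
    (o : W ≤ perp Q U) : (s * s').rk = s.rk + s'.rk := by
  rw [O.rk, mov_mul hQ hU hW h h' o, O.rk, O.rk, ← Submodule.finrank_sup_add_finrank_inf_eq,
    le_bot_iff.1 ((inf_le_inf h (h'.trans o)).trans hU.inf_perp.le), finrank_bot, add_zero]

theorem NA.mul (n : NA s) (hU : Nondeg Q U) (h : s.mov ≤ U) (h' : s'.mov ≤ W) (o : W ≤ perp Q U) :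
    NA (s * s') :=
  (na_iff _).2 (((na_iff s).1 n).imp fun _ hw => ⟨mov_le_mul hQ hU h h' o hw.1, hw.2⟩)

theorem NA.mul' (n : NA s') (hW : Nondeg Q W) (h : s.mov ≤ U) (h' : s'.mov ≤ W) (o : W ≤ perp Q U) :
    NA (s * s') := comm_of_mov hQ h h' o ▸ n.mul hQ hW h' h (le_perp_symm o)

theorem Pr.add (h : Pr g U s t) (h' : Pr g W s' t') (hU : Nondeg Q U) (hW : Nondeg Q W)
    (o : W ≤ perp Q U) : Pr g (U ⊔ W) (s * s') (t * t') := by
  have c1 : Commute s s' := comm_of_mov hQ h.sm h'.sm o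
  have c2 : Commute t t' := comm_of_mov hQ h.tm h'.tm o
  refine ⟨by rw [c1.symm.mul_mul_mul_comm, h.ss, h'.ss, one_mul], by
    rw [c2.symm.mul_mul_mul_comm, h.tt, h'.tt, one_mul], mov_mul hQ hU hW h.sm h'.sm o ▸
    sup_le_sup h.sm h'.sm, mov_mul hQ hU hW h.tm h'.tm o ▸ sup_le_sup h.tm h'.tm, fun x hx => ?_⟩
  obtain ⟨a, ha, b, hb, rfl⟩ := Submodule.mem_sup.1 hx
  simp only [map_add, O.mul_apply]
  rw [fix_of_mov hQ h'.tm (le_perp_symm o ha), fix_of_mov hQ h'.sm (le_perp_symm o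
    (mem_of_mov h.tm ha)), h.st a ha, fix_of_mov hQ h.tm (o (mem_of_mov h'.tm hb)), h'.st b hb,
    ← h'.st b hb, fix_of_mov hQ h.sm (o (mem_of_mov h'.sm (mem_of_mov h'.tm hb)))]

theorem Pr.perp (h : Pr g U s t) {y : V} (hy : y ∈ perp Q U) : (s * t) y = y := by
  rw [O.mul_apply, fix_of_mov hQ h.tm hy, fix_of_mov hQ h.sm hy]

theorem Pr.mul_eq (h : Pr g U s t) (h' : Pr g U s' t') (hU : Nondeg Q U) : s * t = s' * t' :=
  hU.ext hQ (fun x hx => (h.st x hx).trans (h'.st x hx).symm) fun _ hx =>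
    (h.perp hQ hx).trans (h'.perp hQ hx).symm

omit hQ in
theorem Pr.top (h : Pr g ⊤ s t) : s * t = g := O.ext fun x => h.st x trivial

theorem even_rk_mul (s t : O Q) : Even (s * t).rk ↔ Even (s.rk + t.rk) := by
  rw [← dickson_eq_one_iff hQ, map_mul, dickson_apply, dickson_apply, ← pow_add,
    neg_one_pow_eq_one_iff_even (by decide)]

theorem IN.split (hU : IN g U) (hW : IN g W) (h : W ≤ U) :
    IN g (U ⊓ perp Q W) ∧ W ⊔ U ⊓ perp Q W = U := by
  have e : W ⊔ U ⊓ perp Q W = U := le_antisymm (sup_le h inf_le_left) fun x hx => by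
    obtain ⟨a, ha, b, hb, rfl⟩ := hW.nd.exists_decomp hQ x
    exact Submodule.add_mem_sup ha ⟨by simpa using sub_mem hx (h ha), hb⟩
  refine ⟨⟨fun x hx => ⟨hU.inv x hx.1, perp_inv hW.inv x hx.2⟩, fun x hx h1 =>
    hU.nd x hx.1 fun y hy => ?_⟩, e⟩
  obtain ⟨a, ha, b, hb, rfl⟩ := Submodule.mem_sup.1 (e.ge hy)
  rw [polar_add_left, mem_perp.1 hx.2 a ha, h1 b hb, add_zero]

theorem IN.finrank_split (hU : IN g U) (hW : IN g W) (h : W ≤ U) :
    finrank F W + finrank F ↥(U ⊓ perp Q W) = finrank F U := by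
  rw [← finrank_sup_perp hW.nd inf_le_right, (hU.split hQ hW h).2]

theorem finrank_inf_fix (hU : Nondeg Q U) (h : s.mov ≤ U) :
    finrank F ↥(U ⊓ s.fix) + s.rk = finrank F U := by
  have h1 := Submodule.finrank_sup_add_finrank_inf_eq U s.fix
  rw [top_le_iff.1 ((hU.isCompl hQ).sup_eq_top.ge.trans (sup_le_sup_left
    (fun y hy => O.mem_fix.2 (fix_of_mov hQ h hy)) U)), finrank_top] at h1
  have := s.rk_add_finrank_fix
  omega

/-- the rank of an involution -/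
theorem rk_eq (hU : Nondeg Q U) (ss : s * s = 1) (h : s.mov ≤ U) {Y : Submodule F V} (h1 : Y ≤ U)
    (h2 : Nondeg Q Y) (h3 : ∀ y ∈ Y, s y = y) (h4 : ∀ u ∈ U, s u = u → u ∈ s.mov ⊔ Y) :
    2 * s.rk + finrank F Y = finrank F U := by
  have e : U ⊓ s.fix = Y ⊔ s.mov := le_antisymm (fun u hu => sup_comm Y _ ▸ h4 u hu.1 (O.mem_fix.1 hu.2))
    (sup_le (le_inf h1 fun y hy => O.mem_fix.2 (h3 y hy))
      (le_inf h (mov_le_fix two0 (by rw [pow_two, ss]))))
  have := finrank_inf_fix hQ hU h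
  rw [e, finrank_sup_perp h2 (s.mov_le_perp_fix.trans (perp_anti fun y hy => O.mem_fix.2 (h3 y hy)))]
    at this
  rw [← this, O.rk]
  omega

theorem rk_full (hU : Nondeg Q U) (ss : s * s = 1) (h : s.mov ≤ U)
    (h4 : ∀ u ∈ U, s u = u → u ∈ s.mov) : 2 * s.rk = finrank F U := by
  simpa using rk_eq hQ hU ss h bot_le (fun _ hx _ => hx) (by simp) (by simpa using h4)

theorem mov_extO (hU : Nondeg Q U) (a : O (Q.restrict U)) :
    (extO hQ hU a).mov = a.mov.map U.subtype := by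
  refine le_antisymm (fun m hm => ?_) ?_
  · obtain ⟨x, rfl⟩ := O.mem_mov.1 hm
    obtain ⟨b, hb, c, hc, rfl⟩ := hU.exists_decomp hQ x
    refine ⟨_, a.sub_mem_mov ⟨b, hb⟩, ?_⟩
    rw [map_add, extO_perp a hc, extO_mem a ⟨b, hb⟩]
    simp
  · rintro _ ⟨m, hm, rfl⟩
    obtain ⟨x, rfl⟩ := O.mem_mov.1 hm
    exact O.mem_mov.2 ⟨x, by rw [extO_mem]; rfl⟩

theorem exists_conj [Finite F] (hU : Nondeg Q U) (ss : s * s = 1) (tt : t * t = 1) (hs : s.mov ≤ U)
    (ht : t.mov ≤ U) (e : s.rk = t.rk) (ns : NA s) (nt : NA t) :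
    ∃ k : O Q, k.mov ≤ U ∧ k * s * k⁻¹ = t := by
  have key : ∀ {s : O Q}, s * s = 1 → s.mov ≤ U → NA s → ∃ a, extO hQ hU a = s ∧ a ^ 2 = 1 ∧
      a.rk = s.rk ∧ ¬ ∀ w ∈ a.mov, Q.restrict U w = 0 := fun {s} ss hs ns => by
    have e : extO hQ hU (rO s fun _ => mem_of_mov hs) = s := hU.ext hQ
      (fun x hx => extO_mem _ ⟨x, hx⟩) fun x hx => by rw [extO_perp _ hx, fix_of_mov hQ hs hx]
    refine ⟨_, e, O.ext fun x => Subtype.ext ?_, ?_, fun h => ?_⟩
    · rw [pow_two, O.mul_apply, coe_rO, coe_rO, ← O.mul_apply, ss]; rfl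
    · conv_rhs => rw [← e, O.rk, mov_extO]
      exact (Submodule.equivMapOfInjective _ U.injective_subtype _).finrank_eq
    · obtain ⟨w, h1, h2⟩ := (na_iff s).1 ns
      rw [← e, mov_extO] at h1
      obtain ⟨w, h1, rfl⟩ := h1
      exact h2 (h w h1)
  obtain ⟨a, rfl, a1, a2, a3⟩ := key ss hs ns
  obtain ⟨b, rfl, b1, b2, b3⟩ := key tt ht nt
  obtain ⟨k, hk⟩ := isConj_iff.1 ((isConj_iff_inv hU.restrict a1 b1).2
    ⟨by rw [a2, b2, e], iff_of_false a3 b3⟩)
  exact ⟨extO hQ hU k, mov_extO hQ hU k ▸ Submodule.map_subtype_le _ _, by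
    rw [← hk, map_mul, map_mul, map_inv]⟩

omit hQ

/-- there is a pair on `U` whose ranks differ by `d` -/
def Has (g : O Q) (U : Submodule F V) (d : ℤ) (A B : Prop) : Prop :=
  ∃ s t, Pr g U s t ∧ (s.rk : ℤ) = t.rk + d ∧ finrank F U ≤ 2 * (s.rk + t.rk) ∧ (A → NA s) ∧ (B → NA t)

variable {d d' : ℤ} {A B A' B' : Prop}

theorem Has.mono (h : Has g U d A B) (a : A' → A) (b : B' → B) : Has g U d A' B' :=
  let ⟨s, t, h1, h2, h3, h4, h5⟩ := h
  ⟨s, t, h1, h2, h3, fun x => h4 (a x), fun x => h5 (b x)⟩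

theorem Has.swap (h : Has g U d A B) : Has g U (-d) B A := by
  obtain ⟨s, t, h1, h2, h3, h4, h5⟩ := h
  have e : s * t * s = s * t * s⁻¹ := by rw [inv_eq_of_mul_eq_one_right h1.ss]
  exact ⟨_, _, h1.swap, by rw [e, rk_conj]; omega, by rw [e, rk_conj]; omega,
    fun b => e ▸ (h5 b).conj s, h4⟩

theorem Has.bot : Has g ⊥ 0 False False :=
  ⟨1, 1, ⟨one_mul _, one_mul _, by simp [O.mov, O.lin_one], by simp [O.mov, O.lin_one],
    fun x hx => by simp [show x = 0 from hx]⟩, by simp, by simp, False.elim, False.elim⟩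

include hQ

theorem Has.add (h : Has g U d A B) (h' : Has g W d' A' B') (hU : Nondeg Q U) (hW : Nondeg Q W)
    (o : W ≤ perp Q U) : Has g (U ⊔ W) (d + d') (A ∨ A') (B ∨ B') := by
  obtain ⟨s, t, h1, h2, h3, h4, h5⟩ := h
  obtain ⟨s', t', k1, k2, k3, k4, k5⟩ := h'
  refine ⟨_, _, h1.add hQ k1 hU hW o, ?_, ?_, fun a => a.elim (fun a => (h4 a).mul hQ hU h1.sm k1.sm o)
    fun a => (k4 a).mul' hQ hW h1.sm k1.sm o, fun a => a.elim
      (fun a => (h5 a).mul hQ hU h1.tm k1.tm o) fun a => (k5 a).mul' hQ hW h1.tm k1.tm o⟩ <;>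
    rw [rk_mul hQ hU hW h1.sm k1.sm o, rk_mul hQ hU hW h1.tm k1.tm o]
  · push_cast; omega
  · rw [finrank_sup_perp hU o]; omega

theorem Pr.par (h : Pr g U s t) (h' : Has g U d A B) (hU : Nondeg Q U) :
    ((s.rk : ℤ) - t.rk - d) % 2 = 0 := by
  obtain ⟨s', t', k1, k2, -⟩ := h'
  have := even_rk_mul hQ s t
  rw [h.mul_eq hQ k1 hU, even_rk_mul hQ, Nat.even_iff, Nat.even_iff] at this
  omega

theorem Has.par (h : Has g U d A B) (h' : Has g U d' A' B') (hU : Nondeg Q U) :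
    (d - d') % 2 = 0 := by
  obtain ⟨s, t, h1, h2, -⟩ := h
  have := h1.par hQ h' hU
  omega

end H93.Or
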