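/- Ore tower, characteristic two: cyclic blocks. -/
import Cfsg.Agent.H93.OrK

set_option autoImplicit false
set_option linter.unusedSectionVars false

namespace H93.Or
open H56 H60 H93.O2 H93.FS QuadraticMap Module Polynomial

theorem sq_dec {F : Type*} [Field F] [Finite F] [CharP F 2] (r : F[X]) :
    ∃ a b : F[X], r = a * a + X * (b * b) := by
  induction r using Polynomial.induction_on' with
  | add p q hp hq =>
    obtain ⟨a, b, rfl⟩ := hp
    obtain ⟨c, d, rfl⟩ := hq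
    exact ⟨a + c, b + d, by linear_combination (-(a * c) - X * (b * d)) * CharTwo.two_eq_zero (R := F[X])⟩
  | monomial n a =>
    obtain ⟨c, rfl⟩ := O2.exists_sqrt two0 a
    rw [← C_mul_X_pow_eq_monomial, C_mul]
    obtain ⟨m, rfl | rfl⟩ := Nat.even_or_odd' n
    exacts [⟨C c * X ^ m, 0, by ring⟩, ⟨0, C c * X ^ m, by ring⟩]

variable {F V : Type*} [Field F] [CharP F 2] [AddCommGroup V] [Module F V] [FiniteDimensional F V]
  {Q : QuadraticForm F V} [Module F[X] V] [IsScalarTower F F[X] V] {g s t : O Q}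
  {U W : Submodule F V} {x y : V} {π : F[X]} {k : ℕ}

/-- the cyclic subspace -/
noncomputable abbrev cs (g : O Q) (x : V) : Submodule F V := LinearMap.range (cy g x)

/-- the functional of a vector -/
noncomputable def lam (g : O Q) (x : V) (p : F[X]) : F := polar Q (p • g x) x

theorem lam_add (p q : F[X]) : lam g x (p + q) = lam g x p + lam g x q := by
  rw [lam, add_smul, polar_add_left]; rfl

theorem lam_C (c : F) (p : F[X]) : lam g x (C c * p) = c * lam g x p := by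
  rw [lam, mul_smul, C_sm, polar_smul_left]; rfl

theorem mem_cs {u : V} : u ∈ cs g x ↔ ∃ a b : F[X], a • x + b • g x = u :=
  ⟨fun ⟨⟨a, b⟩, h⟩ => ⟨a, b, h⟩, fun ⟨a, b, h⟩ => ⟨(a, b), h⟩⟩

/-- generator of a cyclic block -/
structure CB (g : O Q) (π : F[X]) (k : ℕ) (x : V) : Prop where
  prime : Prime π
  kill : π ^ (k + 1) • x = 0
  ne : ∃ s, lam g x (s * π ^ k) ≠ 0

/-- the canonical pair on a cyclic block -/
structure CP (g : O Q) (x : V) (s t : O Q) : Prop extends Pr g (cs g x) s t where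
  sf : ∀ a b : F[X], s (a • x + b • g x) = b • x + a • g x
  tf : ∀ a b : F[X], t (a • x + b • g x) = (a + b * X) • x + b • g x

theorem inv_mem_of (h : ∀ u ∈ W, g u ∈ W) {u : V} (hu : u ∈ W) : g⁻¹ u ∈ W := by
  obtain ⟨w, hw⟩ := (rO g h).surjective ⟨u, hu⟩
  rw [show u = g w from (congrArg Subtype.val hw).symm, O.inv_apply_apply]
  exact w.2

variable (hX : ∀ v, (X : F[X]) • v = g v + g⁻¹ v)
include hX

theorem smul_mem_of (h : ∀ u ∈ W, g u ∈ W) (p : F[X]) {u : V} (hu : u ∈ W) : p • u ∈ W := by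
  induction p using pind generalizing u with
  | h1 a => rw [C_sm]; exact W.smul_mem a hu
  | h2 p q hp hq => rw [add_smul]; exact add_mem (hp hu) (hq hu)
  | h3 p hp => rw [mul_smul, hX]; exact hp (add_mem (h u hu) (inv_mem_of h hu))

theorem cs_le (h : ∀ u ∈ W, g u ∈ W) (hx : x ∈ W) : cs g x ≤ W := fun u hu => by
  obtain ⟨a, b, rfl⟩ := mem_cs.1 hu
  exact add_mem (smul_mem_of hX h a hx) (smul_mem_of hX h b (h x hx))

theorem pol_cs (a b c d : F[X]) :
    polar Q (a • x + b • g x) (c • x + d • g x) = lam g x (b * c + a * d) := by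
  have e3 : ∀ p : F[X], polar Q (p • x) (g x) = lam g x p := fun p => by
    rw [s_adj hX, polar_comm]; rfl
  simp only [polar_add_left, polar_add_right, s_nf hX, s_alt hX, e3, lam_add, zero_add, add_zero,
    mul_comm c b, mul_comm d a]
  rfl

theorem g_cs (a b : F[X]) : g (a • x + b • g x) = b • x + (a + b * X) • g x := by
  simp only [map_add, s_comm hX, g_g hX]; module

theorem lam_comb (a b r : F[X]) :
    lam g (a • x + b • g x) r = lam g x (r * (a * a + a * b * X + b * b)) := by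
  rw [lam, g_cs hX, smul_add, ← mul_smul, ← mul_smul, pol_cs hX]
  congr 1; ring

theorem CB.ann (h : CB g π k x) {b : F[X]} (hb : π ^ (k + 1) ∣ b) {u : V} (hu : u ∈ cs g x) :
    b • u = 0 := by
  obtain ⟨c, rfl⟩ := hb
  obtain ⟨a, b, rfl⟩ := mem_cs.1 hu
  rw [smul_add, smul_comm _ a, smul_comm _ b, ← s_comm hX, mul_comm, mul_smul, h.kill]
  simp

theorem CB.lam_zero (h : CB g π k x) {b : F[X]} (hb : π ^ (k + 1) ∣ b) : lam g x b = 0 := by
  rw [lam, h.ann hX hb (cy_inv hX x x (self_mem_cy x)), polar_zero_left]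

theorem CB.dvd (h : CB g π k x) {b : F[X]} (hb : ∀ s, lam g x (s * b) = 0) : π ^ (k + 1) ∣ b := by
  let I : Ideal F[X] :=
    { carrier := {b | ∀ s : F[X], lam g x (s * b) = 0}
      add_mem' := fun ha hb s => by rw [mul_add, lam_add, ha, hb, add_zero]
      zero_mem' := fun s => by simp [lam]
      smul_mem' := fun c b hb s => by rw [smul_eq_mul, ← mul_assoc, hb] }
  exact pow_dvd_of_mem h.prime (I := I) (fun s => h.lam_zero hX (dvd_mul_left _ _))
    (fun e => h.ne.elim fun s hs => hs (e s)) hb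

theorem CB.free' (h : CB g π k x) {a b : F[X]}
    (e : ∀ y ∈ cs g x, polar Q y (a • x + b • g x) = 0) : π ^ (k + 1) ∣ a ∧ π ^ (k + 1) ∣ b :=
  ⟨h.dvd hX fun s => by simpa only [pol_cs hX, zero_mul, add_zero] using e _ (mem_cy x 0 s),
   h.dvd hX fun s => by simpa only [pol_cs hX, zero_mul, zero_add] using e _ (mem_cy x s 0)⟩

theorem CB.free (h : CB g π k x) {a b : F[X]} (e : a • x + b • g x = 0) :
    π ^ (k + 1) ∣ a ∧ π ^ (k + 1) ∣ b := h.free' hX fun _ _ => by rw [e, polar_zero_right]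

theorem CB.in (h : CB g π k x) : IN g (cs g x) := ⟨cy_inv hX x, fun u hu e => by
  obtain ⟨a, b, rfl⟩ := mem_cs.1 hu
  obtain ⟨h1, h2⟩ := h.free' hX e
  rw [h.ann hX h1 (self_mem_cy x), h.ann hX h2 (cy_inv hX x x (self_mem_cy x)), add_zero]⟩

omit hX in
theorem CB.ne_bot (h : CB g π k x) : cs g x ≠ ⊥ := fun e => h.ne.elim fun s hs => hs (by
  rw [show x = 0 from e.le (self_mem_cy x), lam, polar_zero_right])

theorem CB.lamX (h : CB g X k x) : lam g x (X ^ k) ≠ 0 := fun e => h.ne.elim fun s hs => hs (by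
  rw [← X_mul_divX_add s, add_mul, lam_add, lam_C, e, mul_zero, add_zero]
  exact h.lam_zero hX ⟨s.divX, by ring⟩)

theorem CB.comb (h : CB g π k x) {a b : F[X]} (hN : ¬ π ∣ a * a + a * b * X + b * b) :
    CB g π k (a • x + b • g x) ∧ cs g (a • x + b • g x) = cs g x := by
  obtain ⟨p, q, e⟩ := ((h.prime.irreducible.coprime_iff_not_dvd.2 hN).pow_left (m := k + 1))
  refine ⟨⟨h.prime, h.ann hX dvd_rfl (mem_cy x a b), h.ne.elim fun s hs => ⟨s * q, ?_⟩⟩,
    le_antisymm (cs_le hX (cy_inv hX x) (mem_cy x a b)) (cs_le hX (cy_inv hX _)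
      (mem_cs.2 ⟨q * (a + b * X), q * b, ?_⟩))⟩
  · rwa [lam_comb hX, show s * q * π ^ k * (a * a + a * b * X + b * b) = s * π ^ k +
      π ^ (k + 1) * (-(s * p * π ^ k)) by linear_combination (s * π ^ k) * e, lam_add,
      h.lam_zero hX (dvd_mul_right _ _), add_zero]
  · rw [g_cs hX]
    linear_combination (norm := module) congrArg (· • x) e - p • h.kill +
      (q * b * (a + b * (X : F[X]))) • two_sm (F := F) (g x)

theorem CP.naS (h : CP g x s t) {p : F[X]} (e : lam g x (p * p) ≠ 0) : NA s :=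
  ⟨p • x + (0 : F[X]) • g x, by rwa [h.sf, pol_cs hX, zero_mul, zero_add]⟩

theorem CP.polT (h : CP g x s t) (a b : F[X]) :
    polar Q (a • x + b • g x) (t (a • x + b • g x)) = lam g x (X * (b * b)) := by
  rw [h.tf, pol_cs hX]
  congr 1
  linear_combination (a * b) * CharTwo.two_eq_zero (R := F[X])

theorem CP.polS (h : CP g x s t) (a b : F[X]) :
    polar Q (a • x + b • g x) (s (a • x + b • g x)) = lam g x (b * b + a * a) := by
  rw [h.sf, pol_cs hX]

theorem CP.naT (h : CP g x s t) {p : F[X]} (e : lam g x (X * (p * p)) ≠ 0) : NA t :=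
  ⟨_, by rwa [h.polT hX 0]⟩

theorem CB.side [Finite F] (h : CB g π k x) :
    (∃ p, lam g x (p * p) ≠ 0) ∨ ∃ p, lam g x (X * (p * p)) ≠ 0 := by
  by_contra! e
  obtain ⟨s, hs⟩ := h.ne
  obtain ⟨a, b, e1⟩ := sq_dec (s * π ^ k)
  rw [e1, lam_add, e.1, e.2, add_zero] at hs
  exact hs rfl

/-- change of the generator makes both involutions non-alternating -/
theorem CB.good [Finite F] (h : CB g π k x) (hπ : ¬ π ∣ X) {c : F[X]} (h1 : ¬ π ^ (k + 1) ∣ c * c)
    (h2 : ¬ π ^ (k + 1) ∣ (c * c + 1) * (c * c + 1))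
    (h3 : ¬ π ∣ c * c * (c * c) + c * c * 1 * X + 1 * 1) :
    ∃ x', CB g π k x' ∧ cs g x' = cs g x ∧ (∃ p, lam g x' (p * p) ≠ 0) ∧
      ∃ p, lam g x' (X * (p * p)) ≠ 0 := by
  by_cases e : (∃ p, lam g x (p * p) ≠ 0) ∧ ∃ p, lam g x (X * (p * p)) ≠ 0
  · exact ⟨x, h, rfl, e⟩
  have key : ∀ R : F[X], ¬ π ^ (k + 1) ∣ R * R →
      (∃ p, lam g x (p * R * (p * R)) ≠ 0) ∨ ∃ p, lam g x (X * (p * R * (p * R))) ≠ 0 := fun R hR => by
    by_contra! e
    refine hR (h.dvd hX fun s => ?_)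
    obtain ⟨a, b, rfl⟩ := sq_dec s
    rw [show (a * a + X * (b * b)) * (R * R) = a * R * (a * R) + X * (b * R * (b * R)) by ring,
      lam_add, e.1, e.2, add_zero]
  have h1' : ¬ π ^ (k + 1) ∣ X * c * (X * c) := fun d => h1
    (((h.prime.irreducible.coprime_iff_not_dvd.2 hπ).pow_left.pow_right (n := 2)).dvd_of_dvd_mul_left
      (by rwa [show X ^ 2 * (c * c) = X * c * (X * c) by ring]))
  have N : c * c * (c * c) + c * c * 1 * X + 1 * 1 = (c * c + 1) * (c * c + 1) + X * (c * c) := by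
    linear_combination (-(c * c)) * CharTwo.two_eq_zero (R := F[X])
  have a1 : ∀ p, lam g ((c * c) • x + (1 : F[X]) • g x) (p * p) =
      lam g x (p * (c * c + 1) * (p * (c * c + 1))) + lam g x (X * (p * c * (p * c))) := fun p => by
    rw [lam_comb hX, N, ← lam_add]; congr 1; ring
  have a2 : ∀ p, lam g ((c * c) • x + (1 : F[X]) • g x) (X * (p * p)) =
      lam g x (X * (p * (c * c + 1) * (p * (c * c + 1)))) + lam g x (p * (X * c) * (p * (X * c))) :=
    fun p => by rw [lam_comb hX, N, ← lam_add]; congr 1; ring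
  refine ⟨_, (h.comb hX h3).1, (h.comb hX h3).2, ?_⟩
  simp only [a1, a2]
  rcases not_and_or.1 e with e | e <;> push Not at e <;>
    simp only [e, zero_add, add_zero, ne_eq, not_true, exists_false, false_or, or_false] at key ⊢
  exacts [⟨key c h1, key _ h2⟩, ⟨key _ h2, key _ h1'⟩]

theorem CB.exists_good [Finite F] (h : CB g π k x) (hπ : ¬ π ∣ X) (h6 : ¬ π ∣ X + 1 ∨ 2 ≤ k) :
    ∃ x', CB g π k x' ∧ cs g x' = cs g x ∧ (∃ p, lam g x' (p * p) ≠ 0) ∧
      ∃ p, lam g x' (X * (p * p)) ≠ 0 := by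
  have two := CharTwo.two_eq_zero (R := F[X])
  have p1 : ∀ {r : F[X]}, π ^ (k + 1) ∣ r * r → π ∣ r := fun d =>
    (h.prime.dvd_or_dvd ((dvd_pow_self π k.succ_ne_zero).trans d)).elim id id
  have p2 : ∀ {r : F[X]}, π ∣ r * r → π ∣ r := fun d => (h.prime.dvd_or_dvd d).elim id id
  by_cases e : π ∣ X + 1
  · refine h.good hX hπ (c := π) (fun d => ?_) (fun d => ?_) fun d => ?_
    · rw [← pow_two, pow_dvd_pow_iff h.prime.ne_zero h.prime.not_isUnit] at d
      have := h6.resolve_left (not_not.2 e)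
      omega
    · exact h.prime.not_dvd_one ((dvd_add_right (dvd_mul_right π π)).1 (p1 d))
    · refine h.prime.not_dvd_one (one_mul (1 : F[X]) ▸ (dvd_add_right ?_).1 d)
      exact ⟨π * (π * π) + π * X, by ring⟩
  by_cases e1 : π ∣ X * X * (X * X) + X * X * 1 * X + 1 * 1
  · refine h.good hX hπ (c := X + 1) (fun d => e (p1 d)) (fun d => hπ (p2 ?_)) fun d => e ?_
    · convert p1 d using 1
      linear_combination (-X - 1) * two
    · have d1 : π ∣ X * (X ^ 3 + X ^ 2 + 1) := by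
        convert d using 1
        linear_combination (-2 * X ^ 3 - 4 * X ^ 2 - 2 * X - 1) * two
      convert dvd_add e1 d1 using 1
      linear_combination (-X ^ 4 - X ^ 3) * two
  · refine h.good hX hπ (c := X) (fun d => hπ (p1 d)) (fun d => e (p2 ?_)) e1
    convert p1 d using 1
    linear_combination X * two

variable (hQ : Q.polarBilin.Nondegenerate)
include hQ

omit hX in
theorem pr_of (hU : IN g U) (ss : s * s = 1) (sm : s.mov ≤ U) (h : ∀ u ∈ U, s (g (s (g u))) = u) :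
    ∃ t, Pr g U s t ∧ ∀ u ∈ U, t u = s (g u) := by
  have e : ∀ u ∈ U, (s * extO hQ hU.nd (rO g hU.inv)) u = s (g u) := fun u hu =>
    congrArg s (extO_mem _ ⟨u, hu⟩)
  have e' : ∀ u ∈ perp Q U, (s * extO hQ hU.nd (rO g hU.inv)) u = u := fun u hu => by
    rw [O.mul_apply, extO_perp _ hu, fix_of_mov hQ sm hu]
  refine ⟨_, ⟨ss, hU.nd.ext hQ (fun u hu => ?_) fun u hu => ?_, sm, mov_le_of_fix hQ e',
    fun u hu => by rw [e u hu, ← O.mul_apply, ss, O.one_apply]⟩, e⟩
  · rw [O.mul_apply, e u hu, e _ (mem_of_mov sm (hU.inv u hu)), h u hu, O.one_apply]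
  · rw [O.mul_apply, e' u hu, e' u hu, O.one_apply]

theorem coreR (h1 : Q x = Q y) (h2 : ∀ p : F[X], lam g x p = lam g y p) (hU : IN g (cs g x ⊔ cs g y)) :
    ∃ s t, Pr g (cs g x ⊔ cs g y) s t ∧ (∀ a b c d : F[X],
      s (a • x + b • g x + (c • y + d • g y)) = d • x + c • g x + (b • y + a • g y)) ∧
      ∀ a b c d : F[X], t (a • x + b • g x + (c • y + d • g y)) =
        (c + d * X) • x + d • g x + ((a + b * X) • y + b • g y) := by
  have e1 : ∀ (p : F[X]) u, Q (p • g u) = Q (p • u) := fun p u => by rw [← s_comm hX, O.map_Q]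
  have e2 : ∀ (p : F[X]) u v, polar Q (p • g u) (g v) = polar Q (p • u) v := fun p u v => by
    rw [← s_comm hX, O.map_polar]
  have e3 : ∀ (p : F[X]) u, polar Q (p • u) (g u) = polar Q (p • g u) u := fun p u => by
    rw [s_adj hX, polar_comm]
  replace h2 : ∀ p : F[X], polar Q (p • g x) x = polar Q (p • g y) y := h2
  have m : ∀ a b c d : F[X], a • x + b • g x + (c • y + d • g y) ∈ cs g x ⊔ cs g y :=
    fun a b c d => Submodule.add_mem_sup (mem_cy x a b) (mem_cy y c d)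
  obtain ⟨h, hh⟩ := exists_O_of_surj hQ
    (((cy g x).coprod (cy g y)).coprod (perp Q (cs g x ⊔ cs g y)).subtype)
    ((((cy g x).coprod (cy g y)).comp
    (((LinearEquiv.prodComm F _ _).prodCongr (LinearEquiv.prodComm F _ _)).trans
      (LinearEquiv.prodComm F _ _)).toLinearMap).coprod (perp Q (cs g x ⊔ cs g y)).subtype) (by
      rw [LinearMap.range_coprod, LinearMap.range_coprod, Submodule.range_subtype]
      exact (hU.nd.isCompl hQ).sup_eq_top) fun ⟨⟨⟨a, b⟩, c, d⟩, p⟩ => by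
    change Q (d • x + c • g x + (b • y + a • g y) + p) = Q (a • x + b • g x + (c • y + d • g y) + p)
    rw [Q_add _ _ p.1, Q_add _ _ p.1, mem_perp.1 p.2 _ (m _ _ _ _), mem_perp.1 p.2 _ (m _ _ _ _)]
    simp only [Q_add, polar_add_left, polar_add_right, s_nf hX, e1, e2, e3, h2, s_Q hX h1 h2,
      mul_comm b a, mul_comm d c, mul_comm c a, mul_comm d a, mul_comm c b, mul_comm d b]
    ring
  have hp : ∀ p ∈ perp Q (cs g x ⊔ cs g y), h p = p := fun p hp => by
    simpa using hh (0, ⟨p, hp⟩)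
  replace hh : ∀ a b c d : F[X], h (a • x + b • g x + (c • y + d • g y)) =
    d • x + c • g x + (b • y + a • g y) := fun a b c d => by
      simpa [cy_apply] using hh (((a, b), c, d), 0)
  have k : ∀ v ∈ cs g x ⊔ cs g y, ∃ a b c d : F[X], v = a • x + b • g x + (c • y + d • g y) :=
    fun v hv => by
    obtain ⟨_, ⟨⟨a, b⟩, rfl⟩, _, ⟨⟨c, d⟩, rfl⟩, rfl⟩ := Submodule.mem_sup.1 hv
    exact ⟨a, b, c, d, rfl⟩
  obtain ⟨t, t1, t2⟩ := pr_of hQ hU (s := h) (hU.nd.ext hQ (fun v hv => by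
    obtain ⟨a, b, c, d, rfl⟩ := k v hv
    rw [O.mul_apply, hh, hh, O.one_apply]) fun v hv => by
      rw [O.mul_apply, hp v hv, hp v hv, O.one_apply]) (mov_le_of_fix hQ hp) fun v hv => by
    obtain ⟨a, b, c, d, rfl⟩ := k v hv
    rw [map_add g, g_cs hX, g_cs hX, hh, map_add g, g_cs hX, g_cs hX, hh]
    linear_combination (norm := module) (b * (X : F[X])) • two_sm (F := F) x +
      (d * (X : F[X])) • two_sm (F := F) y
  exact ⟨h, t, t1, hh, fun a b c d => by rw [t2 _ (m _ _ _ _), map_add g, g_cs hX, g_cs hX, hh]⟩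

theorem CB.pair (h : CB g π k x) : ∃ s t, CP g x s t := by
  obtain ⟨s, t, h1, h2, h3⟩ := coreR hX hQ (x := x) (y := x) rfl (fun _ => rfl)
    (by rw [sup_idem]; exact h.in hX)
  rw [sup_idem] at h1
  exact ⟨s, t, h1, fun a b => by simpa using h2 a b 0 0, fun a b => by simpa using h3 a b 0 0⟩

theorem CB.rkS (h : CB g π k x) (c : CP g x s t) : 2 * s.rk = finrank F (cs g x) :=
  rk_full hQ (h.in hX).nd c.ss c.sm fun u hu e => by
    obtain ⟨a, b, rfl⟩ := mem_cs.1 hu
    rw [c.sf] at e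
    have a3 := h.ann hX (h.free hX (a := b - a) (b := a - b)
      (by linear_combination (norm := module) e)).2 (self_mem_cy x)
    refine O.mem_mov.2 ⟨b • x + (0 : F[X]) • g x, ?_⟩
    rw [c.sf]
    linear_combination (norm := module) -a3 - b • two_sm (F := F) x

theorem CB.rkP (h : CB g π k x) (c : CP g x s t) (hπ : ¬ π ∣ X) : 2 * t.rk = finrank F (cs g x) :=
  rk_full hQ (h.in hX).nd c.tt c.tm fun u hu e => by
    obtain ⟨a, b, rfl⟩ := mem_cs.1 hu
    rw [c.tf] at e
    have co := (h.prime.irreducible.coprime_iff_not_dvd.2 hπ).pow_left (m := k + 1)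
    have a3 := h.ann hX (co.dvd_of_dvd_mul_right (h.free hX (a := b * X) (b := 0)
      (by linear_combination (norm := module) e)).1) (cy_inv hX x x (self_mem_cy x))
    obtain ⟨p, q, e1⟩ := co
    refine O.mem_mov.2 ⟨(0 : F[X]) • x + (a * q) • g x, ?_⟩
    rw [c.tf]
    linear_combination (norm := module) -a3 + a • congrArg (· • x) e1 - (a * p) • h.kill

theorem CB.rkV (h : CB g X k x) (c : CP g x s t) : 2 * t.rk + 2 = finrank F (cs g x) := by
  have h0 : polar Q ((X ^ k : F[X]) • g x) x ≠ 0 := h.lamX hX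
  have m1 : (X ^ k : F[X]) • g x ∈ cs g x := by simpa using mem_cy (g := g) x 0 (X ^ k)
  refine (congrArg _ (finrank_pair h0)).symm.trans <| rk_eq hQ (h.in hX).nd c.tt c.tm (Submodule.span_le.2 ?_) (nondeg_pair h0)
    (fun y hy => O.mem_fix.1 (Submodule.span_le.2 ?_ hy)) fun u hu e => ?_
  · rintro _ (rfl | rfl)
    exacts [m1, self_mem_cy _]
  · rintro _ (rfl | rfl) <;> refine O.mem_fix.2 ?_
    · simpa [← pow_succ, h.kill] using c.tf 0 (X ^ k)
    · simpa using c.tf 1 0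
  · obtain ⟨a, b, rfl⟩ := mem_cs.1 hu
    rw [c.tf] at e
    obtain ⟨r, e1⟩ := (h.free hX (a := b * X) (b := 0) (by linear_combination (norm := module) e)).1
    rw [pow_succ, mul_right_comm] at e1
    obtain rfl := mul_right_cancel₀ X_ne_zero e1
    refine Submodule.mem_sup.2 ⟨_, t.sub_mem_mov ((0 : F[X]) • x + a.divX • g x), _,
      Submodule.mem_span_pair.2 ⟨r.coeff 0, a.coeff 0, rfl⟩, ?_⟩
    have a3 := h.ann hX dvd_rfl (cy_inv hX x x (self_mem_cy x))
    rw [c.tf, ← C_sm, ← C_sm]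
    linear_combination (norm := module) congrArg (· • x) (X_mul_divX_add a) +
      (X ^ k : F[X]) • congrArg (· • g x) (X_mul_divX_add r) - r.divX • a3

theorem CB.hasP (h : CB g π k x) (hπ : ¬ π ∣ X) : Has g (cs g x) 0 (∃ p, lam g x (p * p) ≠ 0)
    (∃ p, lam g x (X * (p * p)) ≠ 0) := by
  obtain ⟨s, t, c⟩ := h.pair hX hQ
  have := h.rkS hX hQ c
  have := h.rkP hX hQ c hπ
  exact ⟨s, t, c.toPr, by omega, by omega, fun ⟨_, e⟩ => c.naS hX e, fun ⟨_, e⟩ => c.naT hX e⟩

theorem CB.hasV (h : CB g X k x) : Has g (cs g x) 1 (∃ p, lam g x (p * p) ≠ 0)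
    (∃ p, lam g x (X * (p * p)) ≠ 0) := by
  obtain ⟨s, t, c⟩ := h.pair hX hQ
  have := h.rkS hX hQ c
  have := h.rkV hX hQ c
  exact ⟨s, t, c.toPr, by omega, by omega, fun ⟨_, e⟩ => c.naS hX e, fun ⟨_, e⟩ => c.naT hX e⟩

end H93.Or
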