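/- Ore tower, characteristic two: double blocks. -/
import Cfsg.Agent.H93.OrC

set_option autoImplicit false
set_option linter.unusedSectionVars false

namespace H93.Or
open H56 H60 H93.O2 H93.FS QuadraticMap Module Polynomial

variable {F V : Type*} [Field F] [CharP F 2] [AddCommGroup V] [Module F V] [FiniteDimensional F V]
  {Q : QuadraticForm F V} {g s t : O Q} {U W : Submodule F V} {x y : V} {n : ℕ}

theorem N_apply (v : V) : (g.lin + 1) v = g v + v := rfl

theorem N_mem (h : ∀ u ∈ W, g u ∈ W) (k : ℕ) {u : V} (hu : u ∈ W) : ((g.lin + 1) ^ k) u ∈ W := by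
  induction k with
  | zero => exact hu
  | succ k ih => rw [pow_succ']; exact add_mem (h _ ih) ih

theorem N_comm (k : ℕ) (u : V) : g (((g.lin + 1) ^ k) u) = ((g.lin + 1) ^ k) (g u) :=
  LinearMap.congr_fun ((Commute.refl g.lin).add_right (Commute.one_right _) |>.pow_right k).eq u

theorem fix_of_N {e : V} (h : (g.lin + 1) e = 0) : g e = e :=
  (eq_neg_of_add_eq_zero_left h).trans (neg_eq_of_add_eq_zero_left (vadd_self (F := F) e))

theorem pol_N_fix {e : V} (h : g e = e) {k : ℕ} (hk : 1 ≤ k) (w : V) :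
    polar Q (((g.lin + 1) ^ k) w) e = 0 := by
  obtain ⟨k, rfl⟩ := Nat.exists_eq_add_of_le' hk
  rw [pow_succ', Module.End.mul_apply, N_apply, polar_add_left]
  conv_lhs => enter [1, 3]; rw [← h]
  rw [O.map_polar, CharTwo.add_self_eq_zero]

theorem pol_inv (h : ∀ u ∈ W, g u ∈ W) (hr : ∀ u ∈ W, g (s (g u)) = s u) (k : ℕ) {u : V}
    (hu : u ∈ W) : polar Q (((g.lin + 1) ^ k) u) (s (((g.lin + 1) ^ k) u)) =
      polar Q (((g.lin + 1) ^ (2 * k)) u) (s u) := by
  induction k generalizing u with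
  | zero => rfl
  | succ k ih =>
    rw [pow_succ, Module.End.mul_apply, ih (u := (g.lin + 1) u) (add_mem (h u hu) hu), ← Module.End.mul_apply, ← pow_succ,
      mul_add, mul_one, pow_succ' _ (2 * k + 1), Module.End.mul_apply _ _ u, N_apply u, map_add s,
      N_apply (((g.lin + 1) ^ (2 * k + 1)) u), polar_add_left, polar_add_right, ← O.map_polar g,
      hr u hu]

theorem Pr.gsg (h : Pr g W s t) (hW : ∀ u ∈ W, g u ∈ W) {u : V} (hu : u ∈ W) : g (s (g u)) = s u := by
  rw [← h.st u hu, ← O.mul_apply s s, h.ss, O.one_apply, ← h.st _ (mem_of_mov h.tm hu),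
    ← O.mul_apply t t, h.tt, O.one_apply]

theorem Pr.gtg (h : Pr g W s t) (hW : ∀ u ∈ W, g u ∈ W) {u : V} (hu : u ∈ W) : g (t (g u)) = t u := by
  rw [← h.st _ (mem_of_mov h.tm (hW u hu)), ← O.mul_apply t t, h.tt, O.one_apply, ← h.st u hu,
    ← O.mul_apply s s, h.ss, O.one_apply]

variable [Module F[X] V] [IsScalarTower F F[X] V]

/-- generators of a double block -/
structure DB (g : O Q) (n : ℕ) (x y : V) : Prop where
  kill : ∀ v ∈ cs g x ⊔ cs g y, ((g.lin + 1) ^ (n + 1)) v = 0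
  alt : ∀ v ∈ cs g x ⊔ cs g y, polar Q (((g.lin + 1) ^ n) v) v = 0
  ne : polar Q (((g.lin + 1) ^ n) x) y ≠ 0
  q : Q x = Q y
  l : ∀ p, lam g x p = lam g y p

theorem mem_l : x ∈ cs g x ⊔ cs g y := Submodule.mem_sup_left (self_mem_cy x)

theorem mem_r : y ∈ cs g x ⊔ cs g y := Submodule.mem_sup_right (self_mem_cy y)

theorem DB.ne_bot (h : DB g n x y) : cs g x ⊔ cs g y ≠ ⊥ := fun e => h.ne (by
  rw [show y = 0 from e.le mem_r, polar_zero_right])

theorem DB.sym (h : DB g n x y) :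
    polar Q (((g.lin + 1) ^ n) y) x = polar Q (((g.lin + 1) ^ n) x) y := by
  have := h.alt _ (add_mem mem_l mem_r)
  simp only [map_add, polar_add_left, polar_add_right, h.alt x mem_l, h.alt y mem_r, zero_add,
    add_zero] at this
  exact CharTwo.add_eq_zero.1 this

theorem DB.fix (h : DB g n x y) {v : V} (hv : v ∈ cs g x ⊔ cs g y) :
    g (((g.lin + 1) ^ n) v) = ((g.lin + 1) ^ n) v := fix_of_N (by rw [← h.kill v hv, pow_succ']; rfl)

variable (hX : ∀ v, (X : F[X]) • v = g v + g⁻¹ v)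
include hX

theorem cs_inv2 : ∀ w ∈ cs g x ⊔ cs g y, g w ∈ cs g x ⊔ cs g y := fun w hw => by
  obtain ⟨a, ha, b, hb, rfl⟩ := Submodule.mem_sup.1 hw
  rw [map_add]
  exact Submodule.add_mem_sup (cy_inv hX x a ha) (cy_inv hX y b hb)

theorem NN (v : V) : (g.lin + 1) ((g.lin + 1) v) = (X : F[X]) • g v := by
  rw [N_apply, N_apply, map_add, g_g hX]
  linear_combination (norm := module) two_sm (F := F) v + two_sm (F := F) (g v)

theorem DB.free (D : DB g n x y) {u v : V} (hu : u ∈ cs g x) (hv : v ∈ cs g y)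
    (h : u + v ∈ perp Q (cs g x ⊔ cs g y)) : u = 0 ∧ v = 0 := by
  have k : ∀ j ≤ n + 1, ∃ a ∈ cs g x, ∃ b ∈ cs g y,
      u = ((g.lin + 1) ^ j) a ∧ v = ((g.lin + 1) ^ j) b := fun j => by
    induction j with
    | zero => exact fun _ => ⟨u, hu, v, hv, rfl, rfl⟩
    | succ j ih =>
      intro hj
      obtain ⟨a, ha, b, hb, rfl, rfl⟩ := ih (by omega)
      obtain ⟨c, a, ha', rfl⟩ := cy_dec hX ha
      obtain ⟨d, b, hb', rfl⟩ := cy_dec hX hb
      have a1 := N_mem (perp_inv (cs_inv2 hX)) (n - j) h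
      have a2 : ∀ w ∈ cs g x ⊔ cs g y, ((g.lin + 1) ^ n) ((g.lin + 1) w) = 0 := fun w hw => by
        rw [← D.kill w hw, pow_succ]; rfl
      rw [← map_add, ← Module.End.mul_apply, ← pow_add, Nat.sub_add_cancel (by omega), mem_perp'] at a1
      have a3 := a1 y mem_r
      have a4 := a1 x mem_l
      simp only [map_add, map_smul, a2 a (Submodule.mem_sup_left ha'), a2 b (Submodule.mem_sup_right hb'),
        add_zero, polar_add_left, polar_smul_left, D.alt x mem_l, D.alt y mem_r, D.sym, smul_eq_mul,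
        mul_zero, zero_add, mul_eq_zero, D.ne, or_false] at a3 a4
      exact ⟨a, ha', b, hb', by rw [a3, zero_smul, zero_add, pow_succ]; rfl, by
        rw [a4, zero_smul, zero_add, pow_succ]; rfl⟩
  obtain ⟨a, ha, b, hb, rfl, rfl⟩ := k _ le_rfl
  exact ⟨D.kill a (Submodule.mem_sup_left ha), D.kill b (Submodule.mem_sup_right hb)⟩

theorem DB.in (D : DB g n x y) : IN g (cs g x ⊔ cs g y) := ⟨cs_inv2 hX, fun w hw h => by
  obtain ⟨a, ha, b, hb, rfl⟩ := Submodule.mem_sup.1 hw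
  obtain ⟨rfl, rfl⟩ := D.free hX ha hb (mem_perp.2 h)
  exact add_zero _⟩

theorem DB.shift (D : DB g n x y) (hn : 2 ≤ n) : DB g n x (y + ((g.lin + 1) ^ n) y) ∧
    cs g (y + ((g.lin + 1) ^ n) y) = cs g y := by
  have f := D.fix (mem_r (x := x) (y := y))
  have m := N_mem (cy_inv hX y) n (self_mem_cy y)
  have z : ((g.lin + 1) ^ n) (((g.lin + 1) ^ n) y) = 0 := by
    obtain ⟨j, hj⟩ := Nat.exists_eq_add_of_le' (show 1 ≤ n by omega)
    rw [← Module.End.mul_apply, ← pow_add, show n + n = j + (n + 1) by omega, pow_add,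
      Module.End.mul_apply, D.kill y mem_r, map_zero]
  have e : cs g (y + ((g.lin + 1) ^ n) y) = cs g y :=
    le_antisymm (cs_le hX (cy_inv hX y) (add_mem (self_mem_cy y) m)) (cs_le hX (cy_inv hX _) (by
      simpa [z] using sub_mem (self_mem_cy (g := g) (y + ((g.lin + 1) ^ n) y))
        (N_mem (cy_inv hX _) n (self_mem_cy (y + ((g.lin + 1) ^ n) y)))))
  refine ⟨⟨e ▸ D.kill, e ▸ D.alt, by rw [polar_add_right, pol_N_fix f (by omega), add_zero]; exact D.ne,
    ?_, fun p => ?_⟩, e⟩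
  · obtain ⟨j, rfl⟩ := Nat.exists_eq_add_of_le' (show 1 ≤ n by omega)
    have := pol_N_fix f (k := j) (by omega) y
    rw [Q_add, polar_comm, D.alt y mem_r, add_zero, D.q, left_eq_add]
    rw [pow_succ', Module.End.mul_apply, N_apply] at this ⊢
    rw [polar_add_right, pself2, add_zero] at this
    rw [Q_add, O.map_Q, CharTwo.add_self_eq_zero, zero_add, polar_comm, this]
  · generalize ((g.lin + 1) ^ n) y = z at f
    have : polar Q (p • g y) z = polar Q (p • z) y := by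
      rw [← s_comm hX, ← f, O.map_polar, f, s_adj hX, polar_comm]
    rw [D.l, lam, lam, map_add, f, smul_add, polar_add_left, polar_add_right, polar_add_right, s_alt hX,
      this, add_zero, add_assoc, CharTwo.add_self_eq_zero, add_zero]

theorem finrank_cs {p : F[X]} (hp : p.Monic) (h : p • x = 0) :
    finrank F (cs g x) ≤ 2 * p.natDegree := by
  have : cs g x ≤ LinearMap.range (cy g x ∘ₗ (degreeLT F p.natDegree).subtype.prodMap
      (degreeLT F p.natDegree).subtype) := fun u hu => by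
    obtain ⟨a, b, rfl⟩ := mem_cs.1 hu
    have k : ∀ a : F[X], a %ₘ p ∈ degreeLT F p.natDegree := fun a =>
      mem_degreeLT.2 (degree_eq_natDegree hp.ne_zero ▸ degree_modByMonic_lt a hp)
    refine ⟨(⟨_, k a⟩, ⟨_, k b⟩), (cy_apply _ _ _).trans ?_⟩
    have h' : p • g x = 0 := by rw [← s_comm hX, h, map_zero]
    change (a %ₘ p) • x + (b %ₘ p) • g x = _
    linear_combination (norm := module) congrArg (· • x) (modByMonic_add_div a p) +
      congrArg (· • g x) (modByMonic_add_div b p) - (a /ₘ p) • h - (b /ₘ p) • h'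
  have e := (degreeLTEquiv F p.natDegree).finrank_eq
  have _ : FiniteDimensional F (degreeLT F p.natDegree) :=
    (degreeLTEquiv F p.natDegree).symm.finiteDimensional
  refine (Submodule.finrank_mono this).trans ((LinearMap.finrank_range_le _).trans ?_)
  simp [e, two_mul]

variable (hQ : Q.polarBilin.Nondegenerate)
include hQ

omit [Module F[X] V] [IsScalarTower F F[X] V] hX in
theorem rk_swap {A B : Submodule F V} (hU : Nondeg Q (A ⊔ B)) (ss : s * s = 1) (sm : s.mov ≤ A ⊔ B)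
    (hf : ∀ u ∈ A, ∀ v ∈ B, u + v = 0 → v = 0) (h1 : ∀ u ∈ A, s u ∈ B) (h2 : ∀ v ∈ B, s v ∈ A) :
    2 * s.rk = finrank F ↥(A ⊔ B) := rk_full hQ hU ss sm fun w hw e => by
  obtain ⟨a, ha, b, hb, rfl⟩ := Submodule.mem_sup.1 hw
  have := hf _ (sub_mem (h2 b hb) ha) _ (sub_mem (h1 a ha) hb) (by
    rw [map_add] at e
    linear_combination (norm := module) e)
  exact O.mem_mov.2 ⟨a, by linear_combination (norm := module) this - vadd_self (F := F) a⟩

theorem DB.pair (D : DB g n x y) : ∃ s t, Pr g (cs g x ⊔ cs g y) s t ∧ s (g x) = y ∧ t x = y ∧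
    2 * s.rk = finrank F ↥(cs g x ⊔ cs g y) ∧ 2 * t.rk = finrank F ↥(cs g x ⊔ cs g y) := by
  obtain ⟨s, t, h1, h2, h3⟩ := coreR hX hQ D.q D.l (D.in hX)
  have hf : ∀ u ∈ cs g x, ∀ v ∈ cs g y, u + v = 0 → v = 0 := fun u hu v hv e =>
    (D.free hX hu hv (e ▸ zero_mem _)).2
  refine ⟨s, t, h1, by simpa using h2 0 1 0 0, by simpa using h3 1 0 0 0,
    rk_swap hQ (D.in hX).nd h1.ss h1.sm hf (fun u hu => ?_) fun u hu => ?_,
    rk_swap hQ (D.in hX).nd h1.tt h1.tm hf (fun u hu => ?_) fun u hu => ?_⟩ <;>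
    obtain ⟨a, b, rfl⟩ := mem_cs.1 hu
  · exact mem_cs.2 ⟨b, a, by simpa using (h2 a b 0 0).symm⟩
  · exact mem_cs.2 ⟨b, a, by simpa using (h2 0 0 a b).symm⟩
  · exact mem_cs.2 ⟨a + b * X, b, by simpa using (h3 a b 0 0).symm⟩
  · exact mem_cs.2 ⟨a + b * X, b, by simpa using (h3 0 0 a b).symm⟩

theorem DB.has (D : DB g n x y) : Has g (cs g x ⊔ cs g y) 0
    (∃ k : ℕ, polar Q (((g.lin + 1) ^ (2 * k)) (g x)) y ≠ 0)
    (∃ k : ℕ, polar Q (((g.lin + 1) ^ (2 * k)) x) y ≠ 0) := by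
  obtain ⟨s, t, h1, h2, h3, h4, h5⟩ := D.pair hX hQ
  have i := cs_inv2 hX (x := x) (y := y)
  exact ⟨s, t, h1, by omega, by omega, fun ⟨k, e⟩ => ⟨_, by
    rwa [pol_inv i (fun _ => h1.gsg i) k (i x mem_l), h2]⟩, fun ⟨k, e⟩ => ⟨_, by
    rwa [pol_inv i (fun _ => h1.gtg i) k mem_l, h3]⟩⟩

omit hX hQ in
theorem DB.odd {k : ℕ} (D : DB g (2 * k + 1) x y) : polar Q (((g.lin + 1) ^ (2 * k)) (g x)) y +
    polar Q (((g.lin + 1) ^ (2 * k)) x) y ≠ 0 := by
  have := D.ne
  rwa [pow_succ, Module.End.mul_apply, N_apply, map_add, polar_add_left] at this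

theorem DB.good (D : DB g n x y) (hn : n ≠ 1) : Has g (cs g x ⊔ cs g y) 0 True True := by
  obtain ⟨k, rfl | rfl⟩ := Nat.even_or_odd' n
  · exact (D.has hX hQ).mono (fun _ => ⟨k, by rw [← N_comm, D.fix mem_l]; exact D.ne⟩)
      fun _ => ⟨k, D.ne⟩
  by_cases e : (∃ k : ℕ, polar Q (((g.lin + 1) ^ (2 * k)) (g x)) y ≠ 0) ∧
    ∃ k : ℕ, polar Q (((g.lin + 1) ^ (2 * k)) x) y ≠ 0
  · exact (D.has hX hQ).mono (fun _ => e.1) fun _ => e.2
  obtain ⟨D', e'⟩ := D.shift hX (by omega)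
  have f := D.fix (mem_r (x := x) (y := y))
  have a : polar Q x (((g.lin + 1) ^ (2 * k + 1)) y) ≠ 0 := by rw [polar_comm, D.sym]; exact D.ne
  have a' : polar Q (g x) (((g.lin + 1) ^ (2 * k + 1)) y) ≠ 0 := by rwa [← f, O.map_polar]
  have o := D.odd
  rw [← e']
  rcases not_and_or.1 e with e | e <;> push Not at e
  · refine (D'.has hX hQ).mono (fun _ => ⟨0, ?_⟩) fun _ => ⟨k, ?_⟩
    · rwa [polar_add_right, e, zero_add]
    · rw [e, zero_add] at o
      rwa [polar_add_right, pol_N_fix f (by omega), add_zero]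
  · refine (D'.has hX hQ).mono (fun _ => ⟨k, ?_⟩) fun _ => ⟨0, ?_⟩
    · rw [e, add_zero] at o
      rwa [polar_add_right, pol_N_fix f (by omega), add_zero]
    · rwa [polar_add_right, e, zero_add]

theorem DB.half (D : DB g n x y) :
    Has g (cs g x ⊔ cs g y) 0 True False := by
  obtain ⟨k, rfl | rfl⟩ := Nat.even_or_odd' n
  · exact (D.good hX hQ (by omega)).mono id fun _ => trivial
  by_cases e : polar Q (((g.lin + 1) ^ (2 * k)) (g x)) y = 0
  · simpa using ((D.has hX hQ).mono False.elim fun _ : True => ⟨k, by simpa [e] using D.odd⟩).swap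
  · exact (D.has hX hQ).mono (fun _ => ⟨k, e⟩) False.elim

omit hQ in
theorem DB.finrank_one (D : DB g 1 x y) : finrank F ↥(cs g x ⊔ cs g y) ≤ 4 := by
  have k : ∀ v ∈ cs g x ⊔ cs g y, finrank F (cs g v) ≤ 2 := fun v hv => by
    simpa using finrank_cs hX monic_X (g.injective (by
      rw [s_comm hX, ← NN hX, map_zero]; exact D.kill v hv) : (X : F[X]) • v = 0)
  have := Submodule.finrank_add_le_finrank_add_finrank (cs g x) (cs g y)
  have := k x mem_l
  have := k y mem_r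
  omega

end H93.Or
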