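/- Ore tower, characteristic two: existence of blocks. -/
import Cfsg.Agent.H93.OrD

set_option autoImplicit false
set_option linter.unusedSectionVars false

namespace H93.Or
open H56 H60 H93.O2 H93.FS QuadraticMap Module Polynomial

variable {F V : Type*} [Field F] [CharP F 2] [AddCommGroup V] [Module F V] [FiniteDimensional F V]
  {Q : QuadraticForm F V} {g s t : O Q} {U W : Submodule F V} {x y : V} {n : ℕ}
  [Module F[X] V] [IsScalarTower F F[X] V]
  (hX : ∀ v, (X : F[X]) • v = g v + g⁻¹ v) (hQ : Q.polarBilin.Nondegenerate)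
include hX hQ

theorem exists_xR (hW : IN g W) {k : ℕ} (h2 : ∀ (s : F[X]), ∀ v ∈ W, lam g v (s * X ^ k) = 0) {z t : V}
    (hz : z ∈ W) (ht : t ∈ W) (e : F)
    (hk : ∀ (p : F[X]) (c : F), p • z + c • t = 0 → X ^ (k + 1) ∣ p ∧ c * e = 0) :
    ∃ x ∈ W, polar Q x z = Q z ∧ (∀ p : F[X], polar Q x ((X * p) • z) = lam g z p) ∧
      polar Q x t = e := by
  let E : F × F[X] × F →ₗ[F] V := (LinearMap.toSpanSingleton F V z).coprod
    (((LinearMap.toSpanSingleton F[X] V ((X : F[X]) • z)).restrictScalars F).coprod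
      (LinearMap.toSpanSingleton F V t))
  let ψ : Module.Dual F (F × F[X] × F) := (LinearMap.toSpanSingleton F F (Q z)).coprod
    ((Q.polarBilin.flip z ∘ₗ (LinearMap.toSpanSingleton F[X] V (g z)).restrictScalars F).coprod
      (LinearMap.toSpanSingleton F F e))
  have hE : ∀ a p c, E (a, p, c) = a • z + (p • (X : F[X]) • z + c • t) := fun _ _ _ => rfl
  have hψ : ∀ a p c, ψ (a, p, c) = a * Q z + (lam g z p + c * e) := fun _ _ _ => rfl
  obtain ⟨φ, hφ⟩ : ψ ∈ E.dualMap.range := by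
    rw [LinearMap.range_dualMap_eq_dualAnnihilator_ker, Submodule.mem_dualAnnihilator]
    rintro ⟨a, p, c⟩ (h : E _ = 0)
    obtain ⟨⟨q, hq⟩, h3⟩ := hk (X * p + C a) c (by rw [← h, hE, add_smul, C_sm]; module)
    have h4 : a = 0 := by simpa [pow_succ', mul_assoc] using congrArg (coeff · 0) hq
    rw [h4, C_0, add_zero, pow_succ', mul_assoc] at hq
    rw [hψ, h4, h3, mul_left_cancel₀ X_ne_zero hq, mul_comm (X ^ k), h2 _ z hz]
    simp
  obtain ⟨x, hx⟩ := exists_polar_eq hQ φ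
  obtain ⟨a, ha, b, hb, rfl⟩ := hW.nd.exists_decomp hQ x
  replace hφ : ∀ m, E m ∈ W → polar Q a (E m) = ψ m := fun m hm => by
    rw [← LinearMap.congr_fun hφ m, LinearMap.dualMap_apply, ← hx, polar_add_left,
      mem_perp'.1 hb _ hm, add_zero]
  exact ⟨a, ha, by simpa [hE, hψ, lam] using hφ (1, 0, 0) (by simpa [hE] using hz), fun p => by
    simpa [hE, hψ, mul_comm X, mul_smul] using hφ (0, p, 0) (by
      simpa [hE] using smul_mem_of hX hW.inv p (smul_mem_of hX hW.inv X hz)), by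
    simpa [hE, hψ, lam] using hφ (0, 0, 1) (by simpa [hE] using ht)⟩

omit hQ in
theorem db_two (hW : IN g W) (hn : ∀ v ∈ W, ((g.lin + 1) ^ (n + 1)) v = 0)
    (hB : ∀ v ∈ W, polar Q (((g.lin + 1) ^ n) v) v = 0) {x z : V} (hx : x ∈ W) (hz : z ∈ W)
    (h1 : polar Q x z = Q z) (h2 : ∀ p : F[X], polar Q x ((X * p) • z) = lam g z p)
    (h3 : polar Q x (((g.lin + 1) ^ n) z) ≠ 0) : DB g n x (x + z) := by
  have le : cs g x ⊔ cs g (x + z) ≤ W :=
    sup_le (cs_le hX hW.inv hx) (cs_le hX hW.inv (add_mem hx hz))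
  refine ⟨fun v hv => hn v (le hv), fun v hv => hB v (le hv), ?_, ?_, fun p => ?_⟩
  · have := hB (x + z) (add_mem hx hz)
    rw [map_add, polar_add_left, polar_add_right _ (((g.lin + 1) ^ n) z), hB z hz, add_zero,
      polar_comm _ (((g.lin + 1) ^ n) z)] at this
    rwa [CharTwo.add_eq_zero.1 this]
  · rw [Q_add, h1, add_assoc, CharTwo.add_self_eq_zero, add_zero]
  · have := h2 p
    rw [mul_smul, hX, polar_add_right, O.polar_apply_right g⁻¹, inv_inv, ← s_adj hX, s_comm hX,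
      polar_comm] at this
    simp only [lam, map_add, smul_add, polar_add_left, polar_add_right] at this ⊢
    linear_combination -this - polar Q (p • g z) z * CharTwo.two_eq_zero (R := F)

theorem db_nil (hW : IN g W) {k : ℕ} (h0 : ∀ v ∈ W, (X ^ (k + 1) : F[X]) • v = 0)
    (h1 : ∃ v ∈ W, (X ^ k : F[X]) • v ≠ 0) (h2 : ∀ (s : F[X]), ∀ v ∈ W, lam g v (s * X ^ k) = 0) :
    ∃ n, ∃ x ∈ W, ∃ y ∈ W, DB g n x y := by
  have hz : ∀ z ∈ W, (X ^ k : F[X]) • z ≠ 0 → ∀ p : F[X], p • z = 0 → X ^ (k + 1) ∣ p :=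
    fun z hz h p hp =>
    pow_dvd_of_mem prime_X (I := LinearMap.ker (LinearMap.toSpanSingleton F[X] V z)) (h0 z hz) h hp
  have hs : ∀ (p : F[X]) v, (g.lin + 1) (p • v) = p • (g.lin + 1) v := fun p v => by
    rw [N_apply, N_apply, s_comm hX, smul_add]
  have hj : ∀ j v, ((g.lin + 1) ^ (2 * j)) v = (g ^ j) ((X ^ j : F[X]) • v) := fun j => by
    induction j with
    | zero => simp
    | succ j ih => intro v; rw [mul_add, pow_add, Module.End.mul_apply, mul_one, pow_two,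
        Module.End.mul_apply, NN hX, ih, pow_succ g, O.mul_apply, s_comm hX, ← mul_smul, pow_succ]
  have hf : ∀ w, (g.lin + 1) w = 0 → (g ^ k) w = w := fun w hw =>
    pow_mem (show g ∈ MulAction.stabilizer (O Q) w from fix_of_N hw) k
  by_cases he : ∀ v ∈ W, (g.lin + 1) ((X ^ k : F[X]) • v) = 0
  · have hT : ∀ v ∈ W, ((g.lin + 1) ^ (2 * k)) v = (X ^ k : F[X]) • v := fun v hv => by
      rw [hj, hf _ (he v hv)]
    obtain ⟨q, hq, hq'⟩ : ∃ q : V → F, (∀ u v, q (u + v) = q u + q v + polar Q ((X ^ k : F[X]) • u) v) ∧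
        ∀ x z, polar Q x z = Q z → (∀ p : F[X], polar Q x ((X * p) • z) = lam g z p) →
          polar Q x ((X ^ k : F[X]) • z) = q z := by
      rcases k with _ | k
      · exact ⟨Q, fun u v => by simp [Q_add], fun x z h _ => by simpa using h⟩
      · refine ⟨fun v => polar Q ((X ^ k : F[X]) • g v) v, fun u v => ?_, fun x z _ h => by
          rw [pow_succ', h, lam]⟩
        simp only [map_add, smul_add, polar_add_left, polar_add_right, pow_succ, mul_smul, hX]
        rw [s_adj hX _ (g⁻¹ u), O.polar_apply_left g⁻¹, inv_inv, s_comm hX, polar_comm Q u]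
        ring
    obtain ⟨u, hu, hu'⟩ := h1
    obtain ⟨v, hv, hv'⟩ : ∃ v ∈ W, polar Q ((X ^ k : F[X]) • u) v ≠ 0 := by
      by_contra! h
      exact hu' (hW.nd _ (smul_mem_of hX hW.inv _ hu) fun y hy => by rw [polar_comm, h y hy])
    obtain ⟨z, a0, a1, a2⟩ : ∃ z ∈ W, (X ^ k : F[X]) • z ≠ 0 ∧ q z ≠ 0 := by
      by_contra! h
      have := hq u v
      rw [h u hu hu', h v hv fun e => hv' (by rw [s_adj hX, e, polar_zero_right]),
        h (u + v) (add_mem hu hv) fun e => hv' (by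
          simpa [s_alt hX] using congrArg (polar Q · v) e)] at this
      exact hv' (by simpa using this.symm)
    obtain ⟨x, b0, b1, b2, -⟩ := exists_xR hX hQ hW h2 a0 W.zero_mem 0 fun p c h =>
      ⟨hz z a0 a1 p (by simpa using h), mul_zero c⟩
    exact ⟨2 * k, x, b0, _, add_mem b0 a0, db_two hX hW (fun v hv => by
      rw [pow_succ', Module.End.mul_apply, hT v hv, he v hv]) (fun v hv => by rw [hT v hv, s_alt hX])
      b0 a0 b1 b2 (by rwa [hT z a0, hq' x z b1 b2])⟩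
  · push Not at he
    obtain ⟨z, a0, a1⟩ := he
    have m : ∀ v ∈ W, (g.lin + 1) v ∈ W := fun v hv => add_mem (hW.inv v hv) hv
    have a2 : ∀ v ∈ W, (g.lin + 1) ((g.lin + 1) ((X ^ k : F[X]) • v)) = 0 := fun v hv => by
      rw [NN hX, s_comm hX, ← mul_smul, ← pow_succ', h0 _ (hW.inv v hv)]
    have hT : ∀ v ∈ W, ((g.lin + 1) ^ (2 * k + 1)) v = (g.lin + 1) ((X ^ k : F[X]) • v) :=
      fun v hv => by rw [pow_succ, Module.End.mul_apply, hj, ← hs, hf _ (a2 v hv)]
    obtain ⟨x, b0, b1, b2, b3⟩ := exists_xR hX hQ hW h2 a0 (m _ (smul_mem_of hX hW.inv (X ^ k) a0)) 1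
      fun p c h => by
      obtain ⟨q, rfl⟩ := hz ((g.lin + 1) z) (m z a0) (by rwa [← hs]) p (by
        simpa only [map_add, map_smul, a2 z a0, smul_zero, add_zero, map_zero, hs p] using
          congrArg (fun w => (g.lin + 1) w) h)
      rw [mul_comm, mul_smul, h0 z a0, smul_zero, zero_add, smul_eq_zero] at h
      exact ⟨dvd_mul_right _ _, by simp [h.resolve_right a1]⟩
    refine ⟨2 * k + 1, x, b0, _, add_mem b0 a0, db_two hX hW (fun v hv => by
      rw [pow_succ', Module.End.mul_apply, hT v hv, a2 v hv]) (fun v hv => ?_) b0 a0 b1 b2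
      (by rw [hT z a0, b3]; exact one_ne_zero)⟩
    have := h2 1 v hv
    rw [one_mul, lam] at this
    rw [hT v hv, N_apply, polar_add_left, s_alt hX, s_comm hX, this, add_zero]

omit hQ in
theorem CB.toX {π : F[X]} {k : ℕ} (h : CB g π k x) (d : π ∣ X) : CB g X k x := by
  obtain ⟨c, hc⟩ := (h.prime.irreducible.associated_of_dvd irreducible_X d).symm.dvd
  obtain ⟨s, hs⟩ := h.ne
  exact ⟨prime_X, h.ann hX (pow_dvd_pow_of_dvd d _) (self_mem_cy x), s * c ^ k, by
    rwa [hc, mul_pow, mul_comm (X ^ k), ← mul_assoc] at hs⟩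

theorem exists_blk_of (hU : IN g U) {π : F[X]} (hπ : Prime π) {w : V} (hw : w ∈ U) (h0 : w ≠ 0)
    (h : π • w = 0) : (∃ k, ∃ x ∈ U, CB g π k x) ∨ (π ∣ X ∧ ∃ n, ∃ x ∈ U, ∃ y ∈ U, DB g n x y) := by
  obtain ⟨n, hn1, hn⟩ := ((Filter.eventually_ge_atTop 1).and
    (LinearMap.eventually_isCompl_ker_pow_range_pow (Algebra.lsmul F F V π))).exists
  rw [← map_pow] at hn
  have hK : IN g (LinearMap.ker (Algebra.lsmul F F V (π ^ n))) :=
    ⟨fun x (hx : π ^ n • x = 0) => show π ^ n • g x = 0 by rw [← s_comm hX, hx, map_zero],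
    fun x (hx : π ^ n • x = 0) hh => eq_zero_of_polar hQ fun y => by
      obtain ⟨a, ha, _, ⟨b, rfl⟩, rfl⟩ :=
        Submodule.mem_sup.1 (hn.sup_eq_top.ge (Submodule.mem_top (x := y)))
      rw [polar_add_right, pc (hh a ha), zero_add]
      exact (s_adj hX _ _ _).symm.trans (by rw [hx, polar_zero_left])⟩
  obtain ⟨W, le, hW, hw', h1⟩ : ∃ W ≤ U, IN g W ∧ w ∈ W ∧ ∃ n, ∀ v ∈ W, π ^ n • v = 0 := by
    refine ⟨U ⊓ LinearMap.ker (Algebra.lsmul F F V (π ^ n)), inf_le_left, ⟨fun x hx =>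
      ⟨hU.inv x hx.1, hK.inv x hx.2⟩, fun x hx hh => hK.nd x hx.2 fun y hy => ?_⟩,
      ⟨hw, show π ^ n • w = 0 by rw [← Nat.sub_add_cancel hn1, pow_succ, mul_smul, h, smul_zero]⟩,
      n, fun v hv => hv.2⟩
    obtain ⟨a, ha, b, hb, rfl⟩ := hU.nd.exists_decomp hQ y
    have := smul_mem_of hX (perp_inv hU.inv) (π ^ n) hb
    rw [eq_neg_of_add_eq_zero_right ((smul_add _ _ _).symm.trans hy), neg_mem_iff] at this
    rw [polar_add_left, mem_perp'.1 hb x hx.1, add_zero]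
    exact hh a ⟨ha, hU.nd _ (smul_mem_of hX hU.inv _ ha) (mem_perp.1 this)⟩
  classical
  obtain ⟨k, hk⟩ : ∃ k, Nat.find h1 = k + 1 := Nat.exists_eq_succ_of_ne_zero fun e => h0 (by
    simpa [e] using Nat.find_spec h1 w hw')
  have h2 := hk ▸ Nat.find_spec h1
  have h3 := Nat.find_min h1 (m := k) (by omega)
  by_cases h4 : ∀ (s : F[X]), ∀ v ∈ W, lam g v (s * π ^ k) = 0
  swap
  · push Not at h4
    obtain ⟨s, x, hx, hx'⟩ := h4
    exact .inl ⟨k, x, le hx, hπ, h2 x hx, s, hx'⟩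
  let I : Ideal F[X] :=
    { carrier := {b | ∀ v ∈ W, b • v = 0}
      add_mem' := fun ha hb v hv => by rw [add_smul, ha v hv, hb v hv, add_zero]
      zero_mem' := fun v _ => zero_smul _ v
      smul_mem' := fun c b hb v hv => by rw [smul_eq_mul, mul_smul, hb v hv, smul_zero] }
  have h5 := pow_dvd_of_mem hπ (I := I) h2 h3 (b := π ^ k * X) fun u hu =>
    hW.nd _ (smul_mem_of hX hW.inv _ hu) fun v hv => by
      have := h4 1 (u + v) (add_mem hu hv)
      have a1 := h4 1 u hu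
      have a2 := h4 1 v hv
      simp only [lam, one_mul] at this a1 a2
      simp only [map_add, smul_add, polar_add_left, polar_add_right, a1, a2] at this
      rw [polar_comm, mul_smul, hX, smul_add, polar_add_left, s_adj hX _ (g⁻¹ u),
        O.polar_apply_left g⁻¹, inv_inv, s_comm hX, polar_comm Q u]
      simpa [add_comm] using this
  rw [pow_succ, mul_dvd_mul_iff_left (pow_ne_zero _ hπ.ne_zero)] at h5
  refine .inr ⟨h5, ?_⟩
  obtain ⟨c, hc⟩ := h5
  obtain ⟨d, hd⟩ := (hπ.irreducible.associated_of_dvd irreducible_X ⟨c, hc⟩).symm.dvd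
  obtain ⟨n, x, hx, y, hy, D⟩ := db_nil hX hQ hW (k := k)
    (fun v hv => by rw [hc, mul_pow, mul_comm, mul_smul, h2 v hv, smul_zero])
    (by
      by_contra! e
      exact h3 fun v hv => by rw [hd, mul_pow, mul_comm, mul_smul, e v hv, smul_zero])
    fun s v hv => by rw [hc, mul_pow, mul_comm (π ^ k), ← mul_assoc, h4 _ v hv]
  exact ⟨n, x, le hx, y, le hy, D⟩

omit hQ in
theorem exists_prime (hU : IN g U) (h0 : U ≠ ⊥) :
    ∃ π : F[X], Prime π ∧ ∃ w ∈ U, w ≠ 0 ∧ π • w = 0 := by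
  obtain ⟨v, hv, hv'⟩ := U.ne_bot_iff.1 h0
  obtain ⟨p, h0, h⟩ : ∃ p : F[X], p ≠ 0 ∧ p • v = 0 := by
    by_contra! e
    have := FiniteDimensional.of_injective ((LinearMap.toSpanSingleton F[X] V v).restrictScalars F)
      ((injective_iff_map_eq_zero _).2 fun p hp => by_contra fun h => e p h hp)
    exact Polynomial.not_finite this
  induction p using UniqueFactorizationMonoid.induction_on_prime with
  | h₁ => exact absurd rfl h0
  | h₂ p hu => exact absurd ((hu.smul_eq_zero).1 h) hv'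
  | h₃ a p ha hp ih =>
    by_cases e : a • v = 0
    exacts [ih ha e, ⟨p, hp, _, smul_mem_of hX hU.inv a hv, e, by rw [← mul_smul, h]⟩]

theorem exists_blk (hU : IN g U) (h0 : U ≠ ⊥) : (∃ k, ∃ x ∈ U, CB g X k x) ∨
    (∃ π k, ∃ x ∈ U, CB g π k x ∧ ¬ π ∣ X) ∨ ∃ n, ∃ x ∈ U, ∃ y ∈ U, DB g n x y := by
  obtain ⟨π, hπ, w, h1, h2, h3⟩ := exists_prime hX hU h0
  obtain ⟨k, x, hx, h⟩ | h := exists_blk_of hX hQ hU hπ h1 h2 h3
  · by_cases d : π ∣ X
    exacts [.inl ⟨k, x, hx, h.toX hX d⟩, .inr (.inl ⟨π, k, x, hx, h, d⟩)]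
  · exact .inr (.inr h.2)

end H93.Or
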