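/- Ore tower, characteristic two: pairs of equal rank. -/
import Cfsg.Agent.H93.OrB

set_option autoImplicit false
set_option linter.unusedSectionVars false

namespace H93.Or
open H56 H60 H93.O2 H93.FS QuadraticMap Module Polynomial

variable {F V : Type*} [Field F] [Finite F] [CharP F 2] [AddCommGroup V] [Module F V]
  [FiniteDimensional F V] {Q : QuadraticForm F V} {g s t : O Q} {U W : Submodule F V} {x y : V}
  {n k : ℕ} {π : F[X]} {d : ℤ} {A B : Prop}

theorem Has.swap0 (h : Has g U 0 A B) : Has g U 0 B A := by simpa using h.swap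

variable (hQ : Q.polarBilin.Nondegenerate)
include hQ

theorem IN.ind {P : Submodule F V → Prop} (h0 : P ⊥) (h : ∀ U, IN g U → U ≠ ⊥ →
    (∀ W ≤ U, IN g W → W ≠ ⊥ → P (U ⊓ perp Q W)) → P U) (hU : IN g U) : P U := by
  induction hn : finrank F U using Nat.strong_induction_on generalizing U with
  | _ n ih =>
  by_cases e : U = ⊥
  · exact e ▸ h0
  refine h U hU e fun W le hW hW' => ih _ ?_ (hU.split hQ hW le).1 rfl
  have := hU.finrank_split hQ hW le
  have := Submodule.one_le_finrank_iff.2 hW'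
  omega

theorem Has.ext {d' : ℤ} {A' B' : Prop} (hU : IN g U) (hW : IN g W) (le : W ≤ U) (h : Has g W d A B)
    (h' : Has g (U ⊓ perp Q W) d' A' B') : Has g U (d + d') (A ∨ A') (B ∨ B') := by
  have := h.add hQ h' hW.nd (hU.split hQ hW le).1.nd inf_le_right
  rwa [(hU.split hQ hW le).2] at this

theorem IN.rest_ne (hU : IN g U) (hW : IN g W) (le : W ≤ U) (ne : W ≠ U) : U ⊓ perp Q W ≠ ⊥ :=
  fun e => ne (by rw [← (hU.split hQ hW le).2, e, sup_bot_eq])

variable [Module F[X] V] [IsScalarTower F F[X] V] (hX : ∀ v, (X : F[X]) • v = g v + g⁻¹ v)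
include hX

theorem CB.halfP (h : CB g π k x) (hπ : ¬ π ∣ X) : Has g (cs g x) 0 True False :=
  (h.side hX).elim (fun e => (h.hasP hX hQ hπ).mono (fun _ => e) False.elim)
    fun e => ((h.hasP hX hQ hπ).mono False.elim fun _ => e).swap0

omit hQ in
theorem CB.par (h : CB g X k x) {j : ℕ} (e : lam g x (X ^ j) ≠ 0) :
    (Even j → ∃ p, lam g x (p * p) ≠ 0) ∧ (Odd j → ∃ p, lam g x (X * (p * p)) ≠ 0) :=
  ⟨fun ⟨i, hi⟩ => ⟨X ^ i, by rwa [← pow_add, ← hi]⟩, fun ⟨i, hi⟩ => ⟨X ^ i, by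
    rwa [← pow_add, ← pow_succ', ← two_mul, ← hi]⟩⟩

theorem CB.hasV' (h : CB g X k x) : Has g (cs g x) 1 (Even k) (Odd k) :=
  (h.hasV hX hQ).mono (h.par hX (h.lamX hX)).1 (h.par hX (h.lamX hX)).2

theorem exists_half (hU : IN g U) (h0 : U ≠ ⊥) : ∃ W ≤ U, IN g W ∧ W ≠ ⊥ ∧
    (Has g W 0 True False ∨ Has g W 1 True False ∨ Has g W (-1) True False) := by
  obtain ⟨k, x, hx, h⟩ | ⟨π, k, x, hx, h, d⟩ | ⟨n, x, hx, y, hy, h⟩ := exists_blk hX hQ hU h0
  · exact ⟨_, cs_le hX hU.inv hx, h.in hX, h.ne_bot, .inr ((Nat.even_or_odd k).imp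
      (fun e => (h.hasV' hQ hX).mono (fun _ => e) False.elim)
      fun e => (h.hasV' hQ hX).swap.mono (fun _ => e) False.elim)⟩
  · exact ⟨_, cs_le hX hU.inv hx, h.in hX, h.ne_bot, .inl (h.halfP hQ hX d)⟩
  · exact ⟨_, sup_le (cs_le hX hU.inv hx) (cs_le hX hU.inv hy), h.in hX, h.ne_bot, .inl (h.half hX hQ)⟩

theorem IN.bal (hU : IN g U) : ∃ d : ℤ, -1 ≤ d ∧ d ≤ 1 ∧ Has g U d (U ≠ ⊥) False := by
  refine hU.ind hQ (P := fun U => ∃ d : ℤ, -1 ≤ d ∧ d ≤ 1 ∧ Has g U d (U ≠ ⊥) False)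
    ⟨0, by omega, by omega, Has.bot.mono (fun h => h rfl) id⟩ fun U hU h0 ih => ?_
  obtain ⟨W, le, hW, h1, h2⟩ := exists_half hQ hX hU h0
  obtain ⟨d, d1, d2, h3⟩ := ih W le hW h1
  have k : ∀ e : ℤ, -1 ≤ e → e ≤ 1 → Has g W e True False →
      ∃ d : ℤ, -1 ≤ d ∧ d ≤ 1 ∧ Has g U d (U ≠ ⊥) False := fun e e1 e2 h => by
    by_cases c : -1 ≤ e + d ∧ e + d ≤ 1
    · exact ⟨_, c.1, c.2, (h.ext hQ hU hW le h3).mono (fun _ => .inl trivial) False.elim⟩
    · exact ⟨e + -d, by omega, by omega, (h.ext hQ hU hW le h3.swap).mono (fun _ => .inl trivial)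
        False.elim⟩
  rcases h2 with h | h | h <;> exact k _ (by omega) (by omega) h

theorem Has.half (h : Has g U d A B) (hU : IN g U) (e : d % 2 = 0) : Has g U 0 (U ≠ ⊥) False := by
  obtain ⟨d', d1, d2, h'⟩ := hU.bal hQ hX
  have := h.par hQ h' hU.nd
  rwa [show d' = 0 by omega] at h'

/-- the parity of the complement -/
theorem Has.rest {d' : ℤ} {A' B' : Prop} (h : Has g U d A B) (h' : Has g W d' A' B') (hU : IN g U)
    (hW : IN g W) (le : W ≤ U) :
    ∃ e : ℤ, -1 ≤ e ∧ e ≤ 1 ∧ (d - d' - e) % 2 = 0 ∧ Has g (U ⊓ perp Q W) e (W ≠ U) False := by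
  obtain ⟨e, e1, e2, h3⟩ := (hU.split hQ hW le).1.bal hQ hX
  have := h.par hQ (h'.ext hQ hU hW le h3) hU.nd
  exact ⟨e, e1, e2, by omega, h3.mono (hU.rest_ne hQ hW le) id⟩

theorem Has.rest0 {d' : ℤ} {A' B' : Prop} (h : Has g U d A B) (h' : Has g W d' A' B') (hU : IN g U)
    (hW : IN g W) (le : W ≤ U) (p : (d - d') % 2 = 0) : Has g (U ⊓ perp Q W) 0 (W ≠ U) False := by
  obtain ⟨e, e1, e2, e3, h3⟩ := h.rest hQ hX h' hU hW le
  rwa [show e = 0 by omega] at h3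

theorem gg_sub (h : Has g U 0 A B) (hU : IN g U) (hW : IN g W) (le : W ≤ U) (h' : Has g W d True True)
    (d1 : -1 ≤ d) (d2 : d ≤ 1) : Has g U 0 True True := by
  obtain ⟨e, e1, e2, e3, h3⟩ := h.rest hQ hX h' hU hW le
  by_cases c : d + e = 0
  · exact c ▸ (h'.ext hQ hU hW le h3).mono .inl .inl
  · exact (show d + -e = 0 by omega) ▸ (h'.ext hQ hU hW le h3.swap).mono .inl .inl

theorem gg_even (h : Has g U 0 A B) (hU : IN g U) (hW : IN g W) (le : W ≤ U) (ne : W ≠ U)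
    (h' : Has g W 0 True False) : Has g U 0 True True := by
  simpa using (h'.ext hQ hU hW le (h.rest0 hQ hX h' hU hW le rfl).swap0).mono .inl fun _ => .inr ne

omit hQ in
theorem lam_orth (o : cs g y ≤ perp Q (cs g x)) (p : F[X]) :
    lam g (x + y) p = lam g x p + lam g y p := by
  have m : ∀ x, p • g x ∈ cs g x := fun x => mem_cs.2 ⟨0, p, by simp⟩
  simp only [lam, map_add, smul_add, polar_add_left, polar_add_right,
    mem_perp.1 (o (self_mem_cy y)) _ (m x), mem_perp'.1 (o (m y)) x (self_mem_cy x), add_zero, zero_add]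

theorem gg_mix {l : ℕ} (h : Has g U 0 A B) (hU : IN g U) (hx : x ∈ U) (hy : y ∈ U) (a : CB g X k x)
    (b : CB g X l y) (o : cs g y ≤ perp Q (cs g x)) (lt : l < k) (p : Even k ↔ Odd l) :
    Has g U 0 True True := by
  have key : ∀ u ∈ U, CB g X k u → lam g u (X ^ l) ≠ 0 → Has g U 0 True True := fun u hu c e => by
    have a1 := c.par hX e
    have a2 := c.par hX (c.lamX hX)
    refine gg_sub hQ hX h hU (c.in hX) (cs_le hX hU.inv hu) ((c.hasV hX hQ).mono (fun _ => ?_)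
      fun _ => ?_) (by omega) le_rfl
    · exact (Nat.even_or_odd k).elim a2.1 fun e => a1.1 (by grind)
    · exact (Nat.even_or_odd k).elim (fun e => a1.2 (p.1 e)) a2.2
  by_cases e : lam g x (X ^ l) = 0
  · refine key (x + y) (add_mem hx hy) ⟨prime_X, ?_, 1, ?_⟩ ?_
    · rw [smul_add, a.kill, b.ann hX (pow_dvd_pow _ (by omega)) (self_mem_cy y), add_zero]
    · rw [lam_orth hX o, one_mul, b.lam_zero hX (pow_dvd_pow _ lt), add_zero]
      exact a.lamX hX
    · rw [lam_orth hX o, e, zero_add]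
      exact b.lamX hX
  · exact key x hx a e

theorem gg_two {l : ℕ} (h : Has g U 0 A B) (hU : IN g U) (hx : x ∈ U) (hy : y ∈ U) (a : CB g X k x)
    (b : CB g X l y) (o : cs g y ≤ perp Q (cs g x)) : Has g U 0 True True := by
  by_cases p : Even k ↔ Odd l
  · rcases lt_trichotomy l k with e | e | e
    · exact gg_mix hQ hX h hU hx hy a b o e p
    · grind
    · exact gg_mix hQ hX h hU hy hx b a (le_perp_symm o) e (by grind)
  exact gg_sub hQ hX h hU ((a.in hX).sup (b.in hX) o) (sup_le (cs_le hX hU.inv hx) (cs_le hX hU.inv hy))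
    (((a.hasV' hQ hX).add hQ (b.hasV' hQ hX).swap (a.in hX).nd (b.in hX).nd o).mono
      (fun _ => by grind) fun _ => by grind) (by omega) (by omega)

theorem exists_V (hU : IN g U) (h : Has g U d A B) (o : d % 2 = 1) : ∃ k, ∃ x ∈ U, CB g X k x := by
  refine hU.ind hQ (P := fun U => ∀ d A B, Has g U d A B → d % 2 = 1 → ∃ k, ∃ x ∈ U, CB g X k x)
    (fun d A B h o => ?_) (fun U hU h0 ih d A B h o => ?_) d A B h o
  · have := h.par hQ Has.bot fun _ hx _ => hx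
    omega
  have key : ∀ W ≤ U, IN g W → W ≠ ⊥ → Has g W 0 True False → ∃ k, ∃ x ∈ U, CB g X k x :=
    fun W le hW h1 h2 => by
    obtain ⟨e, -, -, e3, h3⟩ := h.rest hQ hX h2 hU hW le
    obtain ⟨k, x, hx, c⟩ := ih W le hW h1 _ _ _ h3 (by omega)
    exact ⟨k, x, hx.1, c⟩
  obtain h | ⟨π, k, x, hx, h, d⟩ | ⟨n, x, hx, y, hy, h⟩ := exists_blk hX hQ hU h0
  · exact h
  · exact key _ (cs_le hX hU.inv hx) (h.in hX) h.ne_bot (h.halfP hQ hX d)
  · exact key _ (sup_le (cs_le hX hU.inv hx) (cs_le hX hU.inv hy)) (h.in hX) h.ne_bot (h.half hX hQ)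

omit hQ in
theorem CB.good' (h : CB g π k x) (hπ : ¬ π ∣ X) (h5 : 5 ≤ finrank F (cs g x)) :
    ∃ x', CB g π k x' ∧ cs g x' = cs g x ∧ (∃ p, lam g x' (p * p) ≠ 0) ∧
      ∃ p, lam g x' (X * (p * p)) ≠ 0 := by
  refine h.exists_good hX hπ (or_iff_not_imp_left.2 fun e => by_contra fun hk => ?_)
  have m : (X + C 1 : F[X]).Monic := monic_X_add_C 1
  have := finrank_cs hX (m.pow 2) (h.ann hX ((pow_dvd_pow π (by omega)).trans
    (pow_dvd_pow_of_dvd (by simpa using e) 2)) (self_mem_cy x))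
  rw [m.natDegree_pow, natDegree_X_add_C] at this
  omega

theorem gg (h : Has g U 0 A B) (hU : IN g U) (h5 : 5 ≤ finrank F U) : Has g U 0 True True := by
  obtain ⟨k, x, hx, c⟩ | ⟨π, k, x, hx, c, d⟩ | ⟨n, x, hx, y, hy, c⟩ := exists_blk hX hQ hU (by
    rintro rfl; simp at h5)
  · have le := cs_le hX hU.inv hx
    obtain ⟨e, -, -, e3, h3⟩ := h.rest hQ hX (c.hasV hX hQ) hU (c.in hX) le
    have hR := (hU.split hQ (c.in hX) le).1
    obtain ⟨l, y, hy, c'⟩ := exists_V hQ hX hR h3 (by omega)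
    exact gg_two hQ hX h hU hx hy.1 c c' ((cs_le hX hR.inv hy).trans inf_le_right)
  · have le := cs_le hX hU.inv hx
    by_cases e : cs g x = U
    · obtain ⟨x', c', e', h1, h2⟩ := c.good' hX d (e ▸ h5)
      exact e ▸ e' ▸ (c'.hasP hX hQ d).mono (fun _ => h1) fun _ => h2
    · exact gg_even hQ hX h hU (c.in hX) le e (c.halfP hQ hX d)
  · have le := sup_le (cs_le hX hU.inv hx) (cs_le hX hU.inv hy)
    by_cases e : cs g x ⊔ cs g y = U
    · refine e ▸ c.good hX hQ ?_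
      rintro rfl
      have := e ▸ c.finrank_one hX
      omega
    · exact gg_even hQ hX h hU (c.in hX) le e (c.half hX hQ)

end H93.Or
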