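/- Ore tower, symplectic groups over the field with two elements: one transvection. -/
import Cfsg.Agent.H93.OrG
import Cfsg.Agent.H94.OrT
import Cfsg.Agent.H95.OrE
import Cfsg.Agent.H30.OrW

set_option autoImplicit false
set_option linter.unusedSectionVars false

namespace H93.Or
open H56 H60 H93.O2 H93.FS QuadraticMap Module Polynomial

universe u

theorem Cm.inv {G : Type*} [Group G] {x : G} (h : Cm x⁻¹) : Cm x := by
  obtain ⟨a, b, e⟩ := h
  exact ⟨b, a, by rw [← inv_inv x, e]; group⟩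

theorem eq_one {F : Type*} [Field F] (h2 : Nat.card F = 2) {c : F} (h : c ≠ 0) : c = 1 :=
  ((Nat.card_eq_two_iff' (0 : F)).1 h2).unique h one_ne_zero

variable {F V : Type u} [Field F] [Finite F] [CharP F 2] [AddCommGroup V] [Module F V]
  [FiniteDimensional F V] {Q : QuadraticForm F V} {g s t s' t' : O Q} {U W : Submodule F V}
  {x y a b e : V} {n k : ℕ} {π : F[X]} {d : ℤ} {A B : Prop}

theorem mem_p1 : a ∈ Submodule.span F {a, b} := Submodule.subset_span (by simp)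

theorem mem_p2 : b ∈ Submodule.span F {a, b} := Submodule.subset_span (by simp)

theorem Tv.ne (h : Tv g a b) : polar Q a b ≠ 0 := h.ab ▸ one_ne_zero

theorem Tv.q (h : Tv g a b) : Q a = 1 := by
  have := g.map_Q b
  rw [h.gb, Q_add, polar_comm, h.ab, add_assoc, add_eq_left] at this
  exact CharTwo.add_eq_zero.1 this

theorem Tv.in (h : Tv g a b) : IN g (Submodule.span F {a, b}) :=
  ⟨fun x hx => by
    obtain ⟨c, d, rfl⟩ := Submodule.mem_span_pair.1 hx
    exact Submodule.mem_span_pair.2 ⟨c + d, d, by rw [map_add, map_smul, map_smul, h.ga, h.gb]; module⟩,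
   nondeg_pair h.ne⟩

theorem mov_refl_le (h : a ∈ U) : (refl Q a).mov ≤ U := fun m hm => by
  obtain ⟨x, rfl⟩ := O.mem_mov.1 hm
  simpa [refl_apply] using U.smul_mem _ h

theorem mov_one_le : (1 : O Q).mov ≤ U := by simp [O.mov, O.lin_one]

theorem rk_one' : (1 : O Q).rk = 0 := by rw [O.rk, le_bot_iff.1 mov_one_le, finrank_bot]

theorem Tv.ra (h : Tv g a b) : refl Q a a = a := refl_apply_of_orth (pself2 a)

theorem Tv.rb (h : Tv g a b) : refl Q a b = b + a := by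
  rw [refl_apply, h.q, h.ab, sub_eq_iff_eq_add, add_assoc]
  simp [vadd_self (F := F)]

theorem Tv.pr (h : Tv g a b) : Pr g (Submodule.span F {a, b}) (refl Q a) 1 :=
  ⟨refl_mul_self a, one_mul _, mov_refl_le mem_p1, mov_one_le, fun x hx => by
    obtain ⟨c, d, rfl⟩ := Submodule.mem_span_pair.1 hx
    simp only [O.one_apply, map_add, map_smul, h.ra, h.rb, h.ga, h.gb]⟩

theorem Tv.pr' (h : Tv g a b) : Pr g (Submodule.span F {a, b}) 1 (refl Q a) :=
  ⟨one_mul _, refl_mul_self a, mov_one_le, mov_refl_le mem_p1, h.pr.st⟩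

theorem Tv.mov (h : Tv g a b) : a ∈ (refl Q a).mov := O.mem_mov.2 ⟨b, by rw [h.rb]; abel⟩

theorem Pp.of {A B : List V} (h : Submodule.span F {b | b ∈ B} ≤ perp Q U) (hA : ∀ a ∈ A, a ∈ U) :
    Pp Q A B := fun a ha _ hb => mem_perp.1 (h (Submodule.subset_span hb)) a (hA a ha)

theorem CmS.top {S : Set V} (hQ : Q.polarBilin.Nondegenerate) (h : CmS S g)
    (e : ⊤ ≤ Submodule.span F S) : Cm (inc Q g) := by
  obtain ⟨x, h, e, -⟩ := h fun y hy => by
    rw [eq_zero_of_polar hQ (x := y) fun v => mem_perp'.1 (mem_perp_span.2 hy) v (e trivial), map_zero]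
  exact ⟨x, h, e⟩

variable (hQ : Q.polarBilin.Nondegenerate)
include hQ

theorem Tv.rk (h : Tv g a b) : (refl Q a).rk = 1 := rk_refl hQ (h.q ▸ one_ne_zero)

theorem Tv.has (h : Tv g a b) : Has g (Submodule.span F {a, b}) 1 False False :=
  ⟨_, _, h.pr, by simp [h.rk hQ, rk_one'], by rw [h.rk hQ, finrank_pair h.ne]; omega, False.elim,
    False.elim⟩

theorem IN.perp (h : IN g W) : IN g (perp Q W) := ⟨perp_inv h.inv, h.nd.perp hQ⟩

omit hQ in
theorem IN.top (hQ : Q.polarBilin.Nondegenerate) : IN g ⊤ :=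
  ⟨fun _ _ => trivial, fun _ _ h => eq_zero_of_polar hQ fun y => pc (h y trivial)⟩

theorem mul_l (h' : s'.mov ≤ W) (o : W ≤ perp Q U) (hy : y ∈ U) : (s * s') y = s y := by
  rw [O.mul_apply, fix_of_mov hQ h' (le_perp_symm o hy)]

theorem mul_r (h : s.mov ≤ U) (h' : s'.mov ≤ W) (o : W ≤ perp Q U) (hy : y ∈ W) :
    (s * s') y = s' y := by
  rw [O.mul_apply, fix_of_mov hQ h (o (mem_of_mov h' hy))]

theorem mov_le_mul' (hW : Nondeg Q W) (h : s.mov ≤ U) (h' : s'.mov ≤ W) (o : W ≤ perp Q U) :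
    s'.mov ≤ (s * s').mov := comm_of_mov hQ h h' o ▸ mov_le_mul hQ hW h' h (le_perp_symm o)

theorem NA.mem (n : NA s) (hU : Nondeg Q U) (h : s.mov ≤ U) : ∃ y ∈ U, polar Q y (s y) ≠ 0 := by
  obtain ⟨v, hv⟩ := n
  obtain ⟨a, ha, b, hb, rfl⟩ := hU.exists_decomp hQ v
  refine ⟨a, ha, ?_⟩
  simpa only [map_add, fix_of_mov hQ h hb, polar_add_left, polar_add_right, pself2, add_zero,
    mem_perp.1 hb a ha, mem_perp'.1 hb _ (mem_of_mov h ha)] using hv

theorem Pr.cm (p : Pr g ⊤ s t) (r : s.rk = t.rk) (ns : NA s) (nt : NA t) : Cm (inc Q g) := by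
  obtain ⟨k, -, e⟩ := exists_conj hQ (IN.top (g := g) hQ).nd p.ss p.tt p.sm p.tm r ns nt
  refine ⟨inc Q s, inc Q k, ?_⟩
  rw [← p.top, ← e, ← map_inv, inv_eq_of_mul_eq_one_right p.ss]
  simp only [map_mul, map_inv, mul_assoc]

theorem sp_comm {x : Sp Q} (hx : ∀ y ∈ perp Q W, x • y = y) (h : s.mov ≤ perp Q W) :
    Commute x (inc Q s) := Subtype.ext (LinearEquiv.ext fun v => by
  have e : x • v - v ∈ perp Q (perp Q W) := mem_perp.2 fun r hr => by
    rw [polar_sub_right, ← sp_polar x r v, hx r hr, sub_self]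
  change x • s v = s (x • v)
  rw [← add_sub_cancel v (s v), smul_add, hx _ (h (s.sub_mem_mov v)), ← add_sub_cancel v (x • v),
    map_add, fix_of_mov hQ h e]
  abel)

theorem cm_rest {S : Set V} (hW : IN g W) (hS : Submodule.span F S = W)
    (h : ∀ g' : O Q, (∀ w ∈ W, g' w = g w) → CmS S g') (h' : Has g (perp Q W) 0 True True) :
    Cm (inc Q g) := by
  obtain ⟨s, t, p, r, -, ns, nt⟩ := h'
  obtain ⟨k, hk, e⟩ := exists_conj hQ (hW.nd.perp hQ) p.ss p.tt p.sm p.tm (by omega) (ns trivial)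
    (nt trivial)
  obtain ⟨x, y, e1, e2⟩ := h (g * (t * s)) (fun w hw => by
    rw [O.mul_apply, mul_l hQ p.sm le_rfl hw, fix_of_mov hQ p.tm (le_perp_symm le_rfl hw)])
    fun y hy => by
      rw [← mem_perp_span, hS] at hy
      rw [O.mul_apply, O.mul_apply, ← p.st _ (mem_of_mov p.tm (mem_of_mov p.sm hy)),
        ← O.mul_apply t t, p.tt, O.one_apply, ← O.mul_apply s s, p.ss, O.one_apply]
  simp only [← mem_perp_span, hS] at e2
  have c1 := sp_comm hQ (fun y hy => (e2 y hy).1) p.sm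
  have c2 := sp_comm hQ (fun y hy => (e2 y hy).1) hk
  have c3 := sp_comm hQ (fun y hy => (e2 y hy).2) p.sm
  have c4 := sp_comm hQ (fun y hy => (e2 y hy).2) hk
  have e3 : g = g * (t * s) * (s * k * s⁻¹ * k⁻¹) := by
    rw [inv_eq_of_mul_eq_one_right p.ss, mul_assoc s k, mul_assoc s, e, mul_assoc, mul_assoc,
      ← mul_assoc s, p.ss, one_mul, p.tt, mul_one]
  refine ⟨x * inc Q s, y * inc Q k, ?_⟩
  rw [e3, map_mul, e1]
  simp only [map_mul, map_inv]
  generalize inc Q s = a at *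
  generalize inc Q k = b at *
  have c5 := ((c1.mul_right c2).mul_right c1.inv_right).inv_left.eq
  have c6 := (((c3.mul_right c4).mul_right c3.inv_right).mul_right c4.inv_right).inv_left.eq
  calc _ = x * y * x⁻¹ * (y⁻¹ * (a * b * a⁻¹ * b⁻¹)) := by group
    _ = x * y * (x⁻¹ * (a * b * a⁻¹)) * b⁻¹ * y⁻¹ := by rw [c6]; group
    _ = x * (y * a) * b * a⁻¹ * x⁻¹ * b⁻¹ * y⁻¹ := by rw [c5]; group
    _ = _ := by rw [c3.eq]; group

variable [Module F[X] V] [IsScalarTower F F[X] V] (hX : ∀ v, (X : F[X]) • v = g v + g⁻¹ v)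
include hX

theorem te (odd : Has g ⊤ 1 A B) (hW : IN g W) (p : Pr g W s t) (r : s.rk = t.rk + 1) (e1 : e ∈ s.mov)
    (e2 : Q e = 0) (e3 : t e = e) (hy : y ∈ W) (y1 : t y = y) (y2 : polar Q y e ≠ 0)
    (h : W ≠ ⊤ ∨ ∃ y ∈ W, polar Q y (s y) ≠ polar Q y e ^ 2) : Cm (inc Q g) := by
  obtain ⟨d, -, -, h1⟩ := hW.bal hQ hX
  have := p.par hQ h1 hW.nd
  have h2 := odd.rest0 hQ hX h1 (IN.top hQ) hW le_top (by omega)
  rw [top_inf_eq] at h2
  obtain ⟨s', t', p', r', -, n, -⟩ := h2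
  have hR := hW.nd.perp hQ
  have P := p.add hQ p' hW.nd hR le_rfl
  rw [(hW.nd.isCompl hQ).sup_eq_top] at P
  rw [← P.top]
  refine H94.OrT.jobTE F V Q hQ _ _ e P.ss P.tt ?_ (mov_le_mul hQ hW.nd p.sm p'.sm le_rfl e1) e2
    (by rw [mul_l hQ p'.tm le_rfl (p.sm e1), e3]) ⟨y, by rw [mul_l hQ p'.tm le_rfl hy, y1], y2⟩ ?_
  · rw [rk_mul hQ hW.nd hR p.sm p'.sm le_rfl, rk_mul hQ hW.nd hR p.tm p'.tm le_rfl]
    omega
  · obtain h | ⟨y, hy, h⟩ := h
    · obtain ⟨y, hy, h⟩ := (n h).mem hQ hR p'.sm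
      exact ⟨y, by rwa [mul_r hQ p.sm p'.sm le_rfl hy, mem_perp'.1 hy e (p.sm e1), zero_pow two_ne_zero]⟩
    · exact ⟨y, by rwa [mul_l hQ p'.sm le_rfl hy]⟩

omit hQ in
theorem CB.gen (h : CB g X k x) (hk : 2 ≤ k) : ∃ x', CB g X k x' ∧ cs g x' = cs g x ∧
    ∃ p, lam g x' (p * p) ≠ lam g x' (p * X ^ k) ^ 2 := by
  obtain ⟨j, rfl | rfl⟩ := Nat.even_or_odd' k
  · refine ⟨x, h, rfl, X ^ j, ?_⟩
    rw [← pow_add, ← pow_add, ← two_mul, h.lam_zero hX (b := X ^ (j + 2 * j)) (pow_dvd_pow _ (by omega)),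
      zero_pow two_ne_zero]
    exact h.lamX hX
  obtain ⟨j, rfl⟩ := Nat.exists_eq_add_of_le' (show 1 ≤ j by omega)
  by_cases e : lam g x (X ^ j * X ^ j) = lam g x (X ^ j * X ^ (2 * (j + 1) + 1)) ^ 2
  swap
  · exact ⟨x, h, rfl, _, e⟩
  obtain ⟨h1, h2⟩ := h.comb hX (a := 1) (b := X * X) (by simp [X_dvd_iff])
  refine ⟨_, h1, h2, X ^ j, ?_⟩
  rw [lam_comb hX, lam_comb hX, show X ^ j * X ^ j * (1 * 1 + 1 * (X * X) * X + X * X * (X * X)) =
    X ^ j * X ^ j + (X ^ (2 * (j + 1) + 1) + X ^ (2 * (j + 1) + 1 + 1) : F[X]) by ring,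
    show X ^ j * X ^ (2 * (j + 1) + 1) * (1 * 1 + 1 * (X * X) * X + X * X * (X * X)) =
      X ^ j * X ^ (2 * (j + 1) + 1) + (X ^ (2 * (j + 1) + 1 + 1) * (X ^ (j + 2) + X ^ (j + 3)) : F[X]) by
        ring, lam_add, lam_add, lam_add, h.lam_zero hX dvd_rfl, h.lam_zero hX (dvd_mul_right _ _),
    add_zero, add_zero, e, ne_eq, add_eq_left]
  exact h.lamX hX

theorem cm_V0 (odd : Has g ⊤ 1 A B) (h : CB g X k x) (hk : 1 ≤ k)
    (c : cs g x ≠ ⊤ ∨ ∃ p, lam g x (p * p) ≠ lam g x (p * X ^ k) ^ 2) : Cm (inc Q g) := by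
  obtain ⟨s, t, p⟩ := h.pair hX hQ
  have := h.rkS hX hQ p
  have := h.rkV hX hQ p
  have e : s ((X ^ k : F[X]) • x + (0 : F[X]) • g x) - ((X ^ k : F[X]) • x + (0 : F[X]) • g x) =
      (X ^ k : F[X]) • x + (X ^ k : F[X]) • g x := by
    rw [p.sf]
    linear_combination (norm := module) -(X ^ k : F[X]) • two_sm (F := F) x
  refine te hQ hX odd (h.in hX) p.toPr (by omega) (e ▸ s.sub_mem_mov _) ?_ ?_ (mem_cy x 1 0)
    (by rw [p.tf, zero_mul, add_zero]) ?_ (c.imp id fun ⟨q, hq⟩ => ⟨_, mem_cy x q 0, ?_⟩)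
  · rw [← e, Q_sub_eq two0, p.polS hX, zero_mul, zero_add, ← pow_add]
    exact h.lam_zero hX (pow_dvd_pow _ (by omega))
  · rw [p.tf, add_smul, ← pow_succ, h.kill, add_zero]
  · simpa only [pol_cs hX, zero_mul, zero_add, one_mul] using h.lamX hX
  · simpa only [p.polS hX, pol_cs hX, zero_mul, zero_add] using hq

theorem cm_V (h6 : 6 ≤ finrank F V) (odd : Has g ⊤ 1 A B) (h : CB g X k x) (hk : 1 ≤ k) :
    Cm (inc Q g) := by
  by_cases e : 2 ≤ k
  · obtain ⟨x', h', -, c⟩ := h.gen hX e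
    exact cm_V0 hQ hX odd h' hk (.inr c)
  refine cm_V0 hQ hX odd h hk (.inl fun e' => ?_)
  have := finrank_cs hX (monic_X_pow _) h.kill
  rw [e', finrank_top, natDegree_X_pow] at this
  omega

omit hQ in
theorem CB.tv (h2 : Nat.card F = 2) (h : CB g X 0 x) : Tv g (x + g x) x :=
  ⟨by rw [map_add, g_g hX, ← s_comm hX, ← pow_one X, h.kill, map_zero, zero_add, add_comm],
    by rw [← add_assoc, vadd_self (F := F), zero_add], by
    rw [polar_add_left, pself2, zero_add]; exact eq_one h2 (by simpa [lam] using h.lamX hX)⟩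

theorem teT (odd : Has g ⊤ 1 A B) (T : Tv g a b) (hW : IN g W)
    (o : W ≤ perp Q (Submodule.span F {a, b})) (p : Pr g W s t) (r : s.rk = t.rk + 2) (e1 : e ∈ s.mov)
    (e2 : Q e = 0) (e3 : t e = e) (hy : y ∈ W) (y1 : t y = y) (y2 : polar Q y e ≠ 0)
    (h : Submodule.span F {a, b} ⊔ W ≠ ⊤ ∨ ∃ y ∈ W, polar Q y (s y) ≠ polar Q y e ^ 2) :
    Cm (inc Q g) :=
  te hQ hX odd (T.in.sup hW o) (T.pr'.add hQ p T.in.nd hW.nd o) (by
    rw [one_mul, rk_mul hQ T.in.nd hW.nd T.pr.sm p.tm o, T.rk hQ]; omega) (by rwa [one_mul]) e2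
    (by rw [mul_r hQ T.pr.sm p.tm o (p.sm e1), e3]) (Submodule.mem_sup_right hy)
    (by rw [mul_r hQ T.pr.sm p.tm o hy, y1]) y2
    (h.imp id fun ⟨y, hy, h⟩ => ⟨y, Submodule.mem_sup_right hy, by rwa [one_mul]⟩)

theorem cm_D (h2 : Nat.card F = 2) (h6 : 6 ≤ finrank F V) (odd : Has g ⊤ 1 A B) (T : Tv g a b)
    (D : DB g n x y) (o : cs g x ⊔ cs g y ≤ perp Q (Submodule.span F {a, b})) : Cm (inc Q g) := by
  rcases n with _ | n
  · have hW := D.in hX
    obtain ⟨s, t, p, r, -, ns, -⟩ := D.half hX hQ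
    obtain ⟨i, hi, qi⟩ := (na_iff s).1 (ns trivial)
    have f : ∀ v ∈ cs g x ⊔ cs g y, g v = v := fun v hv => D.fix hv
    have m := p.sm hi
    have ti : t i = i := s.injective (by
      rw [p.st i m, f i m, O.mem_fix.1 (mov_le_fix two0 (by rw [pow_two, p.ss]) hi)])
    refine te hQ hX odd (T.in.sup hW o) (T.pr.add hQ p T.in.nd hW.nd o) (e := a + i) (y := b) (by
      rw [one_mul, rk_mul hQ T.in.nd hW.nd T.pr.sm p.sm o, T.rk hQ]; omega)
      (add_mem (mov_le_mul hQ T.in.nd T.pr.sm p.sm o T.mov) (mov_le_mul' hQ hW.nd T.pr.sm p.sm o hi))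
      (by rw [Q_add, T.q, eq_one h2 qi, mem_perp.1 (o m) a mem_p1, add_zero, CharTwo.add_self_eq_zero])
      (by rw [one_mul, map_add, ti, fix_of_mov hQ p.tm (le_perp_symm o mem_p1)])
      (Submodule.mem_sup_left mem_p2) (by rw [one_mul, fix_of_mov hQ p.tm (le_perp_symm o mem_p2)])
      (by rw [polar_add_right, mem_perp.1 (o m) b mem_p2, add_zero, polar_comm]; exact T.ne)
      (.inl fun e => ?_)
    have k : ∀ v ∈ cs g x ⊔ cs g y, cs g v ≤ Submodule.span F {v} := fun v hv =>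
      cs_le hX (fun u hu => by
        obtain ⟨c, rfl⟩ := Submodule.mem_span_singleton.1 hu
        rwa [map_smul, f v hv]) (Submodule.mem_span_singleton_self v)
    have h1 := finrank_sup_perp T.in.nd o
    have h3 := Submodule.finrank_mono (sup_le_sup (k x mem_l) (k y mem_r))
    rw [← Submodule.span_insert, finrank_pair (a := x) D.ne] at h3
    rw [e, finrank_top, finrank_pair T.ne] at h1
    omega
  obtain ⟨W, le, hW, s, t, e, p, e1, e2, e3, ⟨z, hz, z1, z2⟩, r | ⟨r, h⟩⟩ := H95.OE.jobE F V Q hQ g _ (n + 1)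
    (D.in hX) (by omega) D.kill D.alt ⟨x, mem_l, fun e => D.ne (by rw [e, polar_zero_left])⟩
  · have o' := le.trans o
    exact te hQ hX odd (T.in.sup hW o') (T.pr.add hQ p T.in.nd hW.nd o') (by
      rw [one_mul, rk_mul hQ T.in.nd hW.nd T.pr.sm p.sm o', T.rk hQ]; omega)
      (mov_le_mul' hQ hW.nd T.pr.sm p.sm o' e1) e2 (by rwa [one_mul]) (Submodule.mem_sup_right hz)
      (by rwa [one_mul]) z2 (.inr ⟨b, Submodule.mem_sup_left mem_p2, by
        rw [mul_l hQ p.sm o' mem_p2, T.rb, mem_perp.1 (o' (p.sm e1)) b mem_p2, polar_add_right, pself2,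
          zero_add, zero_pow two_ne_zero, polar_comm]
        exact T.ne⟩)
  · exact teT hQ hX odd T hW (le.trans o) p r e1 e2 e3 hz z1 z2 (.inr h)

theorem cm_T {a' b' a'' b'' : V} (h2 : Nat.card F = 2) (odd : Has g ⊤ 1 A B) (T : Tv g a b)
    (T' : Tv g a' b') (T'' : Tv g a'' b'')
    (o : Submodule.span F {a', b'} ⊔ Submodule.span F {a'', b''} ≤ perp Q (Submodule.span F {a, b}))
    (o' : Submodule.span F {a'', b''} ≤ perp Q (Submodule.span F {a', b'})) : Cm (inc Q g) := by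
  by_cases e : Submodule.span F {a, b} ⊔ (Submodule.span F {a', b'} ⊔ Submodule.span F {a'', b''}) = ⊤
  · refine ((H30.Or.jobW F V Q hQ h2 g a b T).2.2 a' b' a'' b'' T' T'' (Pp.of (le_trans ?_ o) ?_)
      (Pp.of (le_trans ?_ o') ?_)).top hQ (e.ge.trans ?_)
    · rw [← Submodule.span_union]; exact Submodule.span_mono (by grind)
    · simp [mem_p1, mem_p2]
    · exact Submodule.span_mono (by grind)
    · simp [mem_p1, mem_p2]
    · rw [← Submodule.span_union, ← Submodule.span_union]; exact Submodule.span_mono (by grind)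
  refine teT hQ hX odd T (T'.in.sup T''.in o') o (T'.pr.add hQ T''.pr T'.in.nd T''.in.nd o')
    (e := a' + a'') (y := b') (by
      rw [one_mul, rk_mul hQ T'.in.nd T''.in.nd T'.pr.sm T''.pr.sm o', T'.rk hQ, T''.rk hQ, rk_one'])
    (add_mem (mov_le_mul hQ T'.in.nd T'.pr.sm T''.pr.sm o' T'.mov)
      (mov_le_mul' hQ T''.in.nd T'.pr.sm T''.pr.sm o' T''.mov)) ?_ rfl (Submodule.mem_sup_left mem_p2)
    rfl ?_ (.inl e)
  · rw [Q_add, T'.q, T''.q, mem_perp.1 (o' mem_p1) a' mem_p1, add_zero, CharTwo.add_self_eq_zero]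
  · rw [polar_add_right, mem_perp.1 (o' mem_p1) b' mem_p2, add_zero, polar_comm]
    exact T'.ne

end H93.Or
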