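/- Ore tower: every element of a symplectic group of dimension at least six over the field with two
elements is a commutator. -/
import Cfsg.Agent.H93.OrT
import Cfsg.Agent.H15.OrEX

set_option autoImplicit false
set_option linter.unusedSectionVars false

namespace H93.Or
open H56 H60 H93.O2 H93.FS QuadraticMap Module Polynomial

universe u

variable {F V : Type u} [Field F] [Finite F] [CharP F 2] [AddCommGroup V] [Module F V]
  [FiniteDimensional F V] {Q : QuadraticForm F V} {g g' s t : O Q} {U W R : Submodule F V}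
  {x y a b : V} {n k : ℕ} {π : F[X]} {A B : Prop}

theorem Tv.congr (h : Tv g a b) (e : ∀ w ∈ W, g' w = g w) (ha : a ∈ W) (hb : b ∈ W) : Tv g' a b :=
  ⟨(e a ha).trans h.ga, (e b hb).trans h.gb, h.ab⟩

theorem Om.congr (h : Om g x) (e : ∀ w ∈ W, g' w = g w) (ha : x ∈ W) (hb : g x ∈ W) : Om g' x :=
  ⟨by rw [e x ha, e _ hb, h.gg], by rw [e x ha, h.b]⟩

variable [Module F[X] V] [IsScalarTower F F[X] V]

theorem ev_one (e : (X : F[X]) • x = x) (p : F[X]) : p • x = p.eval 1 • x := by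
  induction p using pind with
  | h1 a => rw [C_sm, eval_C]
  | h2 p q hp hq => rw [add_smul, hp, hq, eval_add, add_smul]
  | h3 p hp => rw [mul_smul, e, hp, eval_mul, eval_X, mul_one]

variable (hX : ∀ v, (X : F[X]) • v = g v + g⁻¹ v)
include hX

theorem CB.om (h2 : Nat.card F = 2) (h : CB g π k x) (e : (X : F[X]) • x = x) :
    Om g x ∧ cs g x = Submodule.span F {x, g x} ∧ lam g x 1 ≠ 0 ∧ lam g x X ≠ 0 := by
  have e' : (X : F[X]) • g x = g x := by rw [← s_comm hX, e]
  have l : lam g x 1 ≠ 0 := fun h1 => h.ne.elim fun s hs => hs (by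
    rw [lam, one_smul] at h1
    rw [lam, ev_one e', polar_smul_left, h1, smul_zero])
  refine ⟨⟨by rw [g_g hX, e'], eq_one h2 (by simpa [lam, polar_comm Q x] using l)⟩,
    le_antisymm (fun u hu => ?_) (Submodule.span_le.2 ?_), l, by simpa [lam, e'] using l⟩
  · obtain ⟨c, d, rfl⟩ := mem_cs.1 hu
    exact Submodule.mem_span_pair.2 ⟨_, _, by rw [ev_one e c, ev_one e' d]⟩
  · rintro _ (rfl | rfl)
    exacts [self_mem_cy _, cy_inv hX x x (self_mem_cy x)]

theorem CB.le_finrank (h : CB g π k x) {m : ℕ} (H : ∀ p ∈ degreeLT F m, p • x = 0 → p = 0) :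
    2 * m ≤ finrank F (cs g x) := by
  have e := (degreeLTEquiv F m).finrank_eq
  have _ : FiniteDimensional F (degreeLT F m) := (degreeLTEquiv F m).symm.finiteDimensional
  have := LinearMap.finrank_range_of_inj (f := cy g x ∘ₗ (degreeLT F m).subtype.prodMap
    (degreeLT F m).subtype) ((injective_iff_map_eq_zero _).2 fun ⟨p, q⟩ e => by
      obtain ⟨h1, h2⟩ := h.free hX (a := p) (b := q) e
      exact Prod.ext (Subtype.ext (H _ p.2 (h.ann hX h1 (self_mem_cy x))))
        (Subtype.ext (H _ q.2 (h.ann hX h2 (self_mem_cy x)))))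
  refine le_trans ?_ (this.ge.trans (Submodule.finrank_mono (LinearMap.range_comp_le_range _ _)))
  simp [e, two_mul]

theorem CB.noX (h : CB g π k x) (d : ¬ π ∣ X) {p : F[X]} (e : (p * X) • x = 0) : p • x = 0 :=
  h.ann hX ((h.prime.irreducible.coprime_iff_not_dvd.2 d).pow_left.dvd_of_dvd_mul_right
    (h.free hX (b := 0) (by simpa using e)).1) (self_mem_cy x)

theorem CB.small (h2 : Nat.card F = 2) (h : CB g π k x) (d : ¬ π ∣ X) (e : (X : F[X]) • x ≠ x)
    {c c' : F} (h0 : (C c * X + C c') • x = 0) : c = 0 ∧ c' = 0 := by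
  have x0 : x ≠ 0 := fun e' => e (by simp [e'])
  by_cases h1 : c = 0 <;> by_cases h3 : c' = 0
  · exact ⟨h1, h3⟩
  · simp [h1, eq_one h2 h3, x0] at h0
  · exact absurd (by simpa using h.noX hX d (p := 1) (by simpa [h3, eq_one h2 h1] using h0)) x0
  · rw [eq_one h2 h1, eq_one h2 h3, C_1] at h0
    exact absurd (by linear_combination (norm := module) h0 - two_sm (F := F) x) e

theorem CB.quad (h2 : Nat.card F = 2) (h : CB g π k x) (d : ¬ π ∣ X) (e : (X : F[X]) • x ≠ x) :
    4 ≤ finrank F (cs g x) ∧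
      (finrank F (cs g x) ≤ 5 → ∃ c : F, (X * X + C c * X + 1 : F[X]) • x = 0) := by
  refine ⟨h.le_finrank hX (m := 2) fun p hp h0 => ?_, fun h5 => ?_⟩
  · have e1 := eq_X_add_C_of_degree_le_one (Order.le_of_lt_succ (mem_degreeLT.1 hp))
    rw [e1] at h0
    rw [e1, (h.small hX h2 d e h0).1, (h.small hX h2 d e h0).2]
    simp
  by_contra! hc
  have := h.le_finrank hX (m := 3) fun p hp h0 => by
    have e1 := p.as_sum_range_C_mul_X_pow' (n := 3) (by
      by_cases e : p = 0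
      · simp [e]
      · exact (natDegree_lt_iff_degree_lt e).2 (mem_degreeLT.1 hp))
    simp only [Finset.sum_range_succ, Finset.sum_range_zero] at e1
    generalize p.coeff 0 = c0, p.coeff 1 = c1, p.coeff 2 = c2 at e1
    subst e1
    by_cases h0' : c0 = 0
    · obtain ⟨a1, a2⟩ := h.small hX h2 d e (c := c2) (c' := c1) (h.noX hX d (by
        rw [← h0, h0', C_0]; congr 1; ring))
      simp [a1, a2, h0']
    by_cases h2' : c2 = 0
    · exact absurd (h.small hX h2 d e (c := c1) (c' := c0) (by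
        rw [← h0, h2', C_0]; congr 1; ring)).2 h0'
    · exact absurd (by rw [← h0, eq_one h2 h0', eq_one h2 h2', C_1]; congr 1; ring) (hc c1)
  omega

variable (hQ : Q.polarBilin.Nondegenerate)
include hQ

theorem exists_P (hU : IN g U) (h0 : U ≠ ⊥) (nf : ∀ w ∈ U, g w = w → w = 0) :
    ∃ π k, ∃ x ∈ U, CB g π k x ∧ ¬ π ∣ X := by
  obtain ⟨k, x, hx, h⟩ | h | ⟨n, x, hx, y, hy, h⟩ := exists_blk hX hQ hU h0
  · have := nf _ (cs_le hX hU.inv hx (mem_cy x (X ^ k) (X ^ k))) (by
      rw [g_cs hX, add_smul (X ^ k), ← pow_succ, h.ann hX dvd_rfl (cy_inv hX x x (self_mem_cy x)),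
        add_zero])
    exact absurd ((h.free hX this).1) (by
      rw [pow_dvd_pow_iff X_ne_zero not_isUnit_X]; omega)
  · exact h
  · exact absurd (by rw [nf _ (N_mem hU.inv n hx) (h.fix mem_l), polar_zero_left]) h.ne

theorem exists_P' (hU : IN g U) (nf : ∀ w ∈ U, g w = w → w = 0) (h : ∃ v ∈ U, (X : F[X]) • v ≠ v) :
    ∃ π k, ∃ x ∈ U, CB g π k x ∧ ¬ π ∣ X ∧ (X : F[X]) • x ≠ x := by
  by_contra! H
  obtain ⟨v, hv, e⟩ := h
  refine e (hU.ind hQ (P := fun W => W ≤ U → ∀ v ∈ W, (X : F[X]) • v = v)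
    (fun _ v hv => by simp [show v = 0 from hv]) (fun W hW h0 ih le v hv => ?_) le_rfl v hv)
  obtain ⟨π, k, x, hx, c, d⟩ := exists_P hX hQ hW h0 fun w hw => nf w (le hw)
  have le' := cs_le hX hW.inv hx
  obtain ⟨a, ha, b, hb, rfl⟩ := Submodule.mem_sup.1 ((hW.split hQ (c.in hX) le').2.ge hv)
  obtain ⟨p, q, rfl⟩ := mem_cs.1 ha
  rw [smul_add, ih _ le' (c.in hX) c.ne_bot (inf_le_left.trans le) b hb, smul_add, smul_comm _ p,
    smul_comm _ q, ← s_comm hX, H π k x (le hx) c d]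

theorem cm_om (h2 : Nat.card F = 2) (h6 : 6 ≤ finrank F V) (odd : Has g ⊤ 1 A B) (T : Tv g a b)
    (nf : ∀ w ∈ perp Q (Submodule.span F {a, b}), g w = w → w = 0)
    (e : ∀ v ∈ perp Q (Submodule.span F {a, b}), (X : F[X]) • v = v) : Cm (inc Q g) := by
  have key : ∀ U ≤ perp Q (Submodule.span F {a, b}), IN g U → U ≠ ⊥ → ∃ x, Om g x ∧
      Submodule.span F {x, g x} ≤ U ∧ IN g (Submodule.span F {x, g x}) ∧
      Has g (Submodule.span F {x, g x}) 0 True True := fun U le hU h0 => by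
    obtain ⟨π, k, x, hx, c, d⟩ := exists_P hX hQ hU h0 fun w hw => nf w (le hw)
    obtain ⟨a1, a2, a3, a4⟩ := c.om hX h2 (e x (le hx))
    exact ⟨x, a1, a2 ▸ cs_le hX hU.inv hx, a2 ▸ c.in hX, a2 ▸ (c.hasP hX hQ d).mono
      (fun _ => ⟨1, by simpa using a3⟩) fun _ => ⟨1, by simpa using a4⟩⟩
  have hR := T.in.perp hQ
  have d1 := finrank_perp hQ (Submodule.span F {a, b})
  rw [finrank_pair T.ne] at d1
  obtain ⟨x, x1, x2, x3, x4⟩ := key _ le_rfl hR fun e => by rw [e, finrank_bot] at d1; omega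
  obtain ⟨y, y1, y2, y3, y4⟩ := key _ inf_le_left (hR.split hQ x3 x2).1 (hR.rest_ne hQ x3 x2 fun e => by
    rw [← e, finrank_pair (x1.b ▸ one_ne_zero)] at d1; omega)
  have o' := y2.trans inf_le_right
  have o := sup_le x2 (y2.trans inf_le_left)
  have hW := T.in.sup (x3.sup y3 o') o
  have hS : Submodule.span F {a, b, x, g x, y, g y} = Submodule.span F {a, b} ⊔
      (Submodule.span F {x, g x} ⊔ Submodule.span F {y, g y}) := by
    rw [← Submodule.span_union, ← Submodule.span_union]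
    congr 1
    grind
  have m : ∀ v ∈ ({a, b, x, g x, y, g y} : Set V), v ∈ Submodule.span F {a, b} ⊔
      (Submodule.span F {x, g x} ⊔ Submodule.span F {y, g y}) := fun v hv =>
    hS ▸ Submodule.subset_span hv
  have main : ∀ g' : O Q, (∀ w ∈ Submodule.span F {a, b} ⊔ (Submodule.span F {x, g x} ⊔
      Submodule.span F {y, g y}), g' w = g w) → CmS {a, b, x, g x, y, g y} g' := fun g' h => by
    have := (H30.Or.jobW F V Q hQ h2 g' a b (T.congr h (m _ (by simp)) (m _ (by simp)))).2.1 x y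
      (x1.congr h (m _ (by simp)) (m _ (by simp))) (y1.congr h (m _ (by simp)) (m _ (by simp)))
    rw [h x (m _ (by simp)), h y (m _ (by simp))] at this
    refine this (Pp.of (le_trans ?_ o) ?_) (Pp.of (le_trans ?_ o') ?_)
    · rw [← Submodule.span_union]; exact Submodule.span_mono (by grind)
    · simp [mem_p1, mem_p2]
    · exact Submodule.span_mono (by grind)
    · simp [mem_p1, mem_p2]
  by_cases e : perp Q (Submodule.span F {a, b} ⊔ (Submodule.span F {x, g x} ⊔
      Submodule.span F {y, g y})) = ⊥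
  · refine (main g fun _ _ => rfl).top hQ ?_
    rw [hS, ← (hW.nd.isCompl hQ).sup_eq_top, e, sup_bot_eq]
  obtain ⟨z, -, z2, z3, z4⟩ := key _ (perp_anti le_sup_left) (hW.perp hQ) e
  have ev := odd.rest0 hQ hX ((T.has hQ).add hQ (x4.add hQ y4 x3.nd y3.nd o') T.in.nd (x3.sup y3 o').nd o)
    (IN.top hQ) hW le_top rfl
  rw [top_inf_eq] at ev
  exact cm_rest hQ hW hS main (gg_sub hQ hX ev (hW.perp hQ) z3 z2 z4 (by omega) (by omega))

theorem cm_cyc (h2 : Nat.card F = 2) (T : Tv g a b) (h : CB g π k x) (e : (X : F[X]) • x ≠ x) {c : F}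
    (hc : (X * X + C c * X + 1 : F[X]) • x = 0) (o : cs g x = perp Q (Submodule.span F {a, b})) :
    Cm (inc Q g) := by
  have hc' : (X * X + C c * X + 1 : F[X]) • g x = 0 := by rw [← s_comm hX, hc, map_zero]
  have g4 : g (g (g (g x))) = x + c • g x + g (g x) + c • g (g (g x)) := by
    simp only [g_g hX, map_add, s_comm hX, ← C_sm]
    linear_combination (norm := module) hc + (X : F[X]) • hc' - (C c * (X : F[X]) + 1) • two_sm (F := F) x -
      (C c * (X * X : F[X]) + C c) • two_sm (F := F) (g x)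
  have hS : Submodule.span F {x, g x, g (g x), g (g (g x))} = cs g x := by
    have i := cy_inv hX x
    refine le_antisymm (Submodule.span_le.2 ?_) (cs_le hX (fun u hu => ?_)
      (Submodule.subset_span (by simp)))
    · rintro _ (rfl | rfl | rfl | rfl)
      exacts [self_mem_cy _, i _ (self_mem_cy _), i _ (i _ (self_mem_cy _)),
        i _ (i _ (i _ (self_mem_cy _)))]
    · refine (Submodule.span_le (p := (Submodule.span F _).comap g.lin)).2 ?_ hu
      have m : ∀ v ∈ ({x, g x, g (g x), g (g (g x))} : Set V), v ∈ Submodule.span F _ :=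
        fun _ h => Submodule.subset_span h
      rintro _ (rfl | rfl | rfl | rfl)
      exacts [m _ (by simp), m _ (by simp), m _ (by simp), by
        change g (g (g (g x))) ∈ Submodule.span F _
        rw [g4]
        exact add_mem (add_mem (add_mem (m _ (by simp)) (Submodule.smul_mem _ _ (m _ (by simp))))
          (m _ (by simp))) (Submodule.smul_mem _ _ (m _ (by simp)))]
  refine ((H30.Or.jobW F V Q hQ h2 g a b T).1 x c g4 (fun e' => e (g.injective ?_))
    (hS ▸ (h.in hX).nd) (Pp.of (U := Submodule.span F {a, b}) (le_trans ?_ (hS.trans o).le) ?_)).top hQ ?_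
  · rw [g_g hX] at e'
    rw [s_comm hX]
    linear_combination (norm := module) e' - two_sm (F := F) x - two_sm (F := F) (g x)
  · exact Submodule.span_mono (by grind)
  · simp [mem_p1, mem_p2]
  · rw [← (T.in.nd.isCompl hQ).sup_eq_top, ← o, ← hS, ← Submodule.span_union]
    exact Submodule.span_mono (by grind)

theorem cm_ex (h2 : Nat.card F = 2) (T : Tv g a b) (hR : R = perp Q (Submodule.span F {a, b}))
    (h6 : 6 ≤ finrank F R) (ev : Has g R 0 A B) (nf : ∀ w ∈ R, g w = w → w = 0) (h : CB g π k x)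
    (d : ¬ π ∣ X) (hx : x ∈ R) (e : (X : F[X]) • x ≠ x) (c : cs g x ≠ R ∨
      (∃ p, lam g x (p * p) ≠ 0) ∧ ∃ p, lam g x (X * (p * p)) ≠ 0) : Cm (inc Q g) := by
  have iR : IN g R := hR ▸ T.in.perp hQ
  have le := cs_le hX iR.inv hx
  have iW := h.in hX
  obtain ⟨i1, e1⟩ := iR.split hQ iW le
  obtain ⟨s, t, p⟩ := h.pair hX hQ
  have r := ev.rest0 hQ hX (h.hasP hX hQ d) iR iW le rfl
  obtain ⟨s', t', p', ns, nt⟩ : ∃ s' t', Pr g (R ⊓ perp Q (cs g x)) s' t' ∧ NA (s * s') ∧ NA (t * t') := by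
    obtain ⟨q, hq⟩ | ⟨q, hq⟩ := h.side hX
    · obtain ⟨s', t', p', -, -, -, n⟩ := r.swap0
      exact ⟨s', t', p', (p.naS hX hq).mul hQ iW.nd p.sm p'.sm inf_le_right, c.elim
        (fun c => (n c).mul' hQ i1.nd p.tm p'.tm inf_le_right)
        fun ⟨_, _, c⟩ => (p.naT hX c).mul hQ iW.nd p.tm p'.tm inf_le_right⟩
    · obtain ⟨s', t', p', -, -, n, -⟩ := r
      exact ⟨s', t', p', c.elim (fun c => (n c).mul' hQ i1.nd p.sm p'.sm inf_le_right)
        fun ⟨⟨_, c⟩, _⟩ => (p.naS hX c).mul hQ iW.nd p.sm p'.sm inf_le_right,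
        (p.naT hX hq).mul hQ iW.nd p.tm p'.tm inf_le_right⟩
  have P := p.toPr.add hQ p' iW.nd i1.nd inf_le_right
  rw [e1] at P
  have sf : ∀ a b, (s * s') (a • x + b • g x) = s (a • x + b • g x) := fun a b =>
    mul_l hQ p'.sm inf_le_right (mem_cy x a b)
  have tf : ∀ a b, (t * t') (a • x + b • g x) = t (a • x + b • g x) := fun a b =>
    mul_l hQ p'.tm inf_le_right (mem_cy x a b)
  generalize s * s' = S at *
  generalize t * t' = S' at *
  have o : Submodule.span F {a, b} ≤ perp Q R := le_perp_symm hR.le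
  have G := P.add hQ T.pr' iR.nd T.in.nd o
  rw [sup_comm, hR, (T.in.nd.isCompl hQ).sup_eq_top, mul_one] at G
  obtain ⟨q, hq⟩ : ∃ q, lam g x (q * (X + 1)) ≠ 0 := by
    by_contra! H
    have := h.ann hX (h.dvd hX H) (self_mem_cy x)
    exact e (by linear_combination (norm := module) this - two_sm (F := F) x)
  obtain ⟨u, v, rfl⟩ := sq_dec q
  rw [show (u * u + X * (v * v)) * (X + 1) = X * (u * u) + u * u + (v * X * (v * X) + X * (v * v)) by
    ring, lam_add] at hq
  by_cases e2 : lam g x (X * (u * u) + u * u) = 0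
  · rw [e2, zero_add, lam_add] at hq
    have := H15.Or.jobEX H94.OrT.jobT2 F V Q hQ h2 S' S R a P.tt P.ss iR.nd P.tm P.sm
      (fun w hw a1 a2 => nf w hw (by rw [← P.st w hw, a1, a2])) h6 nt ns
      ⟨(0 : F[X]) • x + v • g x, by
        have : S' ((0 : F[X]) • x + v • g x) - ((0 : F[X]) • x + v • g x) =
          (v * X) • x + (0 : F[X]) • g x := by rw [tf, p.tf]; module
        rw [this, sf, tf, p.polS hX, p.polT hX, zero_mul, zero_add]
        exact fun e => hq (by rw [e, CharTwo.add_self_eq_zero])⟩ (o mem_p1) T.q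
    refine Cm.inv ?_
    have c1 := comm_of_mov hQ P.sm T.pr.sm o
    have c2 := comm_of_mov hQ P.tm T.pr.sm o
    rwa [← G.top, ← map_inv, mul_inv_rev, mul_inv_rev, refl_inv, inv_eq_of_mul_eq_one_right P.ss,
      inv_eq_of_mul_eq_one_right P.tt, ← c2, mul_assoc, ← c1]
  · rw [lam_add] at e2
    rw [← G.top]
    refine H15.Or.jobEX H94.OrT.jobT2 F V Q hQ h2 S S' R a P.ss P.tt iR.nd P.sm P.tm
      (fun w hw a1 a2 => nf w hw (by rw [← P.st w hw, a2, a1])) h6 ns nt
      ⟨u • x + (0 : F[X]) • g x, ?_⟩ (o mem_p1) T.q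
    have : S (u • x + (0 : F[X]) • g x) - (u • x + (0 : F[X]) • g x) = u • x + u • g x := by
      rw [sf, p.sf]
      linear_combination (norm := module) -u • two_sm (F := F) x
    rw [this, sf, tf, p.polS hX, p.polT hX, zero_mul, zero_add]
    exact fun e => e2 (by rw [e, CharTwo.add_self_eq_zero])

theorem cm_odd (h2 : Nat.card F = 2) (h6 : 6 ≤ finrank F V) (odd : Has g ⊤ 1 A B) : Cm (inc Q g) := by
  by_cases hV : ∃ k x, CB g X k x ∧ 1 ≤ k
  · obtain ⟨k, x, h, hk⟩ := hV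
    exact cm_V hQ hX h6 odd h hk
  have tv : ∀ U, IN g U → (∃ k, ∃ x ∈ U, CB g X k x) → ∃ a b, Tv g a b ∧ Submodule.span F {a, b} ≤ U :=
    fun U hU ⟨k, x, hx, h⟩ => by
    obtain rfl : k = 0 := by_contra fun e => hV ⟨k, x, h, by omega⟩
    refine ⟨_, _, h.tv hX h2, Submodule.span_le.2 ?_⟩
    rintro _ (rfl | rfl)
    exacts [add_mem hx (hU.inv x hx), hx]
  obtain ⟨a, b, T, -⟩ := tv ⊤ (IN.top hQ) (exists_V hQ hX (IN.top hQ) odd rfl)
  have hR := T.in.perp hQ
  have ev := odd.rest0 hQ hX (T.has hQ) (IN.top hQ) T.in le_top rfl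
  rw [top_inf_eq] at ev
  by_cases nf : ∀ w ∈ perp Q (Submodule.span F {a, b}), g w = w → w = 0
  swap
  · push Not at nf
    obtain ⟨w, h1, h3, h4⟩ := nf
    obtain h | ⟨-, n, x, hx, y, hy, D⟩ := exists_blk_of hX hQ hR prime_X h1 h4 (by
      rw [hX, h3, ← h3, O.inv_apply_apply, h3, vadd_self (F := F)])
    · obtain ⟨a', b', T', o⟩ := tv _ hR h
      obtain ⟨e, -, -, e3, h5⟩ := ev.rest hQ hX (T'.has hQ) hR T'.in o
      have hR' := (hR.split hQ T'.in o).1
      obtain ⟨a'', b'', T'', o'⟩ := tv _ hR' (exists_V hQ hX hR' h5 (by omega))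
      exact cm_T hQ hX h2 odd T T' T'' (sup_le o (o'.trans inf_le_left)) (o'.trans inf_le_right)
    · exact cm_D hQ hX h2 h6 odd T D (sup_le (cs_le hX hR.inv hx) (cs_le hX hR.inv hy))
  by_cases e : ∀ v ∈ perp Q (Submodule.span F {a, b}), (X : F[X]) • v = v
  · exact cm_om hX hQ h2 h6 odd T nf e
  obtain ⟨π, k, x, hx, c, d, e1⟩ := exists_P' hX hQ hR nf (by simpa using e)
  have le := cs_le hX hR.inv hx
  by_cases h5 : finrank F (perp Q (Submodule.span F {a, b})) ≤ 5
  · obtain ⟨h4, h7⟩ := c.quad hX h2 d e1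
    obtain ⟨c', hc⟩ := h7 ((Submodule.finrank_mono le).trans h5)
    refine cm_cyc hX hQ h2 T c e1 hc (by_contra fun ne => ?_)
    obtain ⟨π', k', y, hy, c', -⟩ := exists_P hX hQ (hR.split hQ (c.in hX) le).1
      (hR.rest_ne hQ (c.in hX) le ne) fun w hw => nf w hw.1
    have := hR.finrank_split hQ (c.in hX) le
    have := Submodule.finrank_mono (cs_le hX (hR.split hQ (c.in hX) le).1.inv hy)
    obtain ⟨s, t, p⟩ := c'.pair hX hQ
    have := c'.rkS hX hQ p
    have := Submodule.one_le_finrank_iff.2 c'.ne_bot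
    omega
  by_cases e2 : cs g x = perp Q (Submodule.span F {a, b})
  · obtain ⟨y, c', e3, h7⟩ := c.good' hX d (by rw [e2]; omega)
    refine cm_ex hX hQ h2 T rfl (by omega) ev nf c' d (e2 ▸ e3 ▸ self_mem_cy y) (fun e4 => e1 ?_) (.inr h7)
    obtain ⟨p, q, rfl⟩ := mem_cs.1 (e3.ge (self_mem_cy x))
    rw [smul_add, smul_comm _ p, smul_comm _ q, ← s_comm hX, e4]
  · exact cm_ex hX hQ h2 T rfl (by omega) ev nf c d hx e1 (.inl e2)

omit hX hQ [Module F[X] V] [IsScalarTower F F[X] V] in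
theorem sp_two (F V : Type u) [Field F] [Finite F] [CharP F 2] [AddCommGroup V] [Module F V]
    [FiniteDimensional F V] (Q : QuadraticForm F V) (hQ : Q.polarBilin.Nondegenerate)
    (h2 : Nat.card F = 2) (h6 : 6 ≤ finrank F V) (g : O Q) : Cm (inc Q g) := by
  let _ : Module F[X] V := Module.compHom V (aeval (R := F) (g.lin + g⁻¹.lin)).toRingHom
  have h : ∀ (p : F[X]) (v : V), p • v = aeval (g.lin + g⁻¹.lin) p v := fun _ _ => rfl
  have : IsScalarTower F F[X] V := IsScalarTower.of_algebraMap_smul fun a v => by simp [h]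
  have hX : ∀ v : V, (X : F[X]) • v = g v + g⁻¹ v := fun v => by simp [h]
  obtain ⟨d, d1, d2, h⟩ := (IN.top (g := g) hQ).bal hQ hX
  obtain rfl | rfl | rfl : d = 0 ∨ d = 1 ∨ d = -1 := by omega
  · obtain ⟨s, t, p, r, -, ns, nt⟩ := gg hQ hX h (IN.top hQ) (by rw [finrank_top]; omega)
    exact p.cm hQ (by omega) (ns trivial) (nt trivial)
  · exact cm_odd hX hQ h2 h6 h
  · exact cm_odd hX hQ h2 h6 h.swap

end H93.Or
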