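/- CL3 tower: a permutation that agrees with semi-affine maps on triples is additive. -/
import Cfsg.Agent.H91.CL3Spec

set_option autoImplicit false
set_option linter.unusedSectionVars false

namespace H93.Cl
open H91.CL

variable {V G K : Type} [AddCommGroup V] [Group G] [DistribMulAction G V] [Field K] [Module K V]
  (hs : ∀ g : G, Semi K V g) {h : Equiv.Perm V}
include hs

theorem col (t : T3 G h) (x y : V) (l : K) : ∃ m : K, h (x + l • (y - x)) = h x + m • (h y - h x) := by
  obtain ⟨c, g, h1, h2, h3⟩ := t x y (x + l • (y - x))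
  obtain ⟨σ, hσ⟩ := hs g
  exact ⟨σ l, by rw [h1, h2, h3, smul_add, hσ, smul_sub g, add_sub_add_left_eq_sub, add_assoc]⟩

theorem line (h0 : h 0 = 0) (t : T3 G h) (u : V) (l : K) : ∃ m : K, h (l • u) = m • h u := by
  simpa [h0] using col hs t 0 u l

theorem coef (h0 : h 0 = 0) (t : T3 G h) {u v : V} (i : ∀ c : K, u ≠ c • v) {a b : K}
    (e : h (u + v) = a • h u + b • h v) : a = 1 := by
  by_contra ne
  obtain ⟨m, e1⟩ := col hs t.symm (h u) (h (u + v)) (1 - a)⁻¹
  obtain ⟨m', e2⟩ := line hs (h := h.symm) (by rw [Equiv.symm_apply_eq, h0]) t.symm (h v) ((1 - a)⁻¹ * b)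
  have n : 1 - a ≠ 0 := sub_ne_zero.2 (Ne.symm ne)
  rw [show h u + (1 - a)⁻¹ • (h (u + v) - h u) = ((1 - a)⁻¹ * b) • h v by
    rw [e]; match_scalars <;> field_simp <;> ring, e2] at e1
  simp only [Equiv.symm_apply_apply] at e1
  exact i (m' - m) (by linear_combination (norm := module) -e1)

theorem add_ind (h0 : h 0 = 0) (t : T3 G h) {l : K} (l0 : l ≠ 0) (l1 : l ≠ 1) {u v : V}
    (i : ∀ a b : K, a • u + b • v = 0 → a = 0 ∧ b = 0) : h (u + v) = h u + h v := by
  obtain ⟨m, e⟩ := col hs t ((1 - l)⁻¹ • u) (l⁻¹ • v) l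
  obtain ⟨a, ha⟩ := line hs h0 t u (1 - l)⁻¹
  obtain ⟨b, hb⟩ := line hs h0 t v l⁻¹
  have n : 1 - l ≠ 0 := sub_ne_zero.2 l1.symm
  rw [show (1 - l)⁻¹ • u + l • (l⁻¹ • v - (1 - l)⁻¹ • u) = u + v by
    match_scalars <;> field_simp <;> ring, ha, hb] at e
  replace e : h (u + v) = ((1 - m) * a) • h u + (m * b) • h v := by rw [e]; module
  have e1 : m * b = 1 := coef hs h0 t (u := v) (v := u) (fun c k => one_ne_zero
    (i (-c) 1 (by rw [k]; module)).2) (by rw [add_comm, e, add_comm])
  rw [e, coef hs h0 t (fun c k => one_ne_zero (i 1 (-c) (by rw [k]; module)).1) e, e1, one_smul,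
    one_smul]

omit hs in
theorem jobADD1 (hS : JobSING) : JobADD1 := fun V G _ _ _ _ _ K _ _ _ h2 hK hs h h0 t x y => by
  by_cases hx : x = 0
  · rw [hx, zero_add, h0, zero_add]
  by_cases hd : ∀ v : V, ∃ a : K, v = a • x
  · choose f hf using fun a : K => hd (h (a • x))
    have inj : Function.Injective f := fun a b e =>
      smul_left_injective K hx (h.injective (by rw [hf, hf, e]))
    obtain ⟨c, σ, e⟩ := hS K f inj fun u v => by
      obtain ⟨c, g, h1, h3, h4⟩ := t 0 (u • x) (v • x)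
      obtain ⟨σ, hσ⟩ := hs g
      obtain ⟨d, hd⟩ := hd (g • x)
      rw [h0, smul_zero, add_zero] at h1
      rw [← h1, zero_add, hσ, hd, hf, ← mul_smul] at h3 h4
      exact ⟨d, σ, 1, 1, by rw [smul_left_injective K hx h3, one_smul, mul_comm], by
        rw [smul_left_injective K hx h4, one_smul, mul_comm]⟩
    have two : (2 : K) = 0 := smul_left_injective K hx (by simpa [two_smul] using h2 x)
    have f0 : f 0 = 0 := by simpa using e 0
    replace e : ∀ u, f u = c * σ u := fun u => by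
      obtain ⟨a, ha⟩ := e u
      obtain ⟨k, rfl | rfl⟩ := Int.even_or_odd' a
      · rw [inj (a₁ := u) (a₂ := 0) (by simp [ha, f0, two]), f0, map_zero, mul_zero]
      · simp [ha, two]
    obtain ⟨b, rfl⟩ := hd y
    have := hf (1 + b)
    rw [e, map_add, mul_add, add_smul, add_smul, ← e, ← e, ← hf, ← hf, one_smul] at this
    exact this
  push Not at hd
  obtain ⟨w, hw⟩ := hd
  obtain ⟨l, l0, l1⟩ : ∃ l : K, l ≠ 0 ∧ l ≠ 1 := by
    by_contra! k
    have := Nat.card_le_card_of_surjective (fun b : Bool => if b then (0 : K) else 1) fun a => by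
      by_cases e : a = 0
      exacts [⟨true, e.symm⟩, ⟨false, (k a e).symm⟩]
    simp at this
    omega
  have ind : ∀ w, (∀ a : K, w ≠ a • x) → ∀ a b : K, a • x + b • w = 0 → a = 0 ∧ b = 0 :=
    fun w hw a b e => by
    have hb : b = 0 := by_contra fun n => hw (-(b⁻¹ * a)) (by
      rw [← inv_smul_smul₀ n w, eq_neg_of_add_eq_zero_right e]; module)
    exact ⟨by simpa [hb, hx] using e, hb⟩
  by_cases hy : ∀ a : K, y ≠ a • x
  · exact add_ind hs h0 t l0 l1 (ind y hy)
  push Not at hy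
  obtain ⟨s, rfl⟩ := hy
  by_cases s0 : s = 0
  · simp [s0, h0]
  by_cases s1 : s = 1
  · rw [s1, one_smul, h2, h2, h0]
  have a1 := add_ind hs h0 t l0 l1 (ind w hw)
  have a2 := add_ind hs h0 t l0 l1 (u := s • x) (v := w) fun a b e => by
    simpa [s0] using ind w hw (a * s) b (by rwa [mul_smul])
  have a3 := add_ind hs h0 t l0 l1 (u := x + w) (v := s • x + w) fun a b e => by
    obtain ⟨k1, k2⟩ := ind w hw (a + b * s) (a + b) (by rw [← e]; module)
    have : b = 0 := (mul_eq_zero.1 (show b * (s - 1) = 0 by linear_combination k1 - k2)).resolve_right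
      (sub_ne_zero.2 s1)
    exact ⟨by simpa [this] using k2, this⟩
  rw [add_add_add_comm, h2 w, add_zero, a1, a2, add_add_add_comm, h2, add_zero] at a3
  exact a3

end H93.Cl
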