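/- CL3 tower: imprimitive modules. -/
import Cfsg.Agent.H91.CL3Spec

set_option autoImplicit false
set_option linter.unusedSectionVars false

namespace H93.Cl
open H91.CL
open scoped Pointwise

variable {V G H : Type} [AddCommGroup V] [Group G] [Group H] [DistribMulAction G V]
  [DistribMulAction H V] {J : Set (AddSubgroup V)} (d : Dec G J)
include d

theorem sup3 {A B C D : AddSubgroup V} (hA : A ∈ J) (hB : B ∈ J) (hC : C ∈ J) (hD : D ∈ J)
    {x y z w : V} (hx : x ∈ A) (x0 : x ≠ 0) (hy : y ∈ B) (hz : z ∈ C) (hw : w ∈ D)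
    (e : x + y = z + w) (n : A ≠ B) : A = C ∨ A = D := by
  by_contra! k
  have m : ∀ E ∈ J, A ≠ E → E ≤ sSup (J \ {A}) := fun E hE n => le_sSup ⟨hE, n.symm⟩
  exact x0 (AddSubgroup.disjoint_def.1 (d.ind hA) hx (eq_sub_of_add_eq e ▸
    sub_mem (add_mem (m C hC k.1 hz) (m D hD k.2 hw)) (m B hB n hy)))

omit d in
theorem zs {W : AddSubgroup V} {u : V} (hu : u ∈ W) (g : G) (a : ℤ) : a • g • u ∈ g • W :=
  zsmul_mem (AddSubgroup.smul_mem_pointwise_smul _ _ _ hu) a

variable (p : PC G H V)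
include p

theorem map_le {W W' : AddSubgroup V} (hW : W ∈ J) (hW' : W' ∈ J) {h : H} {u : V} (hu : u ∈ W)
    (u0 : u ≠ 0) (e : h • u ∈ W') : h • W ≤ W' := by
  rintro _ ⟨w, hw, rfl⟩
  obtain ⟨g, a, b, h1, h2⟩ := p h u w
  rw [d.eq hW' (d.perm g W hW) ((smul_ne_zero_iff_ne h).2 u0) e (h1 ▸ zs hu g a)]
  exact (show h • w ∈ g • W from h2 ▸ zs hw g b)

theorem map_eq {W W' : AddSubgroup V} (hW : W ∈ J) (hW' : W' ∈ J) {h : H} {u : V} (hu : u ∈ W)
    (u0 : u ≠ 0) (e : h • u ∈ W') : h • W = W' :=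
  le_antisymm (map_le d p hW hW' hu u0 e) (AddSubgroup.le_pointwise_smul_iff.2
    (map_le d p hW' hW e ((smul_ne_zero_iff_ne h).2 u0) (by rwa [inv_smul_smul])))

theorem perm (h : H) : ∀ W ∈ J, h • W ∈ J := fun W hW => by
  obtain ⟨u, hu, u0⟩ := d.exists_ne hW
  obtain ⟨g, a, -, h1, -⟩ := p h u u
  rw [map_eq d p hW (d.perm g W hW) hu u0 (h1 ▸ zs hu g a)]
  exact d.perm g W hW

theorem two (h : H) {A B : AddSubgroup V} (hA : A ∈ J) (hB : B ∈ J) :
    ∃ g : G, h • A = g • A ∧ h • B = g • B := by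
  obtain ⟨u, hu, u0⟩ := d.exists_ne hA
  obtain ⟨v, hv, v0⟩ := d.exists_ne hB
  obtain ⟨g, a, b, h1, h2⟩ := p h u v
  exact ⟨g, map_eq d p hA (d.perm g A hA) hu u0 (h1 ▸ zs hu g a),
    map_eq d p hB (d.perm g B hB) hv v0 (h2 ▸ zs hv g b)⟩

theorem three (h : H) {A B C : AddSubgroup V} (hA : A ∈ J) (hB : B ∈ J) (hC : C ∈ J) :
    ∃ g : G, h • A = g • A ∧ h • B = g • B ∧ h • C = g • C := by
  by_cases e1 : A = B
  · exact (two d p h hA hC).imp fun _ k => ⟨k.1, e1 ▸ k.1, k.2⟩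
  by_cases e2 : B = C
  · exact (two d p h hA hC).imp fun _ k => ⟨k.1, e2 ▸ k.2, k.2⟩
  by_cases e3 : A = C
  · exact (two d p h hA hB).imp fun _ k => ⟨k.1, k.2, e3 ▸ k.1⟩
  obtain ⟨u, hu, u0⟩ := d.exists_ne hA
  obtain ⟨v, hv, v0⟩ := d.exists_ne hB
  obtain ⟨w, hw, w0⟩ := d.exists_ne hC
  obtain ⟨g, a, b, h1, h2⟩ := p h (u + v) (v + w)
  have key : ∀ {A B : AddSubgroup V} {u v : V} {a : ℤ}, A ∈ J → B ∈ J → u ∈ A → v ∈ B → u ≠ 0 →
      A ≠ B → h • (u + v) = a • g • (u + v) → h • A = g • A ∨ h • A = g • B :=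
    fun hA hB hu hv u0 n e => sup3 d (perm d p h _ hA) (perm d p h _ hB) (d.perm g _ hA) (d.perm g _ hB)
      (AddSubgroup.smul_mem_pointwise_smul _ _ _ hu) ((smul_ne_zero_iff_ne h).2 u0)
      (AddSubgroup.smul_mem_pointwise_smul _ _ _ hv) (zs hu g _) (zs hv g _)
      (by simpa only [smul_add] using e) ((MulAction.injective h).ne n)
  have a1 := key hA hB hu hv u0 e1 h1
  have a2 := key hB hA hv hu v0 (Ne.symm e1) (add_comm u v ▸ h1)
  have a3 := key hB hC hv hw v0 e2 h2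
  have a4 := key hC hB hw hv w0 (Ne.symm e2) (add_comm v w ▸ h2)
  have b1 := (MulAction.injective h).ne e1
  have b2 := (MulAction.injective h).ne e2
  have b3 := (MulAction.injective g).ne e3
  exact ⟨g, by grind⟩

omit d p in
theorem jobLImp : JobLImp := fun V G H _ _ _ _ _ _ _ _ hG p hP hL J d => by
  let _ := resAct J d.perm
  let _ := resAct J (perm d p)
  choose f f1 f2 using fun W : J => d.exists_ne W.2
  have c : Nat.card J < Nat.card V := by
    have := Nat.card_le_card_of_injective (fun o : Option J => o.elim 0 f) (by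
      rintro (_ | A) (_ | B) e
      · rfl
      · exact absurd e.symm (f2 B)
      · exact absurd e (f2 A)
      · exact congrArg some (Subtype.ext (d.eq A.2 B.2 (f2 A) (f1 A) ((show f A = f B from e) ▸ f1 B))))
    rwa [Finite.card_option] at this
  have s := hP J G H c hG fun h A B C => (three d p h A.2 B.2 C.2).imp fun _ k =>
    ⟨Subtype.ext k.1, Subtype.ext k.2.1, Subtype.ext k.2.2⟩
  refine SolMod.trans (fixingSubgroup H J) (s.mono fun h k W => congrArg Subtype.val (k W)) ?_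
  refine (SolMod.forall (R := fun (W : J) (n : fixingSubgroup H J) => ∀ x ∈ W.1, (n : H) • x = x)
    fun W => ?_).mono fun n k x => ?_
  · have i : ∀ n : fixingSubgroup H J, ∀ x ∈ W.1, n • x ∈ W.1 := fun n x hx =>
      (n.2 W).le (AddSubgroup.smul_mem_pointwise_smul _ _ _ hx)
    let _ := subAct (H := MulAction.stabilizer G W.1) W.1 fun g x hx =>
      g.2.le (AddSubgroup.smul_mem_pointwise_smul _ _ _ hx)
    let _ := subAct W.1 i
    refine (hL W.1 (MulAction.stabilizer G W.1) (fixingSubgroup H J) (card_lt (d.ne_top W.2))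
      inferInstance fun n u v => ?_).mono fun n k x hx => congrArg Subtype.val (k ⟨x, hx⟩)
    obtain ⟨g, a, b, h1, h2⟩ := p n u v
    have st : ∀ (u : W.1) (a : ℤ), u ≠ 0 → (n : H) • (u : V) = a • g • (u : V) → g • W.1 = W.1 :=
      fun u a u0 e => d.eq (d.perm g _ W.2) W.2 ((smul_ne_zero_iff_ne (n : H)).2 (by simpa using u0))
        (e ▸ zs u.2 g a) (i n u u.2)
    by_cases e : g • W.1 = W.1
    · exact ⟨⟨g, e⟩, a, b, Subtype.ext h1, Subtype.ext h2⟩
    · obtain rfl : u = 0 := by_contra fun k => e (st u a k h1)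
      obtain rfl : v = 0 := by_contra fun k => e (st v b k h2)
      exact ⟨1, 0, 0, by simp, by simp⟩
  · exact (d.top.ge.trans (sSup_le (a := (DistribSMul.toAddMonoidHom V (n : H)).eqLocus (.id V))
      fun W hW => k ⟨W, hW⟩)) trivial

end H93.Cl
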