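import Cfsg.Agent.H93.DGPal1
import Cfsg.Agent.H98.Coprime

/-! Palfy's theorem: case II and the tools of case I (blueprints/DEG.md, part 2). -/

set_option autoImplicit false
open Cfsg H28 H32 H44 MulAction
open scoped commutatorElement

namespace H93.DG

universe u

/-- `a` divides a character degree of `G`. -/
def Rho (G : Type u) [Group G] (a : ℕ) : Prop := ∃ d ∈ charDegrees G, a ∣ d

variable {G : Type u} [Group G] [Finite G]

theorem sylow_le_of_normal {q : ℕ} [Fact q.Prime] {N : Subgroup G} [hN : N.Normal] {Q : Sylow q G}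
    (h : (Q : Subgroup G) ≤ N) (Q' : Sylow q G) : (Q' : Subgroup G) ≤ N := by
  obtain ⟨g, rfl⟩ := exists_smul_eq G Q Q'
  intro x hx
  rw [Sylow.coe_subgroup_smul, Subgroup.mem_pointwise_smul_iff_inv_smul_mem] at hx
  simpa [mul_assoc] using hN.conj_mem _ (h hx) g

omit [Finite G] in
theorem normal_of_le_normalizer {q : ℕ} [Fact q.Prime] {Q : Sylow q G}
    (h : ∀ Q' : Sylow q G, (Q' : Subgroup G) ≤ Subgroup.normalizer (Q : Set G)) :
    (Q : Subgroup G).Normal := by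
  have h1 : ∀ Q' : Sylow q G, Q' = Q := fun Q' => by
    have := Q'.2.inf_normalizer_sylow Q
    rw [inf_of_le_left (h Q'), eq_comm, inf_eq_left] at this
    exact Sylow.ext (Q'.3 Q.2 this).symm
  have : Subsingleton (Sylow q G) := ⟨fun a b => (h1 a).trans (h1 b).symm⟩
  exact Q.normal_of_subsingleton

omit [Finite G] in
theorem le_normalizer_of_comm {K Q : Subgroup G} (h : ∀ x ∈ K, ∀ y ∈ Q, x * y = y * x) :
    K ≤ Subgroup.normalizer (Q : Set G) :=
  le_trans (fun x hx => Subgroup.mem_centralizer_iff.2 fun y hy => (h x hx y hy).symm)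
    (Subgroup.centralizer_le_normalizer _)

theorem not_rho_of_normal {q : ℕ} [Fact q.Prime] (Q : Sylow q G) (hn : (Q : Subgroup G).Normal)
    (hc : ∀ x ∈ (Q : Subgroup G), ∀ y ∈ (Q : Subgroup G), x * y = y * x) : ¬ Rho G q :=
  fun ⟨_, hd, h⟩ => Q.not_dvd_index (h.trans (dvd_index_of_mem_cd hd _ hc))

theorem of_not_rho_quot [Group.IsSolvable G] {q : ℕ} [Fact q.Prime] {V : Subgroup G} [V.Normal]
    (h : ¬ Rho (G ⧸ V) q) (Q : Sylow q G) : ((Q : Subgroup G) ⊔ V).Normal ∧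
      ∀ x ∈ (Q : Subgroup G), ∀ y ∈ (Q : Subgroup G), x * y * x⁻¹ * y⁻¹ ∈ V := by
  have hf := QuotientGroup.mk'_surjective V
  obtain ⟨h1, h2⟩ := ito (fun d hd e => h ⟨d, hd, e⟩) (Q.mapSurjective hf)
  refine ⟨?_, fun x hx y hy => ?_⟩
  · have := h1.comap (QuotientGroup.mk' V)
    rwa [Sylow.coe_mapSurjective, Subgroup.comap_map_eq, QuotientGroup.ker_mk'] at this
  · have := h2 _ ⟨x, hx, rfl⟩ _ ⟨y, hy, rfl⟩
    rw [← QuotientGroup.eq_one_iff, QuotientGroup.mk_mul, QuotientGroup.mk_mul,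
      QuotientGroup.mk_mul, show (x : G ⧸ V) * y = y * x from this]
    simp

theorem rho_mul {p q a b : ℕ} (hp : p.Prime) (hq : q.Prime) (hpq : p ≠ q) (h : a * b ∈ charDegrees G)
    (h1 : p ∣ a * b) (h2 : q ∣ a * b) : Rho G (p * q) :=
  ⟨_, h, ((Nat.coprime_primes hp hq).2 hpq).mul_dvd_of_dvd_of_dvd h1 h2⟩

theorem exists_lin_ne_one {V : Subgroup G} (hV : V ≠ ⊥) (hc : ⁅V, V⁆ = ⊥) :
    ∃ l : Lin V, l ≠ 1 := by
  by_contra h
  push Not at h
  exact hV (eq_bot_iff.2 fun n hn => hc ▸ mem_of_forall_lin hn fun l => by rw [h l]; rfl)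

theorem comm_of_smul {V : Subgroup G} [V.Normal] (hc : ⁅V, V⁆ = ⊥) {g : G}
    (h : ∀ l : Lin V, g • l = l) {n : G} (hn : n ∈ V) : g * n = n * g := by
  have := comm_mem_of_smul h hn
  rwa [hc, Subgroup.mem_bot, mul_inv_eq_one, mul_inv_eq_iff_eq_mul] at this

theorem case_two (hPM : JobPM.{u, u}) [Group.IsSolvable G] {p q r : ℕ} [hp : Fact p.Prime]
    [hq : Fact q.Prime] [hr : Fact r.Prime] (hpq : p ≠ q) (hpr : p ≠ r) (hqr : q ≠ r)
    (np : ∀ P : Sylow p G, ¬ (P : Subgroup G).Normal)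
    (nq : ∀ P : Sylow q G, ¬ (P : Subgroup G).Normal)
    (nr : ∀ P : Sylow r G, ¬ (P : Subgroup G).Normal) {V : Subgroup G} [hV : V.Normal] (h0 : V ≠ ⊥)
    (hmin : ∀ K : Subgroup G, K.Normal → K ≤ V → K = ⊥ ∨ K = V) (hρ : ¬ Rho (G ⧸ V) p)
    (h1 : ¬ Rho G (p * q)) (h2 : ¬ Rho G (p * r)) : Rho G (q * r) := by
  have hab := H2.isMulCommutative_of_minimal_normal hmin
  have hc : ∀ x ∈ V, ∀ y ∈ V, x * y = y * x := fun x hx y hy =>
    congrArg Subtype.val (hab.is_comm.comm (⟨x, hx⟩ : V) ⟨y, hy⟩)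
  have hc' : ⁅V, V⁆ = ⊥ := Subgroup.commutator_eq_bot_iff_le_centralizer.2 fun x hx y hy =>
    hc y hy x hx
  have h3 : ∀ P : Sylow p G, V ⊔ Subgroup.normalizer (P : Set G) = ⊤ := fun P => by
    have := (of_not_rho_quot hρ P).1
    have e := P.normalizer_sup_eq_top' (N := (P : Subgroup G) ⊔ V) le_sup_left
    exact eq_top_iff.2 (e.ge.trans (sup_le le_sup_right
      (sup_le (le_trans Subgroup.le_normalizer le_sup_right) le_sup_left)))
  have h4 : ∀ (P : Sylow p G) (g : G), ∃ n ∈ V, ∃ h ∈ Subgroup.normalizer (P : Set G),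
      n * h = g := fun P g => by
    have : g ∈ ((V ⊔ Subgroup.normalizer (P : Set G) : Subgroup G) : Set G) := by rw [h3]; trivial
    rwa [Subgroup.normal_mul] at this
  have h5 : ∀ P : Sylow p G, ¬ V ≤ Subgroup.normalizer (P : Set G) := fun P e =>
    np P (Subgroup.normalizer_eq_top_iff.1 ((sup_of_le_right e).symm.trans (h3 P)))
  have h6 : ∀ P : Sylow p G, V ⊓ Subgroup.normalizer (P : Set G) = ⊥ := fun P => by
    refine (hmin _ ⟨fun x hx g => ?_⟩ inf_le_left).resolve_right fun e => h5 P (inf_eq_left.1 e)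
    obtain ⟨n, hn, h, hh, rfl⟩ := h4 P g
    have e := hc n hn _ (hV.conj_mem x hx.1 h)
    rw [show n * h * x * (n * h)⁻¹ = n * (h * x * h⁻¹) * n⁻¹ by group, e, mul_inv_cancel_right]
    exact Subgroup.mem_inf.2 ⟨hV.conj_mem x hx.1 h, mul_mem (mul_mem hh hx.2) (inv_mem hh)⟩
  have h7 : ∀ l : Lin V, l ≠ 1 → p ∣ (stabilizer G l).index := fun l hl => by
    by_contra hn
    obtain ⟨P, hP⟩ := exists_sylow_le hn
    rcases lin_irr hmin (fx (Lin V) (P : Subgroup G)) (fun g a ha => by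
      obtain ⟨n, hn, h, hh, rfl⟩ := h4 P g
      rw [mul_smul, smul_of_mem hn]
      exact smul_mem_fx (S := P) (T := P) (fun x (hx : x ∈ (P : Subgroup G)) => by
        simpa using ((Subgroup.mem_normalizer_iff (H := (P : Subgroup G))).1 (inv_mem hh) x).1 hx) ha) with e | e
    · exact hl (Subgroup.mem_bot.1 (e ▸ hP))
    · exact h5 P (le_normalizer_of_comm fun x hx y hy => (comm_of_smul hc'
        (fun l => (show l ∈ fx (Lin V) (P : Subgroup G) from e ▸ trivial) hy) hx).symm)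
  have hT : ∀ l : Lin V, V ≤ stabilizer G l := fun l g hg => smul_of_mem hg l
  have h8 : ∀ (s : ℕ) [Fact s.Prime], p ≠ s → ¬ Rho G (p * s) → ∀ l : Lin V, l ≠ 1 →
      UQ s V (stabilizer G l) := fun s hs hps h l hl => by
    obtain ⟨μ, hμ⟩ := exists_ext_of_compl (h6 default) (h3 default) l (hT l)
    refine uq_of_cd (hT l) fun d hd e => h ?_
    have := mem_cd_of_ext (isIrr_ch l) (inertia_ch l).symm (hT l) (isCharacter_of_hom μ)
      (fun n => congrArg Units.val (hμ n)) hd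
    rw [charDegree_ch, mul_one] at this
    exact rho_mul hp.out hs.out hps this ((h7 l hl).mul_right _) e
  have h9 : ∀ (s : ℕ) [Fact s.Prime], p ≠ s → ¬ Rho G (p * s) →
      (∀ P : Sylow s G, ¬ (P : Subgroup G).Normal) →
      s ∣ (MulDistribMulAction.toMulAut G (Lin V)).ker.index := fun s hs hps h hn => by
    by_contra hd
    obtain ⟨Q, hQ⟩ := exists_sylow_le hd
    obtain ⟨l, hl⟩ := exists_lin_ne_one h0 hc'
    obtain ⟨Q0, -, -, k⟩ := h8 s hps h l hl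
    have k1 : ∀ Q' : Sylow s G, ∀ x ∈ (Q' : Subgroup G), ∀ m : Lin V, x • m = m :=
      fun Q' x hx m => DFunLike.congr_fun (sylow_le_of_normal hQ Q' hx) m
    refine hn Q0 (normal_of_le_normalizer fun Q' => le_sup_left.trans
      ((k Q' fun x hx => k1 Q' x hx l).le.trans (sup_le Subgroup.le_normalizer ?_)))
    exact le_normalizer_of_comm fun x hx y hy => (comm_of_smul hc' (k1 Q0 y hy) hx).symm
  exact hPM G (Lin V) _ q r hq.out hr.out hqr (lin_irr hmin) (h9 q hpq h1 nq) (h9 r hpr h2 nr)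
    (nq_of_uq (fun g hg l => smul_of_mem hg l) (h8 q hpq h1))
    (nq_of_uq (fun g hg l => smul_of_mem hg l) (h8 r hpr h2))

section one

variable {p s : ℕ} [hp : Fact p.Prime] [hs : Fact s.Prime] {P V : Subgroup G} [hP : P.Normal]

theorem comm_of_comm_mem (hps : p ≠ s) (hPp : IsPGroup p P) (hVP : V ≤ ⁅P, P⁆)
    (hz : ∀ v ∈ V, ∀ y ∈ P, v * y = y * v) {Q : Subgroup G} (hQ : IsPGroup s Q)
    (h : ∀ x ∈ Q, ∀ y ∈ P, x * y * x⁻¹ * y⁻¹ ∈ V) : ∀ x ∈ P, ∀ y ∈ Q, x * y = y * x := by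
  have h1 : ∀ y ∈ P, ∃ v ∈ V, ∃ c ∈ P ⊓ Subgroup.centralizer (Q : Set G), y = v * c := by
    intro y hy
    obtain ⟨n, hn, c, hc, e⟩ := H98.exists_commutator_mul_centralizer hQ
      (H98.not_dvd_card_of_isPGroup_ne hs.out hps.symm hPp) Subgroup.le_normalizer_of_normal hy
    refine ⟨n, ?_, c, hc, e⟩
    refine (Subgroup.commutator_le.2 fun a ha b hb => ?_ : ⁅P, Q⁆ ≤ V) hn
    simpa [commutatorElement_def, mul_assoc] using inv_mem (h b hb a ha)
  have h2 : ⁅P, P⁆ ≤ Subgroup.centralizer (Q : Set G) := Subgroup.commutator_le.2 fun a ha b hb => by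
    obtain ⟨v, hv, c, hc, rfl⟩ := h1 a ha
    obtain ⟨w, hw, d, hd, rfl⟩ := h1 b hb
    have e : ⁅v * c, w * d⁆ = c * d * c⁻¹ * d⁻¹ := by
      have e1 := hz v hv _ (mul_mem (mul_mem hc.1 hb) (inv_mem hc.1))
      have e2 := hz w hw _ hc.1
      have e3 := hz w hw _ (mul_mem (mul_mem (mul_mem hc.1 hd.1) (inv_mem hc.1)) (inv_mem hd.1))
      calc ⁅v * c, w * d⁆ = (v * (c * (w * d) * c⁻¹)) * v⁻¹ * (w * d)⁻¹ := by
            rw [commutatorElement_def]; group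
        _ = (c * w) * d * c⁻¹ * d⁻¹ * w⁻¹ := by rw [e1]; group
        _ = w * (c * d * c⁻¹ * d⁻¹) * w⁻¹ := by rw [← e2]; group
        _ = _ := by rw [e3]; group
    rw [e]
    exact mul_mem (mul_mem (mul_mem hc.2 hd.2) (inv_mem hc.2)) (inv_mem hd.2)
  intro x hx y hy
  obtain ⟨v, hv, c, hc, rfl⟩ := h1 x hx
  exact (mul_mem (h2 (hVP hv)) hc.2 y hy).symm

theorem not_rho_of_comm (hps : p ≠ s) (hPp : IsPGroup p P) (hVP : V ≤ ⁅P, P⁆)
    (hz : ∀ v ∈ V, ∀ y ∈ P, v * y = y * v) (Q : Sylow s G)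
    (h : ∀ x ∈ (Q : Subgroup G), ∀ y ∈ P, x * y * x⁻¹ * y⁻¹ ∈ V)
    (hab : ∀ x ∈ (Q : Subgroup G), ∀ y ∈ (Q : Subgroup G), x * y * x⁻¹ * y⁻¹ ∈ P)
    (hu : ∀ Q' : Sylow s G, (Q' : Subgroup G) ≤ (Q : Subgroup G) ⊔ P) : ¬ Rho G s := by
  refine not_rho_of_normal Q (normal_of_le_normalizer fun Q' => (hu Q').trans
    (sup_le Subgroup.le_normalizer (le_normalizer_of_comm
      (comm_of_comm_mem hps hPp hVP hz Q.2 h)))) fun x hx y hy => ?_
  have := (IsPGroup.disjoint_of_ne p s hps P Q hPp Q.2).le_bot (Subgroup.mem_inf.2 ⟨hab x hx y hy,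
    mul_mem (mul_mem (mul_mem hx hy) (inv_mem hx)) (inv_mem hy)⟩)
  rwa [Subgroup.mem_bot, mul_inv_eq_one, mul_inv_eq_iff_eq_mul] at this

omit hp in
theorem uq_of_coprime [Group.IsSolvable G] (hc : P.index.Coprime (Nat.card P)) {t : ℕ}
    (ht : t.Prime) (hts : t ≠ s) (h : ¬ Rho G (t * s)) {θ : P → ℂ} (hθ : IsIrrCharacter P θ)
    (hd : t ∣ (inertia θ).index * charDegree θ) : UQ s P (inertia θ) := by
  refine uq_of_cd (le_inertia hθ.isClassFunction) fun d hd' e => h ?_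
  refine rho_mul ht hs.out hts (mem_cd_of_coprime hc hθ hd') (hd.trans ⟨d, by ring⟩) ?_
  rw [← mul_assoc]
  exact e.mul_right _

end one

end H93.DG
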