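import Cfsg.Agent.H93.DGPal2
import Cfsg.Agent.H40.InvOver

/-! Palfy's theorem: case I and the induction (blueprints/DEG.md, part 2). -/

set_option autoImplicit false
open Cfsg H28 H32 H44 MulAction
open scoped commutatorElement

namespace H93.DG

universe u

variable {G : Type u} [Group G] [Finite G] {P V : Subgroup G} [hP : P.Normal] [hV : V.Normal]

omit [Finite G] hP in
theorem smul_of_central (hz : ∀ v ∈ V, ∀ y ∈ P, v * y = y * v) {g : G} (hg : g ∈ P) (l : Lin V) :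
    g • l = l := by
  refine Lin.ext' fun n => ?_
  rw [smul_hom]
  congr 1
  exact Subtype.ext (by simp only; rw [← hz n n.2 _ (inv_mem hg)]; group)

theorem exists_inv_irr (hc : P.index.Coprime (Nat.card P)) (hVP : V ≤ P) (hab : ⁅P, P⁆ ≤ V)
    (hz : ∀ v ∈ V, ∀ y ∈ P, v * y = y * v) (l : Lin V) :
    ∃ θ : P → ℂ, IsIrrCharacter P θ ∧ (∀ v : V, θ ⟨v, hVP v.2⟩ = θ 1 * l.hom v) ∧
      inertia θ = stabilizer G l := by
  cases nonempty_fintype V
  obtain ⟨H, hH⟩ := Subgroup.exists_right_complement'_of_coprime hc.symm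
  obtain ⟨θ, h1, h2, h3⟩ := H40.exists_inv_over_of_comm (S := H ⊓ stabilizer G l) hVP
    (fun a ha b hb => hab (Subgroup.commutator_mem_commutator ha hb))
    Subgroup.le_normalizer_of_normal Subgroup.le_normalizer_of_normal
    ((hc.coprime_dvd_left ((Subgroup.relIndex_dvd_card _ _).trans
      (hH.symm.index_eq_card ▸ Subgroup.card_dvd_of_le inf_le_left))).coprime_dvd_right
      (Subgroup.relIndex_dvd_card _ _)) (isIrr_ch l) fun x hx g g' e => by
        have := congrFun (mem_inertia.1 (inertia_ch l ▸ hx.2)) g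
        rw [cj_apply] at this
        rw [← this]
        exact congrArg (ch l) (Subtype.ext e)
  have h4 := clifford_le_inertia hVP (isIrr_ch l)
    (fun g hg => inertia_ch l ▸ smul_of_central hz hg l) h1 h2
  have h5 : ∀ v : V, θ ⟨v, hVP v.2⟩ = θ 1 * l.hom v := fun v => by
    have e1 := congrFun h4 1
    have e2 := congrFun h4 v
    simp only [Pi.smul_apply, smul_eq_mul, ch_apply_one, mul_one] at e1 e2
    rw [e2, ← e1]
    rfl
  refine ⟨θ, h1, h5, le_antisymm (fun g hg => ?_) fun g hg => ?_⟩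
  · rw [← inertia_ch, mem_inertia]
    ext v
    have := mem_inertia_iff.1 hg ⟨v, hVP v.2⟩
    rw [h5, h5 ⟨_, hV.conj_mem v v.2 g⟩] at this
    exact mul_left_cancel₀ h1.apply_one_ne_zero this
  · obtain ⟨⟨x, h⟩, rfl⟩ := hH.existsUnique g |>.exists
    refine mul_mem (le_inertia h1.isClassFunction x.2) (mem_inertia_iff.2 fun n => h3 h
      ⟨h.2, ?_⟩ _ _ rfl)
    simpa using mul_mem (inv_mem (show (x : G) ∈ stabilizer G l from smul_of_central hz x.2 l)) hg

omit hP hV in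
theorem dvd_degree_of_ne {p : ℕ} [Fact p.Prime] (hPp : IsPGroup p P) (hVP : V ≤ P)
    (hab : V ≤ ⁅P, P⁆) {l : Lin V} (hl : l ≠ 1) {θ : P → ℂ} (hθ : IsIrrCharacter P θ)
    (h : ∀ v : V, θ ⟨v, hVP v.2⟩ = θ 1 * l.hom v) : p ∣ charDegree θ := by
  obtain ⟨k, hk⟩ := hθ.exists_pow_charDegree hPp
  rcases k with _ | k
  · refine absurd (Lin.ext' fun v => Units.ext ?_) hl
    obtain ⟨x, hx, e⟩ : (v : G) ∈ (commutator P).map P.subtype :=
      P.map_subtype_commutator ▸ hab v.2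
    have := apply_of_mem_charKer (hθ.charDegree_eq_one_iff.1 hk hx)
    rw [show x = ⟨v, hVP v.2⟩ from Subtype.ext e, h] at this
    exact (mul_eq_left₀ hθ.apply_one_ne_zero).1 this
  · exact hk ▸ dvd_pow_self p k.succ_ne_zero

omit hV in
theorem dvd_index_of_not_mem {s : ℕ} [Fact s.Prime] {Q : Sylow s G}
    (hu : ∀ Q' : Sylow s G, (Q' : Subgroup G) ⊔ P = (Q : Subgroup G) ⊔ P) {l : Lin P}
    (hl : l ∉ fx (Lin P) (Q : Subgroup G)) : s ∣ (stabilizer G l).index := by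
  by_contra h
  obtain ⟨Q', hQ'⟩ := exists_sylow_le h
  exact hl (le_sup_left.trans ((hu Q').ge.trans (sup_le hQ' fun g hg => smul_of_mem hg l)))

omit hP hV in
theorem isPGroup_lin {p : ℕ} [Fact p.Prime] (h : IsPGroup p P) : IsPGroup p (Lin P) := by
  obtain ⟨n, hn⟩ := h.exists_card_eq
  exact fun l => ⟨n, Lin.ext' fun g => by
    rw [Lin.pow_hom, ← map_pow, ← hn, pow_card_eq_one', map_one]; rfl⟩

theorem case_c [Group.IsSolvable G] {p q r : ℕ} [hp : Fact p.Prime] [hq : Fact q.Prime]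
    [hr : Fact r.Prime] (hpq : p ≠ q) (hqr : q ≠ r) (hPp : IsPGroup p P)
    (hc : P.index.Coprime (Nat.card P)) (hV' : V = ⁅P, P⁆) (h0 : V ≠ ⊥)
    (hz : ∀ v ∈ V, ∀ y ∈ P, v * y = y * v) (h1 : ¬ Rho G (p * q)) (h3 : ¬ Rho G (q * r))
    (hur : ∀ l : Lin V, l ≠ 1 → UQ r P (stabilizer G l))
    (hrk : r ∣ (MulDistribMulAction.toMulAut G (Lin V)).ker.index) (Q : Sylow q G)
    (hQV : ∀ x ∈ (Q : Subgroup G), ∀ v ∈ V, x * v = v * x)
    (hu : ∀ Q' : Sylow q G, (Q' : Subgroup G) ⊔ P = (Q : Subgroup G) ⊔ P)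
    (hne : ¬ ∀ x ∈ (Q : Subgroup G), ∀ y ∈ P, x * y * x⁻¹ * y⁻¹ ∈ V) : False := by
  have hVP : V ≤ P := hV' ▸ Subgroup.commutator_le_left _ _
  have hcm : ∀ x ∈ P, ∀ y ∈ P, x * y * x⁻¹ * y⁻¹ ∈ V := fun x hx y hy =>
    hV' ▸ Subgroup.commutator_mem_commutator hx hy
  have hqP := H98.not_dvd_card_of_isPGroup_ne hq.out hpq.symm hPp
  set C := P ⊓ Subgroup.centralizer ((Q : Subgroup G) : Set G) with hCdef
  have hVC : V ≤ C := le_inf hVP fun v hv y hy => hQV y hy v hv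
  have hC : ∀ x ∈ P, (∀ u ∈ (Q : Subgroup G), u * x * u⁻¹ * x⁻¹ ∈ V) → x ∈ C := fun x hx h => by
    obtain ⟨n, hn, h'⟩ := H98.exists_mul_mem_centralizer Q.2 (H98.not_dvd_card_of_le hVP hqP)
      Subgroup.le_normalizer_of_normal (y := x) h
    exact ⟨hx, by simpa using mul_mem (inv_mem (Subgroup.mem_inf.1 (hVC hn)).2) h'⟩
  have hCn : ∀ x ∈ C, ∀ g : G, g * x * g⁻¹ ∈ C := fun x hx g => by
    refine hC _ (hP.conj_mem x hx.1 g) fun u hu' => ?_
    have : g⁻¹ * u * g ∈ ((P ⊔ (Q : Subgroup G) : Subgroup G) : Set G) := by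
      rw [sup_comm, ← hu (g⁻¹ • Q)]
      refine Subgroup.mem_sup_left ?_
      rw [Sylow.coe_subgroup_smul, Subgroup.mem_pointwise_smul_iff_inv_smul_mem]
      simpa [mul_assoc] using hu'
    rw [Subgroup.normal_mul] at this
    obtain ⟨y, hy, w, hw, e⟩ := this
    have e2 : u = g * (y * w) * g⁻¹ := by simp only at e; rw [e]; group
    have e3 : w * x * w⁻¹ = x := by rw [hx.2 w hw]; group
    rw [show u * (g * x * g⁻¹) * u⁻¹ * (g * x * g⁻¹)⁻¹ =
      g * (y * (w * x * w⁻¹) * y⁻¹ * x⁻¹) * g⁻¹ by rw [e2]; group, e3]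
    exact hV.conj_mem _ (hcm y hy x hx.1) g
  let A : Subgroup (Lin P) := ⨅ c : C, (Lin.ev (⟨c, c.2.1⟩ : P)).ker
  have hA : ∀ a, a ∈ A ↔ ∀ c (hc : c ∈ C), a.hom ⟨c, hc.1⟩ = 1 := fun a => by
    simp only [A, Subgroup.mem_iInf, MonoidHom.mem_ker, Subtype.forall, Lin.ev_apply]
  have hAi : ∀ g : G, ∀ a ∈ A, g • a ∈ A := fun g a ha =>
    (hA _).2 fun c hc => (hA a).1 ha _ (hCn c hc g⁻¹)
  have hAr : ∀ a ∈ A, a ≠ 1 → UQ r P (stabilizer G a) := fun a ha h => by
    rw [← inertia_ch]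
    refine uq_of_coprime hc hq.out hqr h3 (isIrr_ch a) (Dvd.dvd.mul_right ?_ _)
    rw [inertia_ch]
    refine dvd_index_of_not_mem hu fun hf => h (Lin.ext' fun y => ?_)
    obtain ⟨n, hn, c, hc', e⟩ := H98.exists_commutator_mul_centralizer Q.2 hqP
      Subgroup.le_normalizer_of_normal y.2
    have : ⁅P, (Q : Subgroup G)⁆ ≤ a.hom.ker.map P.subtype := Subgroup.commutator_le.2 fun x hx u hu' => by
      have e1 := congrArg (fun m : Lin P => m.hom ⟨x, hx⟩) (mem_stabilizer_iff.1 (hf (inv_mem hu')))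
      simp only [smul_hom, inv_inv] at e1
      refine ⟨⟨x, hx⟩ * (⟨_, hP.conj_mem x hx u⟩ : P)⁻¹, ?_, by simp [commutatorElement_def, mul_assoc]⟩
      rw [SetLike.mem_coe, MonoidHom.mem_ker, map_mul, map_inv, e1, mul_inv_cancel]
    obtain ⟨m, hm, rfl⟩ := this hn
    rw [show y = m * ⟨c, hc'.1⟩ from Subtype.ext e, map_mul, (hA a).1 ha c hc',
      MonoidHom.mem_ker.1 hm, mul_one]
    rfl
  obtain ⟨B, hB, e1⟩ := count_uq (fun g hg l => smul_of_mem hg l) A hAi hAr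
  obtain ⟨B', -, e2⟩ := count_uq (fun g hg l => smul_of_central hz hg l) ⊤ (fun _ _ _ => trivial)
    fun a _ h => hur a h
  have hc' : ⁅V, V⁆ = ⊥ := Subgroup.commutator_eq_bot_iff_le_centralizer.2 fun x hx y hy =>
    hz y hy x (hVP hx)
  have hn : 1 < Nat.card (Sylow r (G ⧸ P)) := Finite.one_lt_card_iff_nontrivial.2 (by
    by_contra hs
    rw [not_nontrivial_iff_subsingleton] at hs
    refine not_dvd_index_of_le (default : Sylow r G) (fun x hx => MulEquiv.ext fun l => ?_) hrk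
    by_cases hl : l = 1
    · rw [hl, map_one]; rfl
    obtain ⟨R, hR, -⟩ := hur l hl
    have hf := QuotientGroup.mk'_surjective P
    have e := congrArg (fun S : Sylow r (G ⧸ P) => (S : Subgroup (G ⧸ P)).comap (QuotientGroup.mk' P))
      (Subsingleton.elim ((default : Sylow r G).mapSurjective hf) (R.mapSurjective hf))
    simp only [Sylow.coe_mapSurjective, Subgroup.comap_map_eq, QuotientGroup.ker_mk'] at e
    exact (le_sup_left.trans (e.le.trans (sup_le hR fun g hg => smul_of_central hz hg l))) hx)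
  -- the commutator map
  obtain ⟨u, hu', y, hy, hxC⟩ : ∃ u ∈ (Q : Subgroup G), ∃ y ∈ P, u * y * u⁻¹ * y⁻¹ ∉ C := by
    by_contra hh
    push Not at hh
    have k1 : ⁅P, (Q : Subgroup G)⁆ ≤ C := by
      rw [Subgroup.commutator_comm]
      exact Subgroup.commutator_le.2 hh
    have k2 := H98.commutator_commutator_eq Q.2 hqP Subgroup.le_normalizer_of_normal
    rw [Subgroup.commutator_eq_bot_iff_le_centralizer.2 (k1.trans inf_le_right),
      Subgroup.commutator_comm] at k2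
    exact hne fun x hx y hy => bot_le (a := V) (k2 ▸ Subgroup.commutator_mem_commutator hx hy)
  set x := u * y * u⁻¹ * y⁻¹ with hxdef
  have hx : x ∈ P := mul_mem (hP.conj_mem y hy u) (inv_mem hy)
  have hxc : ∀ c ∈ C, x * c * x⁻¹ * c⁻¹ = 1 := fun c hc => by
    have k1 := hcm c hc.1 y hy
    have k2 : c * x * c⁻¹ = (c * u * c⁻¹) * (c * y * c⁻¹ * y⁻¹) * y * (c * u * c⁻¹)⁻¹ * y⁻¹ *
        (c * y * c⁻¹ * y⁻¹)⁻¹ := by rw [hxdef]; group
    rw [← hc.2 u hu', mul_inv_cancel_right, hQV u hu' _ k1] at k2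
    have k3 : c * x * c⁻¹ = (c * y * c⁻¹ * y⁻¹) * x * (c * y * c⁻¹ * y⁻¹)⁻¹ := by
      rw [k2, hxdef]; group
    rw [hz _ k1 x hx, mul_inv_cancel_right] at k3
    rw [show x * c * x⁻¹ * c⁻¹ = x * (c * x * c⁻¹)⁻¹ by group, k3, mul_inv_cancel]
  let f : P →* V := MonoidHom.mk' (fun w => ⟨_, hcm x hx w w.2⟩) fun a b => Subtype.ext (by
    have := hz _ (hcm x hx b b.2) a a.2
    calc x * ((a * b : P) : G) * x⁻¹ * ((a * b : P) : G)⁻¹
        = x * a * x⁻¹ * (a : G)⁻¹ * (a * (x * b * x⁻¹ * (b : G)⁻¹)) * (a : G)⁻¹ := by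
          simp only [Subgroup.coe_mul]; group
      _ = _ := by rw [← this]; simp only [Subgroup.coe_mul]; group)
  have hf : f.range = ⊤ := by
    by_contra hh
    obtain ⟨v, -, hv⟩ := SetLike.exists_of_lt (lt_top_iff_ne_top.2 hh)
    have hVc : commutator V = ⊥ := Subgroup.map_injective V.subtype_injective (by
      rw [V.map_subtype_commutator, hc', Subgroup.map_bot])
    have : f.range.Normal := ⟨fun a ha g => by
      rwa [show g * a * g⁻¹ = a from Subtype.ext (by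
        simp only [Subgroup.coe_mul, Subgroup.coe_inv]
        rw [hz g g.2 a (hVP a.2), mul_inv_cancel_right])]⟩
    obtain ⟨l, k1, k2⟩ := exists_hom_ne_one_of_commutator_le f.range (hVc ▸ bot_le) hv
    have hl : (show Lin V from l) ≠ 1 := fun e => k2 (congrArg (fun m : Lin V => m.hom v) e)
    obtain ⟨θ, hθ, k3, -⟩ := exists_inv_irr hc hVP hV'.ge hz l
    have k4 := dvd_degree_of_ne hPp hVP hV'.le hl hθ k3
    have k5 : θ ⟨x, hx⟩ ≠ 0 := by
      have : (⟨x, hx⟩ : P) ∈ charCenter θ := hθ.mem_charCenter_iff_commutator.2 fun g =>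
        hθ.mem_charKer.2 (by
          have := k3 (f g)
          rw [show Lin.hom l (f g) = 1 from k1 _ ⟨g, rfl⟩, Units.val_one, mul_one] at this
          exact this)
      intro e
      rw [hθ.mem_charCenter, e, norm_zero, hθ.isCharacter.re_apply_one] at this
      exact hθ.charDegree_pos.ne (by exact_mod_cast this)
    have k6 : ∀ κ : Lin P, (Q : Subgroup G) ≤ inertia (θ * ch κ) := fun κ => by
      obtain ⟨Q', k, -⟩ := uq_of_coprime hc hp.out hpq h1 (isIrr_mul_ch hθ κ)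
        (by rw [charDegree_mul_ch]; exact k4.mul_left _)
      exact le_sup_left.trans ((hu Q').ge.trans
        (sup_le k (le_inertia (isIrr_mul_ch hθ κ).isClassFunction)))
    refine hxC (hC x hx fun w hw => hV' ▸ mem_of_forall_lin
      (mul_mem (hP.conj_mem x hx w) (inv_mem hx)) fun κ => ?_)
    have k7 := mem_inertia.1 (k6 1 hw)
    rw [map_one, mul_one] at k7
    have k8 := congrFun (mem_inertia.1 (k6 κ hw)) ⟨x, hx⟩
    rw [cj_mul_fun, k7] at k8
    have k9 : κ.hom ⟨_, hP.conj_mem x hx w⟩ = κ.hom ⟨x, hx⟩ := Units.ext (mul_left_cancel₀ k5 k8)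
    change κ.hom (⟨_, hP.conj_mem x hx w⟩ * (⟨x, hx⟩ : P)⁻¹) = 1
    rw [map_mul, map_inv, k9, mul_inv_cancel]
  have c1 : Nat.card (⊤ : Subgroup (Lin V)) = f.ker.index := by
    rw [Subgroup.card_top, card_lin, Subgroup.index_ker, hf, Subgroup.card_top,
      show commutator V = ⊥ from Subgroup.map_injective V.subtype_injective (by
        rw [V.map_subtype_commutator, hc', Subgroup.map_bot]), Subgroup.index_bot]
  have c2 : f.ker.index < (C.subgroupOf P).index := Subgroup.index_strictAnti (lt_of_le_of_ne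
    (fun c hc => Subtype.ext (hxc c hc)) fun e => hxC (show (⟨x, hx⟩ : P) ∈ C.subgroupOf P from
      e ▸ Subtype.ext (by simp [f])))
  have : (C.subgroupOf P).Normal := ⟨fun a ha g => hCn a ha g⟩
  have c3 : (C.subgroupOf P).index ≤ Nat.card A := by
    rw [← card_hom_quotient_of_commutator_le (C.subgroupOf P) fun a ha =>
      hVC (hV' ▸ P.map_subtype_commutator ▸ ⟨a, ha, rfl⟩)]
    exact Nat.card_le_card_of_injective (fun m => (⟨m.comp (QuotientGroup.mk' _), (hA _).2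
      fun c hc => by
        change m ((⟨c, hc.1⟩ : P) : P ⧸ C.subgroupOf P) = 1
        rw [(QuotientGroup.eq_one_iff _).2 (show (⟨c, hc.1⟩ : P) ∈ C.subgroupOf P from hc),
          map_one]⟩ : A)) fun a b e => MonoidHom.ext fun z => z.inductionOn' fun w =>
            congrArg (fun m : A => (m : Lin P).hom w) e
  obtain ⟨a, ha⟩ := ((isPGroup_lin hPp).to_subgroup A).exists_card_eq
  obtain ⟨b, hb⟩ := ((isPGroup_lin hPp).to_subgroup B).exists_card_eq
  obtain ⟨c, hc₁⟩ := ((isPGroup_lin (hPp.to_le hVP)).to_subgroup ⊤).exists_card_eq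
  obtain ⟨d, hd⟩ := ((isPGroup_lin (hPp.to_le hVP)).to_subgroup B').exists_card_eq
  have c0 : 1 < Nat.card (⊤ : Subgroup (Lin V)) := by
    obtain ⟨l, hl⟩ := exists_lin_ne_one h0 hc'
    rw [Subgroup.card_top]
    exact Finite.one_lt_card_iff_nontrivial.2 ⟨l, 1, hl⟩
  rw [ha, hb] at e1
  rw [hc₁, hd] at e2
  have := pow_eq_of_count hp.out hn (Nat.pos_of_ne_zero fun e => by rw [e, pow_zero] at ha; omega)
    (Nat.pos_of_ne_zero fun e => by rw [e, pow_zero] at hc₁; omega) e1 e2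
  rw [this] at ha
  omega

omit hP hV in
theorem case_one (hPM : JobPM.{u, u}) [Group.IsSolvable G] {p q r : ℕ} [hp : Fact p.Prime]
    [hq : Fact q.Prime] [hr : Fact r.Prime] (hpq : p ≠ q) (hpr : p ≠ r) (hqr : q ≠ r)
    (P : Sylow p G) (hP : (P : Subgroup G).Normal) (rp : Rho G p) (rq : Rho G q) (rr : Rho G r)
    (ih : ∀ (V : Subgroup G) [V.Normal], V ≠ ⊥ → Rho (G ⧸ V) q → Rho (G ⧸ V) r → ¬ Rho (G ⧸ V) p)
    (h1 : ¬ Rho G (p * q)) (h2 : ¬ Rho G (p * r)) : Rho G (q * r) := by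
  by_contra h3
  have hc := P.card_coprime_index.symm
  obtain ⟨V, hV, hVP', h0, hmin⟩ := H2.exists_minimal_normal_le ⁅(P : Subgroup G), (P : Subgroup G)⁆
    fun e => not_rho_of_normal P hP (fun x hx y hy =>
      (Subgroup.commutator_eq_bot_iff_le_centralizer.1 e hx y hy).symm) rp
  have hVP : V ≤ P := hVP'.trans (Subgroup.commutator_le_left _ _)
  have hz : ∀ v ∈ V, ∀ y ∈ (P : Subgroup G), v * y = y * v := fun v hv y hy => by
    have := (hmin (V ⊓ Subgroup.centralizer ((P : Subgroup G) : Set G)) inferInstance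
      inf_le_left).resolve_left
      (H98.inf_centralizer_ne_bot (P.2.to_le hVP) P.2 Subgroup.le_normalizer_of_normal h0)
    exact ((inf_eq_left.1 this) hv y hy).symm
  have k1 : ∀ (s : ℕ) [Fact s.Prime], p ≠ s → Rho G s → Rho (G ⧸ V) s := fun s hs hps rs => by
    by_contra h
    obtain ⟨n1, n2⟩ := of_not_rho_quot h default
    refine not_rho_of_comm hps P.2 hVP' hz default (fun x hx y hy => ?_)
      (fun x hx y hy => hVP (n2 x hx y hy))
      (fun Q' => (sylow_le_of_normal le_sup_left Q').trans (sup_le_sup_left hVP _)) rs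
    have e1 : x * y * x⁻¹ * y⁻¹ ∈ ((V ⊔ ((default : Sylow s G) : Subgroup G) : Subgroup G) : Set G) := by
      rw [sup_comm, show x * y * x⁻¹ * y⁻¹ = x * (y * x⁻¹ * y⁻¹) by group]
      exact mul_mem (Subgroup.mem_sup_left hx) (n1.conj_mem _ (Subgroup.mem_sup_left (inv_mem hx)) y)
    rw [Subgroup.normal_mul] at e1
    obtain ⟨v, hv, w, hw, e⟩ := e1
    have e2 : w ∈ (P : Subgroup G) := by
      rw [show w = v⁻¹ * (x * y * x⁻¹ * y⁻¹) from eq_inv_mul_iff_mul_eq.2 e]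
      exact mul_mem (inv_mem (hVP hv)) (mul_mem (hP.conj_mem y hy x) (inv_mem hy))
    have := (IsPGroup.disjoint_of_ne p s hps _ _ P.2 (default : Sylow s G).2).le_bot
      (Subgroup.mem_inf.2 ⟨e2, hw⟩)
    rw [← e, Subgroup.mem_bot.1 this]
    simpa using hv
  have hV' : V = ⁅(P : Subgroup G), (P : Subgroup G)⁆ := le_antisymm hVP'
    (Subgroup.commutator_le.2 (of_not_rho_quot (ih V h0 (k1 q hpq rq) (k1 r hpr rr)) P).2)
  have hc' : ⁅V, V⁆ = ⊥ := Subgroup.commutator_eq_bot_iff_le_centralizer.2 fun x hx y hy =>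
    hz y hy x (hVP hx)
  have k2 : ∀ (s : ℕ) [Fact s.Prime], p ≠ s → ¬ Rho G (p * s) → ∀ l : Lin V, l ≠ 1 →
      UQ s P (stabilizer G l) := fun s hs hps h l hl => by
    obtain ⟨θ, hθ, e1, e2⟩ := exists_inv_irr hc hVP hV'.ge hz l
    exact e2 ▸ uq_of_coprime hc hp.out hps h hθ
      ((dvd_degree_of_ne P.2 hVP hVP' hl hθ e1).mul_left _)
  have k3 : ∀ (s : ℕ) [Fact s.Prime], p ≠ s → ¬ Rho G (p * s) → Rho G s →
      ¬ s ∣ (MulDistribMulAction.toMulAut G (Lin V)).ker.index → ∃ Q : Sylow s G,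
      (∀ x ∈ (Q : Subgroup G), ∀ v ∈ V, x * v = v * x) ∧
      (∀ Q' : Sylow s G, (Q' : Subgroup G) ⊔ P = (Q : Subgroup G) ⊔ P) ∧
      ¬ ∀ x ∈ (Q : Subgroup G), ∀ y ∈ (P : Subgroup G), x * y * x⁻¹ * y⁻¹ ∈ V :=
    fun s hs hps h rs hd => by
      obtain ⟨Q, hQ⟩ := exists_sylow_le hd
      obtain ⟨l, hl⟩ := exists_lin_ne_one h0 hc'
      obtain ⟨Q0, -, ab, k⟩ := k2 s hps h l hl
      have k1 : ∀ Q' : Sylow s G, ∀ x ∈ (Q' : Subgroup G), ∀ m : Lin V, x • m = m :=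
        fun Q' x hx m => DFunLike.congr_fun (sylow_le_of_normal hQ Q' hx) m
      have k' := fun Q' => k Q' fun x hx => k1 Q' x hx l
      exact ⟨Q0, fun x hx v hv => comm_of_smul hc' (k1 Q0 x hx) hv, k', fun e =>
        not_rho_of_comm hps P.2 hVP' hz Q0 e ab (fun Q' => le_sup_left.trans (k' Q').le) rs⟩
  have k4 : ∀ g ∈ (P : Subgroup G), ∀ l : Lin V, g • l = l := fun g hg => smul_of_central hz hg
  by_cases dq : q ∣ (MulDistribMulAction.toMulAut G (Lin V)).ker.index <;>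
    by_cases dr : r ∣ (MulDistribMulAction.toMulAut G (Lin V)).ker.index
  · exact h3 (hPM G (Lin V) _ q r hq.out hr.out hqr (lin_irr hmin) dq dr
      (nq_of_uq k4 (k2 q hpq h1)) (nq_of_uq k4 (k2 r hpr h2)))
  · obtain ⟨R, a, b, c⟩ := k3 r hpr h2 rr dr
    exact case_c hpr hqr.symm P.2 hc hV' h0 hz h2 (mul_comm q r ▸ h3) (k2 q hpq h1) dq R a b c
  · obtain ⟨Q, a, b, c⟩ := k3 q hpq h1 rq dq
    exact case_c hpq hqr P.2 hc hV' h0 hz h1 h3 (k2 r hpr h2) dr Q a b c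
  obtain ⟨Q, -, b, c⟩ := k3 q hpq h1 rq dq
  obtain ⟨R, -, b', c'⟩ := k3 r hpr h2 rr dr
  have k5 : ∀ S : Subgroup G, (¬ ∀ x ∈ S, ∀ y ∈ (P : Subgroup G), x * y * x⁻¹ * y⁻¹ ∈ V) →
      ∃ l, l ∉ fx (Lin (P : Subgroup G)) S := fun S hS => by
    by_contra hh
    push Not at hh
    exact hS fun x hx y hy => hV' ▸ comm_mem_of_smul (fun l => hh l hx) hy
  obtain ⟨l, hl⟩ := k5 _ c
  obtain ⟨m, hm⟩ := k5 _ c'
  obtain ⟨k, e1, e2⟩ : ∃ k, k ∉ fx (Lin (P : Subgroup G)) (Q : Subgroup G) ∧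
      k ∉ fx (Lin (P : Subgroup G)) (R : Subgroup G) := by
    by_cases a : l ∈ fx (Lin (P : Subgroup G)) (R : Subgroup G)
    · by_cases a' : m ∈ fx (Lin (P : Subgroup G)) (Q : Subgroup G)
      · exact ⟨l * m, fun e => hl ((mul_mem_cancel_right a').1 e),
          fun e => hm ((mul_mem_cancel_left a).1 e)⟩
      · exact ⟨m, a', hm⟩
    · exact ⟨l, hl, a⟩
  obtain ⟨d, hd, e⟩ := exists_cd_dvd k
  exact h3 ⟨d, hd, (((Nat.coprime_primes hq.out hr.out).2 hqr).mul_dvd_of_dvd_of_dvd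
    (dvd_index_of_not_mem b e1) (dvd_index_of_not_mem b' e2)).trans e⟩

theorem palfy (hPM : JobPM.{u, u}) (n : ℕ) : ∀ (G : Type u) [Group G] [Finite G]
    [Group.IsSolvable G], Nat.card G = n → ∀ p q r : ℕ, p.Prime → q.Prime → r.Prime → p ≠ q →
    q ≠ r → p ≠ r → Rho G p → Rho G q → Rho G r →
    Rho G (p * q) ∨ Rho G (q * r) ∨ Rho G (p * r) := by
  induction n using Nat.strong_induction_on with
  | _ n ih =>
  intro G _ _ _ hn p q r hp hq hr hpq hqr hpr rp rq rr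
  have := Fact.mk hp
  have := Fact.mk hq
  have := Fact.mk hr
  by_contra hc
  push Not at hc
  obtain ⟨h1, h2, h3⟩ := hc
  have k : ∀ (V : Subgroup G) [V.Normal], V ≠ ⊥ → Rho (G ⧸ V) p → Rho (G ⧸ V) q →
      ¬ Rho (G ⧸ V) r := fun V _ h0 a b c => by
    have hm : ∀ s, Rho (G ⧸ V) s → Rho G s := fun s ⟨d, hd, e⟩ => ⟨d, cd_quot V hd, e⟩
    have hlt : Nat.card (G ⧸ V) < n := by
      rw [← hn, Subgroup.card_eq_card_quotient_mul_card_subgroup V]
      exact lt_mul_of_one_lt_right Nat.card_pos ((Subgroup.one_lt_card_iff_ne_bot V).2 h0)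
    rcases ih _ hlt (G ⧸ V) rfl p q r hp hq hr hpq hqr hpr a b c with e | e | e
    exacts [h1 (hm _ e), h2 (hm _ e), h3 (hm _ e)]
  by_cases np : ∃ P : Sylow p G, (P : Subgroup G).Normal
  · obtain ⟨P, hP⟩ := np
    exact h2 (case_one hPM hpq hpr hqr P hP rp rq rr (fun V _ h0 a b c => k V h0 c a b) h1 h3)
  by_cases nq : ∃ P : Sylow q G, (P : Subgroup G).Normal
  · obtain ⟨P, hP⟩ := nq
    exact h3 (case_one hPM hpq.symm hqr hpr P hP rq rp rr (fun V _ h0 a b c => k V h0 a c b)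
      (mul_comm p q ▸ h1) h2)
  by_cases nr : ∃ P : Sylow r G, (P : Subgroup G).Normal
  · obtain ⟨P, hP⟩ := nr
    exact h1 (case_one hPM hpr.symm hqr.symm hpq P hP rr rp rq (fun V _ h0 a b c => k V h0 a b c)
      (mul_comm p r ▸ h3) (mul_comm q r ▸ h2))
  push Not at np nq nr
  have : Nontrivial G := by
    by_contra h
    rw [not_nontrivial_iff_subsingleton] at h
    exact np default ⟨fun a ha g => Subsingleton.elim a (g * a * g⁻¹) ▸ ha⟩
  obtain ⟨V, hV, h0, hmin⟩ := H2.exists_minimal_normal G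
  by_cases a : Rho (G ⧸ V) p
  · by_cases b : Rho (G ⧸ V) q
    · exact h1 (case_two hPM hpr.symm hqr.symm hpq nr np nq h0 hmin (k V h0 a b)
        (mul_comm p r ▸ h3) (mul_comm q r ▸ h2))
    · exact h3 (case_two hPM hpq.symm hqr hpr nq np nr h0 hmin b (mul_comm p q ▸ h1) h2)
  · exact h2 (case_two hPM hpq hpr hqr np nq nr h0 hmin a h1 h3)

end H93.DG
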