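import Cfsg.Agent.H93.FS2
import Cfsg.Agent.H32.DegreeRatio
import Cfsg.Agent.H29.Codeg

/-! A strongly real character above a character of `2`-defect zero. -/

set_option autoImplicit false

namespace H93.FS

open Cfsg H28 H30 H32 ComplexConjugate

theorem exists_over_defect_zero {G : Type*} [Group G] [Fintype G] (N : Subgroup G) [hN : N.Normal]
    [Fintype N] (h2 : IsPGroup 2 (G ⧸ N)) {φ : N → ℂ} (hφ : IsIrrCharacter N φ)
    (hd : 2 ^ (Nat.card N).factorization 2 ∣ charDegree φ) {g : G}
    (hg : cj g φ = fun n => conj (φ n)) :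
    ∃ χ, IsIrrCharacter G χ ∧ fsInd χ = 1 ∧ classInner (fun n : N => χ n) φ = 1 := by
  classical
  obtain ⟨P⟩ : Nonempty (Sylow 2 G) := inferInstance
  have hφ' := Cfsg.IsIrrCharacter.isCharacter hφ
  obtain ⟨k, hk⟩ := IsPGroup.iff_card.1 h2
  obtain ⟨m, hm⟩ := hd
  have hm' : Odd m := by
    by_contra h
    obtain ⟨r, rfl⟩ := Nat.not_odd_iff_even.1 h
    exact Nat.pow_succ_factorization_not_dvd Nat.card_pos.ne' Nat.prime_two
      ((show _ ∣ charDegree φ from ⟨r, by rw [hm]; ring⟩).trans
        (Cfsg.IsIrrCharacter.charDegree_dvd_card hφ))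
  have hP : Nat.card P = 2 ^ k * 2 ^ (Nat.card N).factorization 2 := by
    rw [P.card_eq_multiplicity, Subgroup.card_eq_card_quotient_mul_card_subgroup N, hk,
      Nat.factorization_mul (by positivity) Nat.card_pos.ne', Finsupp.add_apply,
      Nat.Prime.factorization_pow Nat.prime_two, Finsupp.single_eq_same, pow_add]
  obtain ⟨a, ha, e⟩ := Cfsg.IsCharacter.exists_nat_coeffs (Cfsg.IsCharacter.indFun hφ')
  have ha' : ∀ χ : IrrCharacter G, classInner (fun n : N => χ.1 n) φ = a χ := fun χ => by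
    rw [← H33.classInner_indFun_right _ _ (Cfsg.IsIrrCharacter.isClassFunction χ.2),
      ← classInner_conj_symm, ha]
    simp
  choose b hb using fun χ : IrrCharacter G => Cfsg.IsCharacter.classInner_nat (Cfsg.IsCharacter.restrict
    (Cfsg.IsIrrCharacter.isCharacter χ.2) P) (Cfsg.IsIrrCharacter.isCharacter isIrrCharacter_one)
  simp only [classInner, map_one, mul_one] at hb
  have h1 : ∑ χ, a χ * b χ = m := by
    have : (Nat.card P : ℂ)⁻¹ * ∑ x : P, indFun N φ x = m := by
      rw [Finset.sum_eq_single 1 (fun x _ hx => ?_) (by simp), OneMemClass.coe_one, H33.indFun_apply_one,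
        ← Cfsg.IsCharacter.cast_charDegree hφ', hm, hP, Subgroup.index, hk]
      · push_cast; field_simp
      rw [indFun, Finset.sum_eq_zero fun y _ => ?_, mul_zero]
      by_cases h : y⁻¹ * x * y ∈ N
      · refine (Subtype.val_injective.extend_apply φ 0 ⟨_, h⟩).trans ?_
        refine H29.eq_zero_of_pow_factorization_dvd Nat.prime_two hφ ⟨m, hm⟩ ?_
        obtain ⟨j, hj⟩ := IsPGroup.iff_orderOf.1 P.2 x
        rw [← Subgroup.orderOf_coe, ← SemiconjBy.orderOf_eq y (x := y⁻¹ * x * y) (y := x)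
          (by simp [SemiconjBy, mul_assoc]) |>.symm, Subgroup.orderOf_coe, hj]
        exact dvd_pow_self 2 (by rintro rfl; exact hx (by simpa using hj))
      · exact Function.extend_apply' _ _ _ fun ⟨z, hz⟩ => h (hz ▸ z.2)
    rw [e] at this
    simp only [Finset.sum_apply, Pi.smul_apply, smul_eq_mul] at this
    rw [Finset.sum_comm, Finset.mul_sum] at this
    simp only [← Finset.mul_sum, mul_left_comm (Nat.card P : ℂ)⁻¹, hb] at this
    exact_mod_cast this
  obtain ⟨χ, h3, h4⟩ : ∃ χ : IrrCharacter G, (fun g => conj (χ.1 g)) = χ.1 ∧ Odd (a χ * b χ) := by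
    by_contra! h
    obtain ⟨c, hc⟩ := exists_half (fun χ : IrrCharacter G => ⟨_, Cfsg.IsIrrCharacter.conj χ.2⟩)
      (fun χ => Subtype.ext (funext fun _ => Complex.conj_conj _)) (fun χ => a χ * b χ) (fun χ => by
        congr 1
        · have := congrArg conj ((classInner_res_cj (Cfsg.IsIrrCharacter.isClassFunction χ.2) g φ).trans
            (ha' χ))
          rw [← Nat.cast_inj (R := ℂ), ← ha', ← map_natCast conj (a χ), ← this, hg]
          simp [classInner]
        · have := congrArg conj (hb χ)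
          rw [← Nat.cast_inj (R := ℂ), ← hb, ← map_natCast conj (b χ), ← this]
          simp) fun χ e => Nat.not_odd_iff_even.1 (h χ (congrArg Subtype.val e))
    refine Nat.not_odd_iff_even.2 ⟨∑ χ, c χ, ?_⟩ hm'
    rw [← h1, Finset.sum_congr rfl fun χ _ => hc χ, Finset.sum_add_distrib]
    congr 1
    exact Function.Bijective.sum_comp (Function.Involutive.bijective fun χ : IrrCharacter G =>
      Subtype.ext (funext fun _ => Complex.conj_conj _)) c
  obtain ⟨h5, h6⟩ := Nat.odd_mul.1 h4
  refine ⟨χ.1, χ.2, (fsInd_of_real χ.2 (real_iff_conj_eq.2 h3)).resolve_right fun h =>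
    Nat.not_odd_iff_even.2 (even_avg χ.2 h (P : Subgroup G).subtype (hb χ)) h6, ?_⟩
  have h7 : classInner (fun n : N => χ.1 n) φ ≠ 0 := by
    rw [ha', Nat.cast_ne_zero]; exact h5.pos.ne'
  obtain ⟨j, hj, h8⟩ := exists_degree_eq_mul_of_constituent χ.2 hφ h7
  rw [clifford_degree χ.2 hφ h7, ha', mul_left_inj' (Cfsg.IsIrrCharacter.apply_one_ne_zero hφ)] at h8
  have h9 : a χ ∣ 2 ^ k := (Dvd.intro _ (by exact_mod_cast h8)).trans (hj.trans hk.dvd)
  rw [ha', (Nat.coprime_two_right.2 h5).pow_right k |>.eq_one_of_dvd h9, Nat.cast_one]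

end H93.FS
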