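/- FB-AP: the involution `w` has no fixed point on the complement. -/
import Cfsg.Agent.H11.FBSpec

set_option autoImplicit false

namespace H93.FbAP
open MulAction Subgroup H11.FB

universe u v

section
variable {G : Type u} [Group G] [Finite G]

/-- A normal subgroup whose order is the least prime divisor is central. -/
theorem cen_of_minFac {C : Subgroup G} {y : G} (ho : orderOf y = (Nat.card C).minFac)
    (hp : (orderOf y).Prime) {x : G} (hx : x ∈ C) (hn : x * y * x⁻¹ ∈ zpowers y) : x * y = y * x := by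
  have := Fact.mk hp
  obtain ⟨i, hi⟩ := (mem_powers_iff_mem_zpowers.2 hn : x * y * x⁻¹ ∈ Submonoid.powers y)
  have hi : y ^ i = x * y * x⁻¹ := hi
  have it : ∀ k : ℕ, x ^ k * y * (x ^ k)⁻¹ = y ^ i ^ k := fun k => by
    induction k with
    | zero => simp
    | succ k ih =>
      calc x ^ (k + 1) * y * (x ^ (k + 1))⁻¹ = x * (x ^ k * y * (x ^ k)⁻¹) * x⁻¹ := by group
        _ = y ^ i ^ (k + 1) := by rw [ih, ← conj_pow, ← hi, ← pow_mul, ← pow_succ']
  have h1 := it (orderOf x)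
  rw [pow_orderOf_eq_one, one_mul, inv_one, mul_one] at h1
  have h2 : (i : ZMod (orderOf y)) ^ orderOf x = 1 := by
    have := pow_eq_pow_iff_modEq.1 ((pow_one y).trans h1)
    rw [← Nat.cast_pow, ← Nat.cast_one]
    exact (ZMod.natCast_eq_natCast_iff _ _ _).2 this.symm
  have i0 : (i : ZMod (orderOf y)) ≠ 0 := fun e => by
    rw [e, zero_pow (orderOf_pos x).ne'] at h2
    exact zero_ne_one h2
  have d1 := (orderOf_dvd_of_pow_eq_one h2).trans (orderOf_dvd_natCard C hx)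
  have d2 := Nat.le_of_dvd (by have := hp.two_le; omega) (ZMod.orderOf_dvd_card_sub_one i0)
  have d3 : orderOf (i : ZMod (orderOf y)) = 1 := by
    by_contra h
    have d0 : orderOf (i : ZMod (orderOf y)) ≠ 0 := fun e => Nat.card_pos.ne' (Nat.eq_zero_of_zero_dvd (e ▸ d1))
    have := Nat.minFac_le_of_dvd (by omega) d1
    have := hp.two_le
    omega
  have d4 : i ≡ 1 [MOD orderOf y] :=
    (ZMod.natCast_eq_natCast_iff _ _ _).1 ((orderOf_eq_one_iff.1 d3).trans Nat.cast_one.symm)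
  rw [pow_eq_pow_iff_modEq.2 d4, pow_one] at hi
  exact mul_inv_eq_iff_eq_mul.1 hi.symm

/-- A coset representative fixed by the involution. -/
theorem exists_fixed {H : Subgroup G} (ho : Odd (Nat.card H)) {w x y : G} (ww : w * w = 1)
    (hw : ∀ x ∈ H, w * x * w⁻¹ ∈ H) (hx : x ∈ H) (wy : w * y = y * w) (hn : x * y * x⁻¹ ∈ zpowers y) :
    ∃ v ∈ H, Commute v y ∧ w * (x * v) = x * v * w := by
  have wi : w⁻¹ = w := inv_eq_of_mul_eq_one_right ww
  have hu : x⁻¹ * (w * x * w⁻¹) ∈ H := H.mul_mem (H.inv_mem hx) (hw x hx)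
  have cu : Commute (x⁻¹ * (w * x * w⁻¹)) y := by
    obtain ⟨i, hi⟩ := mem_zpowers_iff.1 hn
    have c : Commute w y := wy
    have e1 : w * (x * y * x⁻¹) * w⁻¹ = x * y * x⁻¹ := by
      rw [← hi, (c.zpow_right i).eq, mul_inv_cancel_right]
    have e2 : w⁻¹ * y = y * w⁻¹ := c.inv_left.eq
    calc x⁻¹ * (w * x * w⁻¹) * y = x⁻¹ * w * x * (w⁻¹ * y) := by group
      _ = x⁻¹ * (w * (x * y * x⁻¹) * w⁻¹) * (w * x * w⁻¹) := by rw [e2]; group
      _ = y * (x⁻¹ * (w * x * w⁻¹)) := by rw [e1]; group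
  have iu : w * (x⁻¹ * (w * x * w⁻¹)) * w⁻¹ = (x⁻¹ * (w * x * w⁻¹))⁻¹ := by
    calc w * (x⁻¹ * (w * x * w⁻¹)) * w⁻¹ = w * x⁻¹ * w * x * (w * w)⁻¹ := by group
      _ = w * x⁻¹ * w⁻¹ * x := by rw [ww, wi]; group
      _ = _ := by group
  generalize hU : x⁻¹ * (w * x * w⁻¹) = U at hu cu iu
  obtain ⟨m, hm⟩ := ho
  have p1 : U ^ (2 * m + 1) = 1 := by
    rw [← hm]; exact orderOf_dvd_iff_pow_eq_one.1 (orderOf_dvd_natCard H hu)
  refine ⟨U ^ (m + 1), H.pow_mem hu _, cu.pow_left _, ?_⟩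
  have e1 : w * U ^ (m + 1) * w⁻¹ = (U ^ (m + 1))⁻¹ := by rw [← conj_pow, iu, inv_pow]
  have e2 : w * x * w⁻¹ = x * U := by rw [← hU]; group
  have e3 : U * (U ^ (m + 1))⁻¹ = U ^ (m + 1) := by
    rw [mul_inv_eq_iff_eq_mul, ← pow_add, show m + 1 + (m + 1) = 2 * m + 1 + 1 by ring, pow_succ, p1, one_mul]
  calc w * (x * U ^ (m + 1)) = w * x * w⁻¹ * (w * U ^ (m + 1) * w⁻¹) * w := by group
    _ = x * U ^ (m + 1) * w := by rw [e1, e2, mul_assoc x U, e3]

end

theorem jobAP : JobAP.{u, v} := by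
  intro BU EV G Ω _ _ _ _ _ _ a b c d e K H P h w cx ev hh hp hfix h5 hall wX wN wd ww x0 hx0 wx0
  by_contra x1
  have wi : w⁻¹ = w := inv_eq_of_mul_eq_one_right ww
  have we : w • e = d := by rw [← wd, ← mul_smul, ww, one_smul]
  obtain ⟨wa, wb, wc⟩ := mem_X3.1 wX
  have T := cx.th1 h hh hp
  have hw : ∀ x ∈ H, w * x * w⁻¹ ∈ H := fun x hx => by
    have hL := cx.hy.fr.Hle hx
    obtain ⟨xa, xb, xc, -⟩ := mem_L4.1 hL
    have xe : x • e = e := T.fixH (by omega) x hx e (by rw [hfix]; simp)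
    refine (T.nl _ (mem_L4.2 ?_)).1 (mul_mem (mul_mem wN ((T.nl x hL).2 hx)) (inv_mem wN))
    simp only [wi, mul_smul, wa, wb, wc, wd, xa, xb, xc, xe, we, and_self]
  let C : Subgroup G := H ⊓ centralizer {w}
  have memC : ∀ {x}, x ∈ H → w * x = x * w → x ∈ C := fun hx e =>
    ⟨hx, mem_centralizer_singleton_iff.2 e.symm⟩
  have C1 : Nat.card C ≠ 1 := fun e => x1 (mem_bot.1 ((card_eq_one.1 e).le (memC hx0 wx0)))
  have pp := Nat.minFac_prime C1
  have := Fact.mk pp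
  obtain ⟨⟨y, yC⟩, oy⟩ := exists_prime_orderOf_dvd_card' (G := C) _ (Nat.minFac_dvd _)
  replace oy : orderOf y = (Nat.card C).minFac := (orderOf_coe (⟨y, yC⟩ : C)).trans oy
  have yp : (orderOf y).Prime := oy ▸ pp
  have yH : y ∈ H := yC.1
  have wy : w * y = y * w := (mem_centralizer_singleton_iff.1 yC.2).symm
  have y1 : y ≠ 1 := fun e => yp.one_lt.ne' (orderOf_eq_one_iff.2 e)
  have cen : ∀ x ∈ H, x * y = y * x := fun x hx => by
    obtain ⟨v, hv, cv, e⟩ := exists_fixed cx.odd ww hw hx wy (cx.fh.nrm y yH yp x hx)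
    have := cen_of_minFac oy yp (memC (H.mul_mem hx hv) e) (cx.fh.nrm y yH yp _ (H.mul_mem hx hv))
    rw [mul_assoc, cv.eq, ← mul_assoc, ← mul_assoc] at this
    exact mul_right_cancel this
  have Ty := cx.th1 y yH yp
  have fy := hall y yH y1
  have wNy : w ∈ normalizer (zpowers y : Set G) := mem_normalizer_fintype (by
    rintro _ ⟨i, rfl⟩
    have c : Commute w y := wy
    exact ⟨i, by rw [(c.zpow_right i).eq, mul_inv_cancel_right]⟩)
  obtain ⟨-, -, ad, -, bd, cd⟩ := cx.hy.ne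
  have cX : ∀ g ∈ X3 G a b c, g ∈ normalizer (zpowers y : Set G) → g * y = y * g := by
    intro g hg hN
    obtain ⟨ga, gb, gc⟩ := mem_X3.1 hg
    have dy : y • d = d := (mem_L4.1 (cx.hy.fr.Hle yH)).2.2.2
    have k : g • d ∈ fixedBy Ω y := by
      obtain ⟨i, hi⟩ := mem_zpowers_iff.1 ((mem_normalizer_iff''.1 hN y).1 (mem_zpowers y))
      have : (g⁻¹ * y * g) • d = d := by
        rw [← hi]; exact (stabilizer G d).zpow_mem dy i
      exact conj_smul_iff.1 this
    rw [fy, hfix] at k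
    have i := MulAction.injective (β := Ω) g
    rcases k with k | k | k | k | k
    · exact absurd (i (ga.trans k.symm)) ad
    · exact absurd (i (gb.trans k.symm)) bd
    · exact absurd (i (gc.trans k.symm)) cd
    · exact cen g ((Ty.nl g (mem_L4.2 ⟨ga, gb, gc, k⟩)).1 hN)
    · have k : g • d = e := k
      have := cen _ ((Ty.nl (w * g) (mem_L4.2 (by
        simp only [mul_smul, ga, gb, gc, k, wa, wb, wc, we, and_self]))).1 (mul_mem wNy hN))
      rw [← mul_assoc, ← wy, mul_assoc, mul_assoc] at this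
      exact mul_left_cancel this
  have := Fact.mk yp
  have p2 : orderOf y ≠ 2 := fun e =>
    (Nat.not_even_iff_odd.2 cx.odd) (even_iff_two_dvd.2 (e ▸ orderOf_dvd_natCard H yH))
  have pg : IsPGroup (orderOf y) (zpowers (⟨y, yH⟩ : H)) :=
    IsPGroup.of_card (n := 1) (by rw [Nat.card_zpowers, pow_one]; exact (orderOf_coe (⟨y, yH⟩ : H)).symm)
  obtain ⟨S, hS⟩ := pg.exists_le_sylow
  have RH : (S : Subgroup H).map H.subtype ≤ H := map_subtype_le _
  have Rp : IsPGroup (orderOf y) ((S : Subgroup H).map H.subtype) := S.isPGroup'.map _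
  have yR : y ∈ (S : Subgroup H).map H.subtype := ⟨_, hS (mem_zpowers _), rfl⟩
  obtain ⟨X₁, hX₁⟩ := BU yp p2 rfl yR
    (RH.trans (cx.hy.fr.Hle.trans inf_le_left)) Rp (cx.fh.cyc _ yp _ RH Rp) cX
    ⟨2 * (S : Subgroup H).index, fun k => ((Nat.Prime.dvd_mul yp).1 k).elim
      (fun k => p2 ((Nat.prime_dvd_prime_iff_eq yp Nat.prime_two).1 k)) S.not_dvd_index, by
      rw [Ty.cardX, fy, h5, card_map_of_injective H.subtype_injective, mul_assoc, index_mul_card]⟩
  have w1 := EV cx.hy cx.cd cx.odd cx.pd ev yH yp hX₁ wX ww wy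
  rw [w1, one_smul] at wd
  rw [hfix, ← wd, Set.pair_eq_singleton] at h5
  have h1 := Set.ncard_insert_le a ({b, c, d} : Set Ω)
  have h2 := Set.ncard_insert_le b ({c, d} : Set Ω)
  have h3 := Set.ncard_insert_le c ({d} : Set Ω)
  rw [Set.ncard_singleton] at h3
  omega

end H93.FbAP
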