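import Cfsg.Agent.H42.IVSpec

/-! Slot IV-XA of the tower for S3929: the order of the abelian normal subgroup. -/

set_option autoImplicit false

namespace H93.IvXA

open Subgroup

universe u

theorem card_hom {G H : Type*} [Group G] [Group H] (f : G →* H) :
    Nat.card G = Nat.card f.range * Nat.card f.ker := by
  rw [← index_ker, index_mul_card]

theorem card_ker_restrict_le {G H : Type*} [Group G] [Finite G] [Group H] (f : G →* H)
    (K : Subgroup G) : Nat.card (f.comp K.subtype).ker ≤ Nat.card f.ker := by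
  refine Nat.card_le_card_of_injective (fun x => (⟨x.1.1, x.2⟩ : f.ker)) ?_
  intro x y h
  have h1 : x.1.1 = y.1.1 := congrArg (fun z : f.ker => (z : G)) h
  exact Subtype.ext (Subtype.ext h1)

theorem card_pow_ker {G : Type*} [CommGroup G] [Finite G] (e : ℕ) :
    Nat.card (powMonoidHom (2 ^ e) : G →* G).ker ≤
      Nat.card (powMonoidHom 2 : G →* G).ker ^ e := by
  induction e with
  | zero =>
    have h : (powMonoidHom (2 ^ 0) : G →* G).ker = ⊥ := by
      ext x
      simp
    rw [h]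
    simp
  | succ e ih =>
    set K := (powMonoidHom (2 ^ (e + 1)) : G →* G).ker with hK
    have h1 := card_hom ((powMonoidHom 2 : G →* G).comp K.subtype)
    have h2 := card_ker_restrict_le (powMonoidHom 2 : G →* G) K
    have h3 : ((powMonoidHom 2 : G →* G).comp K.subtype).range ≤
        (powMonoidHom (2 ^ e) : G →* G).ker := by
      rintro _ ⟨x, rfl⟩
      have hx : (x : G) ^ 2 ^ (e + 1) = 1 := x.2
      show ((x : G) ^ 2) ^ 2 ^ e = 1
      rw [← pow_mul, ← hx, pow_succ']
    have h4 := (card_le_of_le h3).trans ih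
    rw [h1, pow_succ]
    exact Nat.mul_le_mul h4 h2

open scoped IsMulCommutative in
theorem jobXA : H42.IV.JobXA.{u} := by
  intro P _ _ A hAn _ a e w X _ hom hX
  let c : A →* A := (MulAut.conjNormal a).toMonoidHom
  have hc : ∀ y : A, ((c y : A) : P) = a * y * a⁻¹ := fun y => rfl
  let ν : A →* A := MonoidHom.id A * c
  have hν : ∀ y : A, ((ν y : A) : P) = y * (a * y * a⁻¹) := fun y => rfl
  have h1 := card_hom ν
  have h2 : Nat.card ν.range = (H42.IV.nrm A a).ncard := by
    rw [← Nat.card_coe_set_eq]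
    refine Nat.card_congr (Equiv.ofBijective
      (fun x => (⟨x.1.1, ?_⟩ : H42.IV.nrm A a)) ⟨?_, ?_⟩)
    · obtain ⟨y, hy⟩ := x.2
      exact ⟨y, y.2, by rw [← hy, hν]⟩
    · intro x y h
      have h1 : x.1.1 = y.1.1 := congrArg (fun z : H42.IV.nrm A a => (z : P)) h
      exact Subtype.ext (Subtype.ext h1)
    · rintro ⟨v, y, hy, rfl⟩
      exact ⟨⟨ν ⟨y, hy⟩, ⟨y, hy⟩, rfl⟩, rfl⟩
  let φ : ν.ker →* ν.ker := powMonoidHom (2 ^ e)
  have h3 := card_hom φ
  have h4 : Nat.card φ.range ≤ Nat.card X := by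
    refine Nat.card_le_card_of_injective (fun x => (⟨x.1.1.1, ?_⟩ : X)) ?_
    · obtain ⟨y, hy⟩ := x.2
      rw [← hy]
      exact hX y.1.1 y.1.2
    · intro x y h
      have h1 : x.1.1.1 = y.1.1.1 := congrArg (fun z : X => (z : P)) h
      exact Subtype.ext (Subtype.ext (Subtype.ext h1))
  have h5 : Nat.card φ.ker ≤ Nat.card (powMonoidHom 2 : ν.ker →* ν.ker).ker ^ e :=
    card_pow_ker e
  have h6 : Nat.card (powMonoidHom 2 : ν.ker →* ν.ker).ker ≤ 2 ^ w := by
    refine le_trans ?_ hom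
    rw [← Nat.card_coe_set_eq]
    refine Nat.card_le_card_of_injective
      (fun x => (⟨x.1.1.1, x.1.1.2, ?_, ?_⟩ : H42.IV.om A a)) ?_
    · exact congrArg (fun z : ν.ker => ((z : A) : P)) x.2
    · have e1 : (x.1.1.1 : P) ^ 2 = 1 := congrArg (fun z : ν.ker => ((z : A) : P)) x.2
      have e2 : (x.1.1.1 : P) * (a * x.1.1.1 * a⁻¹) = 1 := by
        rw [← hν]
        exact congrArg (fun z : A => (z : P)) x.1.2
      rw [pow_two] at e1
      exact mul_left_cancel (e2.trans e1.symm)
    · intro x y h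
      have h1 : x.1.1.1 = y.1.1.1 := congrArg (fun z : H42.IV.om A a => (z : P)) h
      exact Subtype.ext (Subtype.ext (Subtype.ext h1))
  have h7 : Nat.card φ.ker ≤ 2 ^ (e * w) := by
    refine h5.trans ((Nat.pow_le_pow_left h6 e).trans ?_)
    rw [← pow_mul, mul_comm]
  rw [h1, h2, h3, mul_assoc]
  refine Nat.mul_le_mul_left _ ?_
  rw [mul_comm]
  exact Nat.mul_le_mul h7 h4

end H93.IvXA
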