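import Cfsg.Agent.H47.L43Sp
import Cfsg.Agent.H27.Extra

/-! Job AB of the blueprint `LOCAL3C.md`: linear algebra on `𝔽₃⁴` and facts on `SL₂(3)`. -/

set_option autoImplicit false
open H47.L43 Module Submodule

namespace H93.AB

abbrev S2 := Matrix.SpecialLinearGroup (Fin 2) F3

section
set_option maxRecDepth 100000

theorem d1 : ∀ A B : S2, (A * B * A⁻¹ * B⁻¹) ^ 4 = 1 := by decide +kernel

theorem d2 : ∀ A : S2, A ^ 3 = 1 → (∀ M, (A * (M * A * M⁻¹)) ^ 3 = 1) → A = 1 := by decide +kernel

theorem d3 : ∀ A : S2, A * A = 1 → A = 1 ∨ A = -1 := by decide +kernel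

theorem d4 : ∀ A B : S2, A ≠ 1 → A ^ 3 = 1 → B ^ 3 = 1 → A * B = B * A →
    ∃ j : Fin 3, B = A ^ (j : ℕ) := by decide +kernel

theorem d5 : ∀ A : S2, A ≠ 1 → A ^ 3 = 1 → ∃ B, B ^ 3 = 1 ∧ (-1 * (A * B)) ^ 3 = 1 ∧
    ∀ M, ∃ (e : Fin 2) (i j k : Fin 3),
      M = (-1) ^ (e : ℕ) * A ^ (i : ℕ) * B ^ (j : ℕ) * A ^ (k : ℕ) := by decide +kernel

end

theorem h3 : (3 : F3) = 0 := rfl

theorem sq1 : ∀ a : F3, a ≠ 0 → a * a = 1 := by decide

variable {V : Type*} [AddCommGroup V] [Module F3 V]

theorem three (v : V) : v + v + v = 0 := by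
  have : (3 : F3) • v = 0 := by rw [h3, zero_smul]
  linear_combination (norm := module) this

/-- independence of two vectors -/
def Ind (u v : V) : Prop := ∀ a b : F3, a • u + b • v = 0 → a = 0 ∧ b = 0

theorem Ind.finrank {u v : V} (h : Ind u v) : finrank F3 (span F3 {u, v}) = 2 := by
  have := finrank_span_eq_card (LinearIndependent.pair_iff.2 h)
  rwa [Matrix.range_cons, Matrix.range_cons, Matrix.range_empty, Set.union_empty,
    Set.singleton_union] at this

/-- a symplectic space of dimension four -/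
structure Sy (ω : LinearMap.BilinForm F3 V) : Prop where
  fin : Finite V
  dim : finrank F3 V = 4
  alt : ω.IsAlt
  nd : ω.Nondegenerate

variable {ω : LinearMap.BilinForm F3 V} {σ σ' R : V →ₗ[F3] V} {y y' e : V}

theorem Ind.card (h : Sy ω) {u v : V} (i : Ind u v) : Nat.card (span F3 {u, v}) = 9 := by
  have := h.fin
  rw [natCard_eq_pow_finrank (K := F3), i.finrank, Nat.card_zmod]; rfl

namespace Sy

variable (h : Sy ω)
include h

theorem swap (u v : V) : ω u v = -ω v u := (h.alt.neg_eq v u).symm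

theorem iso2 {u v : V} (e : ω u v = 0) : ∀ a ∈ span F3 {u, v}, ∀ b ∈ span F3 {u, v}, ω a b = 0 := by
  intro a ha b hb
  obtain ⟨i, j, rfl⟩ := mem_span_pair.1 ha
  obtain ⟨k, l, rfl⟩ := mem_span_pair.1 hb
  simp [h.alt.self_eq_zero, e, h.swap v u]

theorem perp {u v x : V} (i : Ind u v) (e : ω u v = 0) (h1 : ω u x = 0) (h2 : ω v x = 0) :
    x ∈ span F3 {u, v} := by
  have := h.fin
  rw [eq_of_le_of_finrank_eq (S₁ := span F3 {u, v}) (S₂ := ω.orthogonal (span F3 {u, v}))
    (fun a ha b hb => h.iso2 e b hb a ha)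
    (by rw [ω.finrank_orthogonal h.nd, h.dim, i.finrank])]
  intro a ha
  obtain ⟨i, j, rfl⟩ := mem_span_pair.1 ha
  simp [h1, h2]

theorem nonab (y : V) : ∃ u v, ω y u = 0 ∧ ω y v = 0 ∧ ω u v ≠ 0 := by
  have := h.fin
  by_contra! hn
  have h1 := finrank_mono (s := ω.orthogonal (span F3 {y}))
    (t := ω.orthogonal (ω.orthogonal (span F3 {y}))) fun a ha b hb =>
      hn b a (hb y (mem_span_singleton_self y)) (ha y (mem_span_singleton_self y))
  have h2 := finrank_span_le_card (R := F3) ({y} : Set V)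
  rw [ω.finrank_orthogonal h.nd (ω.orthogonal _), ω.finrank_orthogonal h.nd, h.dim] at h1
  simp only [Set.toFinset_singleton, Finset.card_singleton, Set.finrank] at h2
  omega

theorem exists_eq (hy : y ≠ 0) (k : F3) : ∃ v, ω v y = k := by
  obtain ⟨v, hv⟩ := not_forall.1 (mt (h.nd.2 y) hy)
  exact ⟨(k / ω v y) • v, by simp [div_mul_cancel₀ _ hv]⟩

/-- elements of order three of `Sp₄(3)` act quadratically -/
theorem quad (iso : ∀ u v, ω (σ u) (σ v) = ω u v) (c : ∀ v, σ (σ (σ v)) = v) (x : V) :
    σ (σ x) + σ x + x = 0 := by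
  have := h.fin
  let n : V →ₗ[F3] V := σ - LinearMap.id
  have n2 : ∀ v, n (n v) = σ (σ v) + σ v + v := fun v => by
    simp only [n, LinearMap.sub_apply, map_sub, LinearMap.id_apply]
    linear_combination (norm := module) -three (σ v)
  have n3 : ∀ v, n (n (n v)) = 0 := fun v => by
    rw [n2 v]; simp only [n, LinearMap.sub_apply, map_add, LinearMap.id_apply, c]; abel
  have adj : ∀ u v, ω (n (n u)) v = -ω (n (n v)) u := fun u v => by
    rw [← h.swap, n2, n2]
    simp only [map_add, LinearMap.add_apply]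
    rw [← iso (σ (σ u)), ← iso (σ u), ← iso (σ (σ u)) (σ v), c]; ring
  have z : ∀ u, ω (n (n u)) u = 0 := fun u => by
    linear_combination -adj u u + ω (n (n u)) u * h3
  rw [← n2]
  refine h.nd.1 _ fun y => by_contra fun hy => ?_
  have key : ∀ a b : F3, a • n (n x) + b • n (n y) = 0 → a = 0 ∧ b = 0 := fun a b e => by
    have e1 := congrArg (ω · y) e
    have e2 := congrArg (ω · x) e
    simp only [map_add, map_smul, LinearMap.add_apply, LinearMap.smul_apply, z, adj y x,
      smul_eq_mul, map_zero, LinearMap.zero_apply] at e1 e2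
    exact ⟨by simpa [hy] using e1, by simpa [hy] using e2⟩
  have li : LinearIndependent F3 ![x, y, n x, n y, n (n x)] := Fintype.linearIndependent_iff.2 fun g e => by
    rw [Fin.sum_univ_five] at e
    change g 0 • x + g 1 • y + g 2 • n x + g 3 • n y + g 4 • n (n x) = 0 at e
    obtain ⟨e0, e1⟩ := key _ _ (by simpa [n3] using congrArg (fun v => n (n v)) e)
    rw [e0, e1, zero_smul, zero_smul, zero_add, zero_add] at e
    obtain ⟨e2, e3⟩ := key _ _ (by simpa [n3] using congrArg n e)
    rw [e2, e3, zero_smul, zero_smul, zero_add, zero_add] at e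
    obtain ⟨e4, -⟩ := key _ 0 (by rw [e, zero_smul, add_zero])
    intro i; fin_cases i
    exacts [e0, e1, e2, e3, e4]
  simpa [h.dim] using li.fintype_card_le_finrank

omit h in
theorem star (q : ∀ v, σ' (σ' v) + σ' v + v = 0)
    (q' : ∀ v, σ (σ' (σ (σ' v))) - σ (σ' v) + v = 0) {v : V} (hv : σ v = v) :
    σ (σ' v) = σ' v - v := by
  have e : σ' (σ' (σ' v)) = v := by
    have := congrArg σ' (q v)
    simp only [map_add, map_zero] at this
    linear_combination (norm := module) this - q v
  have := q' (σ' (σ' v))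
  rw [e, hv] at this
  linear_combination (norm := module) this - q v + three v

omit h in
theorem ind_of {l : F3} (hy : y ≠ 0) (h1 : σ y = y) (h2 : σ e = e + l • y) (hl : l ≠ 0) :
    Ind y e := fun a b h => by
  have := congrArg σ h
  rw [map_add, map_smul, map_smul, h1, h2, map_zero, smul_add, ← add_assoc, h, zero_add, smul_smul,
    smul_eq_zero, mul_eq_zero] at this
  obtain rfl : b = 0 := (this.resolve_right hy).resolve_right hl
  simpa [hy] using h

theorem same {l k : F3} (iso : ∀ u v, ω (σ u) (σ v) = ω u v) (hy : y ≠ 0) (h1 : σ y = y)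
    (h2 : σ e = e + l • y) (hl : l ≠ 0) (h4 : σ y' = y' - y) (h5 : ω y e = 0) (r1 : R y = y)
    (r2 : R e = k • y - e) (r3 : ∀ u v, ω (R u) (R v) = -ω u v) (r4 : ∀ v, σ (R (σ v)) = R v)
    (r5 : R y' ∈ span F3 {y, y'}) : span F3 {y, y'} = span F3 {y, e} := by
  have := h.fin
  have a1 : ω y y' = 0 := by
    have := iso y' (e + l • y')
    rw [map_add σ, map_smul σ, h2, h4] at this
    simp only [map_add, map_sub, map_smul, LinearMap.sub_apply, smul_eq_mul, h5,
      h.alt.self_eq_zero, h.swap y' y] at this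
    exact mul_left_cancel₀ hl (by linear_combination -this)
  obtain ⟨a, b, e1⟩ := mem_span_pair.1 r5
  have b1 : b = -1 := by
    have := r4 y'
    rw [h4, map_sub, r1, ← e1, map_sub, map_add, map_smul, map_smul, h1, h4] at this
    have : (b + 1) • y = 0 := by linear_combination (norm := module) -this
    linear_combination (smul_eq_zero.1 this).resolve_right hy
  have a2 : ω y' e = 0 := by
    have := r3 y' e
    rw [← e1, r2, b1] at this
    simp only [map_add, map_sub, map_smul, LinearMap.add_apply, LinearMap.smul_apply, smul_eq_mul,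
      h5, h.alt.self_eq_zero, h.swap y' y, a1] at this
    linear_combination -this + ω y' e * h3
  have i := ind_of hy h1 h2 hl
  refine eq_of_le_of_finrank_eq (span_le.2 (Set.pair_subset (subset_span (.inl rfl))
    (h.perp i h5 a1 (by rw [h.swap, a2, neg_zero])))) ?_
  rw [i.finrank, (ind_of (l := -1) hy h1 (by rw [h4, neg_one_smul, sub_eq_add_neg])
    (by decide)).finrank]

theorem second (iso : ∀ u v, ω (σ u) (σ v) = ω u v) (iso' : ∀ u v, ω (σ' u) (σ' v) = ω u v)
    (q : ∀ v, σ (σ v) + σ v + v = 0) (q' : ∀ v, σ' (σ' v) + σ' v + v = 0)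
    (st : ∀ v, σ v = v → σ (σ' v) = σ' v - v) (hy : y ≠ 0) (h1 : σ y = y) (h2 : ω y (σ' y) = 0) :
    ∃ v v', σ v = v ∧ σ v' = v' - v ∧ ω v v' = 0 ∧
      ∀ a b : F3, a • v + b • v' ∈ span F3 {y, σ' y} → a = 0 ∧ b = 0 := by
  have := h.fin
  obtain ⟨v, hv, hn⟩ : ∃ v, σ v = v ∧ v ∉ span F3 {y} := by
    by_contra! hn
    have e1 := LinearMap.finrank_range_add_finrank_ker (σ - LinearMap.id)
    have e2 := finrank_mono (s := LinearMap.range (σ - LinearMap.id))
      (t := LinearMap.ker (σ - LinearMap.id)) (by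
        rintro _ ⟨v, rfl⟩
        simp only [LinearMap.mem_ker, LinearMap.sub_apply, LinearMap.id_apply, map_sub]
        linear_combination (norm := module) q v - three (σ v))
    have e3 := finrank_mono (s := LinearMap.ker (σ - LinearMap.id)) (t := span F3 {y})
      fun v hv => hn v (sub_eq_zero.1 (LinearMap.mem_ker.1 hv))
    rw [finrank_span_singleton hy] at e3
    rw [h.dim] at e1
    omega
  have fx : ∀ x, σ x = x → x ∈ span F3 {y, σ' y} → x ∈ span F3 {y} := fun x hx e => by
    obtain ⟨a, b, rfl⟩ := mem_span_pair.1 e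
    rw [map_add, map_smul, map_smul, h1, st y h1] at hx
    have : b • y = 0 := by linear_combination (norm := module) -hx
    rw [(smul_eq_zero.1 this).resolve_right hy, zero_smul, add_zero]
    exact smul_mem _ _ (mem_span_singleton_self y)
  have p1 : ω y v = 0 := by
    have := iso (σ' y) v
    rw [st y h1, hv, map_sub, LinearMap.sub_apply] at this
    linear_combination -this
  have sy : ω y (σ' v) = ω v (σ' y) := by
    have := congrArg (ω (σ' y)) (q' v)
    rw [map_add, map_add, iso', iso', map_zero, p1, h.swap (σ' y)] at this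
    linear_combination this
  have c : ω v (σ' y) ≠ 0 := fun e => hn (fx v hv (h.perp (ind_of (l := -1) hy h1
    (by rw [st y h1, neg_one_smul, sub_eq_add_neg]) (by decide)) h2 p1 (by rw [h.swap, e, neg_zero])))
  set k := ω v (σ' v) * ω v (σ' y)
  have hw : σ (v + k • y) = v + k • y := by rw [map_add, map_smul, hv, h1]
  have wn : ∀ a : F3, a • (v + k • y) ∈ span F3 {y, σ' y} → a = 0 := fun a e => by_contra fun a0 =>
    hn ((add_mem_cancel_right (smul_mem _ k (mem_span_singleton_self y))).1
      (fx _ hw ((smul_mem_iff _ a0).1 e)))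
  refine ⟨_, _, hw, st _ hw, ?_, fun a b e => ?_⟩
  · simp only [map_add, map_smul, LinearMap.add_apply, LinearMap.smul_apply, smul_eq_mul, sy, h2]
    linear_combination (k * ω v (σ' y)) * h3 - ω v (σ' v) * sq1 _ c
  · have b0 : b = 0 := by
      obtain ⟨i, j, e1⟩ := mem_span_pair.1 e
      have e2 := congrArg σ e1
      rw [map_add, map_smul, map_smul, h1, st y h1, map_add, map_smul σ a, map_smul σ b, hw,
        st _ hw] at e2
      exact wn b (mem_span_pair.2 ⟨j, 0, by linear_combination (norm := module) e1 - e2⟩)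
    rw [b0, zero_smul, add_zero] at e
    exact ⟨wn a e, b0⟩

end Sy

end H93.AB
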