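import Cfsg.Agent.H93.L43A
import Cfsg.Agent.H12.Basic
import Cfsg.Agent.H98.Basic

/-! Job AB of the blueprint `LOCAL3C.md`: `Q ∩ Q^g` is normal in `C(z)`. -/

set_option autoImplicit false
set_option linter.unusedSectionVars false
open H47.L43 H56.L3 Module Subgroup
open scoped commutatorElement

namespace H93.AB

universe u

variable {G : Type u} [Group G] [Finite G] {z t : G} {Q : Subgroup G} {π : Ce z →* S2}
  {V : Type*} [AddCommGroup V] [Module F3 V] {ω : LinearMap.BilinForm F3 V} {p : G → V} {ζ : F3 → G}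

theorem mem_cj {g x : G} {A : Subgroup G} : x ∈ cj g A ↔ g⁻¹ * x * g ∈ A :=
  ⟨by rintro ⟨a, ha, rfl⟩; simpa [mul_assoc] using ha, fun h => ⟨_, h, by simp [mul_assoc]⟩⟩

theorem mem_Ce {x y : G} : x ∈ Ce y ↔ x * y * x⁻¹ = y :=
  mem_centralizer_singleton_iff.trans mul_inv_eq_iff_eq_mul.symm

theorem cj_zp {g x y : G} (h : x ∈ zpowers y) : g * x * g⁻¹ ∈ zpowers (g * y * g⁻¹) := by
  obtain ⟨k, rfl⟩ := h
  exact ⟨k, conj_zpow⟩

/-- coordinates on `Q / ⟨z⟩` -/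
structure Lin (z : G) (Q : Subgroup G) (ω : LinearMap.BilinForm F3 V) (p : G → V) (ζ : F3 → G) :
    Prop where
  sy : Sy ω
  add : ∀ a ∈ Q, ∀ b ∈ Q, p (a * b) = p a + p b
  surj : ∀ v, ∃ a ∈ Q, p a = v
  zero : ∀ a ∈ Q, p a = 0 ↔ a ∈ zpowers z
  comm : ∀ a ∈ Q, ∀ b ∈ Q, ⁅a, b⁆ = ζ (ω (p a) (p b))
  inj : Function.Injective ζ
  ζ0 : ζ 0 = 1
  ζ1 : ζ 1 = z
  ζ2 : ζ (-1) = z⁻¹
  card : ∀ (U : Submodule F3 V) (E : Subgroup G), (∀ x, x ∈ E ↔ x ∈ Q ∧ p x ∈ U) →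
    Nat.card E = 3 * Nat.card U
  act : ∀ g ∈ Nr Q, ∃ φ : V →ₗ[F3] V, ∀ a ∈ Q, p (g * a * g⁻¹) = φ (p a)

theorem f3 : ∀ k : F3, k = 0 ∨ k = 1 ∨ k = -1 := by decide

namespace H0

variable (h : H0 z t Q π)
include h

theorem z3 : z ^ 3 = 1 := h.oz ▸ pow_orderOf_eq_one z

theorem zinv : z⁻¹ * z⁻¹ = z := by
  rw [← mul_inv_rev, inv_eq_iff_mul_eq_one, ← z3 h, pow_succ, pow_two]

theorem exists_lin : ∃ (d : ℕ) (ω : LinearMap.BilinForm F3 (Fin d → F3)) (p : G → Fin d → F3)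
    (ζ : F3 → G), Lin z Q ω p ζ := by
  classical
  have zp : ∀ x : Q, x ∈ zpowers (⟨z, h.zQ⟩ : Q) ↔ (x : G) ∈ zpowers z := fun x =>
    exists_congr fun k => Subtype.ext_iff
  obtain ⟨d, c, c1, c2⟩ := H27.exists_cform_cyclic 3 (⟨z, h.zQ⟩ : Q) ((orderOf_mk ..).trans h.oz)
    (mem_center_iff.2 fun a => Subtype.ext (mem_centralizer_singleton_iff.1 (h.QC a.2)))
    (fun a b => (zp _).2 (h.comm a a.2 b b.2)) fun a => by
      rw [show a ^ 3 = 1 from Subtype.ext (h.exp a a.2)]; exact one_mem _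
  have e : ∀ a (ha : a ∈ Q), (if h : a ∈ Q then c.π ⟨a, h⟩ else 0) = c.π ⟨a, ha⟩ := fun a ha =>
    dif_pos ha
  refine ⟨d, c.B 3, fun a => if h : a ∈ Q then c.π ⟨a, h⟩ else 0, fun k => c.ζ k,
    ⟨inferInstance, ?_, c.isAlt, c.nondeg_of_center fun x hx => ?_⟩, fun a ha b hb => ?_,
    fun v => ?_, fun a ha => ?_, fun a ha b hb => ?_, fun a b e => c.ζ_inj (Subtype.ext e), ?_,
    by rw [c2], by rw [c.ζ_neg, c2]; rfl, fun U E hE => ?_, fun g hg => ?_⟩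
  · have := c.card_eq
    rw [h.card, Nat.card_zmod, Nat.card_fun, Nat.card_zmod, Nat.card_fin] at this
    rw [finrank_fin_fun]
    exact Nat.pow_right_injective (by norm_num : 2 ≤ 3) (show 3 ^ d = 3 ^ 4 by omega)
  · rw [c1, zp]
    exact h.cen fun a ha => congrArg Subtype.val (mem_center_iff.1 hx ⟨a, ha⟩)
  · rw [e _ (mul_mem ha hb), e a ha, e b hb, ← c.π_mul]; rfl
  · obtain ⟨a, rfl⟩ := c.π_surj v
    exact ⟨a, a.2, e a a.2⟩
  · rw [e a ha, ← c.mem_Z, c1, zp]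
  · rw [e a ha, e b hb, c.ζ_B]; rfl
  · rw [c.ζ_zero]; rfl
  · have := c.card_pre 3 U
    rw [Nat.card_zmod] at this
    rw [← this, ← card_map_of_injective Q.subtype_injective]
    congr 2
    ext x
    rw [hE]
    exact ⟨fun hx => ⟨⟨x, hx.1⟩, (c.mem_pre 3).2 (e x hx.1 ▸ hx.2), rfl⟩, fun ⟨a, ha, e1⟩ =>
      e1 ▸ ⟨a.2, by rw [show Q.subtype a = a from rfl, e a a.2]; exact ha⟩⟩
  · obtain ⟨φ, hφ⟩ := c.exists_induced (p := 3) c (Q.normalizerMonoidHom ⟨g, hg⟩).toMonoidHom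
      fun a => by
        rw [← c.mem_Z, c1, zp]
        refine h.cen fun b hb => ?_
        have := congrArg (fun x : Q => g * x * g⁻¹) (c.ζ_comm a ⟨_, (inv_mem hg b).1 hb⟩)
        simpa [mul_assoc] using this.symm
    exact ⟨φ, fun a ha => by rw [e a ha, hφ, e _ ((hg a).1 ha)]; rfl⟩

theorem conj (g : G) : ∃ π', H0 (g * z * g⁻¹) (g * t * g⁻¹) (cj g Q) π' := by
  have m : ∀ c, c ∈ Ce (g * z * g⁻¹) ↔ g⁻¹ * c * g ∈ Ce z := fun c => by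
    rw [mem_Ce, mem_Ce, ← (MulAut.conj g⁻¹).injective.eq_iff]; simp [mul_assoc]
  have k : ∀ x, g⁻¹ * x * g ∈ zpowers z → x ∈ zpowers (g * z * g⁻¹) := fun x hx => by
    simpa [mul_assoc] using cj_zp (g := g) hx
  refine ⟨π.comp (((MulAut.conj g⁻¹).toMonoidHom.comp (Subgroup.subtype _)).codRestrict _
    fun c => by simpa using (m c).1 c.2), ?_, ⟨z, h.zQ, rfl⟩, fun a ha => (m a).2 (h.QC (mem_cj.1 ha)),
    (card_map_of_injective (MulAut.conj g).injective).trans h.card, ?_, fun a ha b hb => k _ ?_,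
    fun a ha => k _ (h.cen fun b hb => ?_), fun A => ?_, fun c => ?_, ?_, ?_, fun a ha => k _ ?_⟩
  · exact (orderOf_injective (MulAut.conj g).toMonoidHom (MulAut.conj g).injective z).trans h.oz
  · rintro _ ⟨a, ha, rfl⟩
    rw [← map_pow, h.exp a ha, map_one]
  · simpa [mul_assoc] using h.comm _ (mem_cj.1 ha) _ (mem_cj.1 hb)
  · have := congrArg (g⁻¹ * · * g) (ha _ ⟨b, hb, rfl⟩)
    simpa [mul_assoc] using this
  · obtain ⟨c, rfl⟩ := h.surj A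
    exact ⟨⟨g * c * g⁻¹, (m _).2 (by simp [mul_assoc])⟩,
      congrArg π (Subtype.ext (by simp [mul_assoc]))⟩
  · exact (h.ker _).trans (by rw [mem_cj]; simp)
  · exact (m _).2 (by simpa [mul_assoc] using h.tC)
  · rw [conj_mul, h.tt]; group
  · simpa [mul_assoc] using h.inv _ (mem_cj.1 ha)

theorem nC {c : G} (hc : c ∈ Ce z) : c ∈ Nr Q := mem_normalizer_fintype fun a ha =>
  (h.ker ⟨_, mul_mem (mul_mem hc (h.QC ha)) (inv_mem hc)⟩).1 (by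
    change π (⟨c, hc⟩ * ⟨a, h.QC ha⟩ * ⟨c, hc⟩⁻¹) = 1
    rw [map_mul, map_mul, (h.ker ⟨a, _⟩).2 ha, mul_one, ← map_mul, mul_inv_cancel, map_one])

omit h in
theorem cjC {r c : G} (hr : r * z * r⁻¹ = z⁻¹) (hc : c ∈ Ce z) :
    r * c * r⁻¹ ∈ Ce z ∧ r⁻¹ * c * r ∈ Ce z := by
  have e := mem_Ce.1 hc
  constructor <;> rw [mem_Ce]
  · calc _ = (r * (c * (r⁻¹ * (r * z * r⁻¹) * r) * c⁻¹) * r⁻¹)⁻¹ := by rw [hr]; group
      _ = _ := by rw [show r⁻¹ * (r * z * r⁻¹) * r = z by group, e, hr, inv_inv]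
  · calc _ = r⁻¹ * (c * (r * z * r⁻¹) * c⁻¹) * r := by group
      _ = _ := by rw [hr, ← conj_inv, e, ← hr]; group

theorem nQ {r : G} (hr : r * z * r⁻¹ = z⁻¹) : r ∈ Nr Q := mem_normalizer_fintype fun a ha => by
  have h1 := (cjC hr (h.QC ha)).1
  refine (h.ker ⟨_, h1⟩).1 (d2 _ ?_ fun M => ?_)
  · rw [← map_pow, ← map_one π]
    exact congrArg π (Subtype.ext (conj_pow.trans (by rw [h.exp a ha]; simp)))
  · obtain ⟨c, rfl⟩ := h.surj M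
    rw [← map_inv, ← map_mul, ← map_mul, ← map_mul, ← map_pow, ← map_one π]
    have := h.exp _ (mul_mem ha ((nC h (cjC hr c.2).2 a).1 ha))
    refine congrArg π (Subtype.ext ?_)
    calc _ = (r * (a * (r⁻¹ * c * r * a * (r⁻¹ * c * r)⁻¹)) * r⁻¹) ^ 3 := by
          simp [mul_assoc]
      _ = _ := by rw [conj_pow, this]; simp

theorem disj {y x : G} (hy : orderOf y = 3) (hz : y ∉ zpowers z) (h1 : x ∈ zpowers z)
    (h2 : x ∈ zpowers y) : x = 1 := by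
  by_contra e
  obtain ⟨k, hk⟩ := mem_zpowers_of_prime_card (G := zpowers y) (g := ⟨x, h2⟩)
    (g' := ⟨y, mem_zpowers y⟩) ((Nat.card_zpowers y).trans hy) fun e' => e (congrArg Subtype.val e')
  exact hz (Eq.subst (motive := (· ∈ zpowers z)) (congrArg Subtype.val hk) (zpow_mem h1 k))

end H0

/-- the linear map induced by `g` -/
def Ac (Q : Subgroup G) (p : G → V) (g : G) (φ : V →ₗ[F3] V) : Prop :=
  g ∈ Nr Q ∧ ∀ a ∈ Q, p (g * a * g⁻¹) = φ (p a)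

theorem Ac.mul {g g' : G} {φ φ' : V →ₗ[F3] V} (a : Ac Q p g φ) (b : Ac Q p g' φ') :
    Ac Q p (g * g') (φ ∘ₗ φ') := ⟨mul_mem a.1 b.1, fun x hx => by
  rw [LinearMap.comp_apply, ← b.2 x hx, ← a.2 _ ((b.1 x).1 hx)]; congr 1; group⟩

namespace Lin

variable (L : Lin z Q ω p ζ) {g : G} {φ φ' : V →ₗ[F3] V}
include L

theorem ac (hg : g ∈ Nr Q) : ∃ φ, Ac Q p g φ := (L.act g hg).imp fun _ e => ⟨hg, e⟩

theorem uniq (a : Ac Q p g φ) (b : Ac Q p g φ') (v : V) : φ v = φ' v := by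
  obtain ⟨x, hx, rfl⟩ := L.surj v
  rw [← a.2 x hx, b.2 x hx]

theorem one : p 1 = 0 := (L.zero 1 (one_mem _)).2 (one_mem _)

theorem inv {a : G} (ha : a ∈ Q) : p a⁻¹ = -p a :=
  eq_neg_of_add_eq_zero_left (by rw [← L.add _ (inv_mem ha) a ha, inv_mul_cancel, L.one])

theorem pow {a : G} (ha : a ∈ Q) (k : ℕ) : p (a ^ k) = (k : F3) • p a := by
  induction k with
  | zero => simp [L.one]
  | succ k ih => rw [pow_succ, L.add _ (pow_mem ha k) a ha, ih, Nat.cast_succ, add_smul, one_smul]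

theorem acQ (hg : g ∈ Q) : Ac Q p g LinearMap.id := ⟨le_normalizer hg, fun a ha => by
  rw [L.add _ (mul_mem hg ha) _ (inv_mem hg), L.add g hg a ha, L.inv hg]; simp⟩

theorem comm_iff {a b : G} (ha : a ∈ Q) (hb : b ∈ Q) : ω (p a) (p b) = 0 ↔ a * b = b * a := by
  rw [← commutatorElement_eq_one_iff_mul_comm, L.comm a ha b hb, ← L.ζ0, L.inj.eq_iff]

theorem iso (a : Ac Q p g φ) {ε : F3} (e : ∀ k, g * ζ k * g⁻¹ = ζ (ε * k)) (u v : V) :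
    ω (φ u) (φ v) = ε * ω u v := by
  obtain ⟨x, hx, rfl⟩ := L.surj u
  obtain ⟨y, hy, rfl⟩ := L.surj v
  refine L.inj ?_
  rw [← a.2 x hx, ← a.2 y hy, ← L.comm _ ((a.1 x).1 hx) _ ((a.1 y).1 hy), ← e, ← L.comm x hx y hy,
    conjugate_commutatorElement]

theorem iso1 (a : Ac Q p g φ) (e : g ∈ Ce z) (u v : V) : ω (φ u) (φ v) = ω u v :=
  (L.iso a (ε := 1) (fun k => by
    rcases f3 k with rfl | rfl | rfl <;> simp [L.ζ0, L.ζ1, L.ζ2, conj_inv, mem_Ce.1 e,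
      ← conj_inv (a := z)]) u v).trans (one_mul _)

theorem iso2 (a : Ac Q p g φ) (e : g * z * g⁻¹ = z⁻¹) (u v : V) : ω (φ u) (φ v) = -ω u v :=
  (L.iso a (ε := -1) (fun k => by
    rcases f3 k with rfl | rfl | rfl <;> simp [L.ζ0, L.ζ1, L.ζ2, e, ← conj_inv (a := z)]) u v).trans
    (neg_one_mul _)

theorem quad (a : Ac Q p g φ) (e : g ∈ Ce z) (c : g ^ 3 ∈ Q) (v : V) : φ (φ v) + φ v + v = 0 :=
  L.sy.quad (L.iso1 a e) (L.uniq (a.mul (a.mul a)) (by rw [← pow_three]; exact L.acQ c)) v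

theorem act_t (h : H0 z t Q π) : Ac Q p t (-LinearMap.id) := ⟨H0.nC h h.tC, fun a ha =>
  eq_neg_of_add_eq_zero_left (by
    have := (H0.nC h h.tC a).1 ha
    rw [LinearMap.id_apply, ← L.add _ this a ha]
    exact (L.zero _ (mul_mem this ha)).2 (h.inv a ha))⟩

theorem zp {y a : G} (hy : y ∈ Q) (ha : a ∈ zpowers y) : ∃ k : F3, p a = k • p y := by
  obtain ⟨k, rfl⟩ := mem_powers_iff_mem_zpowers.2 ha
  exact ⟨k, L.pow hy k⟩

end Lin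

namespace H0

variable (h : H0 z t Q π)
include h

theorem nonab {y : G} (hy : y ∈ Q) : ∃ a ∈ Q ⊓ Ce y, ∃ b ∈ Q ⊓ Ce y, a * b ≠ b * a := by
  obtain ⟨d, ω, p, ζ, L⟩ := exists_lin h
  obtain ⟨u, v, h1, h2, h3⟩ := L.sy.nonab (p y)
  obtain ⟨a, ha, rfl⟩ := L.surj u
  obtain ⟨b, hb, rfl⟩ := L.surj v
  exact ⟨a, ⟨ha, mem_centralizer_singleton_iff.2 ((L.comm_iff hy ha).1 h1).symm⟩, b,
    ⟨hb, mem_centralizer_singleton_iff.2 ((L.comm_iff hy hb).1 h2).symm⟩, mt (L.comm_iff ha hb).2 h3⟩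

theorem pit : π ⟨t, h.tC⟩ = -1 := by
  refine (d3 _ (by rw [← map_mul, ← map_one π]; exact congrArg π (Subtype.ext h.tt))).resolve_left
    fun e => ?_
  obtain ⟨d, ω, p, ζ, L⟩ := exists_lin h
  obtain ⟨u, v, -, -, h3⟩ := L.sy.nonab 0
  have : -u = u := L.uniq (L.act_t h) (L.acQ ((h.ker _).1 e)) u
  refine h3 (by rw [show u = 0 by linear_combination (norm := module) three u + this]; simp)

theorem exists_inv {y : G} (hy : y ∈ Q) (hz : y ∉ zpowers z) :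
    ∃ t', H0 z t' Q π ∧ t' * y * t'⁻¹ = y⁻¹ := by
  obtain ⟨d, ω, p, ζ, L⟩ := exists_lin h
  have hd := h.inv y hy
  obtain ⟨k, hk⟩ : ∃ k, ζ k = t * y * t⁻¹ * y := by
    obtain ⟨n, hn : z ^ n = _⟩ := mem_powers_iff_mem_zpowers.2 hd
    rw [← hn, ← pow_mod_orderOf, h.oz]
    have : n % 3 < 3 := Nat.mod_lt _ (by norm_num)
    interval_cases n % 3
    exacts [⟨0, L.ζ0.trans (pow_zero z).symm⟩, ⟨1, L.ζ1.trans (pow_one z).symm⟩,
      ⟨-1, L.ζ2.trans (inv_eq_of_mul_eq_one_left ((pow_succ z 2).symm.trans (z3 h)))⟩]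
  obtain ⟨v, hv⟩ := L.sy.exists_eq (mt (L.zero y hy).1 hz) k
  obtain ⟨q, hq, rfl⟩ := L.surj v
  have e := L.comm q hq y hy
  rw [hv, hk, commutatorElement_def, mul_inv_eq_iff_eq_mul] at e
  have cz : ∀ c ∈ Ce z, ∀ x ∈ zpowers z, c * x * c⁻¹ = x := by
    rintro c hc _ ⟨n, rfl⟩
    rw [← conj_zpow, mem_Ce.1 hc]
  have qC := h.QC hq
  refine ⟨q⁻¹ * t * q, ⟨h.oz, h.zQ, h.QC, h.card, h.exp, h.comm, h.cen, h.surj, h.ker,
    mul_mem (mul_mem (inv_mem qC) h.tC) qC, ?_, fun a ha => ?_⟩, ?_⟩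
  · calc _ = q⁻¹ * (t * t) * q := by group
      _ = _ := by rw [h.tt]; group
  · have := h.inv _ (mul_mem (mul_mem hq ha) (inv_mem hq))
    rw [← cz _ (inv_mem qC) _ this] at this
    simpa [mul_assoc] using this
  · generalize hd' : t * y * t⁻¹ * y = d at e hd
    have d3 : d * d * d = 1 := by
      rw [← pow_three', h.exp d (zpowers_le.2 h.zQ hd)]
    have e1 : t * (d * y) * t⁻¹ = (d * y)⁻¹ := by
      rw [← conj_mul, cz t h.tC d hd, eq_mul_inv_of_mul_eq hd', ← mul_assoc,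
        eq_inv_of_mul_eq_one_left d3, ← mul_inv_rev, mul_inv_eq_iff_eq_mul.1 (cz _ (h.QC hy) d hd)]
    calc _ = q⁻¹ * (t * (q * y * q⁻¹) * t⁻¹) * q := by group
      _ = _ := by rw [e, e1, ← e]; group

variable {y t' : G} {Q' : Subgroup G} {π' : Ce y →* S2} (h' : H0 y t' Q' π') (hy : y ∈ Q)
  (hz : y ∉ zpowers z)
include h' hy

theorem mem : z ∈ Q' := by
  obtain ⟨d, ω, p, ζ, L⟩ := exists_lin h
  obtain ⟨a, ha, b, hb, e⟩ := nonab h hy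
  let x : Ce y := ⟨a, ha.2⟩ * ⟨b, hb.2⟩ * ⟨a, ha.2⟩⁻¹ * ⟨b, hb.2⟩⁻¹
  have c : ⁅a, b⁆ ∈ Q' := (h'.ker x).1 (by
    have e4 : π' x ^ 4 = 1 := by simp only [x, map_mul, map_inv, d1]
    rwa [pow_succ, ← map_pow, show x ^ 3 = 1 from Subtype.ext (h.exp _ (mul_mem (mul_mem
      (mul_mem ha.1 hb.1) (inv_mem ha.1)) (inv_mem hb.1))), map_one, one_mul] at e4)
  rw [L.comm a ha.1 b hb.1] at c
  rcases f3 (ω (p a) (p b)) with k | k | k
  · exact absurd ((L.comm_iff ha.1 hb.1).1 k) e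
  · rwa [k, L.ζ1] at c
  · rwa [k, L.ζ2, inv_mem_iff] at c

include hz

theorem comm : ∀ a ∈ Q ⊓ Q', ∀ b ∈ Q ⊓ Q', a * b = b * a := fun a ha b hb =>
  commutatorElement_eq_one_iff_mul_comm.1
    (disj h h'.oz hz (h.comm a ha.1 b hb.1) (h'.comm a ha.2 b hb.2))

theorem pick : ∃ s ∈ Q' ⊓ Ce z, s ∉ Q ∧ ∃ e ∈ Q ⊓ Q', s * e ≠ e * s := by
  have key : ∀ a ∈ Q' ⊓ Ce z, ∀ b ∈ Q' ⊓ Ce z, a ∉ Q → a * b ≠ b * a →
      ∃ e ∈ Q ⊓ Q', a * e ≠ e * a := fun a ha b hb hn e => by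
    have c : ∀ x (hx : x ∈ Q' ⊓ Ce z), π ⟨x, hx.2⟩ ^ 3 = 1 := fun x hx => by
      rw [← map_pow, ← map_one π]; exact congrArg π (Subtype.ext (h'.exp x hx.1))
    obtain ⟨j, hj⟩ := d4 _ _ (mt (h.ker _).1 hn) (c a ha) (c b hb) (by
      rw [← commutatorElement_eq_one_iff_mul_comm, ← map_commutatorElement, h.ker]
      exact zpowers_le.2 hy (h'.comm a ha.1 b hb.1))
    rw [← map_pow, ← mul_inv_eq_one, ← map_inv, ← map_mul, h.ker] at hj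
    refine ⟨_, ⟨hj, Q'.mul_mem hb.1 (Q'.inv_mem (Q'.pow_mem ha.1 _))⟩, fun k => e ?_⟩
    simpa using (Commute.mul_right k ((Commute.refl a).pow_right j)).eq
  obtain ⟨a, ha, b, hb, e⟩ := nonab h' (mem h h' hy)
  by_cases a1 : a ∈ Q
  · exact ⟨b, hb, fun b1 => e (comm h h' hy hz a ⟨a1, ha.1⟩ b ⟨b1, hb.1⟩), a, ⟨a1, ha.1⟩, e.symm⟩
  · exact ⟨a, ha, a1, key a ha b hb a1 e⟩

theorem core : Nat.card (Q ⊓ Q' : Subgroup G) = 27 ∧ Ce z ≤ Nr (Q ⊓ Q') ∧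
    ∃ K : Subgroup G, K ≤ Ce z ∧ Nat.card K = 27 ∧ K ⊓ (Q ⊓ Q') = ⊥ := by
  obtain ⟨d, ω, p, ζ, L⟩ := exists_lin h
  obtain ⟨s, hs, sQ, e, he, se⟩ := pick h h' hy hz
  have zQ := mem h h' hy
  have yQ : zpowers y ≤ Q := zpowers_le.2 hy
  have y0 := mt (L.zero y hy).1 hz
  obtain ⟨σ, a⟩ := L.ac (nC h hs.2)
  have s1 : σ (p y) = p y := by rw [← a.2 y hy, mem_Ce.1 (h'.QC hs.1)]
  obtain ⟨l, hl⟩ := L.zp hy (h'.comm s hs.1 e he.2)
  have s2 : σ (p e) = p e + l • p y := by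
    rw [← a.2 e he.1, ← hl, add_comm, ← L.add _ (yQ (h'.comm s hs.1 e he.2)) e he.1,
      inv_mul_cancel_right]
  have l0 : l ≠ 0 := fun k => se (commutatorElement_eq_one_iff_mul_comm.1 (disj h h'.oz hz
    ((L.zero _ (yQ (h'.comm s hs.1 e he.2))).1 (by rw [hl, k, zero_smul])) (h'.comm s hs.1 e he.2)))
  have yE : y ∈ Q ⊓ Q' := ⟨hy, h'.zQ⟩
  have cE : ∀ a ∈ Q ⊓ Q', ∀ b ∈ Q ⊓ Q', ω (p a) (p b) = 0 := fun a ha b hb =>
    (L.comm_iff ha.1 hb.1).2 (comm h h' hy hz a ha b hb)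
  have i1 := Sy.ind_of y0 s1 s2 l0
  have mE : ∀ x, x ∈ Q ⊓ Q' ↔ x ∈ Q ∧ p x ∈ Submodule.span F3 {p y, p e} := fun x => by
    refine ⟨fun hx => ⟨hx.1, L.sy.perp i1 (cE y yE e he) (cE y yE x hx) (cE e he x hx)⟩,
      fun ⟨hx, k⟩ => ⟨hx, ?_⟩⟩
    obtain ⟨i, j, k⟩ := Submodule.mem_span_pair.1 k
    have m := mem_inf.1 (mul_mem (pow_mem yE i.val) (pow_mem he j.val))
    refine (mul_mem_cancel_right (inv_mem m.2)).1 (zpowers_le.2 zQ
      ((L.zero _ (mul_mem hx (inv_mem m.1))).1 ?_))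
    rw [L.add x hx _ (inv_mem m.1), L.inv m.1, L.add _ (pow_mem hy _) _ (pow_mem he.1 _), L.pow hy,
      L.pow he.1, ZMod.natCast_zmod_val, ZMod.natCast_zmod_val, k, add_neg_cancel]
  have s3 := h'.exp s hs.1
  obtain ⟨B, b1, b2, b3⟩ := d5 (π ⟨s, hs.2⟩) (mt (h.ker _).1 sQ) (by
    rw [← map_pow, ← map_one π]; exact congrArg π (Subtype.ext s3))
  obtain ⟨⟨s', hs'⟩, rfl⟩ := h.surj B
  obtain ⟨σ', a'⟩ := L.ac (nC h hs')
  rw [← map_pow, h.ker] at b1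
  rw [← pit h, ← map_mul, ← map_mul, ← map_pow, h.ker] at b2
  have q := L.quad a hs.2 (s3 ▸ one_mem _)
  have q' := L.quad a' hs' b1
  have st : ∀ v, σ v = v → σ (σ' v) = σ' v - v := fun v => Sy.star q' fun v => by
    simpa [sub_eq_add_neg] using L.quad ((L.act_t h).mul (a.mul a'))
      (mul_mem h.tC (mul_mem hs.2 hs')) b2 v
  have m1 : p y ∈ Submodule.span F3 {p y, σ' (p y)} := Submodule.subset_span (.inl rfl)
  have m2 : σ' (p y) ∈ Submodule.span F3 {p y, σ' (p y)} := Submodule.subset_span (.inr rfl)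
  have inv2 : ∀ {u v} (φ : (Fin d → F3) →ₗ[F3] Fin d → F3), φ u ∈ Submodule.span F3 {u, v} →
      φ v ∈ Submodule.span F3 {u, v} → ∀ x ∈ Submodule.span F3 {u, v},
      φ x ∈ Submodule.span F3 {u, v} := fun φ h1 h2 x hx => by
    obtain ⟨i, j, rfl⟩ := Submodule.mem_span_pair.1 hx
    rw [map_add, map_smul, map_smul]
    exact add_mem (Submodule.smul_mem _ _ h1) (Submodule.smul_mem _ _ h2)
  let N : Submonoid G :=
    { carrier := {c | ∃ φ, Ac Q p c φ ∧ ∀ v ∈ Submodule.span F3 {p y, σ' (p y)},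
        φ v ∈ Submodule.span F3 {p y, σ' (p y)}}
      one_mem' := ⟨_, L.acQ (one_mem _), fun _ h => h⟩
      mul_mem' := fun ⟨_, a, b⟩ ⟨_, a', b'⟩ => ⟨_, a.mul a', fun v hv => b _ (b' v hv)⟩ }
  have n1 : s ∈ N := ⟨σ, a, inv2 σ (s1.symm ▸ m1) (st _ s1 ▸ sub_mem m2 m1)⟩
  have n2 : s' ∈ N := ⟨σ', a', inv2 σ' m2 (by
    rw [eq_neg_of_add_eq_zero_left ((add_assoc ..).symm.trans (q' (p y)))]
    exact neg_mem (add_mem m2 m1))⟩
  have hN : ∀ c ∈ Ce z, c ∈ N := fun c hc => by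
    obtain ⟨ε, i, j, k, e⟩ := b3 (π ⟨c, hc⟩)
    simp only [← pit h, ← map_pow, ← map_mul] at e
    rw [← mul_inv_eq_one, ← map_inv, ← map_mul, h.ker] at e
    simpa [mul_assoc] using mul_mem (show _ ∈ N from ⟨_, L.acQ e, fun _ h => h⟩) (mul_mem (mul_mem (mul_mem
      (pow_mem (show t ∈ N from ⟨_, L.act_t h, fun _ h => neg_mem h⟩) ε) (pow_mem n1 i))
        (pow_mem n2 j)) (pow_mem n1 k))
  obtain ⟨r, hr, rz⟩ := exists_inv h' zQ fun k => by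
    simpa [disj h h'.oz hz (mem_zpowers z) k] using h.oz
  obtain ⟨R, aR⟩ := L.ac (nQ h rz)
  obtain ⟨k, hk⟩ := L.zp hy (hr.inv e he.2)
  have ry : R (p y) = p y := by rw [← aR.2 y hy, mem_Ce.1 hr.tC]
  have same := L.sy.same (R := R) (k := k) (L.iso1 a hs.2) y0 s1 s2 l0 (st _ s1) (cE y yE e he) ry
    (by rw [← hk, L.add _ ((aR.1 e).1 he.1) e he.1, aR.2 e he.1, add_sub_cancel_right])
    (L.iso2 aR rz) (L.uniq (a.mul (aR.mul a)) (by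
      have := (L.acQ ((a.1 _).1 (yQ (hr.inv s hs.1)))).mul aR
      rwa [show s * (r * s * r⁻¹ * s) * s⁻¹ * r = s * (r * s) by group] at this))
    (by
      obtain ⟨φ, b, c⟩ := hN _ (cjC rz hs').1
      have e : φ (R (p y)) = R (σ' (p y)) := L.uniq (b.mul aR) (by
        rw [inv_mul_cancel_right]; exact aR.mul a') (p y)
      rw [← e, ry]
      exact c _ m1)
  refine ⟨by rw [L.card _ _ mE, i1.card L.sy], fun c hc => mem_normalizer_fintype fun x hx => ?_, ?_⟩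
  · obtain ⟨φ, b, k⟩ := hN c hc
    have := (mE x).1 hx
    exact (mE _).2 ⟨(b.1 x).1 this.1, by rw [b.2 x this.1, ← same]; exact k _ (same ▸ this.2)⟩
  obtain ⟨v, v', v1, v2, v3, v4⟩ := L.sy.second (L.iso1 a hs.2) (L.iso1 a' hs') q q' st y0 s1
    (L.sy.iso2 (cE y yE e he) _ (same ▸ m1) _ (same ▸ m2))
  obtain ⟨τ, hτ, τy⟩ := exists_inv h hy hz
  have τi : τ⁻¹ = τ := inv_eq_of_mul_eq_one_right hτ.tt
  have e0 : s⁻¹ * (τ * s * τ⁻¹) ∈ Q ∧ s⁻¹ * (τ * s * τ⁻¹) ∈ Q' := ⟨(h.ker (⟨s, hs.2⟩⁻¹ * (⟨τ, hτ.tC⟩ * ⟨s, hs.2⟩ *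
    ⟨τ, hτ.tC⟩⁻¹))).1 (by simp only [map_mul, map_inv, pit hτ]; simp), mul_mem (Q'.inv_mem hs.1) ((nQ h' τy s).1 hs.1)⟩
  obtain ⟨b, bQ, bτ, b0⟩ : ∃ b ∈ Q', τ * b * τ⁻¹ = b ∧ s⁻¹ * b ∈ Q := by
    refine ⟨_, Q'.mul_mem hs.1 (inv_mem e0.2), ?_, by
      rw [inv_mul_cancel_left]; exact inv_mem e0.1⟩
    have k : τ * (s⁻¹ * (τ * s * τ⁻¹)) * τ⁻¹ = (s⁻¹ * (τ * s * τ⁻¹))⁻¹ := by
      simp only [τi, mul_inv_rev, inv_inv, ← mul_assoc]
      rw [mul_assoc _ τ τ, hτ.tt, mul_one]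
    rw [← conj_mul, ← conj_inv, k, inv_inv, inv_eq_of_mul_eq_one_left
      ((pow_three' _).symm.trans (h.exp _ e0.1)), ← mul_assoc s, mul_inv_cancel_left]
  have ab : Ac Q p b σ := by simpa using a.mul (L.acQ b0)
  have bC : b ∈ Ce z := by simpa using mul_mem hs.2 (h.QC b0)
  have bn : b ∉ Q := fun k => sQ (by simpa using mul_mem k (inv_mem b0))
  have ob : orderOf b = 3 := orderOf_eq_prime (h'.exp b bQ) fun k => bn (k ▸ one_mem _)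
  have cF : ∀ x ∈ Q, ∀ x' ∈ Q, p x ∈ Submodule.span F3 {v, v'} → p x' ∈ Submodule.span F3 {v, v'} →
      x * x' = x' * x := fun x hx x' hx' k k' => (L.comm_iff hx hx').1 (L.sy.iso2 v3 _ k _ k')
  let F : Subgroup G :=
    { carrier := {x | x ∈ Q ∧ p x ∈ Submodule.span F3 {v, v'} ∧ τ * x * τ⁻¹ = x⁻¹}
      one_mem' := ⟨one_mem _, L.one ▸ zero_mem _, by simp⟩
      mul_mem' := fun {x x'} k k' => ⟨mul_mem k.1 k'.1, L.add x k.1 x' k'.1 ▸ add_mem k.2.1 k'.2.1, by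
        rw [← conj_mul, k.2.2, k'.2.2, ← mul_inv_rev, cF x k.1 x' k'.1 k.2.1 k'.2.1]⟩
      inv_mem' := fun {x} k => ⟨inv_mem k.1, L.inv k.1 ▸ neg_mem k.2.1, by rw [← conj_inv, k.2.2]⟩ }
  have F0 : ∀ x ∈ F, p x = 0 → x = 1 := fun x k e => by
    obtain ⟨n, rfl⟩ := (L.zero x k.1).1 e
    have := k.2.2
    rw [← conj_zpow, mem_Ce.1 hτ.tC, eq_inv_iff_mul_eq_one] at this
    rw [← h.exp _ k.1, pow_three, this, mul_one]
  have cF : Nat.card F = 9 := by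
    rw [← Ind.card L.sy fun a b e => v4 a b (e ▸ zero_mem _)]
    refine Nat.card_eq_of_bijective (fun x => ⟨p x, x.2.2.1⟩) ⟨fun x x' e => Subtype.ext
      (mul_inv_eq_one.1 (F0 _ (mul_mem x.2 (inv_mem x'.2)) ?_)), fun ⟨w, hw⟩ => ?_⟩
    · rw [L.add _ x.2.1 _ (inv_mem x'.2.1), L.inv x'.2.1, add_neg_eq_zero]
      exact Subtype.ext_iff.1 e
    obtain ⟨x, hx, rfl⟩ := L.surj w
    have k := L.act_t hτ
    have k1 := (k.1 x).1 hx
    have k2 : p (x⁻¹ * (τ * x * τ⁻¹)) = p x := by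
      rw [L.add _ (inv_mem hx) _ k1, L.inv hx, k.2 x hx, LinearMap.neg_apply, LinearMap.id_apply]
      linear_combination (norm := module) -three (p x)
    refine ⟨⟨_, mul_mem (inv_mem hx) k1, k2 ▸ hw, ?_⟩, Subtype.ext k2⟩
    simp only [τi, mul_inv_rev, inv_inv, ← mul_assoc]
    simp only [mul_assoc _ τ τ, hτ.tt, mul_one]
  have bF : zpowers b ≤ Nr F := zpowers_le.2 (mem_normalizer_fintype fun x k =>
    ⟨(ab.1 x).1 k.1, ab.2 x k.1 ▸ inv2 σ (v1.symm ▸ Submodule.subset_span (.inl rfl))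
      (v2 ▸ sub_mem (Submodule.subset_span (.inr rfl)) (Submodule.subset_span (.inl rfl))) _ k.2.1,
      by rw [← conj_mul, ← conj_mul, ← conj_inv, bτ, k.2.2, conj_inv]⟩)
  have bz : ∀ x ∈ zpowers b, x ∈ Q → x = 1 := fun x k k' => by
    by_contra e
    obtain ⟨n, hn⟩ := mem_zpowers_of_prime_card (G := zpowers b) (g := ⟨x, k⟩)
      (g' := ⟨b, mem_zpowers b⟩) ((Nat.card_zpowers b).trans ob) fun e' => e (congrArg Subtype.val e')
    exact bn (Eq.subst (motive := (· ∈ Q)) (congrArg Subtype.val hn) (zpow_mem k' n))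
  refine ⟨zpowers b ⊔ F, sup_le (zpowers_le.2 bC) fun x k => h.QC k.1, by
    rw [H12.card_sup_of_disjoint bF (eq_bot_iff.2 fun x k => bz x k.1 k.2.1), Nat.card_zpowers, ob,
      cF], eq_bot_iff.2 fun x k => ?_⟩
  obtain ⟨c, hc, f, hf, rfl⟩ := (H98.mem_sup_left_norm bF).1 k.1
  obtain rfl := bz c hc ((mul_mem_cancel_right hf.1).1 k.2.1)
  rw [one_mul] at k ⊢
  obtain ⟨i, j, e⟩ := Submodule.mem_span_pair.1 hf.2.1
  obtain ⟨rfl, rfl⟩ := v4 i j (by rw [e, same]; exact ((mE f).1 k.2).2)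
  exact F0 f hf (by rw [← e, zero_smul, zero_smul, add_zero])

end H0

theorem jobAB : JobAB.{u} := fun _ _ _ _ _ _ _ h g hy hz => by
  obtain ⟨π', h'⟩ := H0.conj h g
  obtain ⟨c1, c2, c3⟩ := H0.core h h' hy hz
  exact ⟨H0.mem h h' hy, c1, H0.comm h h' hy hz, c2, c3⟩

end H93.AB
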