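/- Ore tower: the symplectic groups over the field with two elements. -/
import Cfsg.Agent.H93.OrP
import Cfsg.Agent.H68.OreSp
import Cfsg.Agent.H53.OClass

set_option autoImplicit false

namespace H93.Or

universe u

theorem jobTwo : H68.OreSp.JobTwo.{u} := fun F V _ _ _ _ _ B hB hA h2 h6 g => by
  have e : (2 : F) = 0 := by
    have _ := Fintype.ofFinite F
    simpa [← Nat.card_eq_fintype_card, h2] using FiniteField.cast_card_eq_zero F
  have : CharP F 2 := CharTwo.of_one_ne_zero_of_two_eq_zero one_ne_zero e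
  obtain ⟨Q, rfl, h⟩ := H53.exists_qinv_of_char_two e (ε := -1) (B := B)
    ⟨fun _ => rfl, by simp, fun x y => by simpa using (hA.neg_eq x y).symm, hB.1⟩ hA
    (f := g.1.toLinearMap) g.2
  exact sp_two F V Q hB h2 h6 ⟨g.1, h⟩

end H93.Or
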