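/- R3-Imp: the imprimitive case. -/
import Cfsg.Agent.H70.R3Spec
import Cfsg.Agent.S4200

set_option autoImplicit false

namespace H93.R3Imp
open Cfsg H90 H34.TL H70.R3 Subgroup

universe u

/-- The transitive case without faithfulness. -/
theorem low_cls {H W : Type u} [Group H] [Finite H] [AddCommGroup W] [Finite W] [DistribMulAction H W]
    {p m : ℕ} (c : Ctx H W p m) : p ≤ cls H ∨ m = 1 ∨ (p = 11 ∧ m = 2) := by
  let φ := MulAction.toPermHom H W
  let _ : DistribMulAction φ.range W :=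
    { (inferInstance : MulAction φ.range W) with
      smul_zero := by rintro ⟨_, g, rfl⟩; exact smul_zero g
      smul_add := by rintro ⟨_, g, rfl⟩ v w; exact smul_add g v w }
  have : FaithfulSMul φ.range W := ⟨fun {a b} e => Subtype.ext (Equiv.ext e)⟩
  have c' : Ctx φ.range W p m := ⟨c.prime, c.pos, c.card,
    fun e => c.cop (e.trans (card_range_dvd φ)), fun v w hv hw => by
      obtain ⟨g, e⟩ := c.tr v w hv hw
      exact ⟨⟨φ g, g, rfl⟩, e⟩⟩
  rcases c'.low with h | h | h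
  · exact .inl (h.trans (Nat.card_le_card_of_surjective _
      (ConjClasses.map_surjective φ.rangeRestrict_surjective)))
  · exact .inr (.inl h.1)
  · exact .inr (.inr ⟨h.1, h.2.1⟩)

/-- Automorphisms preserving a subgroup of prime order commute on it. -/
theorem comm_on {G V : Type u} [Group G] [AddCommGroup V] [DistribMulAction G V] {W : AddSubgroup V} {p : ℕ}
    (hp : p.Prime) (hW : Nat.card W = p) {g k : G} (hg : ∀ v ∈ W, g • v ∈ W) (hk : ∀ v ∈ W, k • v ∈ W)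
    {v : V} (hv : v ∈ W) : (g * k) • v = (k * g) • v := by
  by_cases h0 : v = 0
  · simp [h0]
  have := Fact.mk hp
  have top : AddSubgroup.zmultiples (⟨v, hv⟩ : W) = ⊤ :=
    zmultiples_eq_top_of_prime_card hW fun e => h0 (congrArg Subtype.val e)
  obtain ⟨a, ha⟩ := top.ge (AddSubgroup.mem_top ⟨_, hg v hv⟩)
  obtain ⟨b, hb⟩ := top.ge (AddSubgroup.mem_top ⟨_, hk v hv⟩)
  have ha' : a • v = g • v := congrArg Subtype.val ha
  have hb' : b • v = k • v := congrArg Subtype.val hb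
  rw [mul_smul, mul_smul, ← ha', ← hb', smul_comm g b, smul_comm k a, ← ha', ← hb', smul_comm a b]

theorem jobImp : H70.R3.JobImp.{u} := by
  rintro G V _ _ _ _ _ _ p n v₁ v₂ h ⟨W₁, W₂, hc, n1, n2, hg⟩
  have dis : ∀ v ∈ W₁, v ∈ W₂ → v = 0 := fun v a b =>
    AddSubgroup.mem_bot.1 (hc.disjoint.le_bot (AddSubgroup.mem_inf.2 ⟨a, b⟩))
  obtain ⟨⟨w₁, m1⟩, z1⟩ := (AddSubgroup.ne_bot_iff_exists_ne_zero).1 n1
  obtain ⟨⟨w₂, m2⟩, z2⟩ := (AddSubgroup.ne_bot_iff_exists_ne_zero).1 n2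
  replace z1 : w₁ ≠ 0 := fun e => z1 (Subtype.ext e)
  replace z2 : w₂ ≠ 0 := fun e => z2 (Subtype.ext e)
  have inv : ∀ (g : G) (x : V), x ∈ W₁ ∨ x ∈ W₂ → g • x ∈ W₁ ∨ g • x ∈ W₂ := fun g x hx => by
    rcases hg g with k | k <;> rcases hx with a | a
    exacts [.inl (k.1 x a), .inr (k.2 x a), .inr (k.1 x a), .inl (k.2 x a)]
  have out : ¬ (w₁ + w₂ ∈ W₁ ∨ w₁ + w₂ ∈ W₂) := by
    rintro (a | a)
    · exact z2 (dis _ ((W₁.add_mem_cancel_left m1).1 a) m2)
    · exact z1 (dis _ m1 ((W₂.add_mem_cancel_right m2).1 a))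
  have ne : ∀ (v : V) (a b : G), a • v = w₁ + w₂ → ¬ (b • v ∈ W₁ ∨ b • v ∈ W₂) := fun v a b e k => by
    have := inv (a * b⁻¹) _ k
    rw [mul_smul, inv_smul_smul, e] at this
    exact out this
  have tr : ∀ x, x ∈ W₁ ∨ x ∈ W₂ → x ≠ 0 → ∀ y, y ∈ W₁ ∨ y ∈ W₂ → y ≠ 0 → ∃ g : G, g • x = y := by
    intro x hx x0 y hy y0
    have s0 : w₁ + w₂ ≠ 0 := fun e => out (.inl (e ▸ W₁.zero_mem))
    rcases h.cover _ s0 with ⟨a, e⟩ | ⟨a, e⟩ <;> rcases h.cover x x0 with ⟨b, rfl⟩ | ⟨b, rfl⟩ <;>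
      rcases h.cover y y0 with ⟨c, rfl⟩ | ⟨c, rfl⟩ <;>
      first
        | exact absurd hx (ne _ a b e)
        | exact absurd hy (ne _ a c e)
        | exact ⟨c * b⁻¹, by rw [mul_smul, inv_smul_smul]⟩
  have fix : ∀ (g : G) (x : V), x ∈ W₁ → x ≠ 0 → g • x ∈ W₁ →
      (∀ v ∈ W₁, g • v ∈ W₁) ∧ ∀ v ∈ W₂, g • v ∈ W₂ := fun g x a x0 b =>
    (hg g).resolve_right fun k => (smul_ne_zero_iff_ne g).2 x0 (dis _ b (k.1 x a))
  let G0 : Subgroup G :=
    { carrier := {g | ∀ v ∈ W₁, g • v ∈ W₁}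
      one_mem' := fun v hv => by simpa using hv
      mul_mem' := fun {a b} ha hb v hv => by rw [mul_smul]; exact ha _ (hb v hv)
      inv_mem' := fun {a} ha => (fix a⁻¹ (a • w₁) (ha _ m1) ((smul_ne_zero_iff_ne a).2 z1)
        (by simpa using m1)).1 }
  obtain ⟨t, ht⟩ := tr w₁ (.inl m1) z1 w₂ (.inr m2) z2
  have sw : (∀ v ∈ W₁, t • v ∈ W₂) ∧ ∀ v ∈ W₂, t • v ∈ W₁ :=
    (hg t).resolve_left fun k => z2 (dis _ (ht ▸ k.1 _ m1) m2)
  have idx : G0.index ≤ 2 := Nat.le_of_dvd two_pos (index_dvd_two_iff.2 ⟨t, fun b => by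
    rcases hg b with k | k
    · exact .inr k.1
    · exact .inl fun v hv => by rw [mul_smul]; exact k.2 _ (sw.1 v hv)⟩)
  have ceq : Nat.card W₁ = Nat.card W₂ := le_antisymm
    (Nat.card_le_card_of_injective (fun v : W₁ => (⟨t • v.1, sw.1 _ v.2⟩ : W₂)) fun a b e =>
      Subtype.ext (MulAction.injective t (congrArg Subtype.val e)))
    (Nat.card_le_card_of_injective (fun v : W₂ => (⟨t • v.1, sw.2 _ v.2⟩ : W₁)) fun a b e =>
      Subtype.ext (MulAction.injective t (congrArg Subtype.val e)))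
  obtain ⟨m, -, hm⟩ := (Nat.dvd_prime_pow h.prime).1 (h.card ▸ W₁.card_addSubgroup_dvd_card)
  let _ : DistribMulAction G0 W₁ :=
    { smul := fun g v => ⟨g.1 • v.1, g.2 _ v.2⟩
      one_smul := fun v => Subtype.ext (one_smul G v.1)
      mul_smul := fun a b v => Subtype.ext (mul_smul a.1 b.1 v.1)
      smul_zero := fun g => Subtype.ext (smul_zero g.1)
      smul_add := fun g v w => Subtype.ext (smul_add g.1 v.1 w.1) }
  have c : Ctx G0 W₁ p m := ⟨h.prime, Nat.pos_of_ne_zero (by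
      rintro rfl
      exact n1 (AddSubgroup.card_eq_one.1 hm)), hm,
    fun e => h.cop (e.trans G0.card_subgroup_dvd_card), fun v w hv hw => by
      have v0 : v.1 ≠ 0 := fun e => hv (Subtype.ext e)
      obtain ⟨g, e⟩ := tr v.1 (.inl v.2) v0 w.1 (.inl w.2) fun e => hw (Subtype.ext e)
      exact ⟨⟨g, (fix g _ v.2 v0 (e ▸ w.2)).1⟩, Subtype.ext e⟩⟩
  have lt := h.lt
  have g11 := h.ge11
  rcases low_cls c with k | rfl | ⟨rfl, rfl⟩
  · have := (Cfsg.Agent.S4200.result G0).1.trans (Nat.mul_le_mul_right _ idx)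
    unfold cls at k lt
    omega
  · rw [pow_one] at hm
    have : IsMulCommutative G0 := ⟨⟨fun a b => Subtype.ext (eq_of_smul_eq_smul (α := V) fun v => by
      obtain ⟨x, hx, y, hy, rfl⟩ := AddSubgroup.mem_sup.1 (hc.sup_eq_top.ge (AddSubgroup.mem_top v))
      rw [smul_add, smul_add, coe_mul, coe_mul, comm_on h.prime hm a.2 b.2 hx,
        comm_on h.prime (ceq ▸ hm) (fix a _ m1 z1 (a.2 _ m1)).2 (fix b _ m1 z1 (b.2 _ m1)).2 hy])⟩⟩
    have h1 := (card_le_cls_mul G0).trans (Nat.mul_le_mul_left _ idx)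
    have h2 := h.toTwo.le_card
    have h3 : Nat.card G ≤ Nat.card G0 * 2 := by
      rw [← G0.card_mul_index]; exact Nat.mul_le_mul_left _ idx
    have h4 : p ^ 2 ≤ p ^ n := Nat.pow_le_pow_right h.prime.pos h.two_le
    unfold cls at lt
    nlinarith
  · have inj : Nat.card (W₁ × W₂) ≤ Nat.card V :=
      Nat.card_le_card_of_injective (fun x : W₁ × W₂ => x.1.1 + x.2.1) fun a b e => by
        have e1 : a.1.1 - b.1.1 = b.2.1 - a.2.1 := by
          rw [sub_eq_sub_iff_add_eq_add, add_comm b.2.1]; exact e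
        have k := dis _ (W₁.sub_mem a.1.2 b.1.2) (e1 ▸ W₂.sub_mem b.2.2 a.2.2)
        exact Prod.ext (Subtype.ext (sub_eq_zero.1 k)) (Subtype.ext (sub_eq_zero.1 (e1 ▸ k)).symm)
    rw [Nat.card_prod, ← ceq, hm, h.card, ← pow_add] at inj
    have := h.ge13 ((Nat.pow_le_pow_iff_right (by norm_num)).1 inj)
    omega

end H93.R3Imp
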