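/- SPIN tower (S4578): `Lift`, `Struct`, `OddP`. -/
import Cfsg.Agent.H2.SpSpec
import Cfsg.Agent.S0955

set_option autoImplicit false

namespace H93.Sp
open Cfsg Equiv Subgroup H98 H2.Sp

universe u

section
variable {H X : Type*} [Group H] [Finite H] [Group X] {π : H →* X} {p : ℕ} [hp : Fact p.Prime]

theorem syl_nor (hk : π.ker ≤ center H) {Q : Subgroup X} (hQ : IsPGroup p Q) {S : Subgroup H}
    (h : IsSyl p S (Q.comap π)) : π.range ⊓ Q ≤ S.map π ∧
      (normalizer (Q : Set X)).comap π ≤ normalizer (S : Set H) := by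
  have a := (h.map π).eq_of_isPGroup (hQ.to_le (map_comap_le π Q))
  rw [map_comap_eq] at a
  refine ⟨a.ge, fun g hg => ?_⟩
  obtain ⟨b, hb, n, hn, rfl⟩ := h.frattini_mem (le_normalizer_comap π hg)
  obtain ⟨s, hs, e⟩ := a.ge ⟨⟨n, rfl⟩, hn⟩
  rw [← mul_inv_cancel_left s n]
  exact mul_mem hb (mul_mem (le_normalizer hs) (center_le_normalizer _ (hk (by
    rw [MonoidHom.mem_ker, map_mul, map_inv, e, inv_mul_cancel]))))

omit [Finite H] in
theorem le_cent (hk : π.ker ≤ center H) {x : H} (hx : ¬ p ∣ orderOf x) {S : Subgroup H}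
    (hS : IsPGroup p S) (h : S ≤ (centralizer {π x}).comap π) : S ≤ centralizer {x} := fun s hs => by
  have cz : s * x * s⁻¹ * x⁻¹ ∈ center H := hk (by
    rw [MonoidHom.mem_ker, map_mul, map_mul, map_mul, mem_centralizer_singleton_iff.1 (h hs), map_inv,
      map_inv, mul_inv_cancel_right, mul_inv_cancel])
  obtain ⟨c, hc⟩ : ∃ c, c = s * x * s⁻¹ * x⁻¹ := ⟨_, rfl⟩
  rw [← hc] at cz
  have cm : ∀ g, Commute c g := fun g => (mem_center_iff.1 cz g).symm
  have e : s * x * s⁻¹ = c * x := by rw [hc, inv_mul_cancel_right]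
  have a : ∀ k : ℕ, s ^ k * x * (s ^ k)⁻¹ = c ^ k * x := fun k => by
    induction k with
    | zero => simp
    | succ k ih =>
      rw [pow_succ, mul_inv_rev, show s ^ k * s * x * (s⁻¹ * (s ^ k)⁻¹) =
        s ^ k * (s * x * s⁻¹) * (s ^ k)⁻¹ by group, e, ← mul_assoc, ← (cm _).eq, mul_assoc c,
        mul_assoc c, ih, pow_succ', mul_assoc]
  obtain ⟨k, hk⟩ := isPGroup_iff_forall.1 hS s hs
  have b1 := a (p ^ k)
  rw [hk, one_mul, inv_one, mul_one, right_eq_mul] at b1
  have b2 := (cm x).mul_pow (orderOf x)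
  rw [← e, conj_pow, pow_orderOf_eq_one, mul_one, mul_one, mul_inv_cancel] at b2
  have := (pow_eq_one_iff_of_coprime ((hp.out.coprime_iff_not_dvd.2 hx).pow_left k)).1 ⟨b1, b2.symm⟩
  rw [this, one_mul] at e
  exact mem_centralizer_singleton_iff.2 (mul_inv_eq_iff_eq_mul.1 e)
end

theorem jobLift : Lift.{u} := by
  intro Ω _ _ H _ _ π hr hk p hp M hM B hB x hx P D hD
  have := hM.2.1
  have h1 := H36.not_dvd_orderOf_of_isDefectClass hM hB hx
  have s : IsSyl p D (centralizer {x}) := hD ▸ isSyl_map_subtype P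
  have l : D.map π ≤ centralizer {π x} := by
    rintro _ ⟨d, hd, rfl⟩
    rw [mem_centralizer_singleton_iff, ← map_mul, mem_centralizer_singleton_iff.1 (s.le hd), map_mul]
  refine ⟨fun d => h1 (d.trans (orderOf_map_dvd π x)), ⟨le_inf (hr ▸ map_le_range π D) l,
    s.isPGroup.map π, fun Q hQ a b => le_antisymm ?_ a⟩, fun K a b c d => ?_, fun v hv k e =>
      s.le_of_le_normalizer (isPGroup_zpowers e) (zpowers_le.2 (center_le_centralizer _ hv))
        (fun g _ => centralizer_le_normalizer _ fun y hy =>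
          (mem_center_iff.1 (zpowers_le.2 hv hy) g).symm) (mem_zpowers v)⟩
  · obtain ⟨S, hS, e⟩ := exists_isSyl_le s.isPGroup (map_le_iff_le_comap.1 a)
    rw [← s.eq_of_le hS.isPGroup e (le_cent hk h1 hS.isPGroup
      (hS.le.trans (comap_mono (b.trans inf_le_right))))]
    exact (le_inf (hr ▸ b.trans inf_le_left) le_rfl).trans (syl_nor hk hQ hS).1
  · obtain ⟨S, hS⟩ := exists_isSyl p (K.comap π)
    have s' : IsSyl p D ((D.map π).comap π) := ⟨le_comap_map π D, s.isPGroup, fun Q hQ a b =>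
      s.eq_of_le hQ a (le_cent hk h1 hQ (b.trans (comap_mono l)))⟩
    have n1 : S ≤ normalizer (D : Set H) :=
      hS.le.trans ((comap_mono c).trans (syl_nor hk (s.isPGroup.map π) s').2)
    have n2 : normalizer (D : Set H) ≤ normalizer (S : Set H) := fun g hg => (syl_nor hk b hS).2
      (d ⟨hr.le ⟨g, rfl⟩, le_normalizer_map π (mem_map_of_mem π hg)⟩)
    refine (le_inf (hr ▸ a) le_rfl).trans ((syl_nor hk b hS).1.trans (map_mono ?_))
    have := normal_subgroupOf_of_le_normalizer n2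
    rw [← Agent.S0955.result p M hM B hB D ⟨x, hx, P, hD⟩, ← map_subgroupOf_eq_of_le n1]
    exact map_mono (H2.le_pCore (isPGroup_subgroupOf hS.isPGroup _))

section
variable {Ω : Type} [Fintype Ω] [DecidableEq Ω] {p : ℕ}

omit [Fintype Ω] [DecidableEq Ω] in
theorem pow_app {g d : Perm Ω} (h : Commute g d) {b : Ω} (e : g b = d b) (k : ℕ) :
    (g ^ k) b = (d ^ k) b := by
  induction k with
  | zero => rfl
  | succ k ih =>
    rw [pow_succ, Perm.mul_apply, e, ← Perm.mul_apply, (h.pow_left k).eq, Perm.mul_apply, ih, pow_succ',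
      Perm.mul_apply]

/-- the permutations centralising `D` and preserving its orbits -/
def K0 (D : Subgroup (Perm Ω)) : Subgroup (Perm Ω) where
  carrier := {g | (∀ d ∈ D, Commute g d) ∧ ∀ b, ∃ d ∈ D, g b = d b}
  one_mem' := ⟨fun d _ => Commute.one_left d, fun _ => ⟨1, one_mem D, rfl⟩⟩
  mul_mem' := fun {g h} hg hh => ⟨fun d hd => (hg.1 d hd).mul_left (hh.1 d hd), fun b => by
    obtain ⟨d, hd, e⟩ := hg.2 b
    obtain ⟨d', hd', e'⟩ := hh.2 b
    exact ⟨d' * d, mul_mem hd' hd, by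
      rw [Perm.mul_apply, e', ← Perm.mul_apply, (hg.1 d' hd').eq, Perm.mul_apply, e, Perm.mul_apply]⟩⟩
  inv_mem' := fun {g} hg => ⟨fun d hd => (hg.1 d hd).inv_left, fun b => by
    obtain ⟨d, hd, e⟩ := hg.2 (g⁻¹ b)
    exact ⟨d⁻¹, inv_mem hd, by rw [Perm.eq_inv_iff_eq, ← e]; simp⟩⟩

omit [Fintype Ω] [DecidableEq Ω] in
theorem K0_conj {D : Subgroup (Perm Ω)} {h g : Perm Ω} (hh : h ∈ normalizer (D : Set (Perm Ω)))
    (hg : g ∈ K0 D) : h * g * h⁻¹ ∈ K0 D :=
  ⟨fun d hd => by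
    have := (hg.1 _ ((mem_normalizer_iff''.1 hh d).1 hd)).map (MulAut.conj h)
    simpa [mul_assoc] using this, fun b => by
    obtain ⟨d, hd, e⟩ := hg.2 (h⁻¹ b)
    exact ⟨_, (mem_normalizer_iff.1 hh d).1 hd, congrArg h e⟩⟩

theorem sign_of_pow {g : Perm Ω} {n : ℕ} (hn : Odd n) (h : g ^ n = 1) : g ∈ alternatingGroup Ω := by
  have := congrArg Perm.sign h
  rcases Int.units_eq_one_or (Perm.sign g) with e | e
  · exact e
  · rw [map_pow, e, hn.neg_one_pow, map_one] at this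
    exact absurd this (by decide)
end

theorem jobStruct (hZ : PZ) : Struct := by
  intro Ω _ _ p hp D x hx s r
  have := Fact.mk hp
  obtain ⟨n, hn⟩ := IsPGroup.iff_card.1 s.isPGroup
  have pw : ∀ d ∈ D, d ^ p ^ n = 1 := fun d hd =>
    congrArg Subtype.val (hn ▸ pow_card_eq_one' (x := (⟨d, hd⟩ : D)))
  have cx : ∀ d ∈ D, Commute x d := fun d hd => (mem_centralizer_singleton_iff.1 (s.le hd).2).symm
  have le : alternatingGroup Ω ⊓ K0 D ≤ D := r _ inf_le_left
    (isPGroup_iff_forall.2 fun g hg => ⟨n, Equiv.ext fun b => by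
      obtain ⟨d, hd, e⟩ := hg.2.2 b
      rw [pow_app (hg.2.1 d hd) e, pw d hd]⟩)
    (fun g hg => centralizer_le_normalizer _ fun d hd => (hg.2.1 d hd).symm)
    fun h hh g => ⟨fun hg => ⟨Normal.conj_mem inferInstance _ hg.1 h, K0_conj hh.2 hg.2⟩, fun hg => by
      have : h⁻¹ * (h * g * h⁻¹) * h⁻¹⁻¹ ∈ alternatingGroup Ω ⊓ K0 D :=
        ⟨Normal.conj_mem inferInstance _ hg.1 _, K0_conj (inv_mem hh.2) hg.2⟩
      simpa [mul_assoc] using this⟩
  have fx : ∀ j a, (∃ e ∈ D, e a = (x ^ p ^ j) a) → x a = a := fun j a ⟨e, he, h⟩ => by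
    have b := pow_app ((cx e he).pow_left _) h.symm (p ^ n)
    obtain ⟨m, hm⟩ := exists_pow_eq_self_of_coprime (x := x) (n := p ^ j * p ^ n)
      (by rw [← pow_add]; exact (hp.coprime_iff_not_dvd.2 hx).pow_left _)
    rw [pw e he, ← pow_mul] at b
    rw [← hm]
    exact Perm.pow_apply_eq_self_of_apply_eq_self b m
  have h1 : ∀ a ∈ mv D, x a = a := fun a ha => by
    obtain ⟨y, y1, y2, y3, y4⟩ := (hZ Ω p hp D s.isPGroup).1 a ha
    have ya := (y3 a).2 ⟨1, one_mem D, rfl⟩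
    have mvx : ∀ w ∈ D, ∀ b, w b ≠ b → w (x b) ≠ x b := fun w hw b h e => h (x.injective (by
      rw [← Perm.mul_apply, (cx w hw).eq, Perm.mul_apply, e]))
    by_cases c : ∃ e ∈ D, e a = x a
    · exact fx 0 a (by simpa using c)
    rcases Int.units_eq_one_or (Perm.sign y) with e | e
    · exact absurd ((y3 _).1 (mvx y (le ⟨e, y2, y4⟩) a ya)) c
    obtain rfl : p = 2 := hp.eq_two_or_odd'.resolve_right fun o => by
      have := sign_of_pow o y1
      rw [Perm.mem_alternatingGroup, e] at this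
      exact absurd this (by decide)
    have hw : y * (x * y * x⁻¹) ∈ D := le ⟨by
      simp [Perm.mem_alternatingGroup, mul_comm (Perm.sign x), mul_assoc, Int.units_mul_self],
      mul_mem ⟨y2, y4⟩ (K0_conj (centralizer_le_normalizer _ fun d hd => (cx d hd).symm) ⟨y2, y4⟩)⟩
    refine fx 1 a ((y3 _).1 fun h => mvx _ hw (x a) (fun h' => ?_) ?_)
    · obtain ⟨d, hd, e⟩ := y4 a
      have : y (x (y a)) = x (y a) := by_contra fun n => by
        obtain ⟨d', hd', e'⟩ := (y3 _).1 n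
        exact c ⟨d⁻¹ * d', mul_mem (inv_mem hd) hd', by
          rw [Perm.mul_apply, e', e, ← Perm.mul_apply x, (cx d hd).eq]; simp⟩
      simp only [Perm.mul_apply, Perm.coe_inv, symm_apply_apply, this] at h'
      exact ya (x.injective h')
    · have : y (x a) = x a := by_contra fun n => c ((y3 _).1 n)
      simp only [Perm.mul_apply, Perm.coe_inv, symm_apply_apply, this]
      simpa [pow_two] using h
  refine ⟨h1, s.of_le (fun d hd => ⟨(s.le hd).1, (mem_fixingSubgroup_iff _).2 fun b hb =>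
    by_contra fun n => hb ⟨d, hd, n⟩⟩) fun g hg => ⟨hg.1, mem_centralizer_singleton_iff.2
      (Perm.Disjoint.commute fun b => ?_)⟩⟩
  exact (em (b ∈ mv D)).symm.imp ((mem_fixingSubgroup_iff _).1 hg.2 b) (h1 b)

theorem jobOddP (hZ : PZ) (hE : PE) : OddP := by
  intro Ω _ _ p hp o D s
  have := Fact.mk hp
  obtain ⟨c, w, h1, h2, h3⟩ := (hZ Ω p hp D s.isPGroup).2
  obtain ⟨e1, e2, e3, e4, e5⟩ := hE Ω p hp c w h1
  have l : Ec c ≤ D := s.le_of_le_normalizer (.of_card e1) (fun g hg => ⟨sign_of_pow (o.pow (n := w))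
    (congrArg Subtype.val (e1 ▸ pow_card_eq_one' (x := (⟨g, hg⟩ : Ec c)))),
    (mem_fixingSubgroup_iff _).2 fun b hb => by_contra fun n => hb ((h3 b).1 (e3 g hg b n))⟩)
    fun d hd => e4 d (h2 d hd).symm
  have m : ∀ d ∈ D, (∀ f ∈ Ec c, Commute d f) → d ∈ Ec c := fun d hd h =>
    e5 d (fun f hf => h f (subset_closure hf)) fun a ha => (h3 a).2 ⟨d, hd, ha⟩
  have a1 : IsMulCommutative D → Nat.card D ∣ p ^ w := fun h => e1 ▸ card_dvd_of_le fun d hd =>
    m d hd fun f hf => congrArg Subtype.val (h.1.1 ⟨d, hd⟩ ⟨f, l hf⟩)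
  have a2 : ¬ IsMulCommutative D → p * Nat.card (center D) ∣ p ^ w := fun h => by
    have l1 : (center D).map D.subtype ≤ Ec c := by
      rintro _ ⟨z, hz, rfl⟩
      exact m z z.2 fun f hf => (congrArg Subtype.val (mem_center_iff.1 hz ⟨f, l hf⟩)).symm
    have d := card_dvd_of_le l1
    rw [card_map_of_injective D.subtype_injective] at d
    obtain ⟨k, hk, e⟩ := (Nat.dvd_prime_pow hp).1 (e1 ▸ d)
    rw [e, ← pow_succ']
    refine pow_dvd_pow p (hk.lt_of_ne fun e' => h ⟨⟨fun a b => ?_⟩⟩)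
    have l2 := (eq_of_le_of_card_ge l1 (by rw [card_map_of_injective D.subtype_injective, e, e1, e'])).ge
    have : ∀ a : D, (a : Perm Ω) ∈ Ec c := fun a => m a a.2 fun f hf => by
      obtain ⟨z, hz, rfl⟩ := l2 hf
      exact congrArg Subtype.val (mem_center_iff.1 hz a)
    exact Subtype.ext (e2 _ (this a) _ (this b))
  refine ⟨c, l (e5 c (fun f hf => (Perm.self_mem_cycle_factors_commute hf).symm) fun _ h => h), w, h1, h2,
    a1, a2, fun hw => (a1 (by_contra fun h => ?_)).trans ((pow_dvd_pow p hw).trans (pow_one p).dvd)⟩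
  have : Nontrivial D := not_subsingleton_iff_nontrivial.1 fun _ => h ⟨⟨fun _ _ => Subsingleton.elim _ _⟩⟩
  have := s.isPGroup.center_nontrivial
  have := Nat.le_of_dvd hp.pos ((a2 h).trans ((pow_dvd_pow p hw).trans (pow_one p).dvd))
  nlinarith [Finite.one_lt_card (α := center D), hp.pos]

end H93.Sp
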