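import Cfsg.Agent.H30.SQSpec

/-! Tower SQ (S4132), slot S6a. -/

set_option autoImplicit false

open Subgroup H30.SQ

namespace H93.SQ

universe u

variable {G : Type*} [Group G]

theorem nw {T U₁ : Subgroup G} {n : ℕ} {w v c z : G} (K : KT T U₁ n w v c z)
    (h5 : ∀ t ∈ U0 T w v, IsConj z t → t = z) {t : G} (ht : t ∈ WS T z) (hz : t ≠ z) :
    ¬ Commute t w := by
  intro h
  obtain ⟨g, hg⟩ := isConj_iff.mp ht.2
  have h2 : t * t = 1 := by
    rw [← hg]
    calc g * z * g⁻¹ * (g * z * g⁻¹) = g * (z * z) * g⁻¹ := by group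
      _ = 1 := by rw [K.z2]; group
  exact hz (h5 t (K.iv t ht.1 h2 h) ht.2)

theorem two {T U₁ : Subgroup G} {n : ℕ} {w v c z : G} (H : Hy T n) (K : KT T U₁ n w v c z)
    (h5 : ∀ t ∈ U0 T w v, IsConj z t → t = z) :
    ∀ t ∈ WS T z, t ≠ z → ∀ t' ∈ WS T z, t' ≠ z → Commute t t' → t' = t ∨ t' = t * z := by
  intro t ht hz t' ht' hz' hc
  by_contra hcon
  rw [not_or] at hcon
  obtain ⟨h, hh, hT⟩ := (H.cen z K.zc).2 t ht.1 ht.2.symm
  have key : ∀ s ∈ T, IsConj z s → Commute s t → s ≠ t → ¬ Commute (h * s * h⁻¹) w := by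
    intro s hs hzs hst hne
    refine nw K h5 ⟨hT s hs hst, hzs.trans (isConj_iff.mpr ⟨h, rfl⟩)⟩ ?_
    intro e
    apply hne
    rw [← hh] at e
    simpa using e
  have hzt : Commute z t := (K.zc.2 t ht.1).symm
  have h1 := key t' ht'.1 ht'.2 hc.symm hcon.1
  have h2 := key z K.zc.1 (IsConj.refl z) hzt hz.symm
  have h3 := key (t' * z) (T.mul_mem ht'.1 K.zc.1)
    (ht'.2.trans (isConj_iff.mpr ⟨_, K.nu t' ht'.1 (nw K h5 ht' hz')⟩)) (hc.symm.mul_left hzt)
    (fun e => hcon.2 (by rw [← e, mul_assoc, K.z2, mul_one]))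
  rcases K.br.2 _ (hT t' ht'.1 hc.symm) _ (hT z K.zc.1 hzt) with h4 | h4 | h4
  · exact h1 h4
  · exact h2 h4
  · apply h3
    rwa [show h * (t' * z) * h⁻¹ = h * t' * h⁻¹ * (h * z * h⁻¹) by group]

theorem jobS6a : JobS6a.{u} := by
  intro G _ _ T U₁ n w v c z H S K h5
  have htwo := two H K h5
  refine ⟨htwo, ?_⟩
  intro t ht hz
  have hnw := nw K h5 ht hz
  obtain ⟨u, hu, i, hi | hi⟩ := S.gen t ht.1
  · exact absurd (by rw [hi]; exact (S.cw u hu).mul_left ((Commute.refl w).pow_left i)) hnw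
  have hd : ∀ y ∈ U₁, Commute y (w ^ i * v) := fun y hy =>
    ((S.cw y hy).pow_right i).mul_right (S.cv y hy)
  have hi' : t = u * (w ^ i * v) := by rw [hi, mul_assoc]
  have hZ : ∀ y ∈ U₁, Commute y u := by
    by_contra hcon
    push Not at hcon
    obtain ⟨y, hy, hyu⟩ := hcon
    obtain ⟨σ, hσ, hn, hσn, -⟩ := ex_sig (T := U₁) (U := U₁ ⊓ centralizer ({u} : Set G))
      (H.pg.to_le S.le) inf_le_left
      ⟨y, hy, fun h => hyu (mem_centralizer_singleton_iff.mp h.2)⟩
    have hu' : σ * u * σ⁻¹ ∈ U₁ ⊓ centralizer ({u} : Set G) :=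
      (hn u).mp ⟨hu, mem_centralizer_singleton_iff.mpr rfl⟩
    have hc : Commute (σ * u * σ⁻¹) u := mem_centralizer_singleton_iff.mp hu'.2
    have he : σ * t * σ⁻¹ = σ * u * σ⁻¹ * (w ^ i * v) := by
      rw [hi', mul_assoc (σ * u) σ⁻¹, (hd _ (U₁.inv_mem hσ)).eq]
      group
    have hσT : σ ∈ T := S.le hσ
    have ht' : σ * t * σ⁻¹ ∈ WS T z :=
      ⟨T.mul_mem (T.mul_mem hσT ht.1) (T.inv_mem hσT), ht.2.trans (isConj_iff.mpr ⟨σ, rfl⟩)⟩
    have hz' : σ * t * σ⁻¹ ≠ z := fun e => hz (by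
      have e2 : t = σ⁻¹ * z * σ := by rw [← e]; group
      rw [e2, (K.zc.2 _ (T.inv_mem hσT)).eq]
      group)
    have hcc : Commute t (σ * t * σ⁻¹) := by
      rw [he, hi']
      exact (hc.symm.mul_right (hd u hu)).mul_left
        ((hd _ hu'.1).symm.mul_right (Commute.refl _))
    rcases htwo t ht hz _ ht' hz' hcc with e | e
    · rw [he, hi'] at e
      have e2 := mul_right_cancel e
      exact hσn ⟨hσ, mem_centralizer_singleton_iff.mpr (mul_inv_eq_iff_eq_mul.mp e2)⟩
    · have hdz : Commute (w ^ i * v) z := K.zc.2 _ (T.mul_mem (T.pow_mem S.wT i) S.vT)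
      rw [he, hi', mul_assoc u, hdz.eq, ← mul_assoc u] at e
      have e2 := mul_right_cancel e
      apply S.zU
      have : z = u⁻¹ * (σ * u * σ⁻¹) := by rw [e2]; group
      rw [this]
      exact U₁.mul_mem (U₁.inv_mem hu) hu'.1
  have hU1 : ∀ y ∈ U₁, Commute y t := fun y hy => by
    rw [hi']; exact (hZ y hy).mul_right (hd y hy)
  have hU0 : ∀ y ∈ U0 T w v, Commute y t := fun y hy => by
    rcases (K.u0 y).mp hy with h | h
    · exact hU1 y h
    · have := (hU1 _ h).mul_left (K.zc.2 t ht.1).symm.inv_left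
      simpa using this
  have hA : ∀ s ∈ T, Commute s t → Commute s w → s ∈ U0 T w v := by
    intro s hs hst hsw
    obtain ⟨u', hu', j, hj | hj⟩ := S.gen s hs
    · have h1 : Commute (w ^ j) t := by
        have := (hU1 _ (U₁.inv_mem hu')).mul_left hst
        rw [hj] at this
        simpa using this
      have h2 : Commute (w ^ j) (u * w ^ i) :=
        ((S.cw u hu).symm.pow_left j).mul_right ((Commute.refl w).pow_pow j i)
      have h3 : Commute (w ^ j) v := by
        have := h2.inv_right.mul_right h1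
        rw [hi] at this
        simpa [mul_assoc] using this
      have h4 : Commute s v := by rw [hj]; exact (S.cv u' hu').mul_left h3
      refine ⟨hs, ?_⟩
      rintro y (rfl | rfl)
      · exact hsw.symm.eq
      · exact h4.symm.eq
    · exfalso
      have h2 : Commute (u' * w ^ j) w := (S.cw u' hu').mul_left ((Commute.refl w).pow_left j)
      have h3 : Commute v w := by
        have := h2.inv_left.mul_left hsw
        rw [hj] at this
        simpa [mul_assoc] using this
      have h4 : c = 1 := by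
        have e := S.vw
        rw [h3.eq, mul_inv_cancel_right] at e
        simpa using e
      apply K.z1
      rw [S.zc, h4, one_pow]
  intro s hs
  constructor
  · intro hst
    rcases K.br.2 s hs t ht.1 with h | h | h
    · exact Or.inl (hA s hs hst h)
    · exact absurd h hnw
    · exact Or.inr (hA _ (T.mul_mem hs ht.1) (hst.mul_left (Commute.refl t)) h)
  · rintro (h | h)
    · exact hU0 s h
    · have := (hU0 _ h).mul_left (Commute.refl t).inv_left
      simpa using this

end H93.SQ
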