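/- Two-length bounds: symplectic reflections in a `2`-group. -/
import Cfsg.Agent.H31.ConjCount
import Cfsg.Agent.H98.Basic

set_option autoImplicit false
set_option linter.unusedSectionVars false

namespace H93.TL

open Subgroup

variable {W A : Type*} [CommGroup W] [Finite W] [CommGroup A]

/-- A symplectic space over the field with `q` elements with a `2`-group `Γ` of isometries. -/
structure Sz (q : ℕ) (b : W →* W →* A) (Γ : Subgroup (MulAut W)) : Prop where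
  prime : q.Prime
  odd : Odd q
  exp : ∀ w : W, w ^ q = 1
  alt : ∀ w, b w w = 1
  nd : ∀ w, (∀ v, b v w = 1) → w = 1
  inv : ∀ g ∈ Γ, ∀ v w, b (g v) (g w) = b v w
  pg : IsPGroup 2 Γ

/-- The case `q = 2 ^ (k + 2) - 1`. -/
structure Sy (q k : ℕ) (b : W →* W →* A) (Γ : Subgroup (MulAut W)) : Prop extends Sz q b Γ where
  eq : q + 1 = 2 ^ (k + 2)

/-- The elements inverted by `r`. -/
def I (r : MulAut W) : Subgroup W where
  carrier := {w | r w = w⁻¹}
  mul_mem' {u v} hu hv := by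
    rw [Set.mem_ofPred_eq] at *
    rw [map_mul, hu, hv, mul_inv]
  one_mem' := by simp
  inv_mem' {u} hu := by
    rw [Set.mem_ofPred_eq] at *
    rw [map_inv, hu]

theorem mem_I {r : MulAut W} {w : W} : w ∈ I r ↔ r w = w⁻¹ := Iff.rfl

/-- An involution inverting a plane. -/
structure Ref (q : ℕ) (r : MulAut W) : Prop where
  sq : ∀ w, r (r w) = w
  card : Nat.card (I r) = q ^ 2

/-- An element of order `q + 1` moving only a plane. -/
structure Exc (q k : ℕ) (y : MulAut W) : Prop where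
  ref : Ref q (y ^ 2 ^ (k + 1))
  fix : ∀ w, (y ^ 2 ^ (k + 1)) w = w → y w = w

/-- `s` moves the plane of `z` to an orthogonal plane. -/
def Orth (z s : MulAut W) : Prop := ∀ v ∈ I z, z (s v) = s v

theorem mem_I_conj {z s : MulAut W} {w : W} : w ∈ I (s * z * s⁻¹) ↔ s⁻¹ w ∈ I z := by
  simp only [mem_I, MulAut.mul_apply]
  rw [← map_inv, MulAut.inv_def, MulEquiv.eq_symm_apply]

theorem Ref.conj {q : ℕ} {z : MulAut W} (h : Ref q z) (s : MulAut W) : Ref q (s * z * s⁻¹) := by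
  refine ⟨fun w => by simp [h.sq], ?_⟩
  rw [← h.card, show I (s * z * s⁻¹) = (I z).comap (s⁻¹ : MulAut W).toMonoidHom from
    Subgroup.ext fun _ => mem_I_conj, comap_equiv_eq_map_symm', card_map_of_injective]
  exact MulEquiv.injective _

theorem Exc.conj {q k : ℕ} {y : MulAut W} (h : Exc q k y) (s : MulAut W) :
    Exc q k (s * y * s⁻¹) := by
  refine ⟨by rw [conj_pow]; exact h.ref.conj s, fun w e => ?_⟩
  rw [conj_pow, MulAut.mul_apply, MulAut.mul_apply, ← MulEquiv.eq_symm_apply] at e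
  rw [MulAut.mul_apply, MulAut.mul_apply, h.fix _ e]
  simp

theorem stab_of_commute {z s : MulAut W} (h : Commute s z) {v : W} (hv : v ∈ I z) : s v ∈ I z := by
  rw [mem_I, ← MulAut.mul_apply, ← h.eq, MulAut.mul_apply, hv, map_inv]

theorem pow_fix {s : MulAut W} {v : W} (h : s v = v) (n : ℕ) : (s ^ n) v = v := by
  induction n with
  | zero => rfl
  | succ n ih => rw [pow_succ, MulAut.mul_apply, h, ih]

variable {q k : ℕ} {b : W →* W →* A} {Γ : Subgroup (MulAut W)} {z r s y : MulAut W} {u v w : W}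

namespace Sz

variable (h : Sz q b Γ)
include h

theorem eq_one {M : Type*} [Group M] {a : M} (h1 : a ^ q = 1) (h2 : a = a⁻¹) : a = 1 := by
  obtain ⟨t, e⟩ := h.odd
  rwa [e, pow_succ, pow_mul, pow_two, eq_inv_iff_mul_eq_one.1 h2, one_pow, one_mul] at h1

theorem symm (e : b u v = 1) : b v u = 1 := by
  simpa [h.alt, e] using h.alt (u * v)

theorem dec {B : Subgroup W} (h1 : ∀ v ∈ B, s v ∈ B) (h2 : ∀ v ∈ B, s (s v) = v) (hw : w ∈ B) :
    ∃ u ∈ B, ∃ v ∈ B, u ∈ I s ∧ s v = v ∧ w = u * v := by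
  obtain ⟨t, e⟩ := h.odd
  have ht := pow_mem hw (t + 1)
  refine ⟨_, mul_mem ht (inv_mem (h1 _ ht)), _, mul_mem ht (h1 _ ht), ?_, ?_, ?_⟩
  · rw [mem_I, map_mul, map_inv, h2 _ ht, mul_inv, inv_inv, mul_comm]
  · rw [map_mul, h2 _ ht, mul_comm]
  · rw [mul_mul_mul_comm, inv_mul_cancel, mul_one, ← pow_add,
      show t + 1 + (t + 1) = q + 1 by omega, pow_succ, h.exp, one_mul]

theorem perp (hs : s ∈ Γ) (hu : u ∈ I s) (hv : s v = v) : b u v = 1 :=
  h.eq_one (by rw [← map_pow, h.exp, map_one]) (by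
    conv_lhs => rw [← h.inv s hs, hu, hv, map_inv, MonoidHom.inv_apply])

theorem fix_of_perp (hr : r ∈ Γ) (h2 : ∀ w, r (r w) = w) (e : ∀ u ∈ I r, b u v = 1) : r v = v := by
  rw [← mul_inv_eq_one]
  refine h.nd _ fun w => ?_
  obtain ⟨u, -, v', -, h3, h4, rfl⟩ := h.dec (B := ⊤) (fun _ _ => mem_top _) (fun w _ => h2 w)
    (mem_top w)
  rw [map_mul (b _), ← h.inv r hr, h2, map_mul r, h3, h4]
  simp [e u h3]

theorem eq_one_of_fix (hu : u ∈ I r) (e : r u = u) : u = 1 := h.eq_one (h.exp u) (e.symm.trans hu)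

theorem exists_ne (hz : Ref q z) : ∃ v ∈ I z, v ≠ 1 := by
  obtain ⟨⟨v, hv⟩, e⟩ := ne_bot_iff_exists_ne_one.1 fun e : I z = ⊥ => by
    have := hz.card
    rw [e, card_bot, eq_comm, Nat.pow_eq_one] at this
    exact h.prime.ne_one (by omega)
  exact ⟨v, hv, fun e' => e (Subtype.ext e')⟩

theorem ext_of (hz : Ref q z) {f g : MulAut W} (h1 : ∀ v ∈ I z, f v = g v)
    (h2 : ∀ v, z v = v → f v = g v) : f = g := by
  ext w
  obtain ⟨u, -, v, -, h3, h4, rfl⟩ := h.dec (B := ⊤) (fun _ _ => mem_top _)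
    (fun w _ => hz.sq w) (mem_top w)
  rw [map_mul, map_mul, h1 u h3, h2 v h4]

theorem eq_of_le (hz : z ∈ Γ) (hr : r ∈ Γ) (z1 : Ref q z) (r1 : Ref q r) (e : I z ≤ I r) :
    r = z := by
  have e1 := eq_of_le_of_card_ge e (r1.card.trans z1.card.symm).le
  refine h.ext_of z1 (fun v hv => (e hv).trans hv.symm) fun v hv => ?_
  rw [hv]
  exact h.fix_of_perp hr r1.sq fun u hu => h.perp hz (e1 ▸ hu) hv

theorem commute_of_stab (hz : z ∈ Γ) (z1 : Ref q z) (hs : s ∈ Γ) (e : ∀ v ∈ I z, s v ∈ I z) :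
    Commute s z := by
  have := h.eq_of_le (mul_mem (mul_mem hs hz) (inv_mem hs)) hz (z1.conj s) z1 fun v hv => by
    simpa using e _ (mem_I_conj.1 hv)
  exact mul_inv_eq_iff_eq_mul.1 this.symm

theorem orth_inv (hz : z ∈ Γ) (z1 : Ref q z) (hs : s ∈ Γ) (e : Orth z s) : Orth z s⁻¹ :=
  fun v hv => h.fix_of_perp hz z1.sq fun u hu => by
    rw [← h.inv s hs, MulAut.apply_inv_self]
    exact h.symm (h.perp hz hv (e u hu))

theorem le_zpowers {B D : Subgroup W} (hB : Nat.card B = q ^ 2) (h1 : D < B) (hu : u ∈ D)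
    (u1 : u ≠ 1) : D ≤ zpowers u := by
  have := Fact.mk h.prime
  refine (eq_of_le_of_card_ge (zpowers_le.2 hu) ?_).ge
  obtain ⟨i, hi, e⟩ := (Nat.dvd_prime_pow h.prime).1 (hB ▸ card_dvd_of_le h1.le)
  rw [Nat.card_zpowers, orderOf_eq_prime (h.exp u) u1, e]
  refine (Nat.pow_le_pow_right h.prime.pos (?_ : i ≤ 1)).trans (pow_one q).le
  by_contra k
  exact h1.ne (eq_of_le_of_card_ge h1.le (by rw [e, hB, show i = 2 by omega]))

theorem pm (hz : z ∈ Γ) (z1 : Ref q z) (hs : s ∈ Γ) (c : Commute s z)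
    (h2 : ∀ v ∈ I z, s (s v) = v) : (∀ v ∈ I z, s v = v) ∨ I z ≤ I s := by
  refine or_iff_not_imp_left.2 fun e w hw => ?_
  obtain ⟨u, -, v, hv, h3, h4, rfl⟩ := h.dec (fun _ => stab_of_commute c) h2 hw
  rw [h.eq_one_of_fix hv (h.fix_of_perp hz z1.sq fun w hw => ?_), mul_one]
  · exact h3
  obtain ⟨u', -, v', hv', h5, h6, rfl⟩ := h.dec (fun _ => stab_of_commute c) h2 hw
  rw [map_mul, MonoidHom.mul_apply, h.perp hs h5 h4, one_mul]
  by_cases v1 : v = 1
  · rw [v1, map_one]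
  obtain ⟨i, rfl⟩ := h.le_zpowers (D := I z ⊓ s.toMonoidHom.eqLocus (MonoidHom.id W)) z1.card
    (inf_lt_left.2 fun k => e fun _ hw => k hw) ⟨hv, h4⟩ v1 ⟨hv', h6⟩
  simp [h.alt]

theorem exists_neg (hz : z ∈ Γ) (z1 : Ref q z) (hs : s ∈ Γ) (c : Commute s z)
    (e : ¬ ∀ v ∈ I z, s v = v) : ∃ i, I z ≤ I (s ^ 2 ^ i) := by
  obtain ⟨n, hn⟩ := h.pg ⟨s, hs⟩
  replace hn : ∀ v ∈ I z, (s ^ 2 ^ n) v = v := fun v _ => by
    rw [show s ^ 2 ^ n = 1 from congrArg Subtype.val hn]; rfl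
  induction n with
  | zero => exact absurd (by simpa using hn) e
  | succ n ih =>
    exact (h.pm hz z1 (pow_mem hs _) (c.pow_left _) fun v hv => by
      rw [← MulAut.mul_apply, ← pow_two, ← pow_mul, ← pow_succ, hn v hv]).elim ih fun e => ⟨n, e⟩

theorem free (hz : z ∈ Γ) (z1 : Ref q z) (hs : s ∈ Γ) (c : Commute s z) (hu : u ∈ I z)
    (u1 : u ≠ 1) (e : s u = u) : ∀ v ∈ I z, s v = v := by
  by_contra k
  obtain ⟨i, hi⟩ := h.exists_neg hz z1 hs c k
  exact u1 (h.eq_one_of_fix (hi hu) (pow_fix e _))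

theorem surj (hz : z ∈ Γ) (z1 : Ref q z) (r1 : Ref q r) (o : Orth z s)
    (e : ∀ v, v⁻¹ * s v ∈ I r) (hu : u ∈ I r) : ∃ v ∈ I z, u = v⁻¹ * s v := by
  let f : I z →* I r := ⟨⟨fun v => ⟨(v : W)⁻¹ * s v, e v⟩, by simp⟩, fun v w => Subtype.ext (by
    simp [mul_mul_mul_comm, mul_comm])⟩
  have hf : Function.Injective f := (injective_iff_map_eq_one f).2 fun v hv => by
    have : (v : W) = s v := inv_mul_eq_one.1 (congrArg Subtype.val hv)
    exact Subtype.ext (h.eq_one_of_fix v.2 (by rw [this]; exact o v v.2))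
  obtain ⟨v, hv⟩ := (hf.bijective_of_nat_card_le (r1.card.trans z1.card.symm).le).2 ⟨u, hu⟩
  exact ⟨v, v.2, (congrArg Subtype.val hv).symm⟩

theorem exc_mem (y1 : Exc q k y) (v : W) : v⁻¹ * y v ∈ I (y ^ 2 ^ (k + 1)) := by
  obtain ⟨u, -, v, -, h3, h4, rfl⟩ := h.dec (B := ⊤) (fun _ _ => mem_top _)
    (fun w _ => y1.ref.sq w) (mem_top v)
  rw [map_mul, y1.fix v h4, mul_inv, mul_mul_mul_comm, inv_mul_cancel, mul_one]
  exact mul_mem (inv_mem h3) (stab_of_commute (Commute.self_pow y _) h3)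

theorem ref_mem (r1 : ∀ w, r (r w) = w) (v : W) : v⁻¹ * r v ∈ I r := by
  rw [mem_I, map_mul, map_inv, r1, mul_inv, inv_inv, mul_comm]

theorem sep (hu : u ∈ I z) (hv : z v = v) {u' v' : W} (hu' : u' ∈ I z) (hv' : z v' = v')
    (e : u * v = u' * v') : u = u' ∧ v = v' := by
  have e1 : u'⁻¹ * u = v' * v⁻¹ := by
    rw [inv_mul_eq_iff_eq_mul, ← mul_assoc, ← e, mul_inv_cancel_right]
  have := h.eq_one_of_fix (mul_mem (inv_mem hu') hu) (by rw [e1, map_mul, map_inv, hv, hv'])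
  exact ⟨(inv_mul_eq_one.1 this).symm, (mul_inv_eq_one.1 (e1 ▸ this)).symm⟩

theorem nomove (hz : z ∈ Γ) (z1 : Ref q z) (hy : y ∈ Γ) (y1 : Exc q k y) (o : Orth z y)
    (o2 : Commute (y * y) z ∨ Orth z (y * y)) : False := by
  have key : ∀ v ∈ I z, ∃ c ∈ I z, (y v)⁻¹ * (y * y) v = c⁻¹ * y c := fun v hv =>
    h.surj hz z1 y1.ref o (h.exc_mem y1) (h.exc_mem y1 (y v))
  rcases o2 with c | o2
  · obtain ⟨u, hu, u1⟩ := h.exists_ne y1.ref
    obtain ⟨v, hv, rfl⟩ := h.surj hz z1 y1.ref o (h.exc_mem y1) hu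
    obtain ⟨c', hc, e⟩ := key v hv
    obtain ⟨e1, e2⟩ := h.sep (stab_of_commute c hv) (by rw [map_inv, o v hv]) (inv_mem hc)
      (o c' hc) ((mul_comm _ _).trans e)
    rw [← map_inv, MulEquiv.apply_eq_iff_eq] at e2
    rw [← e2, inv_inv] at e1
    refine u1 (h.eq_one_of_fix hu ?_)
    rw [pow_succ' 2, pow_mul, pow_two]
    refine pow_fix ?_ _
    rw [map_mul, map_inv, e1, show (y * y) (y v) = y ((y * y) v) from rfl, e1]
  · obtain ⟨v, hv, v1⟩ := h.exists_ne z1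
    obtain ⟨c, hc, e⟩ := key v hv
    refine v1 (h.eq_one_of_fix hv ?_)
    have e1 : v = (y * y)⁻¹ c⁻¹ * y⁻¹ (v * c) := by
      rw [MulAut.mul_apply, inv_mul_eq_iff_eq_mul] at e
      apply (y * y).injective
      simp [e, mul_comm, mul_assoc]
    rw [e1, map_mul, h.orth_inv hz z1 (mul_mem hy hy) o2 _ (inv_mem hc),
      h.orth_inv hz z1 hy o _ (mul_mem hv hc)]

theorem fam (hy : y ∈ Γ) (y1 : Exc q k y) (hs : s ∈ Γ) :
    Commute s (y ^ 2 ^ (k + 1)) ∨ Orth (y ^ 2 ^ (k + 1)) s := by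
  have hz := pow_mem hy (2 ^ (k + 1))
  set z := y ^ 2 ^ (k + 1) with ez
  obtain ⟨S, ⟨h1, h2⟩, hm⟩ := (wellFounded_gt (α := Subgroup Γ)).has_min
    {S | ⟨y, hy⟩ ∈ S ∧ ∀ s ∈ S, Commute (s : MulAut W) z ∨ Orth z s}
    ⟨_, mem_zpowers _, by rintro _ ⟨i, rfl⟩; exact Or.inl ((Commute.self_pow y _).zpow_left i)⟩
  have := h.pg.isNilpotent
  refine h2 ⟨s, hs⟩ ((normalizerCondition_iff_only_full_group_self_normalizing.1
    Group.normalizerCondition_of_isNilpotent S (le_normalizer.eq_of_not_lt' (hm _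
      ⟨le_normalizer h1, fun t ht => ?_⟩))).ge (mem_top _))
  have e1 := (mem_normalizer_iff.1 ht _).1 h1
  have y2 := y1.conj t
  have hy2 : t * y * (t : MulAut W)⁻¹ ∈ Γ := (t * ⟨y, hy⟩ * t⁻¹).2
  have c := (h2 _ e1).resolve_right fun o =>
    h.nomove hz y1.ref hy2 y2 o (h2 _ (mul_mem e1 e1))
  rcases h.pm hz y1.ref (pow_mem hy2 _) (c.pow_left _) fun v _ => y2.ref.sq v with e | e
  · refine Or.inr (inv_inv (t : MulAut W) ▸ h.orth_inv hz y1.ref (inv_mem t.2) fun v hv => ?_)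
    have := e v hv
    rwa [conj_pow, MulAut.mul_apply, MulAut.mul_apply, ← MulEquiv.eq_symm_apply] at this
  · have := h.eq_of_le hz (pow_mem hy2 _) y1.ref y2.ref e
    rw [conj_pow] at this
    exact Or.inl (mul_inv_eq_iff_eq_mul.1 this)

end Sz

namespace Sy

variable (h : Sy q k b Γ)
include h

theorem commute_of_commute (hy : y ∈ Γ) (y1 : Exc q k y) (hs : s ∈ Γ)
    (c : Commute s (y ^ 2 ^ (k + 1))) : Commute (s * y * s⁻¹) y := by
  have hz := pow_mem hy (2 ^ (k + 1))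
  have z1 := y1.ref
  set z := y ^ 2 ^ (k + 1) with ez
  let E := Γ ⊓ centralizer {z}
  have hE : ∀ g : E, Commute (g : MulAut W) z := fun g => mem_centralizer_singleton_iff.1 g.2.2
  let N : Subgroup E := (fixingSubgroup (MulAut W) (I z : Set W)).subgroupOf E
  have hN : ∀ g : E, g ∈ N ↔ ∀ v ∈ I z, (g : MulAut W) v = v := fun g =>
    mem_fixingSubgroup_iff (MulAut W)
  have : N.Normal := ⟨fun n hn g => (hN _).2 fun v hv => by
    change (g : MulAut W) ((n : MulAut W) ((g : MulAut W)⁻¹ v)) = v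
    rw [(hN n).1 hn _ (stab_of_commute (hE g).inv_left hv), MulAut.apply_inv_self]⟩
  let X : SubMulAction E W := ⟨{v | v ∈ I z ∧ v ≠ 1}, fun g v hv =>
    ⟨stab_of_commute (hE g) hv.1, (MulEquiv.map_ne_one_iff (g : MulAut W)).2 hv.2⟩⟩
  have e1 := H31.index_dvd_card_of_stabilizer_le (X := X) N fun x g hg => (hN g).2
    (h.free hz z1 g.2.1 (hE g) x.2.1 x.2.2 (congrArg Subtype.val hg))
  have e2 : Nat.card X = 2 ^ (k + 3) * (2 ^ (k + 1) - 1) := by
    have e3 : Nat.card X = ((I z : Set W) \ {1}).ncard := rfl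
    have e4 : q = 2 * (2 ^ (k + 1) - 1) + 1 := by
      have := h.eq
      have := Nat.one_le_two_pow (n := k + 1)
      rw [pow_succ' 2 (k + 1)] at *
      omega
    rw [e3, Set.ncard_sdiff_singleton_of_mem (one_mem _), ← Nat.card_coe_set_eq,
      SetLike.coe_sort_coe, z1.card]
    have e5 : 2 ^ (k + 3) = 2 * (q + 1) := by rw [h.eq]; ring
    rw [e5]
    generalize 2 ^ (k + 1) - 1 = t at e4
    subst e4
    exact Nat.sub_eq_of_eq_add (by ring)
  obtain ⟨i, hi⟩ := (h.pg.to_le (inf_le_left : E ≤ Γ)).index N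
  have e3 : N.index ∣ 2 ^ (k + 3) := by
    rw [e2, hi] at e1
    exact hi ▸ (Nat.Coprime.dvd_mul_right (Nat.Coprime.pow_left _ (Nat.coprime_two_left.2
      (Nat.Even.sub_odd Nat.one_le_two_pow (by simp [Nat.even_pow]) odd_one)))).1 e1
  let y' : E := ⟨y, hy, mem_centralizer_singleton_iff.2 (Commute.self_pow y _)⟩
  have e4 : orderOf (y' : E ⧸ N) = 2 ^ (k + 2) := by
    refine orderOf_eq_prime_pow (fun e => ?_) ?_
    · obtain ⟨v, hv, v1⟩ := h.exists_ne z1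
      exact v1 (h.eq_one_of_fix hv ((hN _).1 ((QuotientGroup.eq_one_iff (y' ^ _)).1 e) v hv))
    · refine (QuotientGroup.eq_one_iff (y' ^ _)).2 ((hN _).2 fun v _ => ?_)
      change (y ^ _) v = v
      rw [pow_succ 2, pow_mul, pow_two, MulAut.mul_apply, z1.sq]
  have e5 : (zpowers (y' : E ⧸ N)).index ∣ 2 := by
    rw [index_eq_card, ← (zpowers (y' : E ⧸ N)).card_mul_index, Nat.card_zpowers, e4,
      pow_succ 2 (k + 2)] at e3
    exact Nat.dvd_of_mul_dvd_mul_left (by positivity) e3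
  have e6 : (zpowers (y' : E ⧸ N)).Normal := ((Nat.dvd_prime Nat.prime_two).1 e5).elim
    normal_of_index_eq_one normal_of_index_eq_two
  let s' : E := ⟨s, hs, mem_centralizer_singleton_iff.2 c⟩
  obtain ⟨j, hj⟩ := mem_powers_iff_mem_zpowers.2 (e6.conj_mem _ (mem_zpowers _) (s' : E ⧸ N))
  have e7 := (hN _).1 (QuotientGroup.eq.1 (hj : ((y' ^ j : E) : E ⧸ N) = (s' * y' * s'⁻¹ : E)))
  rw [← h.ext_of z1 (f := y ^ j) (g := s * y * s⁻¹) (fun v hv => ?_) fun v hv => ?_]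
  · exact Commute.pow_self y j
  · exact (MulEquiv.symm_apply_eq _).1 (e7 v hv) |>.symm
  · rw [pow_fix (y1.fix v hv), MulAut.mul_apply, MulAut.mul_apply, y1.fix, MulAut.apply_inv_self]
    rw [← MulAut.mul_apply, ← c.inv_left.eq, MulAut.mul_apply, hv]

theorem comm (hy : y ∈ Γ) (y1 : Exc q k y) (hs : s ∈ Γ) : Commute (s * y * s⁻¹) y := by
  refine (h.fam hy y1 hs).elim (h.commute_of_commute hy y1 hs) fun o => ?_
  have y2 := y1.conj s
  have o' := h.orth_inv (pow_mem hy _) y1.ref hs o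
  ext w
  have e1 := h.exc_mem y1 w
  have e2 := h.exc_mem y2 w
  have e3 := y2.fix _ (show ((s * y * s⁻¹) ^ 2 ^ (k + 1)) (w⁻¹ * y w) = _ by
    rw [conj_pow, MulAut.mul_apply, MulAut.mul_apply, o' _ e1, MulAut.apply_inv_self])
  rw [conj_pow, mem_I_conj] at e2
  have e4 := y1.fix _ (o _ e2)
  rw [MulAut.apply_inv_self] at e4
  generalize s * y * s⁻¹ = x at e3 e4
  rw [map_mul, map_inv, inv_mul_eq_iff_eq_mul] at e3 e4
  rw [MulAut.mul_apply, MulAut.mul_apply, e3, e4]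
  ac_rfl

end Sy

end H93.TL
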