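/- Two-length bounds: norms in `2`-groups generated by symplectic reflections. -/
import Cfsg.Agent.H93.TL1
import Cfsg.Agent.H98.Core

set_option autoImplicit false
set_option linter.unusedSectionVars false

namespace H93.TL

open Subgroup
open scoped commutatorElement

theorem mul_pow_mul_inv_mem {G : Type*} [Group G] {J : Subgroup G} {j u : G} (hj : j ∈ J)
    (hu : u ∈ normalizer (J : Set G)) (n : ℕ) : (j * u) ^ n * (u ^ n)⁻¹ ∈ J := by
  induction n with
  | zero => simp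
  | succ n ih =>
    have := mul_mem hj ((mem_normalizer_iff.1 hu _).1 ih)
    rwa [show j * (u * ((j * u) ^ n * (u ^ n)⁻¹) * u⁻¹) = j * u * (j * u) ^ n * (u * u ^ n)⁻¹ by
      group, ← pow_succ', ← pow_succ'] at this

variable {W A : Type*} [CommGroup W] [Finite W] [CommGroup A]

/-- `s` is `±1` on the plane of `z`. -/
def PM (z s : MulAut W) : Prop := ∃ e : ℤ, e * e = 1 ∧ ∀ v ∈ I z, s v = v ^ e

theorem Ref.inv {q : ℕ} {r : MulAut W} (h : Ref q r) : r⁻¹ = r :=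
  inv_eq_of_mul_eq_one_right (MulEquiv.ext h.sq)

namespace Sy

variable {q k : ℕ} {b : W →* W →* A} {Γ : Subgroup (MulAut W)}
  {z r s y : MulAut W} {u v w : W}

theorem pm' (h : Sy q k b Γ) (hz : z ∈ Γ) (z1 : Ref q z) (hs : s ∈ Γ) (c : Commute s z)
    (h2 : ∀ v ∈ I z, s (s v) = v) : PM z s :=
  (h.pm hz z1 hs c h2).elim (fun e => ⟨1, rfl, by simpa using e⟩)
    fun e => ⟨-1, rfl, fun v hv => (e hv).trans (zpow_neg_one v).symm⟩

theorem three (h : Sy q 0 b Γ) (hu : u ∈ zpowers v) : u = 1 ∨ u = v ∨ u = v⁻¹ := by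
  obtain ⟨i, rfl⟩ := mem_powers_iff_mem_zpowers.2 hu
  have e : v ^ 3 = 1 := (show q = 3 by have := h.eq; omega) ▸ h.exp v
  beta_reduce
  rw [pow_eq_pow_mod i e]
  obtain e1 | e1 | e1 : i % 3 = 0 ∨ i % 3 = 1 ∨ i % 3 = 2 := by omega
  · simp [e1]
  · simp [e1]
  · exact Or.inr (Or.inr (by rw [e1, eq_inv_iff_mul_eq_one, ← pow_succ, e]))

theorem sq_pm (h : Sy q 0 b Γ) (hz : z ∈ Γ) (z1 : Ref q z) (hs : s ∈ Γ) (c : Commute s z) :
    PM z (s * s) := by
  refine h.pm' hz z1 (mul_mem hs hs) (c.mul_left c) (by_contra fun e => ?_)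
  obtain ⟨i, hi⟩ := h.exists_neg hz z1 (pow_mem hs 4) (c.pow_left 4) e
  rw [← pow_mul, mul_comm, pow_mul] at hi
  have hg := pow_mem hs (2 ^ i)
  replace c := c.pow_left (2 ^ i)
  generalize s ^ 2 ^ i = g at hi hg c
  obtain ⟨v, hv, v1⟩ := h.exists_ne z1
  have e4 : g (g (g (g v))) = v⁻¹ := hi hv
  have e5 : g (g v) ≠ v := fun e => v1 (h.eq_one (h.exp v) (by rw [← e4, e, e]))
  have e6 : g v ≠ v := fun e => e5 (by rw [e, e])
  have e7 : g v ≠ v⁻¹ := fun e => e5 (by rw [e, map_inv, e, inv_inv])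
  have hD : zpowers v ⊔ zpowers (g v) ≤ I z :=
    sup_le (zpowers_le.2 hv) (zpowers_le.2 (stab_of_commute c hv))
  rcases hD.lt_or_eq with l | l
  · rcases h.three (h.le_zpowers z1.card l (mem_sup_left (mem_zpowers v)) v1
      (mem_sup_right (mem_zpowers _))) with e | e | e
    · exact v1 ((MulEquiv.map_eq_one_iff g).1 e)
    · exact e6 e
    · exact e7 e
  have β1 : b v (g v) ≠ 1 := fun e => v1 (h.eq_one_of_fix hv (h.fix_of_perp hz z1.sq fun u hu => by
    obtain ⟨_, ⟨i, rfl⟩, _, ⟨j, rfl⟩, rfl⟩ := mem_sup.1 (l.ge hu)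
    simp [h.alt, h.symm e]))
  have β2 : b (g v) v = (b v (g v))⁻¹ := by
    have := h.alt (v * g v)
    simp only [map_mul, MonoidHom.mul_apply, h.alt, one_mul, mul_one] at this
    exact eq_inv_of_mul_eq_one_left this
  obtain ⟨a, ha, a', ha', e⟩ := mem_sup.1 (l.ge (stab_of_commute c (stab_of_commute c hv)))
  have β3 := h.inv g hg v (g v)
  rw [← e, map_mul, show b (g v) a' = 1 by obtain ⟨j, rfl⟩ := ha'; simp [h.alt], mul_one] at β3
  rcases h.three ha with rfl | rfl | rfl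
  · exact β1 (by rw [← β3, map_one])
  · exact β1 (h.eq_one (by rw [← map_pow, h.exp, map_one]) (β3.symm.trans β2))
  rcases h.three ha' with rfl | rfl | rfl
  · rw [← e, mul_one, map_inv, map_inv, ← e, mul_one, inv_inv] at e4
    exact v1 (h.eq_one (h.exp v) e4)
  · rw [← e, map_mul, ← e, map_inv, mul_left_comm, inv_mul_cancel, mul_one, map_inv, inv_inj] at e4
    exact e6 e4
  · rw [← e, map_mul, map_inv, map_inv, ← e, mul_inv, inv_inv, inv_inv, mul_left_comm,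
      inv_mul_cancel, mul_one] at e4
    exact e7 e4

theorem fixes (h : Sy q k b Γ) (hz : z ∈ Γ) (z1 : Ref q z) (hr : r ∈ Γ) (r1 : Ref q r)
    (hs : s ∈ Γ) (s1 : Ref q s) (o1 : Orth z r) (o2 : Orth z s) (o3 : Orth z (s * r))
    (hv : v ∈ I z) : r (s v) = s v :=
  h.fix_of_perp hr r1.sq fun u hu => by
    obtain ⟨w, hw, rfl⟩ := h.surj hz z1 r1 o1 (h.ref_mem r1.sq) hu
    rw [map_mul, MonoidHom.mul_apply, map_inv, MonoidHom.inv_apply, h.perp hz hw (o2 v hv),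
      ← h.inv s hs, s1.sq, inv_one, one_mul]
    exact h.symm (h.perp hz hv (o3 w hw))

theorem cycle (h : Sy q k b Γ) (hz : z ∈ Γ) (z1 : Ref q z) (hr : r ∈ Γ) (r1 : Ref q r)
    (hs : s ∈ Γ) (s1 : Ref q s) (o1 : Orth z r) (o2 : Orth z s) (o3 : Orth z (s * r)) : False := by
  obtain ⟨v, hv, v1⟩ := h.exists_ne z1
  have o4 := h.orth_inv hz z1 (mul_mem hs hr) o3
  rw [mul_inv_rev, r1.inv, s1.inv] at o4
  have e1 := h.fixes hz z1 hr r1 hs s1 o1 o2 o3 hv
  have e2 := h.fixes hz z1 hs s1 hr r1 o2 o1 o4 hv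
  obtain ⟨n, hn⟩ := h.pg ⟨r * s, mul_mem hr hs⟩
  have e3 : r * s ∈ MulAction.stabilizer (MulAut W) v := H98.mem_of_pow_mem_of_coprime (n := 3)
    (show r (s (r (s (r (s v))))) = v by rw [e1, s1.sq, e2, r1.sq])
    (Nat.Coprime.coprime_dvd_left (orderOf_dvd_of_pow_eq_one (congrArg Subtype.val hn))
      (Nat.Coprime.pow_left n (by norm_num)))
  have e4 : s v = v := e1.symm.trans e3
  exact v1 (h.eq_one_of_fix hv (by simpa [e4] using o2 v hv))

theorem sq_pm_closure (h : Sy q 0 b Γ) (hz : z ∈ Γ) (z1 : Ref q z)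
    (F : ∀ s ∈ Γ, Commute s z ∨ Orth z s) {R : Set (MulAut W)}
    (hR : ∀ r ∈ R, r ∈ Γ ∧ (r = 1 ∨ Ref q r)) {p : MulAut W} (hp : p ∈ closure R) (o : Orth z p) :
    PM z (p * p) := by
  obtain ⟨s, hs, o1⟩ : ∃ s ∈ R, ¬ Commute s z := by
    by_contra! e
    have : closure R ≤ centralizer {z} :=
      (closure_le _).2 fun r hr => mem_centralizer_singleton_iff.2 (e r hr)
    obtain ⟨v, hv, v1⟩ := h.exists_ne z1
    exact v1 ((MulEquiv.map_eq_one_iff p).1 (h.eq_one_of_fix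
      (stab_of_commute (mem_centralizer_singleton_iff.1 (this hp)) hv) (o v hv)))
  obtain ⟨hs, s1⟩ := hR s hs
  replace s1 := s1.resolve_left fun e => o1 (e ▸ Commute.one_left z)
  replace o1 := (F s hs).resolve_left o1
  let P : MulAut W → Prop := fun g => (∀ u, u ∈ I z ∨ s u ∈ I z → g u ∈ I z ∨ s (g u) ∈ I z) ∧
    ∃ e : ℤ, e * e = 1 ∧ ∀ u, u ∈ I z ∨ s u ∈ I z → g (s u) = s (g u) ^ e
  have P1 : P 1 := ⟨fun _ e => e, 1, rfl, fun _ _ => (zpow_one _).symm⟩
  have P2 : ∀ r ∈ R, P r := fun r hr => by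
    obtain ⟨hr, rfl | r1⟩ := hR r hr
    · exact P1
    have r2 := r1.conj s
    rw [s1.inv] at r2
    have hr2 := mul_mem (mul_mem hs hr) hs
    rcases F r hr with c | o2
    · have c2 := (F _ hr2).resolve_right fun o2 => h.cycle hz z1 hr2 r2 hs s1 o2 o1 fun v hv => by
        simp only [MulAut.mul_apply, s1.sq]
        rw [← MulAut.mul_apply, ← c.eq, MulAut.mul_apply, o1 v hv]
      obtain ⟨e1, a1, a2⟩ := h.pm' hz z1 hr c fun v _ => r1.sq v
      obtain ⟨e2, a3, a4⟩ := h.pm' hz z1 hr2 c2 fun v _ => r2.sq v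
      refine ⟨fun u hu => hu.imp (stab_of_commute c) fun hu => ?_, e1 * e2,
        by rw [mul_mul_mul_comm, a1, a3, one_mul], fun u hu => hu.elim (fun hu => ?_) fun hu => ?_⟩
      · simpa [s1.sq] using stab_of_commute c2 hu
      · rw [← s1.sq (r (s u)), show s (r (s u)) = _ from a4 u hu, a2 u hu, map_zpow, map_zpow,
          ← zpow_mul, ← mul_assoc, a1, one_mul]
      · have := a4 _ hu
        simp only [MulAut.mul_apply, s1.sq] at this
        rw [this, a2 _ hu, ← zpow_mul, mul_left_comm, a3, mul_one]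
    · have c := (F _ (mul_mem hs hr)).resolve_right (h.cycle hz z1 hr r1 hs s1 o2 o1)
      have c' := c.inv_left
      rw [mul_inv_rev, r1.inv, s1.inv] at c'
      obtain ⟨e, a1, a2⟩ := h.sq_pm hz z1 (mul_mem hs hr) c
      have a3 : ∀ v ∈ I z, s (r v) = r (s v) ^ e := fun v hv => by
        simpa [r1.sq, s1.sq] using a2 _ (stab_of_commute c' hv)
      refine ⟨fun u hu => hu.symm.imp (fun hu => ?_) (stab_of_commute c), e, a1,
        fun u hu => hu.elim (fun hu => ?_) fun hu => ?_⟩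
      · simpa [s1.sq] using stab_of_commute c' hu
      · rw [a3 u hu, ← zpow_mul, a1, zpow_one]
      · rw [← s1.sq (r (s u)), a3 _ hu, s1.sq, map_zpow]
  have P3 : ∀ g g', P g → P g' → P (g * g') := by
    rintro g g' ⟨a1, e1, a2, a3⟩ ⟨a4, e2, a5, a6⟩
    exact ⟨fun u hu => a1 _ (a4 u hu), e1 * e2, by rw [mul_mul_mul_comm, a2, a5, one_mul],
      fun u hu => by simp only [MulAut.mul_apply, a6 u hu, map_zpow, a3 _ (a4 u hu), zpow_mul]⟩
  have P4 : P p := closure_induction_left P1 (fun r hr g _ e => P3 _ _ (P2 r hr) e)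
    (fun r hr g _ e => P3 _ _ (by
      rcases (hR r hr).2 with rfl | r1
      · rwa [inv_one]
      · exact r1.inv.symm ▸ P2 r hr) e) hp
  obtain ⟨a1, e, a2, a3⟩ := P4
  have hg := mul_mem hs ((closure_le Γ).2 (fun r hr => (hR r hr).1) hp)
  have a4 : ∀ v ∈ I z, (s * p) v ∈ I z := fun v hv => (a1 v (Or.inl hv)).elim
    (fun e => by rw [MulAut.mul_apply, h.eq_one_of_fix e (o v hv), map_one]; exact one_mem _) id
  obtain ⟨e', a5, a6⟩ := h.sq_pm hz z1 hg (h.commute_of_stab hz z1 hg a4)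
  refine ⟨e' * e, by rw [mul_mul_mul_comm, a2, a5, one_mul], fun v hv => ?_⟩
  rw [zpow_mul, ← a6 v hv, MulAut.mul_apply, ← s1.sq (p v)]
  exact a3 _ (Or.inl (a4 v hv))

theorem comm_pow (h : Sy q k b Γ) (hy : y ∈ Γ) (y1 : Exc q k y) (hs : s ∈ Γ) (n : ℕ) :
    ⁅s, y ^ n⁆ = ⁅s, y⁆ ^ n := by
  rw [commutatorElement_def, commutatorElement_def, (h.comm hy y1 hs).inv_right.mul_pow, conj_pow,
    inv_pow]

theorem norm_mem (h : Sy q k b Γ) (hy : y ∈ Γ) (y1 : Exc q k y) {R : Set (MulAut W)}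
    (hR : ∀ r ∈ R, r ∈ Γ ∧ (r = 1 ∨ Ref q r)) {B J : Subgroup (MulAut W)} (hB : B ≤ closure R)
    (hyB : y ∈ normalizer (B : Set (MulAut W))) (hJ : ∀ a ∈ B, a * a ∈ J)
    (hBJ : B ≤ normalizer (J : Set (MulAut W))) (hyJ : y ∈ normalizer (J : Set (MulAut W)))
    {p : MulAut W} (hp : p ∈ B) (h' : (p * y) ^ 2 ^ (k + 1) = 1 ∨ Exc q k (p * y)) :
    (p * y) ^ 2 ^ (k + 1) * (y ^ 2 ^ (k + 1))⁻¹ ∈ J := by
  have hpΓ := (closure_le Γ).2 (fun r hr => (hR r hr).1) (hB hp)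
  have hc : p⁻¹ * (y * p * y⁻¹) ∈ B := mul_mem (inv_mem hp) ((mem_normalizer_iff.1 hyB p).1 hp)
  have c1 : Commute (p⁻¹ * (y * p * y⁻¹)) y := by
    simpa [mul_assoc] using (h.comm hy y1 (inv_mem hpΓ)).mul_left (Commute.refl y).inv_left
  have key : (p⁻¹ * (y * p * y⁻¹)) ^ 2 ^ k ∈ J →
      (p * y) ^ 2 ^ (k + 1) * (y ^ 2 ^ (k + 1))⁻¹ ∈ J := fun e => by
    have := mul_mem (mul_pow_mul_inv_mem (hJ p hp) (mul_mem (hBJ hc) (pow_mem hyJ 2)) (2 ^ k)) e
    rwa [(c1.pow_right 2).mul_pow, show p * p * (p⁻¹ * (y * p * y⁻¹) * y ^ 2) = (p * y) ^ 2 by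
      rw [pow_two, pow_two]; group, ← pow_mul, ← pow_mul, ← pow_succ', mul_inv_rev, mul_assoc,
      inv_mul_cancel_right] at this
  rcases k with _ | k
  swap
  · exact key (by rw [pow_succ, pow_mul, pow_two]; exact hJ _ (pow_mem hc _))
  have hz := pow_mem hy (2 ^ (0 + 1))
  have hy' := mul_mem hpΓ hy
  have z1 := y1.ref
  have cy := Commute.self_pow y (2 ^ (0 + 1))
  obtain ⟨v, hv, v1⟩ := h.exists_ne z1
  rcases h.fam hy y1 hpΓ with c | o
  · rcases h.pm hz z1 (pow_mem hy' (2 ^ (0 + 1))) ((c.mul_left cy).pow_left _)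
      (fun v _ => h'.elim (fun e => by rw [e]; rfl) fun e => e.ref.sq v) with e | e
    · obtain ⟨i, -, a2⟩ := h.pm' hz z1 hy' (c.mul_left cy) e
      have a3 : ∀ v ∈ I (y ^ 2 ^ (0 + 1)), p v = y⁻¹ v ^ i := fun v hv => by
        simpa using a2 _ (stab_of_commute cy.inv_left hv)
      refine key ?_
      rw [h.ext_of z1 (f := y * p * y⁻¹) (g := p) (fun v hv => ?_) fun v hv => ?_]
      · simp
      · rw [MulAut.mul_apply, MulAut.mul_apply, a3 _ (stab_of_commute cy.inv_left hv), map_zpow,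
          MulAut.apply_inv_self, a3 v hv]
      · rw [MulAut.mul_apply, MulAut.mul_apply,
          show y⁻¹ v = v from (MulEquiv.symm_apply_eq y).2 (y1.fix v hv).symm, y1.fix]
        rw [← MulAut.mul_apply, ← c.eq, MulAut.mul_apply, hv]
    · rw [h.eq_of_le hz (pow_mem hy' _) z1 (h'.resolve_left fun e' => v1
        (h.eq_one_of_fix (e hv) (by rw [e']; rfl))).ref e, mul_inv_cancel]
      exact one_mem _
  · have o' : Orth _ (p * y) := fun v hv => o _ (stab_of_commute cy hv)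
    have e := h'.resolve_right fun e => h.nomove hz z1 hy' e o' (h.fam hy y1 (mul_mem hy' hy'))
    obtain ⟨i, a1, a2⟩ := h.sq_pm_closure hz z1 (fun s => h.fam hy y1) hR (hB hp) o
    have a3 : p (y (p (y v))) = v := DFunLike.congr_fun e v
    rw [show y (p (y v)) = p (y v) from y1.fix _ (o' v hv),
      show p (p (y v)) = _ from a2 _ (stab_of_commute cy hv)] at a3
    have a4 : y v = v ^ i := by
      conv_rhs => rw [← a3, ← zpow_mul, a1, zpow_one]
    exact absurd (h.eq_one_of_fix hv (show y (y v) = v by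
      rw [a4, map_zpow, a4, ← zpow_mul, a1, zpow_one])) v1

end Sy

end H93.TL
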