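/- Two-length bounds: exceptional elements act as symplectic reflections. -/
import Cfsg.Agent.H93.TL1
import Cfsg.Agent.H22.HallHigman

set_option autoImplicit false
set_option linter.unusedSectionVars false

namespace H93.TL

open Subgroup Module Polynomial H22

theorem exists_orbits (A X : Type*) [Group A] [Fintype A] [DecidableEq A] [MulAction A X]
    [Finite X] : ∃ R : Finset X, (∀ x, ∃ r ∈ R, ∃ a : A, a • r = x) ∧ Nat.card A * R.card =
      Nat.card X + ∑ a ∈ Finset.univ.erase (1 : A), Nat.card (MulAction.fixedBy X a) := by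
  classical
  have := Fintype.ofFinite X
  refine ⟨Finset.univ.image (Quotient.out (s := MulAction.orbitRel A X)), fun x => ⟨_,
    Finset.mem_image_of_mem _ (Finset.mem_univ ⟦x⟧), (MulAction.orbitRel A X).symm
      (Quotient.mk_out x)⟩, ?_⟩
  rw [Finset.card_image_of_injective _ Quotient.out_injective, Finset.card_univ, mul_comm,
    Nat.card_eq_fintype_card, ← MulAction.sum_card_fixedBy_eq_card_orbits_mul_card_group,
    ← Finset.add_sum_erase _ _ (Finset.mem_univ 1)]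
  simp

theorem eq_one_of_pow_add_one {q i m : ℕ} (hq : Odd q) (h1 : 1 < q) (h : q ^ i + 1 = 2 ^ m)
    (hi : i ≠ 0) : i = 1 ∧ 2 ≤ m := by
  have h2 : q ≤ q ^ i := Nat.le_self_pow hi q
  have hm : 2 ≤ m := by
    by_contra k
    obtain rfl | rfl : m = 0 ∨ m = 1 := by omega
    all_goals omega
  refine ⟨?_, hm⟩
  obtain ⟨m, rfl⟩ := Nat.exists_eq_add_of_le hm
  obtain ⟨t, rfl⟩ := hq
  rcases Nat.even_or_odd' i with ⟨j, rfl | rfl⟩
  · obtain ⟨u, hu⟩ : Odd ((2 * t + 1) ^ j) := (odd_two_mul_add_one t).pow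
    rw [mul_comm 2 j, pow_mul, hu, pow_add] at h
    have : (2 * u + 1) ^ 2 = 4 * (u * u + u) + 1 := by ring
    omega
  have e : ∀ j, ∃ s, (2 * t + 1) ^ (2 * j + 1) + 1 = (2 * t + 2) * (2 * s + 1) := fun j => by
    induction j with
    | zero => exact ⟨0, by ring⟩
    | succ j ih =>
      obtain ⟨s, hs⟩ := ih
      exact ⟨s + t * (2 * t + 1) ^ (2 * j + 1), by linear_combination hs⟩
  obtain ⟨s, hs⟩ := e j
  have e1 : 2 * s + 1 = 1 := Nat.eq_one_of_dvd_coprimes
    (Nat.Coprime.pow_right (2 + m) (Nat.coprime_two_right.2 (odd_two_mul_add_one s))) dvd_rfl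
    (h ▸ hs ▸ dvd_mul_left _ _)
  rw [e1, mul_one] at hs
  exact Nat.pow_right_injective h1 (by simp only [pow_one]; omega)

variable {K U Q W : Type*} [Field K] [IsAlgClosed K] [AddCommGroup U] [Module K U]
  [FiniteDimensional K U] [Nontrivial U] [Group Q] [Finite Q] [CommGroup W] [Finite W]

/-- A representation of `Q` in which the elements acting centrally act as scalars. -/
structure Hs (ρ : Representation K Q U) (π : Q →* W) (b : W →* W →* Kˣ) : Prop where
  surj : Function.Surjective π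
  comm : ∀ s t, ρ (s * t * s⁻¹ * t⁻¹) = (b (π s) (π t) : K) • 1
  ker : ∀ t, π t = 1 → ∃ a : K, ρ t = a • 1
  nd : ∀ w, (∀ v, b v w = 1) → w = 1

/-- `X` induces `α` on `Q` and `β` on `W`. -/
structure Ind (ρ : Representation K Q U) (π : Q →* W) (X : Module.End K U) (α : MulAut Q)
    (β : MulAut W) : Prop where
  inj : Function.Injective X
  act : ∀ t, X * ρ t = ρ (α t) * X
  map : ∀ t, β (π t) = π (α t)

variable {ρ : Representation K Q U} {π : Q →* W} {b : W →* W →* Kˣ} {X : Module.End K U}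
  {α : MulAut Q} {β : MulAut W}

theorem smul_one_inj {a c : K} (h : a • (1 : Module.End K U) = c • 1) : a = c :=
  smul_left_injective K one_ne_zero h

theorem Hs.alt (h : Hs ρ π b) (w : W) : b w w = 1 := by
  obtain ⟨t, rfl⟩ := h.surj w
  exact Units.ext (smul_one_inj (U := U) (by simp [← h.comm]))

theorem Hs.inv (h : Hs ρ π b) (i : Ind ρ π X α β) (v w : W) : b (β v) (β w) = b v w := by
  obtain ⟨s, rfl⟩ := h.surj v
  obtain ⟨t, rfl⟩ := h.surj w
  have hXu : IsUnit X := (LinearMap.isUnit_iff_ker_eq_bot X).2 (LinearMap.ker_eq_bot.2 i.inj)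
  refine Units.ext (smul_one_inj (U := U) (hXu.mul_right_cancel ?_))
  rw [i.map, i.map, ← h.comm, ← map_inv, ← map_inv, ← map_mul, ← map_mul, ← map_mul, ← i.act,
    h.comm, mul_smul_comm, smul_mul_assoc, mul_one, one_mul]

theorem Hs.count (h : Hs ρ π b) (i : Ind ρ π X α β) {g : K[X]} (g0 : g ≠ 0) (hg : aeval X g = 0)
    (R : Finset W) (hR : ∀ w, ∃ r ∈ R, ∃ j : ℕ, (β ^ j) r = w) :
    ∃ (d : ℕ) (n : ℕ → ℕ), d ^ 2 = Nat.card W ∧ ∑ j ∈ Finset.range g.natDegree, n j = d ∧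
      ∑ j ∈ Finset.range g.natDegree, n j ^ 2 ≤ R.card := by
  have hc : ∀ s t, ρ s * ρ t * ρ s⁻¹ = (b (π s) (π t) : K) • ρ t := fun s t => by
    rw [← map_mul, ← map_mul, show s * t * s⁻¹ = s * t * s⁻¹ * t⁻¹ * t by group, map_mul, h.comm,
      smul_mul_assoc, one_mul]
  obtain ⟨M, hM, M0, hQ, hd, -⟩ := hh_core ρ π.ker h.ker (fun s t => by simp [mul_comm])
    (fun t ht => h.nd _ fun v => by
      obtain ⟨s, rfl⟩ := h.surj v
      refine Units.ext (smul_one_inj (U := U) ?_)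
      rw [← h.comm, map_mul, map_mul, map_mul, ht, mul_assoc (ρ t), ← map_mul, mul_inv_cancel,
        map_one, mul_one, ← map_mul]
      simp) α X i.inj i.act 1 fun _ _ _ _ _ => by omega
  rw [index_ker, MonoidHom.range_eq_top.2 h.surj, card_top] at hd
  obtain ⟨n, n1, n2⟩ := exists_parts_of_aeval_eq_zero (X.restrict hM) g g0 (by
    ext v
    rw [aeval_restrict_apply, hg]; rfl)
  refine ⟨_, n, hd, n1, n2.trans ?_⟩
  have := Submodule.nontrivial_iff_ne_bot.2 M0
  let σ : Representation K Q M := (⟨M, hQ⟩ : Subrepresentation ρ).toRepresentation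
  have res : ∀ {S T : Module.End K M} {S' T' : Module.End K U}, (∀ v, (S v : U) = S' v) →
      (∀ v, (T v : U) = T' v) → S' = T' → S = T := fun e1 e2 e =>
    LinearMap.ext fun v => Subtype.ext (by rw [e1, e2, e])
  obtain ⟨s, hs⟩ := h.surj.hasRightInverse
  have li : LinearIndependent K fun w => σ (s w) := linearIndependent_of_wt
    (fun t : Q => LinearMap.mulLeft K (σ t) ∘ₗ LinearMap.mulRight K (σ t⁻¹))
    (fun w t => b (π t) w) (fun w w' e => mul_inv_eq_one.1 (h.nd _ fun v => by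
      obtain ⟨t, rfl⟩ := h.surj v
      rw [map_mul, map_inv, Units.ext (congrFun e t), mul_inv_cancel])) _
    (fun w t => res (S' := ρ t * ρ (s w) * ρ t⁻¹) (fun _ => rfl) (fun _ => rfl) (by rw [hc, hs w]))
    fun w => ((Group.isUnit _).map σ).ne_zero
  have := Fintype.ofFinite W
  let B := basisOfLinearIndependentOfCardEqFinrank li (by
    rw [finrank_linearMap, ← sq, hd, Nat.card_eq_fintype_card])
  obtain ⟨Y, hY⟩ : IsUnit (show Module.End K M from X.restrict hM) :=
    (LinearMap.isUnit_iff_ker_eq_bot _).2 (LinearMap.ker_eq_bot.2 fun v w e =>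
      Subtype.ext (i.inj (congrArg Subtype.val e)))
  have hν : ∀ w, ∃ a : K, σ (α (s w)) = a • σ (s (β w)) := fun w => by
    obtain ⟨a, ha⟩ := h.ker (α (s w) * (s (β w))⁻¹) (by rw [map_mul, map_inv, ← i.map, hs, hs]; simp)
    exact ⟨a, res (S' := ρ _) (T' := a • ρ _) (fun _ => rfl) (fun _ => rfl) (by
      rw [← one_mul (ρ (s _)), ← smul_mul_assoc, ← ha, ← map_mul, inv_mul_cancel_right])⟩
  choose ν hν using hν
  refine finrank_le_card_of_monomial B (LinearMap.mulLeft K Y.val ∘ₗ LinearMap.mulRight K Y.inv)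
    (MulAut.toPerm W β) ν (fun w => ?_) R (by simp only [← map_pow]; exact hR) _ fun T hT => ?_
  · have : Y.val * σ (s w) = σ (α (s w)) * Y.val := hY ▸
      res (S' := X * ρ _) (T' := ρ _ * X) (fun _ => rfl) (fun _ => rfl) (i.act _)
    simp only [B, coe_basisOfLinearIndependentOfCardEqFinrank, LinearMap.comp_apply,
      LinearMap.mulRight_apply, LinearMap.mulLeft_apply]
    rw [← mul_assoc, this, mul_assoc, Y.val_inv, mul_one, hν]; rfl
  · rw [LinearMap.comp_apply, LinearMap.mulRight_apply, LinearMap.mulLeft_apply, ← mul_assoc,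
      show Y.val * T = T * Y.val from hY ▸ mem_centEnd.1 hT, mul_assoc, Y.val_inv, mul_one]

/-- Restriction of an automorphism to an invariant subgroup. -/
noncomputable def resAut (α : MulAut Q) (B : Subgroup Q) (h : ∀ x ∈ B, α x ∈ B) : MulAut B :=
  MulEquiv.ofBijective ((α.toMonoidHom.comp B.subtype).codRestrict B fun x => h x x.2)
    (Finite.injective_iff_bijective.1 fun _ _ e => Subtype.ext (α.injective (congrArg Subtype.val e)))

theorem resAut_pow (α : MulAut Q) (B : Subgroup Q) (h : ∀ x ∈ B, α x ∈ B) (i : ℕ) (x : B) :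
    ((resAut α B h ^ i) x : Q) = (α ^ i) x := by
  induction i with
  | zero => rfl
  | succ i ih => rw [pow_succ', pow_succ', MulAut.mul_apply, MulAut.mul_apply, ← ih]; rfl

theorem Hs.exc (h : Hs ρ π b) (i : Ind ρ π X α β) {q m : ℕ} (hq : q.Prime) (ho : Odd q)
    (he : ∀ w : W, w ^ q = 1) {g : K[X]} (g0 : g ≠ 0) (hg : aeval X g = 0)
    (hd : g.natDegree < 2 ^ (m + 1)) (h1 : β ^ 2 ^ (m + 1) = 1) (h2 : β ^ 2 ^ m ≠ 1) :
    ∃ k, m = k + 1 ∧ q + 1 = 2 ^ (k + 2) ∧ Exc q k β := by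
  classical
  have := Fact.mk hq
  have hβ : orderOf β = 2 ^ (m + 1) := orderOf_eq_prime_pow h2 h1
  have S : Sz q b (zpowers β) := ⟨hq, ho, he, h.alt, h.nd, fun γ hγ v w => by
    obtain ⟨j, rfl⟩ := mem_powers_iff_mem_zpowers.2 hγ
    induction j with
    | zero => rfl
    | succ j ih => simp only [pow_succ', MulAut.mul_apply, h.inv i, ih (pow_mem (mem_zpowers _) _)],
    IsPGroup.of_card (by rw [Nat.card_zpowers, hβ])⟩
  have hz := pow_mem (mem_zpowers β) (2 ^ m)
  have z2 : ∀ w, (β ^ 2 ^ m) ((β ^ 2 ^ m) w) = w := fun w => by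
    rw [← MulAut.mul_apply, ← pow_two, ← pow_mul, ← pow_succ, h1]; rfl
  have fr : ∀ w, ∀ j, 0 < j → j < 2 ^ (m + 1) → (β ^ j) w = w → (β ^ 2 ^ m) w = w :=
    fun w j j0 j1 e => (inv_mul_eq_one.1 (mem_bot.1 (inv_mul_pow_mem_of_mem β ⊥ (by simp)
      Nat.prime_two m h1 w j j0 j1 (by simp [e])))).symm
  set z := β ^ 2 ^ m with ez
  have hB : ∀ w ∈ I z, β w ∈ I z := fun w => stab_of_commute (Commute.self_pow β _)
  let F := z.toMonoidHom.eqLocus (MonoidHom.id W)
  have hF : Nat.card (I z) * Nat.card F = Nat.card W := IsComplement'.card_mul_card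
    (isComplement'_of_disjoint_and_mul_eq_univ (disjoint_def.2 fun u v => S.eq_one_of_fix u v)
      (Set.eq_univ_of_forall fun w => by
        obtain ⟨u, -, v, -, a1, a2, a3⟩ := S.dec (B := ⊤) (fun _ _ => mem_top _)
          (fun w _ => z2 w) (mem_top w)
        exact ⟨u, a1, v, a2, a3.symm⟩))
  obtain ⟨R, R1, R2⟩ := exists_orbit_reps (MulAut.toPerm _ (resAut β _ hB)) 1 (2 ^ (m + 1))
    (map_one (resAut β _ hB)) fun t t1 j j0 j1 e => t1 (Subtype.ext (S.eq_one_of_fix t.2 (fr t j j0 j1 (by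
      rw [← resAut_pow β _ hB, ← map_pow] at *; exact congrArg Subtype.val e))))
  obtain ⟨d, n, n1, n2, n3⟩ := Hs.count (ρ := ρ.comp ((I z).comap π).subtype)
    (π := π.subgroupComap (I z)) (b := (b.compl₂ (I z).subtype).comp (I z).subtype)
    ⟨π.subgroupComap_surjective_of_surjective _ h.surj, fun s t => h.comm s t,
      fun t e => h.ker t (congrArg Subtype.val e), fun w e => Subtype.ext (S.eq_one_of_fix w.2
        (S.fix_of_perp hz z2 fun u hu => e ⟨u, hu⟩))⟩ (X := X)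
    (α := resAut α _ fun t ht => by rw [mem_comap, ← i.map]; exact hB _ ht) (β := resAut β _ hB)
    ⟨i.inj, fun t => i.act t, fun t => Subtype.ext (i.map t)⟩ g0 hg R
    (by simp only [← map_pow] at R1; exact R1)
  have d1 : d ≠ 1 := fun e => h2 (MulEquiv.ext fun w => by
    rw [e, one_pow, eq_comm, card_eq_one] at n1
    obtain ⟨u, -, v, -, a1, a2, rfl⟩ := S.dec (B := ⊤) (fun _ _ => mem_top _)
      (fun w _ => z2 w) (mem_top w)
    rw [mem_bot.1 (n1.le a1), one_mul, a2]; rfl)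
  have d0 : d ≠ 0 := fun e => Nat.card_pos.ne (by rw [← n1, e]; rfl)
  obtain ⟨a1, -⟩ := hh_arith_lt _ _ d n hd (by omega) n2
    ((Nat.succ_le_succ (Nat.mul_le_mul_left _ n3)).trans (n1 ▸ R2))
  obtain ⟨e, a2⟩ := IsPGroup.iff_card.1 (show IsPGroup q (I z) from
    fun w => ⟨1, Subtype.ext (by simpa using he w)⟩)
  obtain ⟨j, -, rfl⟩ := (Nat.dvd_prime_pow hq).1 ((dvd_pow_self d two_ne_zero).trans
    (n1.trans a2).dvd)
  obtain ⟨rfl, a3⟩ := eq_one_of_pow_add_one ho hq.one_lt a1 fun e => d1 (by rw [e, pow_zero])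
  rw [pow_one] at a1 n1
  obtain ⟨k, rfl⟩ : ∃ k, m = k + 1 := ⟨m - 1, by omega⟩
  refine ⟨k, rfl, a1, ⟨z2, n1.symm⟩, fun w hw => by_contra fun hw' => ?_⟩
  have := Fintype.ofFinite (zpowers β)
  obtain ⟨R, R1, R2⟩ := exists_orbits (zpowers β) W
  obtain ⟨d, n, n3, n4, n5⟩ := h.count i g0 hg R fun w => by
    obtain ⟨r, hr, ⟨a, ha⟩, e⟩ := R1 w
    obtain ⟨j, rfl⟩ := mem_powers_iff_mem_zpowers.2 ha
    exact ⟨r, hr, j, e⟩
  have sub : ∀ a : zpowers β, a ≠ 1 → MulAction.fixedBy W a ⊆ F := by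
    rintro ⟨a, ha⟩ a1 v hv
    obtain ⟨j, j1, rfl⟩ := Finset.mem_image.1 (mem_zpowers_iff_mem_range_orderOf.1 ha)
    exact fr v j (Nat.pos_of_ne_zero fun e => a1 (Subtype.ext (by simp [e])))
      (hβ ▸ Finset.mem_range.1 j1) hv
  have β1 : (⟨β, mem_zpowers β⟩ : zpowers β) ≠ 1 := fun e =>
    h2 (by rw [ez, show β = 1 from congrArg Subtype.val e, one_pow])
  have lt := Finset.sum_lt_sum (s := Finset.univ.erase (1 : zpowers β))
    (f := fun a => Nat.card (MulAction.fixedBy W a)) (g := fun _ => Nat.card F)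
    (fun a ha => Set.ncard_le_ncard (sub a (Finset.ne_of_mem_erase ha)))
    ⟨_, Finset.mem_erase.2 ⟨β1, Finset.mem_univ _⟩, Set.ncard_lt_ncard
      ⟨sub _ β1, fun e => hw' (e hw)⟩⟩
  rw [Finset.sum_const, Finset.card_erase_of_mem (Finset.mem_univ _), Finset.card_univ,
    ← Nat.card_eq_fintype_card, smul_eq_mul] at lt
  rw [Nat.card_zpowers, hβ, ← a1] at lt R2
  have a4 := sq_sum_le_mul_sum_sq g.natDegree n
  rw [n4, n3, ← hF, ← n1] at a4
  have a5 : q * (q * Nat.card F) ≤ q * R.card := by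
    rw [← mul_assoc, ← sq]; exact a4.trans (Nat.mul_le_mul (by omega) n5)
  have a6 := Nat.mul_le_mul_left (q + 1) (Nat.le_of_mul_le_mul_left a5 hq.pos)
  rw [R2, ← hF, ← n1, Nat.add_sub_cancel] at *
  nlinarith

end H93.TL
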