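/- Two-length bounds: the symplectic spaces attached to a faithful module. -/
import Cfsg.Agent.H93.TL3
import Cfsg.Agent.H5.FrobAction
import Cfsg.Agent.H9.Critical
import Cfsg.Agent.H2.MinNormal

set_option autoImplicit false
set_option linter.unusedSectionVars false

namespace H93.TL

open Subgroup Module Polynomial H22 Cfsg
open scoped commutatorElement

universe u

variable {K : Type*} [Field K] [IsAlgClosed K]

theorem exists_hs {H : Type u} {U : Type*} [Group H] [Finite H] [AddCommGroup U] [Module K U]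
    [FiniteDimensional K U] [Nontrivial U] (σ : Representation K H U) (C : Subgroup H) [C.Normal]
    (h1 : ∀ s ∈ C, ∀ t ∈ C, ∃ a : K, σ ⁅s, t⁆ = a • 1)
    (h2 : ∀ t ∈ C, (∀ s ∈ C, σ ⁅s, t⁆ = 1) → ∃ a : K, σ t = a • 1) :
    ∃ (W : Type u) (_ : CommGroup W) (_ : Finite W) (π : C →* W) (b : W →* W →* Kˣ)
      (φ : H →* MulAut W), Hs (σ.comp C.subtype) π b ∧
        ∀ h, Ind (σ.comp C.subtype) π (σ h) (MulAut.conjNormal h) (φ h) := by
  have cj : ∀ g t (a : K), σ t = a • 1 → σ (g * t * g⁻¹) = a • 1 := fun g t a e => by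
    rw [map_mul, map_mul, e, mul_smul_comm, mul_one, smul_mul_assoc, ← map_mul, mul_inv_cancel,
      map_one]
  have h3 : ∀ s t : C, ∃ a : Kˣ, σ ⁅(s : H), t⁆ = (a : K) • 1 := fun s t => by
    obtain ⟨a, ha⟩ := h1 s s.2 t t.2
    exact ⟨Units.mk0 a fun e => ((Group.isUnit _).map σ).ne_zero (by rw [ha, e, zero_smul]), ha⟩
  choose c hc using h3
  have c1 : ∀ s t t', c s (t * t') = c s t * c s t' := fun s t t' =>
    Units.ext (smul_one_inj (U := U) (by
      rw [← hc, Subgroup.coe_mul, show ⁅(s : H), (t : H) * t'⁆ = ⁅(s : H), (t : H)⁆ *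
        (t * ⁅(s : H), (t' : H)⁆ * (t : H)⁻¹) by simp only [commutatorElement_def]; group,
        map_mul, hc, cj _ _ _ (hc _ _)]
      simp [smul_smul, mul_comm]))
  have c2 : ∀ s t, c s t * c t s = 1 := fun s t => Units.ext (smul_one_inj (U := U) (by
    rw [Units.val_mul, mul_smul, ← hc, ← one_mul (σ _), ← smul_mul_assoc, ← hc, ← map_mul,
      ← commutatorElement_inv, inv_mul_cancel]
    simp))
  let β : C →* C →* Kˣ := MonoidHom.mk' (fun s => MonoidHom.mk' (c s) (c1 s)) fun s s' =>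
    MonoidHom.ext fun t => by
      change c (s * s') t = c s t * c s' t
      simp only [eq_inv_of_mul_eq_one_left (c2 _ t), c1, mul_inv]
  have hD : ∀ t, t ∈ β.ker ↔ ∀ s ∈ C, σ ⁅s, t⁆ = 1 := fun t => by
    refine ⟨fun e s hs => ?_, fun e => MonoidHom.ext fun s => ?_⟩
    · have : c t ⟨s, hs⟩ = 1 := DFunLike.congr_fun e _
      rw [hc ⟨s, hs⟩, eq_inv_of_mul_eq_one_left (c2 _ t), this]; simp
    · exact inv_eq_one.1 ((eq_inv_of_mul_eq_one_left (c2 s t)).symm.trans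
        (Units.ext (smul_one_inj (U := U) (by simp [← hc, e s s.2]))))
  let I : CommGroup (C ⧸ β.ker) := { (inferInstance : Group (C ⧸ β.ker)) with
    mul_comm := fun v w => by
      obtain ⟨s, rfl⟩ := QuotientGroup.mk_surjective v
      obtain ⟨t, rfl⟩ := QuotientGroup.mk_surjective w
      refine QuotientGroup.eq.2 (MonoidHom.mem_ker.2 ?_)
      rw [map_mul, map_inv, map_mul, map_mul, mul_comm (β s), inv_mul_cancel] }
  refine ⟨C ⧸ β.ker, I, inferInstance, QuotientGroup.mk' _, (QuotientGroup.lift _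
    (QuotientGroup.lift β.ker β le_rfl).flip fun t ht => MonoidHom.ext fun v => ?_).flip,
    H5.quotAut MulAut.conjNormal _ fun h t ht => (hD _).2 fun s hs => ?_,
    ⟨QuotientGroup.mk'_surjective _, fun s t => hc s t,
      fun t ht => h2 t t.2 ((hD t).1 ((QuotientGroup.eq_one_iff t).1 ht)), fun w hw => ?_⟩,
    fun h => ⟨((Module.End.isUnit_iff _).1 ((Group.isUnit _).map σ)).1, fun t => ?_, fun _ => rfl⟩⟩
  · obtain ⟨s, rfl⟩ := QuotientGroup.mk_surjective v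
    exact (eq_inv_of_mul_eq_one_left (c2 s t)).trans
      (inv_eq_one.2 (DFunLike.congr_fun (MonoidHom.mem_ker.1 ht) s))
  · have := cj h _ 1 (((hD t).1 ht _ (Normal.conj_mem' inferInstance s hs h)).trans
      (one_smul K _).symm)
    rw [one_smul] at this
    rw [← this, MulAut.conjNormal_apply]
    congr 1
    simp only [commutatorElement_def]; group
  · obtain ⟨t, rfl⟩ := QuotientGroup.mk_surjective w
    exact (QuotientGroup.eq_one_iff t).2 ((hD t).2 fun s hs => by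
      rw [hc ⟨s, hs⟩, show c ⟨s, hs⟩ t = 1 from hw (⟨s, hs⟩ : C)]; simp)
  · change σ h * σ t = σ (h * t * h⁻¹) * σ h
    rw [← map_mul, ← map_mul, inv_mul_cancel_right]

theorem ind {V S : Type*} [AddCommGroup V] [Module K V] [FiniteDimensional K V]
    (f : S → Module.End K V) (x : Module.End K V) (a : Equiv.Perm S)
    (hx : ∀ s, x * f s = f (a s) * x) {χ : S → K} (h0 : wt f χ ≠ ⊥) {n : ℕ}
    (hn : x ^ 2 ^ (n + 1) = 1) {g : K[X]} (g0 : g ≠ 0) (hd : g.natDegree < 2 ^ (n + 1))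
    (hg : ∀ v ∈ wt f χ, aeval x g v = 0) : ∃ j k, j + k = n ∧
      (∀ w ∈ wt f χ, (x ^ 2 ^ j) w ∈ wt f χ) ∧ ∃ g₁ : K[X], g₁ ≠ 0 ∧
        g₁.natDegree < 2 ^ (k + 1) ∧ ∀ v ∈ wt f χ, aeval (x ^ 2 ^ j) g₁ v = 0 := by
  obtain ⟨v, hv, v0⟩ := (Submodule.ne_bot_iff _).1 h0
  have hper := isPeriodicPt_of_pow_apply f x a hx χ hv v0 (2 ^ (n + 1)) (by simp [hn])
  obtain ⟨j, hj, hm⟩ := (Nat.dvd_prime_pow Nat.prime_two).1 hper.minimalPeriod_dvd
  have hW : ∀ w ∈ wt f χ, (x ^ 2 ^ j) w ∈ wt f χ := fun w hw => by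
    have h := pow_mem_wt f x a hx χ hw (2 ^ j)
    rwa [← hm, Function.iterate_minimalPeriod, hm] at h
  have := Submodule.nontrivial_iff_ne_bot.2 h0
  have hi : IsIntegral K (show Module.End K (wt f χ) from (x ^ 2 ^ j).restrict hW) :=
    Algebra.IsIntegral.isIntegral _
  have h1 := natDegree_le_of_dvd (expand_dvd_of_wt f x a hx (injective_of_pow_eq_one
    (by positivity) hn) χ _ hm (by positivity) _ (fun g' hg' => minpoly.dvd K
      (show Module.End K (wt f χ) from (x ^ 2 ^ j).restrict hW) (LinearMap.ext fun w =>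
        Subtype.ext ((aeval_restrict_apply _ _ hW g' w).trans (hg' w w.2)))) g hg) g0
  rw [natDegree_expand] at h1
  have h2 := minpoly.natDegree_pos hi
  obtain ⟨k, rfl⟩ : ∃ k, n = j + k := Nat.exists_eq_add_of_le (Nat.le_of_lt_succ
    ((Nat.pow_lt_pow_iff_right one_lt_two).1
      (((Nat.le_mul_of_pos_left _ h2).trans h1).trans_lt hd)))
  refine ⟨j, k, rfl, hW, _, minpoly.ne_zero hi, ?_, fun w hw => ?_⟩
  · rw [add_assoc, pow_add, mul_comm] at hd
    exact Nat.lt_of_mul_lt_mul_right (h1.trans_lt hd)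
  · exact (aeval_restrict_apply _ _ hW _ ⟨w, hw⟩).symm.trans (by rw [minpoly.aeval]; rfl)

variable {G : Type u} {V : Type*} [Group G] [Finite G] [AddCommGroup V] [Module K V]
  [FiniteDimensional K V]

/-- The stabilizer of a subspace. -/
def stab (ρ : Representation K G V) (U : Submodule K V) : Subgroup G where
  carrier := {g | ∀ v ∈ U, ρ g v ∈ U}
  mul_mem' {g g'} hg hg' v hv := by rw [map_mul]; exact hg _ (hg' v hv)
  one_mem' v hv := by rwa [map_one]
  inv_mem' {g} hg := by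
    rw [inv_eq_of_mul_eq_one_right ((mul_pow_sub_one (orderOf_pos g).ne' g).trans
      (pow_orderOf_eq_one g))]
    induction orderOf g - 1 with
    | zero => exact fun v hv => by rwa [pow_zero, map_one]
    | succ n ih => exact fun v hv => by rw [pow_succ, map_mul]; exact ih _ (hg v hv)

/-- The representation of the stabilizer of a subspace. -/
def resRep (ρ : Representation K G V) (U : Submodule K V) : Representation K (stab ρ U) U where
  toFun g := (ρ g).restrict g.2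
  map_one' := LinearMap.ext fun v => Subtype.ext (by simp)
  map_mul' g g' := LinearMap.ext fun v => Subtype.ext (LinearMap.congr_fun (map_mul ρ g.1 g'.1) v)

/-- `2`-elements. -/
def E2 (x : G) : Prop := ∃ j, x ^ 2 ^ j = 1

/-- A faithful module on which the `2`-elements have small minimal polynomials. -/
structure Mod (ρ : Representation K G V) (n : ℕ) : Prop where
  inj : Function.Injective ρ
  char : ∀ m : ℕ, Odd m → (m : K) ≠ 0
  exp : ∀ x : G, E2 x → x ^ 2 ^ (n + 1) = 1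
  deg : ∀ x : G, E2 x → ∃ g : K[X], g ≠ 0 ∧ g.natDegree < 2 ^ (n + 1) ∧ aeval (ρ x) g = 0

/-- A symplectic space on which a subgroup acts, with exceptional elements as reflections. -/
structure Site (n q : ℕ) {W A : Type*} [CommGroup W] [CommGroup A] (H : Subgroup G)
    (φ : H →* MulAut W) (b : W →* W →* A) : Prop where
  sz : ∀ Γ ≤ φ.range, IsPGroup 2 Γ → Sz q b Γ
  exc : ∀ x : G, E2 x → ∃ j i, j + i = n ∧ ∃ y : H, (y : G) = x ^ 2 ^ j ∧
    (φ y ^ 2 ^ i = 1 ∨ ∃ k, i = k + 1 ∧ q + 1 = 2 ^ (k + 2) ∧ Exc q k (φ y))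

/-- Conjugation on an invariant set. -/
noncomputable def cjPerm (x : G) (P : G → Prop) (h : ∀ d, P d → P (x * d * x⁻¹)) :
    Equiv.Perm {d // P d} :=
  Equiv.ofBijective (fun d => ⟨_, h d d.2⟩) (Finite.injective_iff_bijective.1 fun _ _ e =>
    Subtype.ext ((MulAut.conj x).injective (congrArg Subtype.val e)))

theorem Mod.site {ρ : Representation K G V} {n q : ℕ} (h : Mod ρ n) (hq : q.Prime) (ho : Odd q)
    {C : Subgroup G} [hC : C.Normal] (he : ∀ c ∈ C, c ^ q = 1)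
    (hc : ∀ s ∈ C, ∀ t ∈ C, ⁅s, t⁆ ∈ centralizer (C : Set G)) {a s t : G} (hs : s ∈ C)
    (ht : t ∈ C) (h1 : ⁅t, ⁅a, s⁆⁆ ≠ 1) :
    ∃ (W : Type u) (_ : CommGroup W) (_ : Finite W) (b : W →* W →* Kˣ) (H : Subgroup G)
      (φ : H →* MulAut W), Site n q H φ b ∧ ∀ y : H, (y : G) = a → φ y ≠ 1 := by
  have cj : ∀ x d : G, ρ x * ρ d = ρ (x * d * x⁻¹) * ρ x := fun x d => by
    rw [← map_mul, ← map_mul, inv_mul_cancel_right]
  have hZ : ∀ s ∈ C, ∀ t ∈ C, ⁅s, t⁆ ∈ C ⊓ centralizer (C : Set G) := fun s hs t ht =>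
    mem_inf.2 ⟨mul_mem (hC.conj_mem t ht s) (inv_mem ht), hc s hs t ht⟩
  have has : ⁅a, s⁆ ∈ C := mul_mem (hC.conj_mem s hs a) (inv_mem hs)
  let f₁ := fun z : {z // z ∈ C ⊓ centralizer (C : Set G)} => ρ z
  obtain ⟨χ, v, hv, v1⟩ : ∃ χ, ∃ v ∈ wt f₁ χ, ρ ⁅t, ⁅a, s⁆⁆ v ≠ v := by
    by_contra! e
    exact h1 (h.inj ((ext_of_wt f₁ (fun z z' => by
      simp only [f₁, Commute, SemiconjBy, ← map_mul, z'.2.2 z z.2.1]) (fun z => ⟨q, h.char q ho,
        by simp only [f₁, ← map_pow, he _ z.2.1, map_one]⟩) _ 1 e).trans (map_one ρ).symm))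
  have v0 : wt f₁ χ ≠ ⊥ := fun e => v1 (by rw [(Submodule.mem_bot K).1 (e.le hv), map_zero])
  have c1 : C ≤ stab ρ (wt f₁ χ) := fun c hc v hv z => by
    rw [← map_smul, ← hv z, ← Module.End.mul_apply, ← Module.End.mul_apply, ← map_mul, ← map_mul,
      z.2.2 c hc]
  let P : G → Prop := fun d => d ∈ C ∧ ∀ c ∈ C, ∀ v ∈ wt f₁ χ, ρ c (ρ d v) = ρ d (ρ c v)
  let f₂ := fun d : {d // P d} => ρ d
  obtain ⟨μ, u, hu, u1, u0⟩ : ∃ μ, ∃ u ∈ wt f₂ μ, u ∈ wt f₁ χ ∧ u ≠ 0 := by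
    by_contra! e
    have := iSup_wt_eq_top (fun d : {d // P d} => resRep ρ _ ⟨d, c1 d.2.1⟩)
      (fun d d' => LinearMap.ext fun w => Subtype.ext (d'.2.2 d d.2.1 w w.2)) fun d =>
        ⟨q, h.char q ho, by rw [← map_pow, show (⟨d, _⟩ : stab ρ _) ^ q = 1 from
          Subtype.ext (he _ d.2.1), map_one]⟩
    replace this := this.ge.trans (iSup_le (a := ⊥) fun μ w hw => Subtype.ext
      (e μ w (fun d => congrArg Subtype.val (hw d)) w.2))
    exact v0 ((Submodule.eq_bot_iff _).2 fun w hw =>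
      congrArg Subtype.val (this (Submodule.mem_top (x := ⟨w, hw⟩))))
  have U0 : wt f₂ μ ≠ ⊥ := (Submodule.ne_bot_iff _).2 ⟨u, hu, u0⟩
  have U1 : wt f₂ μ ≤ wt f₁ χ := fun w hw z => by
    have hz : P z := ⟨z.2.1, fun c hc v _ => by
      rw [← Module.End.mul_apply, ← Module.End.mul_apply, ← map_mul, ← map_mul, z.2.2 c hc]⟩
    rw [← smul_left_injective K u0 ((hu ⟨z, hz⟩).symm.trans (u1 z))]
    exact hw ⟨z, hz⟩
  have c2 : C ≤ stab ρ (wt f₂ μ) := fun c hc v hv d => by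
    rw [← map_smul, ← hv d]; exact (d.2.2 c hc v (U1 hv)).symm
  have := Submodule.nontrivial_iff_ne_bot.2 U0
  have fx : ∀ s ∈ C, ∀ t ∈ C, ρ ⁅s, t⁆ u = u → ∀ v ∈ wt f₁ χ, ρ ⁅s, t⁆ v = v :=
    fun s hs t ht e v hv => by
      have := smul_left_injective K u0 ((u1 ⟨_, hZ s hs t ht⟩).symm.trans
        (e.trans (one_smul K u).symm))
      exact (hv ⟨_, hZ s hs t ht⟩).trans (by rw [this, one_smul])
  obtain ⟨W, _, _, π, b, φ, hs', hi⟩ := exists_hs (resRep ρ (wt f₂ μ)) (C.subgroupOf _)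
    (fun s hs t ht => ⟨χ ⟨_, hZ s hs t ht⟩, LinearMap.ext fun w =>
      Subtype.ext (U1 w.2 ⟨_, hZ s hs t ht⟩)⟩)
    fun t ht e => ⟨μ ⟨t, ht, fun c hc v hv => by
      have := fx c hc t ht (congrArg Subtype.val (LinearMap.congr_fun (e ⟨c, c2 hc⟩ hc) ⟨u, hu⟩))
        _ (c1 (show (t : G) ∈ C from ht) _ (c1 hc v hv))
      simpa only [← Module.End.mul_apply, ← map_mul, commutatorElement_def, mul_assoc,
        inv_mul_cancel_left, inv_mul_cancel, mul_one] using this⟩,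
      LinearMap.ext fun w => Subtype.ext (w.2 ⟨t, _⟩)⟩
  have hW : ∀ w : W, w ^ q = 1 := fun w => by
    obtain ⟨c, rfl⟩ := hs'.surj w
    rw [← map_pow, show c ^ q = 1 from Subtype.ext (Subtype.ext (he _ c.2)), map_one]
  refine ⟨W, inferInstance, inferInstance, b, _, φ, ⟨fun Γ hΓ h2 => ⟨hq, ho, hW, hs'.alt, hs'.nd,
    fun γ hγ => ?_, h2⟩, fun x hx => ?_⟩, fun y e e' => v1 (fx t ht _ has ?_ v hv)⟩
  · obtain ⟨g, rfl⟩ := hΓ hγ
    exact hs'.inv (hi g)
  · obtain ⟨g, g0, g1, g2⟩ := h.deg x hx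
    have hx := h.exp x hx
    obtain ⟨j, k, rfl, a1, g, g0, g1, g2⟩ := ind f₁ (ρ x) (cjPerm x _ fun d hd =>
      Normal.conj_mem inferInstance d hd x) (fun d => cj x d) v0
      (by rw [← map_pow, hx, map_one]) g0 g1 fun v _ => by rw [g2]; rfl
    rw [← map_pow] at a1 g2
    rw [add_assoc, pow_add, pow_mul] at hx
    obtain ⟨j', i, rfl, a2, g, g0, g1, g2⟩ := ind f₂ (ρ (x ^ 2 ^ j)) (cjPerm (x ^ 2 ^ j) P
      fun d hd => ⟨hC.conj_mem d hd.1 _, fun c hc v hv => by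
        have := congrArg (ρ (x ^ 2 ^ j)) (hd.2 _ (hC.conj_mem' c hc (x ^ 2 ^ j)) _
          (inv_mem (show _ ∈ stab ρ _ from a1) v hv))
        simpa only [← Module.End.mul_apply, ← map_mul, mul_assoc, mul_inv_cancel_left,
          mul_inv_cancel, mul_one] using this⟩) (fun d => cj _ d) U0
      (by rw [← map_pow, hx, map_one]) g0 g1 fun v hv => g2 v (U1 hv)
    rw [← map_pow] at a2 g2
    refine ⟨j + j', i, add_assoc _ _ _, ⟨_, a2⟩, by rw [pow_add, pow_mul],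
      or_iff_not_imp_left.2 (hs'.exc (hi _) hq ho hW g0 (LinearMap.ext fun w => Subtype.ext
        ((aeval_restrict_apply _ _ a2 g w).trans (g2 w w.2))) g1 ?_)⟩
    rw [← map_pow, ← map_one φ]
    exact congrArg φ (Subtype.ext (by rwa [add_assoc, pow_add, pow_mul] at hx))
  · subst e
    have e1 := (hi y).map ⟨⟨s, c2 hs⟩, hs⟩
    have e2 := hs'.comm ⟨⟨t, c2 ht⟩, ht⟩ (MulAut.conjNormal y ⟨⟨s, c2 hs⟩, hs⟩ * ⟨⟨s, c2 hs⟩, hs⟩⁻¹)
    rw [map_mul π, ← e1, e', map_inv, MulAut.one_apply, mul_inv_cancel, map_one, Units.val_one,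
      one_smul] at e2
    exact congrArg Subtype.val (LinearMap.congr_fun e2 ⟨u, hu⟩)

end H93.TL
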