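/- Two-length bounds: one step down in a normal `2`-subgroup. -/
import Cfsg.Agent.H93.TL2
import Cfsg.Agent.H93.TL4
import Cfsg.Agent.H3.FrattiniP
import Cfsg.Agent.H3.Frattini

set_option autoImplicit false
set_option linter.unusedSectionVars false

namespace H93.TL

open Subgroup Module Polynomial H22 Cfsg
open scoped commutatorElement

universe u

theorem comm_pow_eq_one {G : Type*} [Group G] {a g : G} {m : ℕ} (h : Commute ⁅a, g⁆ g)
    (e : g ^ m = 1) : ⁅a, g⁆ ^ m = 1 := by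
  have := h.mul_pow m
  rwa [commutatorElement_def, inv_mul_cancel_right, conj_pow, e, mul_one, mul_inv_cancel, mul_one,
    eq_comm] at this

theorem eq_one_of_coprime {G : Type*} [Group G] {a : G} {m n : ℕ} (h1 : a ^ m = 1) (h2 : a ^ n = 1)
    (h : m.Coprime n) : a = 1 := by
  rw [← pow_one a, ← h.gcd_eq_one, pow_gcd_eq_one]
  exact ⟨h1, h2⟩

/-- The subgroup generated by the squares. -/
def Sq {G : Type*} [Group G] (A : Subgroup G) : Subgroup G := closure {x | ∃ a ∈ A, a * a = x}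

theorem mul_self_mem_Sq {G : Type*} [Group G] {A : Subgroup G} {a : G} (h : a ∈ A) :
    a * a ∈ Sq A := subset_closure ⟨a, h, rfl⟩

theorem le_normalizer_Sq {G : Type*} [Group G] [Finite G] (A : Subgroup G) :
    normalizer (A : Set G) ≤ normalizer (Sq A : Set G) := fun g hg =>
  H98.mem_normalizer_of_cj_le (by
    rw [H98.cj, Sq, MonoidHom.map_closure, closure_le]
    rintro _ ⟨_, ⟨a, ha, rfl⟩, rfl⟩
    rw [map_mul]
    exact mul_self_mem_Sq ((mem_normalizer_iff.1 hg a).1 ha))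

theorem not_le_Sq {G : Type*} [Group G] [Finite G] {A : Subgroup G} (hA : IsPGroup 2 A)
    (h : A ≠ ⊥) : ¬ A ≤ Sq A := fun e => by
  have := (nontrivial_iff_ne_bot A).2 h
  obtain ⟨M, hM, -⟩ := H3.exists_coatom_ge (bot_ne_top (α := Subgroup A))
  have : Sq A ≤ M.map A.subtype := (closure_le _).2 (by
    rintro _ ⟨a, ha, rfl⟩
    exact ⟨_, frattini_le_coatom hM (H3.pow_mem_frattini_pgroup hA ⟨a, ha⟩), pow_two a⟩)
  exact hM.1 (eq_top_iff.2 fun a _ => (mem_map_iff_mem A.subtype_injective).1 (this (e a.2)))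

variable {K : Type*} [Field K] [IsAlgClosed K] {G : Type u} {V : Type*} [Group G] [Finite G]
  [AddCommGroup V] [Module K V] [FiniteDimensional K V] {ρ : Representation K G V} {n : ℕ}

/-- The `2 ^ n`-th powers of `2`-elements. -/
def Zs (G : Type*) [Group G] (n : ℕ) : Set G := {z | ∃ x, E2 x ∧ z = x ^ 2 ^ n}

theorem E2.conj {x : G} (h : E2 x) (g : G) : E2 (g * x * g⁻¹) :=
  h.imp fun _ e => by rw [conj_pow, e, mul_one, mul_inv_cancel]

theorem E2.of_mem {A : Subgroup G} (hA : IsPGroup 2 A) {x : G} (h : x ∈ A) : E2 x :=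
  (hA ⟨x, h⟩).imp fun _ => congrArg Subtype.val

theorem E2.zpowers {x : G} (h : E2 x) : IsPGroup 2 (zpowers x) :=
  h.elim fun _ => H98.isPGroup_zpowers

theorem E2.mul {A : Subgroup G} (hA : IsPGroup 2 A) {x w : G} (h : E2 x)
    (hx : x ∈ normalizer (A : Set G)) (hw : w ∈ A) : E2 (w * x) :=
  .of_mem (hA.to_sup_of_normal_left' h.zpowers (zpowers_le.2 hx))
    (mul_mem (mem_sup_left hw) (mem_sup_right (mem_zpowers x)))

theorem Mod.exists_site [Group.IsSolvable G] (h : Mod ρ n) (hO : pCore 2 G = ⊥) {a : G}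
    (ha : a ∈ closure (Zs G n)) (a2 : E2 a) (a1 : a ≠ 1) :
    ∃ (q : ℕ) (W : Type u) (_ : CommGroup W) (_ : Finite W) (b : W →* W →* Kˣ) (H : Subgroup G)
      (φ : H →* MulAut W), Site n q H φ b ∧ ∀ y : H, (y : G) = a → φ y ≠ 1 := by
  obtain ⟨⟨q, hq⟩, e⟩ : ∃ q : Nat.Primes, a ∉ centralizer (pCore q G : Set G) := by
    by_contra! e
    have : fittingSubgroup G ≤ centralizer {a} := H2.fitting_eq_iSup_pCore G ▸ iSup_le
      fun q x hx => mem_centralizer_singleton_iff.2 (e q x hx)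
    exact a1 (mem_bot.1 (hO ▸ H2.le_pCore_of_le_fitting a2.zpowers (zpowers_le.2
      (H2.centralizer_fitting_le G fun x hx => mem_centralizer_singleton_iff.1 (this hx)))
        (mem_zpowers a)))
  have := Fact.mk hq
  have q2 : q ≠ 2 := fun k => e (by subst k; simp [hO, mem_centralizer_iff])
  have ho := hq.odd_of_ne_two q2
  obtain ⟨j, hj⟩ := a2
  have cop : (2 ^ j).Coprime q := (Nat.coprime_two_left.2 ho).pow_left j
  obtain ⟨C, _, c1, c2, -, c3⟩ := H9.exists_characteristic_exponent_p_faithful q2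
    (H98.isPGroup_pCore q G)
  have he : ∀ c ∈ C.map (pCore q G).subtype, c ^ q = 1 := by
    rintro _ ⟨c, hc, rfl⟩; exact congrArg Subtype.val (c1 c hc)
  have hc : ∀ s ∈ C.map (pCore q G).subtype, ∀ t ∈ C.map (pCore q G).subtype,
      ⁅s, t⁆ ∈ centralizer (C.map (pCore q G).subtype : Set G) := by
    rintro _ ⟨s, hs, rfl⟩ _ ⟨t, -, rfl⟩ _ ⟨c, hc, rfl⟩
    exact congrArg Subtype.val ((c2 s hs t).2 c hc)
  have e1 : a ∉ centralizer (C.map (pCore q G).subtype : Set G) := fun k => e fun x hx => by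
    have := c3 (MulAut.conjNormal a) (cop.coprime_dvd_left (orderOf_dvd_of_pow_eq_one
      (by rw [← map_pow, hj, map_one]))) fun c hc => Subtype.ext
        (mul_inv_eq_iff_eq_mul.2 (k _ (mem_map_of_mem _ hc)).symm)
    exact (mul_inv_eq_iff_eq_mul.1 (congrArg Subtype.val (DFunLike.congr_fun this ⟨x, hx⟩))).symm
  have hC : (C.map (pCore q G).subtype).Normal := inferInstance
  generalize C.map (pCore q G).subtype = C at he hc e1 hC
  have e2 : closure (Zs G n) ≤ centralizer (C ⊓ centralizer (C : Set G) : Subgroup G) := by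
    rw [closure_le]
    rintro _ ⟨x, hx, rfl⟩ z hz
    obtain ⟨g, g0, g1, g2⟩ := h.deg x hx
    have e3 : ∀ (i : ℕ) d, ((cjPerm x (· ∈ C ⊓ centralizer (C : Set G)) (fun d hd =>
        Normal.conj_mem inferInstance d hd x) ^ i) d : G) = x ^ i * d * (x ^ i)⁻¹ := fun i d => by
      induction i with
      | zero => simp
      | succ i ih =>
        rw [pow_succ', Equiv.Perm.mul_apply, pow_succ', mul_inv_rev, mul_assoc x, ← mul_assoc,
          mul_assoc x, ← ih]; rfl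
    by_contra k
    refine (g1.trans_le' (natDegree_le_of_dvd (hh_abelian
      (fun z : {z // z ∈ C ⊓ centralizer (C : Set G)} => ρ z.1) (fun z z' => ?_)
      (fun z => ⟨q, h.char q ho, by rw [← map_pow, he _ z.2.1, map_one]⟩) (ρ x) (cjPerm x _
      fun d hd => Normal.conj_mem inferInstance d hd x) (fun d => ?_) n
      (by rw [← map_pow, h.exp x hx, map_one]) ⟨⟨z, hz⟩, fun e => k ?_⟩ g g2) g0)).ne ?_
    · simp only [Commute, SemiconjBy, ← map_mul, z'.2.2 z z.2.1]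
    · rw [← map_mul, ← map_mul, ← pow_one (cjPerm _ _ _), e3, pow_one, inv_mul_cancel_right]
    · rw [e3] at e
      exact (mul_inv_eq_iff_eq_mul.1 (h.inj e)).symm
    · simpa using natDegree_X_pow_sub_C (n := 2 ^ (n + 1)) (r := (1 : K))
  obtain ⟨s, hs, t, ht, e3⟩ : ∃ s ∈ C, ∃ t ∈ C, ⁅t, ⁅a, s⁆⁆ ≠ 1 := by
    by_contra! e
    refine e1 fun s hs => commutatorElement_eq_one_iff_mul_comm.1 ?_
    have m1 : ⁅s, a⁆ ∈ C := commutatorElement_inv a s ▸
      inv_mem (mul_mem (hC.conj_mem s hs a) (inv_mem hs))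
    exact eq_one_of_coprime (comm_pow_eq_one (e2 ha _ (mem_inf.2 ⟨m1, commutatorElement_inv a s ▸
      inv_mem fun t ht => commutatorElement_eq_one_iff_mul_comm.1 (e s hs t ht)⟩)) hj) (he _ m1) cop
  exact ⟨q, h.site hq ho he hc hs ht e3⟩

theorem Site.step {q : ℕ} {W A' : Type*} [CommGroup W] [Finite W] [CommGroup A'] {H : Subgroup G}
    {φ : H →* MulAut W} {b : W →* W →* A'} (h : Site n q H φ b) {A : Subgroup G}
    (hA : IsPGroup 2 A) (hH : A ≤ H) (h1 : (A.subgroupOf H).map φ ≠ ⊥) :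
    ∃ J : Subgroup G, ¬ A ≤ J ∧
      (∀ x, E2 x → x ∈ normalizer (A : Set G) → ∀ a ∈ A, ⁅a, x ^ 2 ^ n⁆ ∈ J) ∧
      ∀ R ⊆ Zs G n, IsPGroup 2 (closure R) → A ≤ closure R → ∀ x, E2 x →
        x ∈ normalizer (A : Set G) → x ∈ normalizer (closure R : Set G) →
          ∀ w ∈ A, (w * x) ^ 2 ^ n * (x ^ 2 ^ n)⁻¹ ∈ J := by
  have nm : ∀ {B : Subgroup G} {y : H}, (y : G) ∈ normalizer (B : Set G) →
      φ y ∈ normalizer ((B.subgroupOf H).map φ : Set (MulAut W)) := fun e =>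
    le_normalizer_map φ (mem_map_of_mem φ (mem_normalizer_iff.2 fun x => mem_normalizer_iff.1 e x))
  have sy : ∀ {B : Subgroup G} {y : H} {k : ℕ}, IsPGroup 2 B → E2 (y : G) →
      (y : G) ∈ normalizer (B : Set G) → q + 1 = 2 ^ (k + 2) →
      Sy q k b ((B.subgroupOf H).map φ ⊔ zpowers (φ y)) := fun {B y k} hB ⟨j, hj⟩ e e' =>
    ⟨h.sz _ (sup_le (map_le_range _ _) (zpowers_le.2 ⟨y, rfl⟩))
      ((hB.comap_subtype.map φ).to_sup_of_normal_left' (H98.isPGroup_zpowers (k := j) (by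
        rw [← map_pow, show y ^ 2 ^ j = 1 from Subtype.ext hj, map_one])) (zpowers_le.2 (nm e))), e'⟩
  have e2 : ∀ {x : G} (j : ℕ), E2 x → E2 (x ^ 2 ^ j) := fun j e =>
    e.imp fun i e => by rw [← pow_mul, mul_comm, pow_mul, e, one_pow]
  let B := (A.subgroupOf H).map φ
  have hJ : ∀ y : H, φ y ∈ Sq B → (y : G) ∈ ((Sq B).comap φ).map H.subtype :=
    fun y e => ⟨y, e, rfl⟩
  refine ⟨((Sq B).comap φ).map H.subtype, fun e => not_le_Sq (hA.comap_subtype.map φ) h1 ?_,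
    fun x hx xA a ha => ?_, fun R hR R2 AR => ?_⟩
  · rintro _ ⟨a, ha, rfl⟩
    exact (mem_map_iff_mem H.subtype_injective).1 (e ha)
  · obtain ⟨j, i, rfl, y, e, e'⟩ := h.exc x hx
    rw [pow_add, pow_mul, ← e]
    refine hJ ⁅(⟨a, hH ha⟩ : H), y ^ 2 ^ i⁆ ?_
    rw [map_commutatorElement, map_pow]
    rcases e' with e' | ⟨k, rfl, e1, e'⟩
    · rw [e', commutatorElement_one_right]; exact one_mem _
    have m : φ ⟨a, hH ha⟩ ∈ B := mem_map_of_mem φ ha
    have yA := e ▸ pow_mem xA (2 ^ j)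
    rw [(sy hA (e ▸ e2 j hx) yA e1).comm_pow (mem_sup_right (mem_zpowers _)) e' (mem_sup_left m),
      pow_succ, pow_mul, pow_two, commutatorElement_def, mul_assoc, mul_assoc, ← mul_assoc (φ y)]
    exact mul_self_mem_Sq (pow_mem (mul_mem m ((mem_normalizer_iff.1 (nm yA) _).1 (inv_mem m))) _)
  have RH : ∀ r ∈ R, ∃ y : H, (y : G) = r ∧ (φ y = 1 ∨ Ref q (φ y)) := fun r hr => by
    obtain ⟨x, hx, rfl⟩ := hR hr
    obtain ⟨j, i, rfl, y, e, e'⟩ := h.exc x hx
    refine ⟨y ^ 2 ^ i, by rw [pow_add, pow_mul, ← e]; rfl, ?_⟩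
    rw [map_pow]
    exact e'.imp_right fun ⟨k, e1, _, e'⟩ => e1 ▸ e'.ref
  have RC : ((closure R).subgroupOf H).map φ ≤ closure (φ '' (H.subtype ⁻¹' R)) := by
    rw [← MonoidHom.map_closure]
    conv_lhs => rw [← Set.image_preimage_eq_of_subset (f := H.subtype) (s := R) fun r hr =>
      (RH r hr).imp fun _ e => e.1, ← MonoidHom.map_closure, subgroupOf,
      comap_map_eq_self_of_injective H.subtype_injective]
  have key : ∀ x, E2 x → x ∈ normalizer (A : Set G) → x ∈ normalizer (closure R : Set G) →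
      ∀ w ∈ A, ∀ j k, j + (k + 1) = n → q + 1 = 2 ^ (k + 2) → ∀ y : H, (y : G) = x ^ 2 ^ j →
      Exc q k (φ y) → (w * x) ^ 2 ^ n * (x ^ 2 ^ n)⁻¹ ∈ ((Sq B).comap φ).map H.subtype := by
    rintro x hx xA xR w hw j k rfl e1 y e e'
    have hp := mul_pow_mul_inv_mem hw xA (2 ^ j)
    rw [← e] at hp
    have e3 : (w * x) ^ 2 ^ j = (⟨_, hH hp⟩ * y : H) := by simp
    have yA := e ▸ pow_mem xA (2 ^ j)
    rw [pow_add, pow_mul, pow_mul, e3, ← e]
    refine hJ ((⟨_, hH hp⟩ * y) ^ 2 ^ (k + 1) * (y ^ 2 ^ (k + 1))⁻¹) ?_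
    rw [map_mul, map_inv, map_pow, map_pow, map_mul]
    refine (sy R2 (e ▸ e2 j hx) (e ▸ pow_mem xR (2 ^ j)) e1).norm_mem
      (mem_sup_right (mem_zpowers _)) e' (R := φ '' (H.subtype ⁻¹' R)) ?_
      ((map_mono (comap_mono AR)).trans RC) (nm yA) (fun a => mul_self_mem_Sq)
      (le_normalizer.trans (le_normalizer_Sq _)) (le_normalizer_Sq _ (nm yA))
      (mem_map_of_mem φ hp) ?_
    · rintro _ ⟨r, hr, rfl⟩
      obtain ⟨r', e, e'⟩ := RH _ hr
      exact ⟨mem_sup_left (mem_map_of_mem φ (subset_closure hr)), Subtype.ext e ▸ e'⟩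
    · obtain ⟨j', i', e4, y', e5, e6⟩ := h.exc _ (hx.mul hA xA hw)
      rw [← map_mul]
      rcases e6 with e6 | ⟨k', rfl, e6, e7⟩
      · left
        rw [← map_pow] at e6 ⊢
        rw [← e6]
        exact congrArg φ (Subtype.ext (by
          rw [Subgroup.coe_pow, Subgroup.coe_pow, e5, ← e3, ← pow_mul, ← pow_mul, ← pow_add, ← pow_add, e4]))
      · obtain rfl : k' = k := by
          have := Nat.pow_right_injective le_rfl (e6.symm.trans e1)
          omega
        obtain rfl : j' = j := by omega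
        exact Or.inr (Subtype.ext (e5.trans e3) ▸ e7)
  intro x hx xA xR w hw
  obtain ⟨j, i, e1, y, e2, e3 | ⟨k, rfl, e3, e4⟩⟩ := h.exc x hx
  swap
  · exact key x hx xA xR w hw j k e1 e3 y e2 e4
  obtain ⟨j', i', e4, y', e5, e6 | ⟨k, rfl, e6, e7⟩⟩ := h.exc _ (hx.mul hA xA hw)
  · have := hJ (y' ^ 2 ^ i' * (y ^ 2 ^ i)⁻¹) (by simp [e3, e6, one_mem])
    rwa [Subgroup.coe_mul, coe_inv, Subgroup.coe_pow, Subgroup.coe_pow, e2, e5, ← pow_mul,
      ← pow_mul, ← pow_add, ← pow_add, e1, e4] at this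
  · simpa using inv_mem (key _ (hx.mul hA xA hw) (mul_mem (le_normalizer hw) xA)
      (mul_mem (le_normalizer (AR hw)) xR) _ (inv_mem hw) j' k e4 e6 y' e5 e7)

end H93.TL
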