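import Cfsg.Agent.S4931
import Cfsg.Agent.H87.PKer
import Cfsg.Agent.H28.FeitZ
import Cfsg.Agent.H28.Support

/-! Sum of the squares of the `p'`-degrees against `|N_G(P) : P'|`. -/

set_option autoImplicit false
open Cfsg H28 Subgroup
open scoped commutatorElement

namespace H93.Van

variable {G : Type*} [Group G] [Finite G] {p : ℕ}

open Classical in
/-- the irreducible characters of degree prime to `p` -/
noncomputable def pdFin (p : ℕ) (G : Type*) [Group G] [Finite G] : Finset (G → ℂ) :=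
  (irrFin G).filter fun χ => ¬ p ∣ charDegree χ

theorem mem_pdFin {χ : G → ℂ} : χ ∈ pdFin p G ↔ IsIrrCharacter G χ ∧ ¬ p ∣ charDegree χ := by
  classical
  rw [pdFin, Finset.mem_filter, mem_irrFin]

theorem finsum_pd : (∑ᶠ χ : {χ : IrrCharacter G // ¬ p ∣ charDegree (χ : G → ℂ)},
    charDegree (χ.1 : G → ℂ) ^ 2) = ∑ χ ∈ pdFin p G, charDegree χ ^ 2 := by
  classical
  rw [finsum_eq_sum_of_fintype, pdFin, sum_filter_irrFin]
  exact (Finset.sum_subtype (Finset.univ.filter fun χ : IrrCharacter G => ¬ p ∣ charDegree χ.1)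
    (by simp) (fun χ : IrrCharacter G => charDegree χ.1 ^ 2)).symm

theorem pd_le (hp : p.Prime) (H : Subgroup G) (hH : ¬ p ∣ H.index) :
    ∑ θ ∈ pdFin p H, charDegree θ ^ 2 ≤ ∑ χ ∈ pdFin p G, charDegree χ ^ 2 ∧
    (∑ θ ∈ pdFin p H, charDegree θ ^ 2 = ∑ χ ∈ pdFin p G, charDegree χ ^ 2 →
      ∀ θ ∈ pdFin p H, ∃ χ : IrrCharacter G, ∀ x : H, χ.1 x = θ x) := by
  classical
  have := Fintype.ofFinite G
  have := Fintype.ofFinite H
  have ex : ∀ θ : H → ℂ, ∃ χ : G → ℂ, θ ∈ pdFin p H →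
      χ ∈ pdFin p G ∧ classInner (fun h : H => χ h) θ ≠ 0 := by
    intro θ
    by_cases h : θ ∈ pdFin p H
    swap
    · exact ⟨0, fun h' => (h h').elim⟩
    obtain ⟨h1, h2⟩ := mem_pdFin.1 h
    have h3 := Cfsg.IsCharacter.indFun (Cfsg.IsIrrCharacter.isCharacter h1)
    obtain ⟨χ, h4, h5, h6⟩ := H87.exists_constituent_not_dvd (p := p) h3 (by
      rw [Cfsg.IsCharacter.charDegree_indFun (Cfsg.IsIrrCharacter.isCharacter h1)]
      exact fun h => (hp.dvd_mul.1 h).elim hH h2)
    refine ⟨χ, fun _ => ⟨mem_pdFin.2 ⟨h4, h6⟩, ?_⟩⟩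
    rwa [← H33.classInner_indFun_right H θ (H33.isClassFunction_of_isIrrCharacter h4),
      Cfsg.IsCharacter.classInner_comm (Cfsg.IsIrrCharacter.isCharacter h4) h3]
  choose f hf using ex
  have hmaps : ∀ θ ∈ pdFin p H, f θ ∈ pdFin p G := fun θ h => (hf θ h).1
  have hres : ∀ χ ∈ pdFin p G, IsCharacter H fun h : H => χ h := fun χ h =>
    Cfsg.IsCharacter.restrict (Cfsg.IsIrrCharacter.isCharacter (mem_pdFin.1 h).1) H
  have hle : ∀ θ ∈ pdFin p H, charDegree θ ≤ charDegree (f θ) := fun θ h =>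
    Cfsg.IsCharacter.charDegree_le_of_constituent (hres _ (hmaps θ h)) (mem_pdFin.1 h).1 (hf θ h).2
  have h1 : ∑ θ ∈ pdFin p H, charDegree θ * charDegree (f θ) ≤
      ∑ χ ∈ pdFin p G, charDegree χ ^ 2 := by
    rw [← Finset.sum_fiberwise_of_maps_to hmaps]
    refine Finset.sum_le_sum fun χ hχ => ?_
    have h2 := Cfsg.IsCharacter.sum_charDegree_le (hres χ hχ) ((pdFin p H).filter fun θ => f θ = χ)
      fun θ h => by
        obtain ⟨h3, rfl⟩ := Finset.mem_filter.1 h
        exact ⟨(mem_pdFin.1 h3).1, (hf θ h3).2⟩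
    rw [charDegree_restrict] at h2
    calc _ = ∑ θ ∈ (pdFin p H).filter fun θ => f θ = χ, charDegree θ * charDegree χ :=
          Finset.sum_congr rfl fun θ h => by rw [(Finset.mem_filter.1 h).2]
      _ ≤ _ := by rw [← Finset.sum_mul, sq]; exact Nat.mul_le_mul_right _ h2
  have h2 : ∀ θ ∈ pdFin p H, charDegree θ ^ 2 ≤ charDegree θ * charDegree (f θ) := fun θ h => by
    rw [sq]; exact Nat.mul_le_mul_left _ (hle θ h)
  refine ⟨(Finset.sum_le_sum h2).trans h1, fun e θ hθ => ?_⟩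
  have h3 := (Finset.sum_eq_sum_iff_of_le h2).1
    (le_antisymm (Finset.sum_le_sum h2) (h1.trans e.ge)) θ hθ
  have hθ' := (mem_pdFin.1 hθ).1
  have h4 : charDegree θ = charDegree (f θ) := by
    rw [sq] at h3
    exact Nat.eq_of_mul_eq_mul_left (Nat.pos_of_ne_zero fun h => (mem_pdFin.1 hθ).2 (by rw [h]; exact dvd_zero p)) h3
  have hχ := (mem_pdFin.1 (hmaps θ hθ)).1
  refine ⟨⟨_, hχ⟩, fun x => congrFun (Cfsg.IsCharacter.eq_irr_of_degree_eq (hres _ (hmaps θ hθ)) hθ'
    (hf θ hθ).2 ?_) x⟩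
  change f θ 1 = θ 1
  rw [← Cfsg.IsIrrCharacter.cast_charDegree hχ, ← Cfsg.IsIrrCharacter.cast_charDegree hθ', h4]

theorem pd_eq [hp : Fact p.Prime] (P : Sylow p G) (K : Subgroup G) [hK : K.Normal]
    (h1 : K ⊓ normalizer ((P : Subgroup G) : Set G) = ⊥)
    (h2 : K ⊔ normalizer ((P : Subgroup G) : Set G) = ⊤) :
    Nat.card (normalizer ((P : Subgroup G) : Set G)) =
      Nat.card (commutator P) * ∑ χ ∈ pdFin p G, charDegree χ ^ 2 := by
  have := Fintype.ofFinite G
  set N := normalizer ((P : Subgroup G) : Set G) with hN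
  have hPN : (P : Subgroup G) ≤ N := le_normalizer
  have hc : ⁅(P : Subgroup G), (P : Subgroup G)⁆ ≤ P := commutator_le_self _
  have nrm : ∀ A : Subgroup G, N ≤ normalizer (A : Set G) → (K ⊔ A).Normal := fun A hA => by
    rw [← normalizer_eq_top_iff, eq_top_iff, ← h2]
    refine sup_le (le_sup_left.trans le_normalizer) fun g hg => ?_
    refine mem_normalizer_fintype fun x hx => ?_
    obtain ⟨a, ha, b, hb, rfl⟩ := mem_sup_of_normal_left.1 hx
    have : g * (a * b) * g⁻¹ = (g * a * g⁻¹) * (g * b * g⁻¹) := by group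
    rw [this]
    exact mul_mem (mem_sup_left (hK.conj_mem _ ha _)) (mem_sup_right ((mem_normalizer_iff.1 (hA hg) b).1 hb))
  have hW := nrm ⁅(P : Subgroup G), (P : Subgroup G)⁆ fun g hg => mem_normalizer_fintype fun x hx => by
    have h3 : (P : Subgroup G).map (MulAut.conj g).toMonoidHom ≤ P := by
      rintro _ ⟨y, hy, rfl⟩
      exact (mem_normalizer_iff.1 hg y).1 hy
    have h4 := mem_map_of_mem (MulAut.conj g).toMonoidHom hx
    rw [map_commutator] at h4
    exact commutator_mono h3 h3 h4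
  have hKP := nrm P le_rfl
  set W := K ⊔ ⁅(P : Subgroup G), (P : Subgroup G)⁆ with hWd
  have e : pdFin p G = kerFin W := by
    ext χ
    rw [mem_pdFin, mem_kerFin]
    refine and_congr_right fun hχ => ⟨fun h => ?_, fun h => ?_⟩
    · have := H87.pk_normalCore (N := K) P (eq_bot_iff.2 (le_trans (inf_le_inf_left _
        (centralizer_le_normalizer _)) h1.le)) χ hχ h
      rwa [normalCore_eq_self] at this
    · obtain ⟨η, hη, h3⟩ := Cfsg.IsIrrCharacter.exists_quotient hχ _ h
      have := hKP.map _ (QuotientGroup.mk'_surjective W)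
      have h4 := Cfsg.IsIrrCharacter.charDegree_dvd_index hη ((K ⊔ P).map (QuotientGroup.mk' W)) (by
        rintro _ ⟨x, hx, rfl⟩ _ ⟨y, hy, rfl⟩
        obtain ⟨a, ha, b, hb, rfl⟩ := mem_sup_of_normal_left.1 hx
        obtain ⟨c, hc, d, hd, rfl⟩ := mem_sup_of_normal_left.1 hy
        have ea : QuotientGroup.mk' W a = 1 := (QuotientGroup.eq_one_iff _).2 (mem_sup_left ha)
        have ec : QuotientGroup.mk' W c = 1 := (QuotientGroup.eq_one_iff _).2 (mem_sup_left hc)
        rw [map_mul, map_mul, ea, ec, one_mul, one_mul,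
          ← commutatorElement_eq_one_iff_mul_comm, ← map_commutatorElement]
        exact (QuotientGroup.eq_one_iff _).2 (mem_sup_right (commutator_mem_commutator hb hd)))
      exact fun h5 => P.not_dvd_index
        ((((show charDegree η = charDegree χ from charDegree_congr (h3 1)) ▸ h5).trans (h4.trans
          (index_map_dvd _ (QuotientGroup.mk'_surjective _)))).trans (index_dvd_of_le le_sup_right))
  rw [e, sum_kerFin_sq]
  have c1 : Nat.card (commutator P) = Nat.card (⁅(P : Subgroup G), (P : Subgroup G)⁆ : Subgroup G) := by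
    rw [← (P : Subgroup G).map_subtype_commutator]
    exact (card_map_of_injective (P : Subgroup G).subtype_injective).symm
  have c2 : ∀ A : Subgroup G, A ≤ N → Nat.card (K ⊔ A : Subgroup G) = Nat.card K * Nat.card A := by
    intro A hA
    have h3 : K ⊓ A = ⊥ := eq_bot_iff.2 ((inf_le_inf_left _ hA).trans h1.le)
    have h4 := relIndex_sup_left A K
    rw [← inf_relIndex_right K A, h3, relIndex_bot_left] at h4
    rw [← h4, ← (K.subgroupOf (K ⊔ A)).card_mul_index,
      Nat.card_congr (subgroupOfEquivOfLe (le_sup_left : K ≤ K ⊔ A)).toEquiv]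
    rfl
  have c3 := c2 N le_rfl
  have c4 := W.card_mul_index
  rw [h2, card_top, ← c4, c2 _ (hc.trans hPN), mul_assoc] at c3
  rw [c1]
  exact (Nat.eq_of_mul_eq_mul_left Nat.card_pos c3).symm

theorem pd_main [hp : Fact p.Prime] (P : Sylow p G) :
    Nat.card (normalizer ((P : Subgroup G) : Set G)) ≤
      Nat.card (commutator P) * ∑ χ ∈ pdFin p G, charDegree χ ^ 2 ∧
    (Nat.card (normalizer ((P : Subgroup G) : Set G)) =
      Nat.card (commutator P) * ∑ χ ∈ pdFin p G, charDegree χ ^ 2 ↔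
      ∃ K : Subgroup G, K.Normal ∧ K ⊓ normalizer ((P : Subgroup G) : Set G) = ⊥ ∧
        K ⊔ normalizer ((P : Subgroup G) : Set G) = ⊤) := by
  have hS := (Cfsg.Agent.S4931.result p P).1
  have hE := fun (K : Subgroup G) (hK : K.Normal) => pd_eq P K
  generalize hN : normalizer ((P : Subgroup G) : Set G) = N at *
  have hPN : (P : Subgroup G) ≤ N := hN ▸ le_normalizer
  have hn : ((P : Subgroup G).subgroupOf N).Normal := hN ▸ normal_in_normalizer
  have ht : normalizer ((P.subtype hPN : Subgroup N) : Set N) = ⊤ := normalizer_eq_top_iff.2 hn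
  have h1 := pd_eq (P.subtype hPN) ⊥ (bot_inf_eq _) (by rw [ht, bot_sup_eq])
  have c : Nat.card (commutator (P.subtype hPN)) = Nat.card (commutator P) := by
    have : (P.subtype hPN : Subgroup N) ≃* (P : Subgroup G) := subgroupOfEquivOfLe hPN
    rw [← card_map_of_injective (K := commutator (P.subtype hPN)) (f := this.toMonoidHom) this.injective,
      map_commutator_eq, MonoidHom.range_eq_top_of_surjective _ this.surjective]
    rfl
  rw [ht, card_top, c] at h1
  have h2 := pd_le hp.out N fun h => P.not_dvd_index (h.trans (index_dvd_of_le hPN))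
  refine ⟨h1 ▸ Nat.mul_le_mul_left _ h2.1, fun h => ?_, fun ⟨K, hK, h3, h4⟩ => hE K hK h3 h4⟩
  obtain ⟨K, k1, k2, k3⟩ := hS fun θ hθ => h2.2
    (Nat.eq_of_mul_eq_mul_left Nat.card_pos (h1.symm.trans h)) θ.1 (mem_pdFin.2 ⟨θ.2, hθ⟩)
  exact ⟨K, k1, k3, k2⟩

end H93.Van
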